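import Cfsg.Agent.H19.BD7

/-! Brauer-Reynolds: number of Sylow subgroups not of the exceptional shape -/

set_option autoImplicit false

namespace Cfsg.Agent.H19

open Cfsg Cfsg.Agent.H4 Cfsg.Agent.H5 Cfsg.Agent.H6
open scoped ComplexConjugate

/-- `n` is not of the Brauer-Reynolds shape -/
def NR (p n : ℕ) : Prop :=
  ¬ ∃ h u : ℕ, 0 < h ∧ 0 < u ∧ n * (u + 1) = h * u * p + u ^ 2 + u + h

theorem NR.of_lt {p n : ℕ} (hn : 2 * n < p + 3) : NR p n := by
  rintro ⟨h, u, hh, hu, e⟩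
  obtain ⟨h, rfl⟩ : ∃ k, h = k + 1 := ⟨h - 1, by omega⟩
  obtain ⟨u, rfl⟩ : ∃ k, u = k + 1 := ⟨u - 1, by omega⟩
  obtain ⟨c, hc⟩ : ∃ c, p + 2 = 2 * n + c := ⟨p + 2 - 2 * n, by omega⟩
  have h1 : 2 * (n * (u + 1 + 1)) ≤ (p + 2) * (u + 2) := by nlinarith
  nlinarith [Nat.zero_le (h * u * p), Nat.zero_le (h * p), Nat.zero_le (u * p)]

theorem dvd_modEq_oneR {p n D : ℕ} (hp : 2 ≤ p) (hD : D ∣ (p - 1) * (n * p + 1)) (h1 : D % p = 1)
    (hn : NR p n) : D = 1 ∨ D = n * p + 1 := by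
  obtain ⟨w, hw⟩ := hD
  obtain ⟨q, rfl⟩ : ∃ q, p = q + 1 := ⟨p - 1, by omega⟩
  have hu := Nat.div_add_mod D (q + 1)
  rw [h1] at hu
  set u := D / (q + 1)
  simp only [Nat.add_sub_cancel] at hw
  have hv : ((q + 1 : ℕ) : ℤ) ∣ (w : ℤ) + 1 := by
    refine ⟨(n * (q + 1) + 1 - n - u * w : ℤ), ?_⟩
    have h2 : (q : ℤ) * (n * (q + 1) + 1) = ((q + 1) * u + 1) * w := by
      rw [← hu] at hw; exact_mod_cast hw
    push_cast
    linear_combination -h2
  obtain ⟨v, hv⟩ := Int.natCast_dvd_natCast.mp (by exact_mod_cast hv : ((q + 1 : ℕ) : ℤ) ∣ ((w + 1 : ℕ) : ℤ))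
  rcases Nat.eq_zero_or_pos u with h0 | h0
  · left; rw [← hu, h0]; simp
  obtain ⟨v, rfl⟩ : ∃ v', v = v' + 1 := ⟨v - 1, by
    rcases Nat.eq_zero_or_pos v with h | h
    · rw [h] at hv; omega
    · omega⟩
  have key : n * q = u * (v + 1) * q + (u + 1) * v := by
    have h2 : (q : ℤ) * (n * (q + 1) + 1) = ((q + 1) * u + 1) * w := by
      rw [← hu] at hw; exact_mod_cast hw
    have h3 : (w : ℤ) = (q + 1) * (v + 1) - 1 := by
      have : (w : ℤ) + 1 = (q + 1) * (v + 1) := by exact_mod_cast hv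
      linarith
    rw [h3] at h2
    have h4 : ((q : ℤ) + 1) * (n * q) = (q + 1) * (u * (v + 1) * q + (u + 1) * v) := by
      linear_combination h2
    have h5 := mul_left_cancel₀ (by positivity) h4
    exact_mod_cast h5
  rcases Nat.eq_zero_or_pos v with h | h
  · right
    rw [h] at key
    have : n = u := Nat.eq_of_mul_eq_mul_right (by omega : 0 < q) (by simpa using key)
    rw [← hu, this]; ring
  · exfalso
    have h6 : q ∣ (u + 1) * v := by
      have : q ∣ u * (v + 1) * q + (u + 1) * v := key ▸ Dvd.intro_left _ rfl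
      exact (Nat.dvd_add_right (Dvd.intro_left _ rfl)).mp this
    obtain ⟨k, hk⟩ := h6
    have hk0 : 0 < k := by
      rcases Nat.eq_zero_or_pos k with h' | h'
      · rw [h'] at hk; simp at hk; omega
      · exact h'
    have h7 : n = u * (v + 1) + k :=
      Nat.eq_of_mul_eq_mul_right (by omega : 0 < q) (by rw [key, hk]; ring)
    exact hn ⟨k, u, hk0, h0, by rw [h7]; linear_combination u * hk⟩

theorem dvd_modEq_neg_oneR {p n D : ℕ} (hp : 2 ≤ p) (hD : D ∣ (p - 1) * (n * p + 1))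
    (h1 : (D + 1) % p = 0) (hn : NR p n) : D = p - 1 ∨ D = (p - 1) * (n * p + 1) := by
  obtain ⟨w, hw⟩ := hD
  have hw1 : w % p = 1 := by
    obtain ⟨u, hu⟩ := Nat.dvd_of_mod_eq_zero h1
    obtain ⟨q, rfl⟩ : ∃ q, p = q + 1 := ⟨p - 1, by omega⟩
    simp only [Nat.add_sub_cancel] at hw
    have : (1 : ℕ) ≡ w [MOD (q + 1)] := by
      rw [Nat.modEq_iff_dvd]
      refine ⟨(u * w - (n * (q + 1) + 1 - n) : ℤ), ?_⟩
      have h2 : (q : ℤ) * (n * (q + 1) + 1) = D * w := by exact_mod_cast hw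
      have h3 : (D : ℤ) + 1 = (q + 1) * u := by exact_mod_cast hu
      push_cast
      linear_combination h2 + w * h3
    rw [← this]; exact Nat.mod_eq_of_lt (by omega)
  rcases dvd_modEq_oneR hp (Dvd.intro_left _ hw.symm) hw1 hn with h | h
  · right; rw [hw, h, mul_one]
  · left; rw [h] at hw; exact (Nat.eq_of_mul_eq_mul_right (by omega) hw).symm

variable {G : Type*} [Group G] {p : ℕ} [hp : Fact p.Prime] {x : G} {K : Subgroup G} [Fintype G]

namespace BD
variable {h : PO p x K} (B : BD h)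
variable (hG : commutator G = ⊤) {n : ℕ} (hs : sN x = n * p + 1) (hn : NR p n) (hn0 : 0 < n)
include hG hs hn hn0

theorem degX_casesR {χ : IrrCharacter G} (hχ : χ ∈ B.X) : χ = irrOne G ∨
    (B.a χ = 1 ∧ charDegree (χ : G → ℂ) = sN x) ∨ (B.a χ = -1 ∧ charDegree (χ : G → ℂ) = p - 1) := by
  classical
  have hpos : ∀ ψ ∈ B.X, B.a ψ = 1 → ψ = irrOne G ∨ charDegree (ψ : G → ℂ) = sN x := by
    intro ψ hψ e
    have h2 := B.degX ψ hψ
    rw [e] at h2
    rcases dvd_modEq_oneR hp.out.two_le (hs ▸ B.dvd_X' hψ)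
      (mod_eq_one_of_modEq hp.out.one_lt h2) hn with h3 | h3
    · exact Or.inl (irr_eq_one_of_perfect hG h3)
    · exact Or.inr (hs ▸ h3)
  have h1 := B.dvd_X' hχ
  have h2 := B.degX χ hχ
  rw [hs] at h1
  rcases B.ha χ hχ with e | e
  · exact (hpos χ hχ e).imp_right fun h => Or.inl ⟨e, h⟩
  rw [e] at h2
  rcases dvd_modEq_neg_oneR hp.out.two_le h1 (mod_eq_zero_of_modEq h2) hn with h3 | h3
  · exact Or.inr (Or.inr ⟨e, h3⟩)
  exfalso
  have hs1 : 1 < sN x := by rw [hs]; have := hp.out.pos; nlinarith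
  have hp1 := eN_mul' h.ord
  have h4 : χ ∈ B.X.erase (irrOne G) := Finset.mem_erase.mpr ⟨by
    rintro rfl; rw [B.a_one] at e; norm_num at e, hχ⟩
  have h5 := B.deg_eq
  rw [← Finset.add_sum_erase _ _ B.one_mem, ← Finset.add_sum_erase _ _ h4, B.a_one,
    charDegree_irrOne, e, h3, ← hs] at h5
  have h6 := Finset.sum_le_card_nsmul ((B.X.erase (irrOne G)).erase χ)
    (fun ψ => B.a ψ * charDegree (ψ : G → ℂ)) (sN x : ℤ) fun ψ hψ => by
      have hψ' := Finset.mem_of_mem_erase (Finset.mem_of_mem_erase hψ)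
      rcases B.ha ψ hψ' with e' | e'
      · rcases hpos ψ hψ' e' with rfl | e''
        · simp at hψ
        · rw [e', e'']; simp
      · rw [e']; omega
  have h7 := Finset.card_erase_add_one h4
  have h8 := Finset.card_erase_add_one B.one_mem
  rw [B.cardX] at h8
  have h9 : eN h.ord ≤ p - 1 := Nat.le_of_dvd (by have := hp.out.two_le; omega)
    (Dvd.intro _ (eN_mul h.ord))
  have h10 : (((B.X.erase (irrOne G)).erase χ).card : ℤ) + 2 ≤ (p - 1 : ℕ) := by
    unfold eN at h9; omega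
  rw [nsmul_eq_mul] at h6
  have h11 : B.ε * B.z ≤ 1 - 2 * sN x := by push_cast at h5; nlinarith
  have h12 := B.tz_mod
  have h13 := B.dvd_z'
  have ht := tN_pos h.ord
  rw [hs] at h13
  rcases B.hε with e' | e' <;> rw [e'] at h11 h12
  · omega
  · rw [neg_neg] at h12
    have h14 := Nat.le_mul_of_pos_left B.z ht
    rcases dvd_modEq_oneR hp.out.two_le h13 (mod_eq_one_of_modEq hp.out.one_lt h12) hn with h | h <;>
      omega

theorem exists_countsR : ∃ α β : ℕ, 1 + α + β = eN h.ord ∧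
    B.ε * B.z = 1 + α * sN x - β * (p - 1 : ℤ) ∧
    (0 < β → ∃ χ ∈ B.X, B.a χ = -1 ∧ charDegree (χ : G → ℂ) = p - 1) := by
  classical
  let Y := B.X.erase (irrOne G)
  refine ⟨(Y.filter fun χ => B.a χ = 1).card, (Y.filter fun χ => ¬ B.a χ = 1).card, ?_, ?_, ?_⟩
  · rw [add_assoc, Finset.card_filter_add_card_filter_not, Finset.card_erase_of_mem B.one_mem,
      B.cardX]
    have := eN_pos h.ord
    unfold eN at *
    omega
  · rw [B.deg_eq, ← Finset.add_sum_erase _ _ B.one_mem, B.a_one, charDegree_irrOne,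
      ← Finset.sum_filter_add_sum_filter_not _ (fun χ => B.a χ = 1)]
    rw [Finset.sum_congr rfl (g := fun _ => (sN x : ℤ)), Finset.sum_congr
      (s₁ := Finset.filter (fun χ => ¬ B.a χ = 1) _) rfl (g := fun _ => -(p - 1 : ℤ))]
    · simp only [Finset.sum_const, nsmul_eq_mul, Y]; push_cast; ring
    · intro χ hχ
      simp only [Finset.mem_filter, Finset.mem_erase] at hχ
      rcases B.degX_casesR hG hs hn hn0 hχ.1.2 with e | e | e
      · exact absurd e hχ.1.1
      · exact absurd e.1 hχ.2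
      · rw [e.1, e.2, Nat.cast_sub hp.out.one_le]; simp
    · intro χ hχ
      simp only [Finset.mem_filter, Finset.mem_erase] at hχ
      rcases B.degX_casesR hG hs hn hn0 hχ.1.2 with e | e | e
      · exact absurd e hχ.1.1
      · rw [e.1, e.2]; simp
      · rw [e.1] at hχ; exact absurd hχ.2 (by norm_num)
  · intro hβ
    obtain ⟨χ, hχ⟩ := Finset.card_pos.mp hβ
    simp only [Finset.mem_filter, Finset.mem_erase, Y] at hχ
    rcases B.degX_casesR hG hs hn hn0 hχ.1.2 with e | e | e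
    · exact absurd e hχ.1.1
    · exact absurd e.1 hχ.2
    · exact ⟨χ, hχ.1.2, e⟩

theorem z_casesR :
    (B.ε = 1 ∧ B.z = eN h.ord) ∨ (B.ε = -1 ∧ tN h.ord * B.z = sN x) := by
  have h1 := B.dvd_z'
  have h2 := B.tz_mod
  rw [hs] at h1
  have ht := tN_pos h.ord
  rcases B.hε with e | e <;> rw [e] at h2
  · rcases dvd_modEq_neg_oneR hp.out.two_le h1 (mod_eq_zero_of_modEq h2) hn with h3 | h3
    · rw [← eN_mul h.ord, mul_comm (eN h.ord)] at h3
      exact Or.inl ⟨e, Nat.eq_of_mul_eq_mul_left ht h3⟩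
    · exfalso
      rw [← eN_mul h.ord, mul_comm (eN h.ord), mul_assoc, ← hs] at h3
      have h4 := Nat.eq_of_mul_eq_mul_left ht h3
      obtain ⟨α, β, h5, h6, -⟩ := B.exists_countsR hG hs hn hn0
      rw [e, h4, ← h5] at h6
      have h7 : (1 : ℤ) < sN x := by
        rw [hs]; have := hp.out.pos; push_cast; nlinarith
      have h8 : (1 : ℤ) ≤ p := by exact_mod_cast hp.out.one_le
      push_cast at h6
      nlinarith [mul_nonneg (Nat.cast_nonneg (α := ℤ) β) (sub_nonneg.mpr h8),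
        mul_nonneg (Nat.cast_nonneg (α := ℤ) β) (by omega : (0 : ℤ) ≤ sN x)]
  · rw [neg_neg] at h2
    rcases dvd_modEq_oneR hp.out.two_le h1 (mod_eq_one_of_modEq hp.out.one_lt h2) hn with h3 | h3
    · exact absurd (irr_eq_one_of_perfect hG (Nat.eq_one_of_mul_eq_one_left h3)) (B.μ_ne_one 1)
    · exact Or.inr ⟨e, hs ▸ h3⟩

include B in
theorem exists_smallR : ∃ χ : IrrCharacter G, χ ≠ irrOne G ∧
    charDegree (χ : G → ℂ) < p ∧
    ∀ y ∈ K, ∀ i : ZMod p, i ≠ 0 → (χ : G → ℂ) (xp x i * y) = (χ : G → ℂ) (xp x i) := by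
  rcases B.z_casesR hG hs hn hn0 with e | e
  · refine ⟨B.μ 1, B.μ_ne_one 1, ?_, fun y hy i hi => by rw [B.valμ _ i hi y hy, B.valμ' _ hi]⟩
    rw [B.deg_μ, e.2]
    have := eN_mul' h.ord
    have := tN_pos h.ord
    nlinarith
  · obtain ⟨α, β, h5, h6, h7⟩ := B.exists_countsR hG hs hn hn0
    obtain ⟨χ, hχ, h8, h9⟩ := h7 (by
      by_contra h0
      have : β = 0 := by omega
      rw [this, e.1] at h6
      have : (0 : ℤ) ≤ α * sN x := by positivity
      push_cast at h6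
      omega)
    refine ⟨χ, ?_, ?_, fun y hy i hi => by rw [B.valX _ hχ i hi y hy, B.valX' hχ hi]⟩
    · rintro rfl; rw [B.a_one] at h8; norm_num at h8
    · have := hp.out.pos; omega

end BD

end Cfsg.Agent.H19
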