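import Cfsg.Agent.H19.BR2
import Cfsg.Agent.H19.Count
import Cfsg.Agent.H19.PSL2p
import Cfsg.Agent.H11.ElC2

/-! Brauer's theorem on groups with a self-centralizing element of prime order -/

set_option autoImplicit false

namespace Cfsg.Agent.H19

open Cfsg Cfsg.Agent.H4 Cfsg.Agent.H5 Cfsg.Agent.H6
open scoped ComplexConjugate MatrixGroups

variable {G : Type*} [Group G] {p : ℕ} [hp : Fact p.Prime] {x : G} [Fintype G]

namespace BD
variable {h : PO p x ⊥} (B : BD h) {n : ℕ} (F : FewR h n) (hε : B.ε = -1)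
  (hz : tN h.ord * B.z = sN x)
include F hε hz

theorem even_t_odd_zR : 2 ∣ tN h.ord ∧ ¬ 2 ∣ B.z := by
  obtain ⟨α, β, h5, h6, h7⟩ := B.exists_countsR F.perf F.hs F.hn F.pos
  obtain ⟨χ, hχ, h8, h9⟩ := h7 (by
    by_contra h0
    have : β = 0 := by omega
    rw [this, hε] at h6
    have : (0 : ℤ) ≤ α * sN x := by positivity
    push_cast at h6
    omega)
  have ht := even_t_of_char h F.perf (B.p_ne_twoR F) χ.2.isCharacter (by
    rw [← χ.2.isCharacter.charDegree_cast, h9, Nat.cast_sub hp.out.one_le, Nat.cast_one]) (by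
    rw [B.sg_X hχ, h8]; simp)
  refine ⟨ht, fun ⟨w, hw⟩ => ?_⟩
  obtain ⟨t, ht⟩ := ht
  have h1 : (p : ℤ) = eN h.ord * tN h.ord + 1 := by exact_mod_cast (eN_mul' h.ord).symm
  rw [hε, ← hz, h1, ht, hw] at h6
  push_cast at h6
  have : (2 : ℤ) ∣ 1 := ⟨-w - α * t * (2 * w) + β * eN h.ord * t, by linear_combination -h6⟩
  omega

theorem conj_of_powR {g : G} {c : (ZMod p)ˣ} (hg : Gen h.ord g c) {r k : ℕ} (hr : r.Prime)
    (hrp : r ≠ p) (hrz : ¬ r ∣ B.z) {v : G} (hv : v ^ r ^ k = 1) :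
    ∃ (a : G) (j : ℕ), a⁻¹ * v * a = g ^ j := by
  have h1 : ¬ p ∣ orderOf v := fun hd => hrp ((Nat.prime_dvd_prime_iff_eq hp.out hr).mp
    (hp.out.dvd_of_dvd_pow (hd.trans (orderOf_dvd_of_pow_eq_one hv)))).symm
  by_contra hc
  refine hrz (dvd_degree_of_apply_eq_zero (B.μ 1).2.isCharacter hr hv
    (B.μ_eq_zeroR F hε hz h1 fun a ha => hc ?_))
  obtain ⟨i, j, hj⟩ := hg.exists_conj h ha (by rwa [orderOf_conj'])
  refine ⟨a⁻¹ * xp x i, j, ?_⟩
  have : (xp x i)⁻¹ * (a * v * a⁻¹) * xp x i = g ^ j := by rw [hj]; group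
  rw [← this]; group

theorem dvd_eR {r : ℕ} (hr : r.Prime) (hrt : r ∣ tN h.ord) (hrz : ¬ r ∣ B.z) : r ∣ eN h.ord := by
  haveI := Fact.mk hr
  obtain ⟨g, c, hg⟩ := h.exists_Gen
  have hrp : r ≠ p := by
    rintro rfl
    have := (Nat.dvd_add_right (hrt.mul_left (eN h.ord))).mp (eN_mul' h.ord).symm.dvd
    exact hr.ne_one (Nat.dvd_one.mp this)
  obtain ⟨v, hv⟩ := exists_prime_orderOf_dvd_card' (G := G) r (by
    rw [h.card_G, ← hz]; exact ((hrt.mul_right _).mul_left _).mul_left _)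
  obtain ⟨a, j, hj⟩ := B.conj_of_powR F hε hz hg hr hrp hrz (k := 1) (v := v)
    (by rw [pow_one, ← hv, pow_orderOf_eq_one])
  have := orderOf_conj' a⁻¹ v
  rw [inv_inv, hj, hv] at this
  rw [← this]
  exact (orderOf_pow_dvd j).trans hg.ordg.dvd

theorem t_eqR : tN h.ord = n + 1 := by
  classical
  haveI := Fintype.ofFinite (NN x)
  haveI := Fintype.ofFinite ((ZMod p)ˣ ⧸ EE h.ord)
  obtain ⟨g, c, hg⟩ := h.exists_Gen
  obtain ⟨h1, h2⟩ := B.even_t_odd_zR F hε hz
  obtain ⟨lam, hl, h1l, hlam⟩ := hg.exists_sign (h := h) (B.dvd_eR F hε hz Nat.prime_two h1 h2)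
  have hΛ := isCharacter_indN lam
  have h3 : (fun y : NN x => fx p x (indN x lam) y) = ((n : ℂ) + 1) • fun y => (lam y : ℂ) := by
    funext y
    simp only [Pi.smul_apply, smul_eq_mul]
    by_cases hc : Commute x y
    · obtain ⟨i, hi⟩ := h.exists_xp hc
      rw [← (Subtype.ext hi : (⟨xp x i, xp_mem_NN x i⟩ : NN x) = y), hl i]
      simp only
      rw [← mul_one (xp x i), fx_xp_mul h.ord, ← fd_cast h.ord hΛ, fd_indN h hl F.hs]
      simp
    · rw [fx_eq_of_not_commute h.ord hΛ.isClassFunction y.2 hc, indN_eq_mul lam (c := lam y),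
        B.indN_one_applyR F hε hz y.2 hc, mul_comm]
      intro a ha
      rw [hlam y ⟨_, ha⟩ (not_dvd_of_not_commute h y.2 hc)]
      simpa using orderOf_conj' a⁻¹ (y : G)
  have h4 : classInner (indN x lam) (indN x lam) = n + 1 := by
    rw [inner_indN h.ord hl hΛ.isClassFunction, h3, classInner_smul_left,
      (isIrrCharacter_linear lam).classInner_self, mul_one]
  rcases B.indN_casesR F hε hz hl h1l with e | e
  · rw [e.1, right_eq_add, Nat.cast_eq_zero] at h4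
    have := F.pos; omega
  · rw [e, classInner_sum_left] at h4
    simp only [classInner_sum_right, irr_classInner, B.inj.eq_iff, Finset.sum_ite_eq,
      Finset.mem_univ, if_true, Finset.sum_const, Finset.card_univ, nsmul_eq_mul, mul_one,
      Fintype.card_eq_nat_card] at h4
    exact_mod_cast h4

theorem z_add_eR : B.z + eN h.ord = p := by
  have h1 := B.t_mul_fdR F hε hz 1
  rw [← B.t_eqR F hε hz] at h1
  have h2 : fd p x (B.μ 1 : G → ℂ) = 1 :=
    Nat.eq_of_mul_eq_mul_left (tN_pos h.ord) (h1.trans (mul_one _).symm)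
  rw [← B.fd_μR F hε hz, h2, mul_one]

theorem exists_e_eqR : ∃ α, eN h.ord = 2 + α * tN h.ord := by
  obtain ⟨α, β, h5, h6, -⟩ := B.exists_countsR F.perf F.hs F.hn F.pos
  refine ⟨α, ?_⟩
  have h1 : (p : ℤ) = eN h.ord * tN h.ord + 1 := by exact_mod_cast (eN_mul' h.ord).symm
  have h2 : (B.z : ℤ) + eN h.ord = p := by exact_mod_cast B.z_add_eR F hε hz
  have h3 : (1 : ℤ) + α + β = eN h.ord := by exact_mod_cast h5
  rw [hε, ← hz] at h6
  push_cast at h6
  have h4 : (p : ℤ) * eN h.ord = p * (2 + α * tN h.ord) := by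
    have a1 : (B.z : ℤ) = p - eN h.ord := by linarith
    have a2 : (β : ℤ) = eN h.ord - 1 - α := by linarith
    rw [a1, a2, h1] at h6
    rw [h1]
    linear_combination h6
  exact_mod_cast mul_left_cancel₀ (by exact_mod_cast hp.out.ne_zero) h4

theorem exists_t_eqR : ∃ a, tN h.ord = 2 ^ a := by
  refine ⟨_, Nat.eq_prime_pow_of_unique_prime_dvd (tN_pos h.ord).ne' fun {r} hr hrt => ?_⟩
  obtain ⟨α, hα⟩ := B.exists_e_eqR F hε hz
  have h1 := B.dvd_eR F hε hz hr hrt fun hrz => by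
    have h2 := B.z_add_eR F hε hz
    have h3 := eN_mul' h.ord
    have h4 : B.z + α * tN h.ord + 1 = eN h.ord * tN h.ord := by omega
    have := (Nat.dvd_add_right (dvd_add hrz (hrt.mul_left α))).mp (h4 ▸ hrt.mul_left _)
    exact hr.ne_one (Nat.dvd_one.mp this)
  rw [hα] at h1
  exact (Nat.prime_dvd_prime_iff_eq hr Nat.prime_two).mp
    ((Nat.dvd_add_left (hrt.mul_left α)).mp h1)

variable {g : G} {c : (ZMod p)ˣ} (hg : Gen h.ord g c)
include hg

theorem card_conj_mem_NNR {j : ℕ} (hj : g ^ j ≠ 1) :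
    Nat.card {a : G // a⁻¹ * g ^ j * a ∈ NN x} = p * eN h.ord * (n + 1) := by
  have := card_mul_indN_one (x := x) (g ^ j)
  rw [B.indN_one_applyR F hε hz (hg.pow_mem j) (hg.not_commute hj), h.card_N, Subgroup.card_bot,
    mul_one] at this
  exact_mod_cast this.symm

theorem conj_genR {j k : ℕ} (hj : g ^ j ≠ 1) {a : G} (ha : a⁻¹ * g ^ j * a = g ^ k) :
    ∃ l : ℕ, a⁻¹ * g * a = g ^ l := by
  have hg1 : g ^ 1 ≠ 1 := by
    rw [Ne, hg.pow_eq_one_iff, Nat.dvd_one]; exact (B.one_lt_eR F).ne'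
  have h1 : ∀ b : G, b⁻¹ * g ^ j * b = (b⁻¹ * g ^ 1 * b) ^ j := fun b => by
    simpa using (conj_pow (a := b⁻¹) (b := g) (i := j)).symm
  let f : {a : G // a⁻¹ * g ^ 1 * a ∈ NN x} → {a : G // a⁻¹ * g ^ j * a ∈ NN x} :=
    fun b => ⟨b.1, by rw [h1]; exact Subgroup.pow_mem _ b.2 _⟩
  have h2 : Function.Bijective f := (Nat.bijective_iff_injective_and_card f).mpr
    ⟨fun a b e => Subtype.ext (congrArg Subtype.val e :), by
      rw [B.card_conj_mem_NNR F hε hz hg hg1, B.card_conj_mem_NNR F hε hz hg hj]⟩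
  obtain ⟨b, hb⟩ := h2.2 ⟨a, ha ▸ hg.pow_mem k⟩
  have hb' : b.1 = a := congrArg Subtype.val hb
  have h3 : a⁻¹ * g ^ 1 * a ∈ NN x := hb' ▸ b.2
  have hk : g ^ k ≠ 1 := by
    rw [← ha]; intro e; apply hj
    have : a * (a⁻¹ * g ^ j * a) * a⁻¹ = 1 := by rw [e]; group
    rw [← this]; group
  rw [← pow_one g]
  conv => enter [1, l, 2]; rw [pow_one]
  refine hg.exists_pow_of_commute h h3 hk ?_
  rw [← ha, h1]
  exact Commute.pow_self _ _

theorem card_centralizer_invR {e : ℕ} (he : eN h.ord = 2 * e) :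
    Nat.card (Subgroup.centralizer ({g ^ e} : Set G)) = eN h.ord * tN h.ord := by
  have he0 : 0 < e := by have := eN_pos h.ord; omega
  have hu : g ^ e ≠ 1 := by
    rw [Ne, hg.pow_eq_one_iff]
    intro hd
    have := Nat.le_of_dvd he0 hd
    unfold eN at he; omega
  have hu2 : orderOf (g ^ e) = 2 := by
    haveI := Fact.mk Nat.prime_two
    exact orderOf_eq_prime (by rw [← pow_mul, hg.pow_eq_one_iff, mul_comm]; exact he.dvd) hu
  have h1 := card_conj_mem (NN x : Set G) (g ^ e)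
  have h2 : Nat.card {w : G // IsConj (g ^ e) w ∧ w ∈ (NN x : Set G)} = p := by
    rw [← Nat.card_zmod p]
    refine (Nat.card_congr (Equiv.ofBijective (fun i : ZMod p => ⟨xp x i * g ^ e * (xp x i)⁻¹,
      isConj_iff.mpr ⟨_, rfl⟩, Subgroup.mul_mem _ (Subgroup.mul_mem _ (xp_mem_NN x i)
        (hg.pow_mem e)) (Subgroup.inv_mem _ (xp_mem_NN x i))⟩) ⟨fun i j hij => ?_, fun w => ?_⟩)).symm
    · by_contra hne
      refine hg.not_commute hu ((commute_xp_iff h.ord (sub_ne_zero.mpr hne)).mp ?_)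
      have e1 : xp x i * g ^ e * (xp x i)⁻¹ = xp x j * g ^ e * (xp x j)⁻¹ := congrArg Subtype.val hij
      rw [sub_eq_neg_add, xp_add h.ord, xp_neg h.ord, Commute, SemiconjBy]
      have : (xp x j)⁻¹ * (xp x i * g ^ e * (xp x i)⁻¹) * xp x i = g ^ e * ((xp x j)⁻¹ * xp x i) := by
        rw [e1]; group
      rw [← this]; group
    · have e1 := orderOf_eq_of_isConj w.2.1
      obtain ⟨i, j, hj⟩ := hg.exists_conj h w.2.2 (by
        rw [← e1, hu2, Nat.prime_dvd_prime_iff_eq hp.out Nat.prime_two]; exact B.p_ne_twoR F)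
      refine ⟨i, Subtype.ext ?_⟩
      rw [hj, eq_half_of_order_two (hg.ordg.trans he) (j := j)]
      rw [← hu2, e1, hj, orderOf_conj']
  rw [h2] at h1
  have h3 := B.card_conj_mem_NNR F hε hz hg hu
  rw [B.t_eqR F hε hz]
  refine Nat.eq_of_mul_eq_mul_left hp.out.pos ?_
  rw [mul_comm p, ← h1, ← mul_assoc]
  exact h3

variable (ht : 4 ∣ tN h.ord) {e : ℕ} (he : eN h.ord = 2 * e)
include ht he

omit hg in
theorem odd_eR : ¬ 2 ∣ e := by
  obtain ⟨α, hα⟩ := B.exists_e_eqR F hε hz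
  obtain ⟨t, ht⟩ := ht
  rw [ht, he, mul_left_comm] at hα
  omega

theorem two_eltR {v : G} {k : ℕ} (hv : v ^ 2 ^ k = 1) (hv1 : v ≠ 1) :
    ∃ a : G, a⁻¹ * v * a = g ^ e := by
  obtain ⟨a, j, hj⟩ := B.conj_of_powR F hε hz hg Nat.prime_two (B.p_ne_twoR F).symm
    (B.even_t_odd_zR F hε hz).2 hv
  refine ⟨a, hj.trans (eq_half_of_order_two (hg.ordg.trans he) ?_)⟩
  have h1 := orderOf_conj' a⁻¹ v
  rw [inv_inv, hj] at h1
  have h2 : orderOf v ∣ 2 * e := h1 ▸ (orderOf_pow_dvd j).trans (hg.ordg.trans he).dvd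
  obtain ⟨l, -, hl⟩ := (Nat.dvd_prime_pow Nat.prime_two).mp (orderOf_dvd_of_pow_eq_one hv)
  rw [h1, hl]
  rw [hl] at h2
  rcases l with _ | _ | l
  · exact absurd (orderOf_eq_one_iff.mp hl) hv1
  · rfl
  · rw [pow_succ', pow_succ'] at h2
    exact absurd ((Dvd.intro _ rfl).trans (Nat.dvd_of_mul_dvd_mul_left two_pos h2))
      (B.odd_eR F hε hz ht he)

theorem sq_eq_oneR {v : G} {k : ℕ} (hv : v ^ 2 ^ k = 1) : v ^ 2 = 1 := by
  by_cases hv1 : v = 1
  · simp [hv1]
  obtain ⟨a, ha⟩ := B.two_eltR F hε hz hg ht he hv hv1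
  have : v = a * g ^ e * a⁻¹ := by rw [← ha]; group
  rw [this, conj_pow, ← pow_mul, (hg.pow_eq_one_iff _).mpr (mul_comm e 2 ▸ he.dvd)]; simp

theorem e_eq_oneR : e = 1 := by
  classical
  by_contra he1
  have hodd := B.odd_eR F hε hz ht he
  obtain ⟨r, hr, e', rfl⟩ := Nat.exists_prime_and_dvd he1
  haveI := Fact.mk hr
  haveI := Fact.mk Nat.prime_two
  have he0 : 0 < r * e' := by have := eN_pos h.ord; omega
  have he' : 0 < e' := Nat.pos_of_mul_pos_left he0
  have hr2 : ¬ 2 ∣ r := fun h => hodd (h.mul_right _)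
  have hy1 : g ^ (2 * e') ≠ 1 := by
    rw [Ne, hg.pow_eq_one_iff]
    intro hd
    have := Nat.le_of_dvd (by omega) hd
    have := hr.two_le
    unfold eN at he; nlinarith
  have hyr : (g ^ (2 * e')) ^ r = 1 := by
    rw [← pow_mul, hg.pow_eq_one_iff]; exact ⟨1, by unfold eN at he; rw [he]; ring⟩
  have hu1 : g ^ (r * e') ≠ 1 := by
    rw [Ne, hg.pow_eq_one_iff]
    intro hd
    have := Nat.le_of_dvd he0 hd
    unfold eN at he; omega
  have hu2 : (g ^ (r * e')) ^ 2 = 1 := by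
    rw [← pow_mul, hg.pow_eq_one_iff, mul_comm]; exact he.dvd
  set y := g ^ (2 * e') with hy
  set u := g ^ (r * e') with hu
  let C := Subgroup.centralizer ({u} : Set G)
  have hC : Nat.card C = eN h.ord * tN h.ord := B.card_centralizer_invR F hε hz hg he
  have hnorm : ∀ c ∈ C, ∃ l : ℕ, c⁻¹ * g * c = g ^ l := fun c hc =>
    B.conj_genR F hε hz hg hu1 (k := r * e') (by
      rw [mul_assoc, ← hu, (mem_centralizer_singleton.mp hc).eq, inv_mul_cancel_left])
  have hpow : ∀ (c : G) (j : ℕ), c⁻¹ * g ^ j * c = (c⁻¹ * g * c) ^ j := fun c j => by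
    simpa using (conj_pow (a := c⁻¹) (b := g) (i := j)).symm
  -- an involution commuting with `y` is `u`
  have key : ∀ v : G, v ^ 2 = 1 → v ≠ 1 → Commute y v → v = u := by
    intro v hv hv1 hc
    obtain ⟨a, ha⟩ := B.two_eltR F hε hz hg ht he (k := 1) hv hv1
    rw [← hu] at ha
    have h1 : a⁻¹ * y * a ∈ C := by
      rw [mem_centralizer_singleton, ← ha, Commute, SemiconjBy]
      have : a⁻¹ * v * a * (a⁻¹ * y * a) = a⁻¹ * (v * y) * a := by group
      rw [this, ← hc.eq]; group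
    let E : Subgroup C := (Subgroup.zpowers g).subgroupOf C
    have hgC : Subgroup.zpowers g ≤ C := Subgroup.zpowers_le.mpr
      (mem_centralizer_singleton.mpr (Commute.pow_self g _))
    haveI : E.Normal := ⟨fun b hb c => by
      obtain ⟨j, hj⟩ := mem_powers_iff_mem_zpowers.mpr hb
      obtain ⟨l, hl⟩ := hnorm _ (C.inv_mem c.2)
      refine Subgroup.mem_subgroupOf.mpr ⟨(l * j : ℕ), ?_⟩
      have hj' : g ^ j = b := hj
      simp only [Subgroup.coe_mul, Subgroup.coe_inv, zpow_natCast]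
      rw [← hj', pow_mul, ← hl, ← hpow, inv_inv]⟩
    have h2 : E.index = tN h.ord := by
      have := E.card_mul_index
      rw [Nat.card_congr (Subgroup.subgroupOfEquivOfLe hgC).toEquiv, Nat.card_zpowers, hg.ordg,
        hC] at this
      exact Nat.eq_of_mul_eq_mul_left (eN_pos h.ord) this
    obtain ⟨k, hk⟩ := B.exists_t_eqR F hε hz
    have h3 := E.pow_index_mem ⟨_, h1⟩
    rw [h2, hk, Subgroup.mem_subgroupOf] at h3
    have h4 : a⁻¹ * y * a ∈ Subgroup.zpowers g := by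
      have h5 : (a⁻¹ * y * a) ^ r = 1 := by
        simpa [hyr] using conj_pow (a := a⁻¹) (b := y) (i := r)
      have h6 : (2 ^ k).Coprime (orderOf (a⁻¹ * y * a)) :=
        ((Nat.prime_two.coprime_iff_not_dvd.mpr hr2).pow_left k).coprime_dvd_right
          (orderOf_dvd_of_pow_eq_one h5)
      obtain ⟨m, hm⟩ := exists_pow_eq_self_of_coprime h6
      rw [← hm]
      exact Subgroup.pow_mem _ h3 _
    obtain ⟨j, hj⟩ := mem_powers_iff_mem_zpowers.mpr h4
    obtain ⟨l, hl⟩ := B.conj_genR F hε hz hg hy1 (a := a) (k := j) hj.symm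
    have h7 : a⁻¹ * u * a = u := by
      have h8 := orderOf_conj' a⁻¹ u
      rw [inv_inv, orderOf_eq_prime hu2 hu1] at h8
      rw [hu, hpow, hl, ← pow_mul] at h8 ⊢
      exact eq_half_of_order_two (hg.ordg.trans he) h8
    rw [← h7] at ha
    exact mul_left_cancel (mul_right_cancel ha)
  have hinv : ∀ v ∈ C, v ^ 2 = 1 → ¬ Commute y v → v⁻¹ * y * v = y⁻¹ := by
    intro v hv hv2 hc
    obtain ⟨l, hl⟩ := hnorm v hv
    have h1 : v⁻¹ * y * v = y ^ l := by
      rw [hy, hpow, hl, ← pow_mul, ← pow_mul, mul_comm]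
    have h2 : y ^ (l * l) = y ^ 1 := by
      have h3 : v⁻¹ * (v⁻¹ * y * v) * v = y := by
        have : v⁻¹ * (v⁻¹ * y * v) * v = (v ^ 2)⁻¹ * y * v ^ 2 := by
          simp only [sq, mul_inv_rev, mul_assoc]
        rw [this, hv2]; group
      have h4 := conj_pow (a := v⁻¹) (b := y) (i := l)
      rw [inv_inv, h1, ← pow_mul] at h4
      rw [h4, pow_one, ← h1, h3]
    rw [pow_eq_pow_iff_modEq, orderOf_eq_prime hyr hy1, ← ZMod.natCast_eq_natCast_iff] at h2
    push_cast at h2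
    rcases mul_self_eq_one_iff.mp h2 with h3 | h3
    · exfalso; apply hc
      have : y ^ l = y ^ 1 := by
        rw [pow_eq_pow_iff_modEq, orderOf_eq_prime hyr hy1, ← ZMod.natCast_eq_natCast_iff]
        simpa using h3
      rw [this, pow_one, mul_assoc, inv_mul_eq_iff_eq_mul] at h1
      exact h1
    · rw [h1, eq_inv_iff_mul_eq_one, ← pow_succ, ← orderOf_dvd_iff_pow_eq_one,
        orderOf_eq_prime hyr hy1, ← ZMod.natCast_eq_zero_iff]
      simp [h3]
  obtain ⟨S⟩ : Nonempty (Sylow 2 C) := inferInstance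
  have hS : ∀ v : C, v ∈ (S : Subgroup C) → (v : G) ^ 2 = 1 := fun v hv => by
    obtain ⟨k, hk⟩ := S.isPGroup' ⟨v, hv⟩
    exact B.sq_eq_oneR F hε hz hg ht he (k := k) (congrArg (fun a => a.1.1) hk)
  have h8 : 2 ^ 3 ∣ Nat.card (S : Subgroup C) := by
    refine (Nat.Coprime.pow_left 3 (Nat.prime_two.coprime_iff_not_dvd.mpr
      S.not_dvd_index)).dvd_of_dvd_mul_right ?_
    rw [Subgroup.card_mul_index, hC, he]
    obtain ⟨t, ht⟩ := ht
    exact ⟨r * e' * t, by rw [ht]; ring⟩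
  obtain ⟨v0, hv0⟩ : ∃ v0 : G, ∀ v : C, v ∈ (S : Subgroup C) →
      (v : G) ∈ ({1, u, v0, v0 * u} : Finset G) := by
    have key' : ∀ v : G, v ^ 2 = 1 → Commute y v → v = 1 ∨ v = u := fun v h1 h2 =>
      or_iff_not_imp_left.mpr fun h3 => key v h1 h3 h2
    by_cases hall : ∀ v : C, v ∈ (S : Subgroup C) → Commute y v
    · exact ⟨1, fun v hv => by rcases key' v (hS v hv) (hall v hv) with e | e <;> simp [e]⟩
    push Not at hall
    obtain ⟨w, hw, hw'⟩ := hall
    refine ⟨w, fun v hv => ?_⟩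
    by_cases hc : Commute y v
    · rcases key' v (hS v hv) hc with e | e <;> simp [e]
    have h1 := hinv w w.2 (hS w hw) hw'
    have h2 := hinv v v.2 (hS v hv) hc
    have h3 : Commute y (w * v) := by
      have : y * (w * v) = w * v * ((v : G)⁻¹ * ((w : G)⁻¹ * y * w)⁻¹ * v)⁻¹ := by group
      rw [Commute, SemiconjBy, this, h1, inv_inv, h2, inv_inv]
    have h4 : (v : G) = w * (w * v) := by rw [← mul_assoc, ← sq, hS w hw, one_mul]
    rcases key' (w * v) (hS (w * v) (Subgroup.mul_mem _ hw hv)) h3 with e | e <;>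
      rw [e] at h4 <;> simp [h4]
  have h9 := Nat.card_le_card_of_injective (fun v : (S : Subgroup C) =>
    (⟨v.1, hv0 v.1 v.2⟩ : ({1, u, v0, v0 * u} : Finset G))) fun a b e =>
      Subtype.ext (Subtype.ext (congrArg Subtype.val e :))
  rw [Nat.card_eq_finsetCard] at h9
  have := Finset.card_le_four (a := 1) (b := u) (c := v0) (d := v0 * u)
  have := Nat.le_of_dvd Nat.card_pos h8
  omega

theorem iso_evenR : ∃ (F : Type) (_ : Field F) (_ : Fintype F), Fintype.card F = 2 * tN h.ord ∧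
    Nonempty (G ≃* PSL(2, F)) := by
  obtain rfl := B.e_eq_oneR F hε hz hg ht he
  haveI := Fact.mk Nat.prime_two
  obtain ⟨k, hk⟩ := B.exists_t_eqR F hε hz
  obtain ⟨T⟩ : Nonempty (Sylow 2 G) := inferInstance
  have hT : ∀ v ∈ (T : Subgroup G), v ^ 2 = 1 := fun v hv => by
    obtain ⟨k, hk⟩ := T.isPGroup' ⟨v, hv⟩
    exact B.sq_eq_oneR F hε hz hg ht he (k := k) (congrArg Subtype.val hk)
  have hcard : Nat.card (T : Subgroup G) = 2 * tN h.ord := by
    have h1 : Nat.card G = 2 ^ (k + 1) * (p * B.z) := by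
      rw [h.card_G, Subgroup.card_bot, ← hz, hk, show Nat.card (EE h.ord) = 2 * 1 from he]; ring
    have h2 : ¬ 2 ∣ p * B.z := fun hd => by
      rcases Nat.prime_two.dvd_mul.mp hd with e | e
      · exact B.p_ne_twoR F ((Nat.prime_dvd_prime_iff_eq Nat.prime_two hp.out).mp e).symm
      · exact (B.even_t_odd_zR F hε hz).2 e
    rw [T.card_eq_multiplicity, h1, Nat.factorization_mul (by positivity)
      (by rintro e; simp [e] at h2), Finsupp.add_apply, Nat.factorization_eq_zero_of_not_dvd h2,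
      Nat.prime_two.factorization_pow, hk]
    simp [pow_succ']
  have hg1 : g ^ 1 ≠ 1 := by
    rw [Ne, hg.pow_eq_one_iff, Nat.dvd_one]; exact (B.one_lt_eR F).ne'
  suffices hEC : H11.EC T by
    obtain ⟨F', _, _, h1, -, h2⟩ := hEC.iso_PSL
    exact ⟨F', inferInstance, inferInstance, h1.trans hcard, h2⟩
  refine ⟨fun hc => ?_, fun hn => ?_, fun v hv => ?_⟩
  · obtain ⟨v, hv⟩ := IsCyclic.exists_ofOrder_eq_natCard (α := (T : Subgroup G))
    have : orderOf v ∣ 2 := orderOf_dvd_of_pow_eq_one (Subtype.ext (hT v v.2))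
    have h3 := Nat.le_of_dvd two_pos this
    have := Nat.le_of_dvd (tN_pos h.ord) ht
    omega
  · have h3 : IsPGroup 2 (Subgroup.zpowers g) := IsPGroup.of_card (n := 1) (by
      rw [Nat.card_zpowers, hg.ordg]; exact he)
    obtain ⟨Q, hQ⟩ := h3.exists_le_sylow
    haveI := Sylow.unique_of_normal T hn
    rw [Subsingleton.elim Q T] at hQ
    have h4 := hQ (Subgroup.mem_zpowers g)
    have h5 := hT _ (Subgroup.mul_mem _ h4 (hn.conj_mem _ (Subgroup.inv_mem _ h4) x))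
    have h6 : g * (x * g⁻¹ * x⁻¹) = xp x ((c : ZMod p) - 1) := by
      rw [sub_eq_add_neg, xp_add h.ord, xp_neg h.ord, xp_one h.ord, ← hg.cj]; group
    rw [h6] at h5
    have h7 : (c : ZMod p) - 1 ≠ 0 := by
      rw [sub_ne_zero]
      intro e
      have := hg.ordc
      rw [Units.val_eq_one.mp e, orderOf_one] at this
      exact (B.one_lt_eR F).ne this
    have := orderOf_dvd_of_pow_eq_one h5
    rw [orderOf_xp h.ord h7, Nat.prime_dvd_prime_iff_eq hp.out Nat.prime_two] at this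
    exact B.p_ne_twoR F this
  · have hv1 : v ≠ 1 := by rintro rfl; simp at hv
    obtain ⟨a, ha⟩ := B.two_eltR F hε hz hg ht he (k := 1) (v := v)
      (by rw [pow_one, ← hv, pow_orderOf_eq_one]) hv1
    have h3 : Nat.card (Subgroup.centralizer ({v} : Set G)) = 2 ^ (k + 1) := by
      rw [card_centralizer_of_isConj (isConj_iff.mpr ⟨a⁻¹, by rw [inv_inv, ha]⟩),
        B.card_centralizer_invR F hε hz hg he, he, hk]; ring
    have h4 : ∀ w ∈ Subgroup.centralizer ({v} : Set G), w ^ 2 = 1 := fun w hw =>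
      B.sq_eq_oneR F hε hz hg ht he (k := k + 1) (by
        rw [← h3]; exact congrArg Subtype.val (pow_card_eq_one' (x := (⟨w, hw⟩ :
          Subgroup.centralizer ({v} : Set G)))))
    refine ⟨⟨⟨fun a b => Subtype.ext ?_⟩⟩, h4⟩
    exact (Commute.of_orderOf_dvd_two (fun w : Subgroup.centralizer ({v} : Set G) =>
      orderOf_dvd_of_pow_eq_one (Subtype.ext (h4 w w.2))) a b).eq ▸ rfl

end BD

theorem FewR.iso {h : PO p x ⊥} {n : ℕ} (F : FewR h n) :
    (3 < p ∧ n = 1 ∧ Nonempty (G ≃* PSL(2, ZMod p))) ∨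
    (∃ (m : ℕ) (F : Type) (_ : Field F) (_ : Fintype F), Fintype.card F = 2 ^ m ∧ p = 2 ^ m + 1 ∧
      3 < p ∧ Nonempty (G ≃* PSL(2, F))) := by
  obtain ⟨B⟩ := h.nonempty_BD
  have he := B.one_lt_eR F
  have hp1 := eN_mul' h.ord
  have fin : n = 1 → tN h.ord = 2 → (3 < p ∧ n = 1 ∧ Nonempty (G ≃* PSL(2, ZMod p))) := by
    intro h1 h2
    obtain ⟨P, hP⟩ := exists_sylow_eq h.ord h.nsq
    rw [h2] at hp1
    refine ⟨by omega, h1, iso_PSL_of_sylow F.perf p (B.p_ne_twoR F) P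
      (by rw [hP, Nat.card_zpowers, h.ord]) (by rw [← sN_eq_card h.ord h.nsq, F.hs, h1, one_mul])
      (faithful_sylow h (by rw [F.hs, h1]; omega)) ?_ _ (ZMod.card p)⟩
    rw [hP, h.card_N, Subgroup.card_bot, ← eN_mul h.ord, h2]; ring
  rcases B.z_casesR F.perf F.hs F.hn F.pos with ⟨hε, hz⟩ | ⟨hε, hz⟩
  · exact Or.inl (fin (B.case_posR F hε hz).1 (B.case_posR F hε hz).2)
  obtain ⟨k, hk⟩ := B.exists_t_eqR F hε hz
  have ht := B.t_eqR F hε hz
  have hn := F.pos
  rcases k with _ | _ | k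
  · omega
  · exact Or.inl (fin (by omega) hk)
  obtain ⟨g, c, hg⟩ := h.exists_Gen
  have h4 : 4 ∣ tN h.ord := ⟨2 ^ k, by rw [hk]; ring⟩
  obtain ⟨e, he2⟩ := B.dvd_eR F hε hz Nat.prime_two (B.even_t_odd_zR F hε hz).1
    (B.even_t_odd_zR F hε hz).2
  obtain ⟨F', _, _, h1, h2⟩ := B.iso_evenR F hε hz hg h4 he2
  rw [B.e_eq_oneR F hε hz hg h4 he2] at he2
  refine Or.inr ⟨k + 3, F', inferInstance, inferInstance, by rw [h1, hk]; ring, ?_, ?_, h2⟩
  · rw [← hp1, he2, hk]; ring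
  · rw [he2] at hp1; omega

end Cfsg.Agent.H19
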