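import Cfsg.Agent.H19.BR3
import Cfsg.Agent.H19.BD8
import Cfsg.Agent.H19.GL2Ord
import Cfsg.Agent.H1.Cores

/-! Brauer-Reynolds theorem for perfect groups -/

set_option autoImplicit false

namespace Cfsg.Agent.H19

open Cfsg Cfsg.Agent.H4 Cfsg.Agent.H5 Cfsg.Agent.H6
open scoped ComplexConjugate MatrixGroups

variable {G : Type*} [Group G] {p : ℕ} [hp : Fact p.Prime] {x : G} {K : Subgroup G}

theorem eN_eq_one_of_sN (hx : orderOf x = p) (hG : commutator G = ⊤) (hs : sN x = 1) :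
    eN hx = 1 := by
  rw [Subgroup.index_eq_one] at hs
  have h1 := Abelianization.commutator_subset_ker
    ((actN hx).comp ((MonoidHom.id G).codRestrict (NN x) fun g => by
      unfold NN; rw [hs]; trivial))
  rw [eN, Subgroup.card_eq_one, eq_bot_iff]
  rintro c ⟨g, hg⟩
  exact (actN_eq hx _ hg).symm.trans (h1 (hG ▸ Subgroup.mem_top g))

theorem sN_mk_dvd (S : Subgroup G) [S.Normal] :
    sN (QuotientGroup.mk x : G ⧸ S) ∣ sN x := by
  rw [sN, ← Subgroup.index_comap_of_surjective _ (QuotientGroup.mk'_surjective S)]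
  refine Subgroup.index_dvd_of_le fun g hg => ?_
  rw [Subgroup.mem_comap, show (QuotientGroup.mk x : G ⧸ S) = QuotientGroup.mk' S x from rfl,
    ← MonoidHom.map_zpowers]
  exact Subgroup.le_normalizer_map _ ⟨g, hg, rfl⟩

theorem orderOf_mk_of_not_dvd [Finite G] (hx : orderOf x = p) (S : Subgroup G) [S.Normal]
    (hS : ¬ p ∣ Nat.card S) : orderOf (QuotientGroup.mk x : G ⧸ S) = p := by
  refine orderOf_eq_prime (by rw [← QuotientGroup.mk_pow, ← hx, pow_orderOf_eq_one]; rfl) fun e => ?_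
  exact hS (hx ▸ Subgroup.orderOf_dvd_natCard _ ((QuotientGroup.eq_one_iff x).mp e))

variable [Fintype G]

theorem BD.Mem.not_mem_ker {h : PO p x K} {B : BD h} (hG : commutator G = ⊤) {χ : IrrCharacter G}
    (hχ : B.Mem χ) (h1 : χ ≠ irrOne G) : x ∉ charKer (χ : G → ℂ) := fun hx => by
  have h2 := sg_const (p := p) (x := x) (θ := χ) (c := charDegree (χ : G → ℂ)) fun i _ => by
    rw [χ.2.isCharacter.charDegree_cast]
    exact apply_of_mem_charKer (Subgroup.zpowers_le.mpr hx (xp_mem x i))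
  have h3 := BD.Mem.ne_one hG h1
  have h4 := χ.2.charDegree_pos
  have h5 : (1 : ℤ) < p := by exact_mod_cast hp.out.one_lt
  rcases hχ with e | ⟨q, rfl⟩
  · rw [B.sg_X e] at h2
    have h6 : ((p : ℤ) - 1) * B.a χ = (p - 1) * charDegree (χ : G → ℂ) := by exact_mod_cast h2
    have := mul_left_cancel₀ (by omega) h6
    rcases B.ha χ e with e' | e' <;> omega
  · rw [B.sg_μ] at h2
    have h6 : -(B.ε * eN h.ord) = ((p : ℤ) - 1) * charDegree (B.μ q : G → ℂ) := by
      exact_mod_cast h2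
    have h7 : (eN h.ord : ℤ) * tN h.ord + 1 = p := by exact_mod_cast eN_mul' h.ord
    have h8 : (0 : ℤ) < tN h.ord := by exact_mod_cast tN_pos h.ord
    have h9 : (2 : ℤ) ≤ charDegree (B.μ q : G → ℂ) := by omega
    have h10 : (0 : ℤ) ≤ eN h.ord := Int.natCast_nonneg _
    rcases B.hε with e | e <;> rw [e] at h6 <;> nlinarith

theorem BD.Mem.ker_le {h : PO p x K} {B : BD h} (hG : commutator G = ⊤) {χ : IrrCharacter G}
    (hχ : B.Mem χ) (h1 : χ ≠ irrOne G) : charKer (χ : G → ℂ) ≤ pPrimeCore p G := by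
  haveI := χ.2.isCharacter.charKer_normal
  refine H1.le_pPrimeCore (hp.out.coprime_iff_not_dvd.mpr fun hd => hχ.not_mem_ker hG h1 ?_).symm
  obtain ⟨y, hy⟩ := exists_prime_orderOf_dvd_card' (G := charKer (χ : G → ℂ)) p hd
  rw [← Subgroup.orderOf_coe] at hy
  obtain ⟨t, i, hi, z, hz, e⟩ := h.exists_conj_of_dvd (g := y) (hy ▸ dvd_rfl)
  have h2 : xp x i * z ∈ charKer (χ : G → ℂ) := by
    have := Subgroup.Normal.conj_mem inferInstance _ y.2 t⁻¹
    rwa [e, show t⁻¹ * (t * (xp x i * z) * t⁻¹) * t⁻¹⁻¹ = xp x i * z by group] at this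
  have h3 : xp x i ∈ charKer (χ : G → ℂ) := χ.2.isCharacter.mem_charKer.mpr (by
    rw [← hχ.val z hz i hi, apply_of_mem_charKer h2])
  rw [← xp_pow_inv h.ord hi]
  exact Subgroup.pow_mem _ h3 _

theorem BD.exists_small_mem {h : PO p x K} (B : BD h) (hG : commutator G = ⊤) {n : ℕ}
    (hs : sN x = n * p + 1) (hn : NR p n) (hn0 : 0 < n) :
    ∃ χ : IrrCharacter G, χ ≠ irrOne G ∧ charDegree (χ : G → ℂ) < p ∧ B.Mem χ := by
  rcases B.z_casesR hG hs hn hn0 with e | e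
  · refine ⟨B.μ 1, B.μ_ne_one 1, ?_, Or.inr ⟨1, rfl⟩⟩
    rw [B.deg_μ, e.2]
    have := eN_mul' h.ord
    have := tN_pos h.ord
    nlinarith
  · obtain ⟨α, β, h5, h6, h7⟩ := B.exists_countsR hG hs hn hn0
    obtain ⟨χ, hχ, h8, h9⟩ := h7 (by
      by_contra h0
      have : β = 0 := by omega
      rw [this, e.1] at h6
      have : (0 : ℤ) ≤ α * sN x := by positivity
      push_cast at h6
      omega)
    refine ⟨χ, ?_, ?_, Or.inl hχ⟩
    · rintro rfl; rw [B.a_one] at h8; norm_num at h8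
    · have := hp.out.pos; omega

theorem sN_pos_of_perfect (h : PO p x K) (hG : commutator G = ⊤) {n : ℕ}
    (hs : sN x = n * p + 1) : 0 < n := by
  obtain ⟨B⟩ := h.nonempty_BD
  refine Nat.pos_of_ne_zero ?_
  rintro rfl
  exact (B.one_lt_e' hG).ne' (eN_eq_one_of_sN h.ord hG (by simpa using hs))

/-- the conclusion of the Brauer-Reynolds theorem -/
def BRc (p : ℕ) [Fact p.Prime] (H : Type*) [Group H] : Prop :=
  (3 < p ∧ Nonempty (H ≃* PSL(2, ZMod p))) ∨ (∃ (m : ℕ) (F : Type) (_ : Field F) (_ : Fintype F),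
    Fintype.card F = 2 ^ m ∧ p = 2 ^ m + 1 ∧ 3 < p ∧ Nonempty (H ≃* PSL(2, F)))

theorem iso_of_NR (h : PO p x K) (hG : commutator G = ⊤) (hO : pPrimeCore p G = ⊥) {n : ℕ}
    (hs : sN x = n * p + 1) (hn : NR p n) : BRc p G := by
  obtain ⟨B⟩ := h.nonempty_BD
  have hn0 := sN_pos_of_perfect h hG hs
  obtain ⟨χ, h1, h2, h3⟩ := B.exists_small_mem hG hs hn hn0
  obtain rfl : K = ⊥ := by
    rw [eq_bot_iff, ← hO]
    exact fun y hy => h3.ker_le hG h1 (χ.2.isCharacter.mem_charKer.mpr (apply_eq_of_degree_lt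
      h.ord (fun y hy => h.commute hy) χ.2.isCharacter h3.val h2 hy))
  exact (⟨hG, hs, hn, hn0⟩ : FewR h n).iso.imp_left fun h => ⟨h.1, h.2.2⟩

theorem brauer_reynolds (hx : orderOf x = p) (hsq : ¬ p ^ 2 ∣ Nat.card G) (hG : commutator G = ⊤)
    {n : ℕ} (hs : sN x = n * p + 1) (hn : NR p n) : BRc p (G ⧸ pPrimeCore p G) := by
  haveI := Fintype.ofFinite (G ⧸ pPrimeCore p G)
  have hx' := orderOf_mk_of_not_dvd hx _ (H1.not_dvd_card_pPrimeCore p G)
  have hsq' : ¬ p ^ 2 ∣ Nat.card (G ⧸ pPrimeCore p G) := fun hd =>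
    hsq (hd.trans (Subgroup.card_quotient_dvd_card _))
  have hG' : commutator (G ⧸ pPrimeCore p G) = ⊤ := by
    have := map_commutator_eq G (QuotientGroup.mk' (pPrimeCore p G))
    rw [hG, QuotientGroup.range_mk', ← MonoidHom.range_eq_map, QuotientGroup.range_mk'] at this
    exact this.symm
  obtain ⟨K, h⟩ := exists_PO hx' hsq'
  obtain ⟨u, hu⟩ := exists_sN_eq hx' hsq'
  have hu0 := sN_pos_of_perfect h hG' hu
  obtain ⟨w, hw⟩ := sN_mk_dvd (x := x) (pPrimeCore p G)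
  rw [hs, hu] at hw
  have h1 : w % p = 1 := by
    have := congrArg (· % p) hw
    simp only [Nat.mul_add_mod_self_right, add_mul, one_mul, mul_right_comm u p w] at this
    rw [← this, Nat.mod_eq_of_lt hp.out.one_lt]
  have h2 := Nat.div_add_mod w p
  rw [h1] at h2
  generalize w / p = m at h2
  subst h2
  have h3 : n = u + m * (u * p + 1) :=
    Nat.eq_of_mul_eq_mul_right hp.out.pos (by linarith)
  rcases Nat.eq_zero_or_pos m with rfl | hm
  · exact iso_of_NR h hG' (H1.pPrimeCore_quotient_pPrimeCore p) hu (by simpa [h3] using hn)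
  · exact absurd ⟨m * (u + 1), u, by positivity, hu0, by rw [h3]; ring⟩ hn

theorem BRc.sl {H : Type*} [Group H] (h : BRc p H) :
    (∃ (F : Type) (_ : Field F) (_ : Fintype F), Fintype.card F = p ∧ 3 < p ∧
      Nonempty (H ≃* PSL(2, F))) ∨ (∃ (m : ℕ) (F : Type) (_ : Field F) (_ : Fintype F),
    Fintype.card F = 2 ^ m ∧ p = 2 ^ m + 1 ∧ 3 < p ∧ Nonempty (H ≃* SL(2, F))) := by
  rcases h with h | ⟨m, F, _, _, h1, h2, h3, ⟨e⟩⟩
  · exact Or.inl ⟨ZMod p, inferInstance, inferInstance, ZMod.card p, h⟩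
  · haveI := Fact.mk Nat.prime_two
    haveI : CharP F 2 := charP_of_card_eq_prime_pow h1
    obtain ⟨e'⟩ := nonempty_PSL2_equiv_SL2 (F := F)
    exact Or.inr ⟨m, F, inferInstance, inferInstance, h1, h2, h3, ⟨e.trans e'⟩⟩

end Cfsg.Agent.H19
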