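import Cfsg.Agent.H1.Cores

/-! A criterion of Baumslag-Wiegold type for terms of the lower central series: solvable groups -/

set_option autoImplicit false

namespace Cfsg.Agent.H19.BW

open Subgroup Cfsg.Agent.H1
open scoped commutatorElement

/-- Values of the left-normed commutator word of length `k + 1`. -/
inductive Val {G : Type*} [Group G] : ℕ → G → Prop
  | zero (a : G) : Val 0 a
  | succ {k : ℕ} {a : G} (b : G) : Val k a → Val (k + 1) ⁅a, b⁆

variable {G H : Type*} [Group G] [Group H] {k : ℕ}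

theorem val_foldl (l : List G) {a : G} (h : Val k a) :
    Val (k + l.length) (l.foldl (fun a b => a * b * a⁻¹ * b⁻¹) a) := by
  induction l generalizing a k with
  | nil => exact h
  | cons b l ih => simpa [add_assoc, add_comm 1, commutatorElement_def] using ih (h.succ b)

theorem val_iff {x : G} : Val k x ↔ ∃ f : Fin (k + 1) → G,
    x = ((List.ofFn f).tail).foldl (fun a b => a * b * a⁻¹ * b⁻¹) (f 0) := by
  refine ⟨fun h => ?_, fun ⟨f, e⟩ => by simpa [e] using val_foldl (List.ofFn f).tail (.zero (f 0))⟩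
  obtain ⟨a, l, rfl, rfl⟩ : ∃ (a : G) (l : List G), l.length = k ∧ x = l.foldl (fun a b => a * b * a⁻¹ * b⁻¹) a := by
    induction h with
    | zero a => exact ⟨a, [], rfl, rfl⟩
    | succ b _ ih =>
      obtain ⟨a, l, rfl, rfl⟩ := ih
      exact ⟨a, l ++ [b], by simp, by simp [commutatorElement_def]⟩
  exact ⟨Fin.cons a l.get, by simp⟩

theorem Val.map {x : G} (h : Val k x) (f : G →* H) : Val k (f x) := by
  induction h with
  | zero a => exact .zero _
  | succ b _ ih => exact map_commutatorElement f _ b ▸ ih.succ _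

theorem Val.lift {x : H} (h : Val k x) (f : G →* H) (hf : Function.Surjective f) : ∃ y, Val k y ∧ f y = x := by
  induction h with
  | zero a => exact (hf a).imp fun y e => ⟨.zero y, e⟩
  | succ b _ ih =>
    obtain ⟨y, h1, rfl⟩ := ih
    obtain ⟨c, rfl⟩ := hf b
    exact ⟨_, h1.succ c, map_commutatorElement f y c⟩

theorem Val.conj {x : G} (h : Val k x) (g : G) : Val k (g * x * g⁻¹) := h.map (MulAut.conj g).toMonoidHom

theorem Val.inv {x : G} (h : Val k x) : Val k x⁻¹ := by
  induction h with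
  | zero a => exact .zero _
  | @succ k a b _ ih => simpa [commutatorElement_def, mul_assoc] using (ih.succ b).conj a

theorem Val.of_succ {x : G} (h : Val (k + 1) x) : Val k x := by
  induction k generalizing x with
  | zero => exact .zero x
  | succ k ih => cases h with | succ b h => exact (ih h).succ b

theorem Val.mem {x : G} (h : Val k x) : x ∈ (⊤ : Subgroup G).lowerCentralSeries k := by
  induction h with
  | zero a => exact mem_top a
  | succ b _ ih => exact commutator_mem_commutator ih (mem_top b)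

theorem lcs_le (N : Subgroup G) [N.Normal] (h : ∀ x, Val k x → x ∈ N) :
    (⊤ : Subgroup G).lowerCentralSeries k ≤ N := by
  induction k generalizing N with
  | zero => exact fun x _ => h x (.zero x)
  | succ k ih =>
    have e : ∀ a : G, a ∈ (center (G ⧸ N)).comap (QuotientGroup.mk' N) ↔ ∀ b, ⁅a, b⁆ ∈ N := fun a => by
      rw [mem_comap, mem_center_iff, (QuotientGroup.mk'_surjective N).forall]
      refine forall_congr' fun b => ?_
      rw [← QuotientGroup.eq_one_iff, ← QuotientGroup.mk'_apply, map_commutatorElement,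
        commutatorElement_eq_one_iff_mul_comm, eq_comm]
    exact commutator_le.2 fun a ha b _ => (e a).1 (ih _ (fun x hx => (e x).2 fun b => h _ (hx.succ b)) ha) b

variable [Finite G]

theorem coprime_of {p : ℕ} [Fact p.Prime] {P N : Subgroup G} (hP : IsPGroup p P) (hN : (Nat.card N).Coprime p)
    {x y : G} (hx : x ∈ P) (hy : y ∈ N) : (orderOf x).Coprime (orderOf y) :=
  ((coprime_card_of_isPGroup_of_coprime hP hN).coprime_dvd_left (orderOf_dvd_natCard P hx)).coprime_dvd_right
    (orderOf_dvd_natCard N hy)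

theorem comm_of_nil [Group.IsNilpotent G] {x y : G} (h : (orderOf x).Coprime (orderOf y)) : Commute x y := by
  obtain ⟨e⟩ := ((Group.isNilpotent_of_finite_tfae (G := G)).out 0 4).1 ‹_›
  obtain ⟨x, rfl⟩ := e.surjective x
  obtain ⟨y, rfl⟩ := e.surjective y
  refine Commute.map (funext fun p => funext fun P => ?_) e
  have := Fact.mk (Nat.prime_of_mem_primeFactors p.2)
  rw [e.orderOf_eq, e.orderOf_eq] at h
  have f : ∀ z : ∀ p : (Nat.card G).primeFactors, ∀ P : Sylow p G, (P : Subgroup G), z p P ≠ 1 → ↑p ∣ orderOf z :=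
    fun z hz => (P.2.dvd_orderOf hz).trans
      (orderOf_dvd_of_pow_eq_one (congrFun (congrFun (pow_orderOf_eq_one z) p) P))
  by_cases hx : x p P = 1
  · simp [hx]
  by_cases hy : y p P = 1
  · simp [hy]
  exact (this.1.ne_one (Nat.eq_one_of_dvd_coprimes h (f x hx) (f y hy))).elim

theorem mem_fitting {p : ℕ} [Fact p.Prime] {K : Subgroup G} [K.Normal]
    (hK : IsPGroup p (K.map (QuotientGroup.mk' (fittingSubgroup G)))) {x : G} (hx : x ∈ K)
    (h : ∀ q : Nat.Primes, (q : ℕ) ≠ p → x ∈ centralizer (pCore q G : Set G)) : x ∈ fittingSubgroup G := by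
  let D := K ⊓ ⨅ q : {q : Nat.Primes // (q : ℕ) ≠ p}, centralizer (pCore q.1 G : Set G)
  have : D.Normal := normal_inf_normal _ _ (hK := normal_iInf_normal fun _ => inferInstance)
  have h1 : fittingSubgroup G ≤ pCore p G ⊔ centralizer (D : Set G) := by
    rw [fittingSubgroup_eq_iSup_pCore]
    refine iSup_le fun q => ?_
    by_cases e : (q : ℕ) = p
    · exact e ▸ le_sup_left
    · exact le_sup_of_le_right (le_centralizer_iff.1 fun d hd => mem_iInf.1 hd.2 ⟨q, e⟩)
  refine le_fittingSubgroup (N := D) (Group.of_quotient_center_nilpotent (IsPGroup.isNilpotent (p := p) fun d => ?_))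
    ⟨hx, mem_iInf.2 fun q => h q.1 q.2⟩
  obtain ⟨d, rfl⟩ := QuotientGroup.mk'_surjective _ d
  obtain ⟨i, hi⟩ := hK ⟨_, mem_map_of_mem _ d.2.1⟩
  have h2 : d.1 ^ p ^ i ∈ fittingSubgroup G := (QuotientGroup.eq_one_iff _).1 (by simpa using congrArg Subtype.val hi)
  obtain ⟨u, hu, c, hc, e⟩ := mem_sup_of_normal_right.1 (h1 h2)
  obtain ⟨j, hj⟩ := isPGroup_pCore p G ⟨u, hu⟩
  refine ⟨i + j, ?_⟩
  rw [← map_pow, QuotientGroup.mk'_apply, QuotientGroup.eq_one_iff, mem_center_iff]
  have h3 : d.1 ^ p ^ (i + j) ∈ centralizer (D : Set G) := by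
    rw [← QuotientGroup.eq_one_iff, pow_add, pow_mul, ← e, QuotientGroup.mk_pow, QuotientGroup.mk_mul,
      (QuotientGroup.eq_one_iff c).2 hc, mul_one, ← QuotientGroup.mk_pow, show u ^ p ^ j = 1 from congrArg Subtype.val hj]
    rfl
  exact fun g => Subtype.ext (h3 g g.2)

omit [Finite G] in
theorem eq_one_of_comm {a b : G} (h : Commute ⁅b, a⁆ a) (hc : (orderOf a).Coprime (orderOf ⁅b, a⁆)) : ⁅b, a⁆ = 1 := by
  have := h.mul_pow (orderOf a)
  rw [pow_orderOf_eq_one, mul_one, commutatorElement_def, inv_mul_cancel_right, conj_pow, pow_orderOf_eq_one] at this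
  exact orderOf_eq_one_iff.1 (hc.symm.eq_one_of_dvd (orderOf_dvd_of_pow_eq_one (by simpa [commutatorElement_def] using this.symm)))

/-- Values centralize whatever they normalize coprimely. -/
def L (k : ℕ) (G : Type*) [Group G] : Prop := ∀ x n : G, Val k x → (orderOf x).Coprime (orderOf ⁅x, n⁆) → ⁅x, n⁆ = 1

theorem L.cent (h : L k G) {p q : ℕ} [Fact p.Prime] (hq : q.Prime) (hpq : q ≠ p) {P : Subgroup G} (hP : IsPGroup p P)
    {x : G} (hx : x ∈ P) (hv : Val k x) : x ∈ centralizer (pCore q G : Set G) := fun n hn => by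
  have := (Nat.coprime_primes Fact.out hq).2 hpq.symm
  refine (commutatorElement_eq_one_iff_mul_comm.1 (h x n hv (coprime_of hP (coprime_card_pPrimeCore p G) hx
    (pCore_le_pPrimeCore this ?_)))).symm
  rw [commutatorElement_def]
  exact mul_mem (Normal.conj_mem inferInstance n hn x) (inv_mem hn)

theorem L.solv (h : L k G) (hG : Group.IsSolvable G) : Group.IsNilpotent ((⊤ : Subgroup G).lowerCentralSeries k) := by
  set F := fittingSubgroup G
  set π := QuotientGroup.mk' F
  have hπ : Function.Surjective π := QuotientGroup.mk'_surjective F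
  have h1 : ∀ (p : ℕ) [Fact p.Prime] (N : Subgroup (G ⧸ F)) [N.Normal], IsPGroup p N → ∀ P : Subgroup G,
      IsPGroup p P → ∀ x ∈ P, π x ∈ N → Val k x → π x = 1 := fun p _ N _ hN P hP x hx hx' hv =>
    (QuotientGroup.eq_one_iff x).2 (mem_fitting (p := p) (K := N.comap π) (by rwa [map_comap_eq_self_of_surjective hπ])
      hx' fun q hq => h.cent q.2 hq hP hx hv)
  have h2 : ∀ q : ℕ, q.Prime → ∀ a : G ⧸ F, (orderOf a).Coprime q → a ∈ centralizer (pCore q (G ⧸ F) : Set _) :=
    fun q hq a ha => by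
    have := Fact.mk hq
    let K := (pCore q (G ⧸ F)).comap π
    obtain ⟨Q⟩ : Nonempty (Sylow q K) := inferInstance
    have f1 : ∀ b ∈ pCore q (G ⧸ F), ∃ c ∈ Q.1.map K.subtype, π c = b := fun b hb => by
      have := (Q.mapSurjective (π.subgroupComap_surjective_of_surjective _ hπ)).3
        ((isPGroup_pCore q _).to_subgroup ⊤) le_top
      obtain ⟨c, c1, c2⟩ : (⟨b, hb⟩ : pCore q (G ⧸ F)) ∈ _ := this.le (mem_top _)
      exact ⟨c, mem_map_of_mem _ c1, congrArg Subtype.val c2⟩
    obtain ⟨a, ha', rfl⟩ : ∃ n ∈ normalizer (Q.1.map K.subtype : Set G), π n = a := by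
      obtain ⟨a, rfl⟩ := hπ a
      obtain ⟨n, hn, c, hc, rfl⟩ := mem_sup_of_normal_right.1 (Q.normalizer_sup_eq_top.ge (mem_top a))
      obtain ⟨d, d1, d2⟩ := f1 _ hc
      exact ⟨n * d, mul_mem hn (le_normalizer d1), by simp [d2]⟩
    have f2 : ∀ c ∈ Q.1.map K.subtype, ⁅c, a⁆ ∈ Q.1.map K.subtype := fun c hc => by
      simpa [commutatorElement_def, mul_assoc] using mul_mem hc ((mem_normalizer_iff.1 ha' _).1 (inv_mem hc))
    have f3 : ∀ j i, j + i = k → ∀ c ∈ Q.1.map K.subtype, Val i c → ⁅π c, π a⁆ = 1 := fun j => by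
      induction j with
      | zero =>
        rintro i rfl c hc hv
        rw [h1 q _ (isPGroup_pCore q _) _ (Q.2.map _) c hc (map_subtype_le (H := K) _ hc) (by simpa using hv)]
        simp
      | succ j ih =>
        intro i hi c hc hv
        have := ih (i + 1) (by omega) _ (f2 c hc) (hv.succ a)
        rw [map_commutatorElement, commutatorElement_eq_one_iff_commute] at this
        refine eq_one_of_comm this ?_
        obtain ⟨n, hn⟩ := (isPGroup_pCore q _).exists_orderOf_eq_pow ⟨π _, mem_comap.1 (map_subtype_le (H := K) _ (f2 c hc))⟩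
        rw [orderOf_mk, map_commutatorElement] at hn
        exact hn ▸ ha.pow_right n
    intro b hb
    obtain ⟨c, c1, rfl⟩ := f1 b hb
    exact commutatorElement_eq_one_iff_mul_comm.1 (f3 k 0 rfl c c1 (.zero c))
  have h3 : Group.IsNilpotent (G ⧸ F) := by
    rw [← fittingSubgroup_eq_top_iff]
    by_contra f
    have := QuotientGroup.nontrivial_iff.2 f
    obtain ⟨p, hp, f1⟩ := exists_pCore_ne_bot (G := (G ⧸ F) ⧸ fittingSubgroup (G ⧸ F)) inferInstance
    have := Fact.mk hp
    refine f1 (eq_bot_iff.2 fun y hy => ?_)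
    obtain ⟨y, rfl⟩ := QuotientGroup.mk'_surjective _ y
    obtain ⟨e, m, hm, he⟩ := Nat.exists_eq_pow_mul_and_not_dvd (orderOf_pos y).ne' p hp.ne_one
    have f2 := mem_fitting (p := p) (K := (pCore p _).comap (QuotientGroup.mk' (fittingSubgroup (G ⧸ F))))
      (by rw [map_comap_eq_self_of_surjective (QuotientGroup.mk'_surjective _)]; exact isPGroup_pCore p _)
      (x := y ^ m) (pow_mem hy m) fun q hq => h2 q q.2 _ (Nat.Coprime.coprime_dvd_left
        (orderOf_dvd_of_pow_eq_one (n := p ^ e) (by rw [← pow_mul, mul_comm, ← he, pow_orderOf_eq_one]))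
        (((Nat.coprime_primes hp q.2).2 (Ne.symm hq)).pow_left e))
    by_contra f3
    refine hm (((isPGroup_pCore p _).dvd_orderOf (g := ⟨_, hy⟩) fun e => f3 (congrArg Subtype.val e)).trans ?_)
    rw [orderOf_mk]
    exact orderOf_dvd_of_pow_eq_one (by rw [← map_pow]; exact (QuotientGroup.eq_one_iff _).2 f2)
  have h4 : ∀ x : G ⧸ F, Val k x → x = 1 := fun x hx => by
    obtain ⟨e⟩ := ((Group.isNilpotent_of_finite_tfae (G := G ⧸ F)).out 0 4).1 h3
    rw [← e.symm.map_eq_one_iff]
    ext p P : 2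
    have := Fact.mk (Nat.prime_of_mem_primeFactors p.2)
    obtain ⟨Q, rfl⟩ := Sylow.mapSurjective_surjective hπ p P
    obtain ⟨y, y1, y2⟩ := (((hx.map e.symm.toMonoidHom).map (Pi.evalMonoidHom _ p)).map
      (Pi.evalMonoidHom _ (Q.mapSurjective hπ))).lift (π.subgroupMap Q) (π.subgroupMap_surjective Q)
    exact y2.symm.trans (Subtype.ext (h1 p (Q.mapSurjective hπ) (Q.mapSurjective hπ).2 Q Q.2 y y.2
      (mem_map_of_mem _ y.2) (y1.map (Q : Subgroup G).subtype)))
  have := isNilpotent_fittingSubgroup G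
  exact Group.nilpotent_of_mulEquiv (subgroupOfEquivOfLe
    (lcs_le F fun x hx => (QuotientGroup.eq_one_iff x).1 (h4 _ (hx.map π))))

end Cfsg.Agent.H19.BW
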