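import Cfsg.Agent.H19.BW1
import Cfsg.Agent.H6.ZStar2
import Cfsg.Agent.H2.Subnormal
import Cfsg.Agent.H11.Invol
import Cfsg.Agent.FT

/-! A criterion of Baumslag-Wiegold type for terms of the lower central series -/

set_option autoImplicit false

namespace Cfsg.Agent.H19.BW

open Subgroup Cfsg.Agent.H1
open scoped commutatorElement Pointwise

universe u
variable {k : ℕ}

theorem odd_inverted {G : Type*} [Group G] [Finite G] {t : G} (ht : t * t = 1) (h : t ∉ pCore 2 G) :
    ∃ y : G, y ≠ 1 ∧ Odd (orderOf y) ∧ t * y * t⁻¹ = y⁻¹ := by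
  by_contra! hc
  refine h (H2.le_pCore_of_forall_conj (A := zpowers t) (fun g => ?_) (mem_zpowers t))
  have hu : g * t * g⁻¹ * (g * t * g⁻¹) = 1 := by
    rw [show g * t * g⁻¹ * (g * t * g⁻¹) = g * (t * t) * g⁻¹ by group, ht]; group
  have hle : (zpowers t ⊔ MulAut.conj g • zpowers t : Subgroup G) ≤ closure {t, g * t * g⁻¹} := by
    refine sup_le (zpowers_le.2 (subset_closure (by simp))) fun z hz => ?_
    obtain ⟨k, hk⟩ := mem_zpowers_iff.1 (H11.mem_conj_smul.1 hz)
    have : z = (g * t * g⁻¹) ^ k := by rw [conj_zpow, hk]; group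
    rw [this]
    exact zpow_mem (subset_closure (by simp)) k
  refine IsPGroup.to_le ?_ hle
  generalize g * t * g⁻¹ = u at hu
  obtain ⟨k, m, hm, hkm⟩ := Nat.exists_eq_two_pow_mul_odd (orderOf_pos (t * u)).ne'
  have hinv := H11.invol_inverts_left ht hu
  have h1 : (t * u) ^ 2 ^ k = 1 := by
    by_contra e
    refine hc _ e (hm.of_dvd_nat (orderOf_dvd_of_pow_eq_one ?_)) ?_
    · rw [← pow_mul, ← hkm, pow_orderOf_eq_one]
    · rw [← conj_pow, hinv, inv_pow]
  rintro ⟨z, hz⟩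
  obtain ⟨j, hj | hj⟩ := (H11.mem_closure_pair_iff ht hu).1 hz
  · refine ⟨k, Subtype.ext ?_⟩
    change z ^ 2 ^ k = 1
    rw [hj, ← zpow_natCast, ← zpow_mul, mul_comm j, zpow_mul, zpow_natCast, h1, one_zpow]
  · refine ⟨1, Subtype.ext ?_⟩
    change z ^ 2 ^ 1 = 1
    have h2 := H11.mul_zpow_of_inv hinv j
    rw [hj, pow_one, sq]
    nth_rewrite 1 [h2]
    rw [mul_assoc, ← mul_assoc t t, ht, one_mul, zpow_neg, inv_mul_cancel]

theorem L.sub {G : Type*} [Group G] (h : L k G) (M : Subgroup G) : L k M := fun x n hx hc =>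
  Subtype.ext (h x n (hx.map M.subtype) (by rwa [← orderOf_coe, ← orderOf_coe] at hc))

theorem norm_zp {G : Type*} [Group G] [Finite G] {x y : G} (h : x * y * x⁻¹ ∈ zpowers y) :
    x ∈ normalizer (zpowers y : Set G) := mem_normalizer_fintype fun _ ⟨i, e⟩ => by
  rw [← e, ← conj_zpow]; exact zpow_mem h i

theorem main (n : ℕ) : ∀ (G : Type u) [Group G] [Finite G], Nat.card G = n → L k G →
    Group.IsNilpotent ((⊤ : Subgroup G).lowerCentralSeries k) := by
  induction n using Nat.strong_induction_on with | _ n ih => ?_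
  intro G _ _ hn h
  refine h.solv (by_contra fun hG => ?_)
  obtain ⟨R, ⟨_, r2⟩, hR⟩ := (wellFounded_gt (α := Subgroup G)).has_min
    {M : Subgroup G | M.Normal ∧ Group.IsSolvable M} ⟨⊥, inferInstance, inferInstance⟩
  set π := QuotientGroup.mk' R
  have hπ : Function.Surjective π := QuotientGroup.mk'_surjective R
  have h0 : ∀ N : Subgroup (G ⧸ R), N.Normal → Group.IsSolvable N → N = ⊥ := fun N _ _ => by
    have e : R ≤ N.comap π := fun x hx => by simp [π, (QuotientGroup.eq_one_iff x).2 hx]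
    have := Group.isSolvable_of_ker_le_range (inclusion e) (π.subgroupComap N) fun x hx =>
      ⟨⟨x, (QuotientGroup.eq_one_iff _).1 (congrArg Subtype.val hx)⟩, rfl⟩
    rw [← map_comap_eq_self_of_surjective hπ N, ← e.eq_of_not_lt (hR _ ⟨inferInstance, this⟩), Subgroup.map_eq_bot_iff,
      QuotientGroup.ker_mk']
  have h1 : pPrimeCore 2 (G ⧸ R) = ⊥ := h0 _ inferInstance
    (FT.solvable_of_odd (Nat.coprime_two_right.1 (coprime_card_pPrimeCore 2 _)))
  have h2 : ∀ j, ∃ z : G, Val j z ∧ IsPGroup 2 (zpowers z) ∧ orderOf (π z) = 2 := fun j => by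
    induction j with
    | zero =>
      obtain ⟨z, hz⟩ := exists_prime_orderOf_dvd_card' (G := G ⧸ R) 2 (FT.even_of_not_solvable fun _ =>
        hG (Group.isSolvable_of_ker_le_range R.subtype π (by simp [π]))).two_dvd
      obtain ⟨S, hS⟩ := (IsPGroup.of_card (G := zpowers z) (n := 1) (by simpa)).exists_le_sylow
      obtain ⟨S, rfl⟩ := Sylow.mapSurjective_surjective hπ 2 S
      obtain ⟨z, z1, rfl⟩ := hS (mem_zpowers z)
      exact ⟨z, .zero z, S.2.to_le (zpowers_le.2 z1), hz⟩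
    | succ j ih =>
      obtain ⟨z, z1, z2, z3⟩ := ih
      obtain ⟨g, g1, g2⟩ : ∃ g, Commute (π z) (g * π z * g⁻¹) ∧ g * π z * g⁻¹ ≠ π z := by
        by_contra! f
        have := H6.mem_center_of_isolated h1 z3 f
        rw [h0 (center _) inferInstance (Group.isSolvable_of_comm fun a b => Subtype.ext (b.2.comm _).symm),
          mem_bot] at this
        simp [this] at z3
      obtain ⟨g, rfl⟩ := hπ g
      have z4 : π z ^ 2 = 1 := z3 ▸ pow_orderOf_eq_one _
      have z5 : (π g * π z * (π g)⁻¹) ^ 2 = 1 := by simp [conj_pow, z4]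
      obtain ⟨S, hS⟩ := IsPGroup.exists_le_sylow (p := 2) (P := zpowers (π z) ⊔ zpowers (π g * π z * (π g)⁻¹))
        (IsPGroup.to_sup_of_normal_right' (.of_card (n := 1) (by simpa)) (.of_card (n := 1) (by
          rw [Nat.card_zpowers, pow_one, ← z3]; exact (MulAut.conj (π g)).orderOf_eq (π z)))
          (zpowers_le.2 (norm_zp (by rw [g1.eq, mul_inv_cancel_right]; exact mem_zpowers _))))
      obtain ⟨S, rfl⟩ := Sylow.mapSurjective_surjective hπ 2 S
      have f : ∀ x, IsPGroup 2 (zpowers x) → π x ∈ (S : Subgroup G).map π → ∃ n ∈ R, n * x * n⁻¹ ∈ (S : Subgroup G) :=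
        fun x hx hx' => (H6.exists_conj_le_of_le_sup S R hx (zpowers_le.2 (by
          rwa [← mem_comap, comap_map_eq, QuotientGroup.ker_mk', sup_comm] at hx'))).imp
          fun n hn => ⟨hn.1, hn.2 x (mem_zpowers x)⟩
      obtain ⟨a, a1, a2⟩ := f z z2 (hS (mem_sup_left (mem_zpowers _)))
      obtain ⟨b, b1, b2⟩ := f (g * z * g⁻¹) (by
        have := z2.map (MulAut.conj g).toMonoidHom
        rwa [MonoidHom.map_zpowers] at this) (hS (mem_sup_right (by simp)))
      have a3 : π a = 1 := (QuotientGroup.eq_one_iff a).2 a1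
      have b3 : π b = 1 := (QuotientGroup.eq_one_iff b).2 b1
      have e : ⁅a * z * a⁻¹, b * g * a⁻¹⁆ = a * z * a⁻¹ * (b * (g * z * g⁻¹) * b⁻¹)⁻¹ := by
        rw [commutatorElement_def]; group
      refine ⟨_, (z1.conj a).succ (b * g * a⁻¹), S.2.to_le (zpowers_le.2 (e ▸ mul_mem a2 (inv_mem b2))), ?_⟩
      simp only [e, map_mul, map_inv, a3, b3, one_mul, inv_one, mul_one]
      exact orderOf_eq_prime (by rw [g1.inv_right.mul_pow, inv_pow, z4, z5]; simp) (mt mul_inv_eq_one.1 g2.symm)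
  obtain ⟨t, t1, t2, t3⟩ := h2 k
  have t4 : π t * π t = 1 := by rw [← sq, ← t3, pow_orderOf_eq_one]
  obtain ⟨y, y1, y2, y3⟩ := odd_inverted t4 (by
    rw [h0 (pCore 2 _) inferInstance (have := (isPGroup_pCore 2 (G ⧸ R)).isNilpotent; inferInstance), mem_bot]
    intro e; simp [e] at t3)
  obtain ⟨a, rfl⟩ := hπ y
  let M := (normalizer (zpowers (π a) : Set (G ⧸ R))).comap π
  have m1 : M ≠ ⊤ := fun e => y1 (mem_bot.1 (h0 (zpowers (π a)) (normalizer_eq_top_iff.1 (by
    rw [← map_comap_eq_self_of_surjective hπ (normalizer _), show comap π _ = ⊤ from e, map_top_of_surjective _ hπ]))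
    inferInstance ▸ mem_zpowers _))
  have m2 : t ∈ M := norm_zp (y3 ▸ inv_mem (mem_zpowers _))
  have m3 : a ∈ M := le_normalizer (mem_zpowers _)
  have m4 := ih _ (hn ▸ card_lt_of_ne_top m1) M rfl (h.sub M)
  have m6 : ∀ j, ⁅π a ^ j, π t⁆ = π a ^ (j * 2) := fun j => by
    rw [commutatorElement_def, mul_assoc, mul_assoc, ← mul_assoc (π t), ← inv_pow, ← conj_pow, ← conj_inv, y3, inv_inv,
      mul_two, pow_add]
  have m5 : ∀ j, ∃ c : M, Val j c ∧ π c = π a ^ 2 ^ j := fun j => by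
    induction j with
    | zero => exact ⟨⟨a, m3⟩, .zero _, by simp⟩
    | succ j ih =>
      obtain ⟨c, c1, c2⟩ := ih
      exact ⟨_, c1.succ ⟨t, m2⟩, (map_commutatorElement π (c : G) t).trans (by rw [c2, m6, pow_succ])⟩
  obtain ⟨c, c1, c2⟩ := m5 k
  obtain ⟨u, hu, v, hv, rfl⟩ := mem_sup_of_normal_right.1
    (fittingSubgroup_le_pCore_sup_pPrimeCore 2 (le_fittingSubgroup m4 c1.mem))
  have n1 : ∀ (N : Subgroup M) [N.Normal], ∀ x ∈ N, ⁅(⟨t, m2⟩ : M), x⁆ ∈ N := fun N _ x hx =>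
    mul_mem (Normal.conj_mem inferInstance x hx _) (inv_mem hx)
  have n2 : ⁅t, (v : G)⁆ = 1 := h t v t1 (coprime_of t2 (N := (pPrimeCore 2 M).map M.subtype)
    (coprime_card_map_pPrimeCore 2 M) (mem_zpowers t) (mem_map_of_mem _ (n1 _ v hv)))
  obtain ⟨i, hi⟩ := isPGroup_pCore 2 M ⟨_, inv_mem (n1 _ u hu)⟩
  have n3 : ⁅((u * v : M) : G), t⁆ ^ 2 ^ i = 1 := by
    rw [commutatorElement_eq_one_iff_mul_comm] at n2
    rw [← show (⁅t, (u : G)⁆⁻¹) ^ 2 ^ i = 1 from congrArg (Subtype.val ∘ Subtype.val) hi, coe_mul,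
      commutatorElement_inv, commutatorElement_def, commutatorElement_def, mul_assoc _ _ t, ← n2]
    group
  have n4 := congrArg π n3
  rw [map_pow, map_commutatorElement, c2, m6, ← pow_mul, map_one, ← pow_succ, ← pow_add] at n4
  exact y1 (orderOf_eq_one_iff.1 (((Nat.coprime_two_right.2 y2).pow_right _).eq_one_of_dvd
    (orderOf_dvd_of_pow_eq_one n4)))

theorem criterion {G : Type*} [Group G] [Finite G] : Group.IsNilpotent ((⊤ : Subgroup G).lowerCentralSeries k) ↔
    ∀ x y : G, Val k x → Val k y → (orderOf x).Coprime (orderOf y) →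
      (∀ r : ℕ, r.Prime → r ∣ orderOf x * orderOf y → r ∣ orderOf (x * y)) ∨
        orderOf x * orderOf y ≤ orderOf (x * y) := by
  refine ⟨fun h x y hx hy hc => .inr (Commute.orderOf_mul_eq_mul_orderOf_of_coprime ?_ hc).ge,
    fun h => main _ G rfl fun x n hx hc => ?_⟩
  · exact (comm_of_nil (x := ⟨x, hx.mem⟩) (y := ⟨y, hy.mem⟩) (by simpa)).map (Subgroup.subtype _)
  have e : orderOf (⁅x, n⁆⁻¹ * x) = orderOf x := by
    rw [commutatorElement_inv, commutatorElement_def, inv_mul_cancel_right]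
    exact (MulAut.conj n).orderOf_eq x
  have := h _ _ (hx.succ n).of_succ.inv hx (by rw [orderOf_inv]; exact hc.symm)
  rw [e, orderOf_inv] at this
  rw [← orderOf_eq_one_iff]
  rcases this with f | f
  · by_contra f1
    obtain ⟨r, r1, r2⟩ := Nat.exists_prime_and_dvd f1
    exact r1.ne_one (Nat.eq_one_of_dvd_coprimes hc (f r r1 (r2.mul_right _)) r2)
  · have := orderOf_pos x
    have := orderOf_pos ⁅x, n⁆
    nlinarith

end Cfsg.Agent.H19.BW
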