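import Mathlib

/-! The largest prime divisor of a binomial coefficient -/

set_option autoImplicit false

namespace Cfsg.Agent.H19.Der

open Finset

theorem pow_le_mul_choose {a b : ℕ} (hab : b ≤ a) (s n : ℕ) (h : a * s ≤ b * n) (hs : s ≤ n) :
    a ^ s ≤ b ^ s * n.choose s := by
  induction s generalizing n with
  | zero => simp
  | succ s ih =>
    obtain ⟨n, rfl⟩ : ∃ k, n = k + 1 := ⟨n - 1, by omega⟩
    have := ih n (by nlinarith) (by omega)
    refine Nat.le_of_mul_le_mul_right (c := s + 1) ?_ s.succ_pos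
    rw [mul_assoc (b ^ _), ← Nat.add_one_mul_choose_eq]
    calc a ^ (s + 1) * (s + 1) = a ^ s * (a * (s + 1)) := by ring
      _ ≤ b ^ s * n.choose s * (b * (n + 1)) := Nat.mul_le_mul this h
      _ = _ := by ring

theorem pow_lt_choose {s n : ℕ} (hs : 0 < s) (h : s * s ≤ n) (hn : 2 ≤ n) :
    n ^ #{p ∈ range (s + 1) | p.Prime} < n.choose s := by
  by_cases h9 : s < 9
  · obtain ⟨t, rfl⟩ : ∃ t, n = t + (s * s - s) + s := ⟨n - s * s, by have := Nat.le_mul_self s; omega⟩
    refine Nat.lt_of_mul_lt_mul_left (a := s.factorial) ?_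
    rw [← Nat.ascFactorial_eq_factorial_mul_choose]
    rw [show #{p ∈ range (s + 1) | p.Prime} = [0, 0, 1, 2, 2, 3, 3, 4, 4].getD s 0 by interval_cases s <;> decide,
      ← Nat.cast_lt (α := ℤ), ← sub_pos]
    interval_cases s
    · simp [Nat.ascFactorial_succ]; omega
    all_goals
      simp only [Nat.ascFactorial_succ, Nat.ascFactorial_zero, Nat.factorial, List.getD_cons_succ, List.getD_cons_zero]
      push_cast; ring_nf; positivity
  have h1 : #{p ∈ range (s + 1) | p.Prime} ≤ #((Icc 1 ((s + 1) / 2)).erase 5) :=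
    card_le_card_of_injOn (fun p => (p + 1) / 2) (fun p hp => by
      simp only [coe_filter, mem_range, Set.mem_setOf_eq, coe_erase, coe_Icc, Set.mem_diff, Set.mem_Icc,
        Set.mem_singleton_iff] at hp ⊢
      have := hp.2.two_le
      refine ⟨by omega, fun e => ?_⟩
      obtain rfl | rfl : p = 9 ∨ p = 10 := by omega
      all_goals exact absurd hp.2 (by norm_num)) fun p hp q hq e => by
      simp only [coe_filter, Set.mem_setOf_eq] at hp hq e
      have := hp.2.eq_two_or_odd
      have := hq.2.eq_two_or_odd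
      have := hp.2.two_le
      have := hq.2.two_le
      omega
  rw [card_erase_of_mem (by simp; omega), Nat.card_Icc] at h1
  have h2 := pow_le_mul_choose (a := n) (b := s) (by nlinarith) s n (by rw [mul_comm]) (by nlinarith)
  by_contra! f
  have h3 : (n ^ s) ^ 2 ≤ n ^ s * n ^ (s - 1) := calc
    _ ≤ (s ^ s * n ^ ((s + 1) / 2 - 1)) ^ 2 := Nat.pow_le_pow_left (h2.trans (Nat.mul_le_mul_left _
      (f.trans (Nat.pow_le_pow_right (by omega) (by omega))))) 2
    _ = (s * s) ^ s * n ^ (((s + 1) / 2 - 1) * 2) := by rw [mul_pow, mul_pow, pow_mul, sq]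
    _ ≤ _ := Nat.mul_le_mul (Nat.pow_le_pow_left h s) (Nat.pow_le_pow_right (by omega) (by omega))
  rw [← pow_mul, ← pow_add] at h3
  have := (Nat.pow_le_pow_iff_right (by omega)).1 h3
  omega

theorem choose_mono {n a b : ℕ} (h : a ≤ b) (hb : 2 * b ≤ n) : n.choose a ≤ n.choose b := by
  induction h with
  | refl => rfl
  | step h ih => exact (ih (by omega)).trans (Nat.choose_le_succ_of_lt_half_left (by omega))

theorem largest_prime {n k r : ℕ} (hk : 0 < k) (hn : 2 * k ≤ n) (h : ∀ p, p.Prime → p ∣ n.choose k → p ≤ r) :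
    k < r ∨ n < r * r := by
  by_contra! f
  have r0 : 0 < r := by
    obtain ⟨p, p1, p2⟩ := Nat.exists_prime_and_dvd (n := n.choose k) (by
      have := choose_mono (show 1 ≤ k from hk) hn
      rw [Nat.choose_one_right] at this; omega)
    exact p1.pos.trans_le (h p p1 p2)
  have h1 := pow_lt_choose r0 f.2 (by omega)
  have h2 : n.choose r ≤ n.choose k := choose_mono f.1 hn
  refine (h1.trans_le h2).not_ge ?_
  conv_lhs => rw [← Nat.factorization_prod_pow_eq_self (Nat.choose_pos (show k ≤ n by omega)).ne']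
  refine (prod_le_pow_card _ _ n fun p _ => Nat.pow_factorization_choose_le (by omega)).trans
    (Nat.pow_le_pow_right (by omega) (card_le_card fun p hp => ?_))
  rw [Nat.support_factorization, Nat.mem_primeFactors] at hp
  simpa [hp.1, Nat.lt_succ_iff] using h p hp.1 hp.2.1

theorem mod_lt_mod {n k r : ℕ} (hr : r.Prime) (hn : k ≤ n) (h : r ∣ n.choose k) (h' : k < r ∨ n < r * r) :
    n % r < k % r := by
  by_contra! f
  have := Fact.mk hr
  have h1 : ∀ a b, b ≤ a → a < r → ¬ r ∣ a.choose b := fun a b hb ha e =>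
    (hr.dvd_factorial.1 (e.trans ⟨_, by rw [← Nat.choose_mul_factorial_mul_factorial hb, mul_assoc]⟩)).not_gt ha
  rcases hr.dvd_mul.1 (((Choose.choose_modEq_choose_mod_mul_choose_div_nat (p := r)).dvd_iff dvd_rfl).1 h) with e | e
  · exact h1 _ _ f (Nat.mod_lt _ hr.pos) e
  rcases h' with h' | h'
  · simp [Nat.div_eq_of_lt h', hr.ne_one] at e
  · exact h1 _ _ (Nat.div_le_div_right hn) (Nat.div_lt_of_lt_mul h') e

end Cfsg.Agent.H19.Der
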