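import Cfsg.Agent.H19.Der1
import Cfsg.Agent.H2.Perm7
import Cfsg.Agent.GW.AltAut

/-! Prime order derangements in primitive groups with alternating socle -/

set_option autoImplicit false

namespace Cfsg.Agent.H19.Der

open Finset Equiv Equiv.Perm MulAction
open scoped Pointwise

variable {X : Type*} [Fintype X] [DecidableEq X]

theorem mod_le_of_stab {τ : Perm X} {p : ℕ} (hp : p.Prime)
    (h : τ.cycleType = Multiset.replicate (Fintype.card X / p) p) {Δ : Finset X} (hΔ : τ • Δ = Δ) :
    #Δ % p ≤ Fintype.card X % p := by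
  have := Fact.mk hp
  have h1 : ∀ x, τ x ∈ Δ ↔ x ∈ Δ := fun x => by
    conv_lhs => rw [← hΔ]
    exact smul_mem_smul_finset_iff τ
  have h2 : τ ^ p ^ 1 = 1 := by
    rw [pow_one, pow_prime_eq_one_iff, h]
    exact fun c hc => Multiset.eq_of_mem_replicate hc
  have h3 := card_compl_support_modEq (p := p) (n := 1) (σ := τ.subtypePerm h1) (by
    ext x; rw [subtypePerm_pow, subtypePerm_apply]; simp [pow_one p ▸ h2])
  rw [Fintype.card_coe] at h3
  rw [← h3]
  refine (Nat.mod_le _ _).trans ((card_le_card_of_injOn Subtype.val (t := τ.supportᶜ) (fun x hx => ?_)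
    Subtype.val_injective.injOn).trans ?_)
  · simpa [Subtype.ext_iff] using hx
  · rw [card_compl, ← sum_cycleType, h, Multiset.sum_replicate, smul_eq_mul, Nat.mod_def, mul_comm]

theorem prim_of_cycle (H : Subgroup (Perm X)) [IsPretransitive H X] {τ : Perm X} (hτ : τ ∈ H) {p : ℕ}
    (hp : p.Prime) (h : τ.cycleType = {p}) (h2 : Fintype.card X < 2 * p) : IsPreprimitive H X := by
  classical
  have h3 : #τ.support = p := by rw [← sum_cycleType, h, Multiset.sum_singleton]
  have := isPretransitive_of_isCycle_mem (card_cycleType_eq_one.1 (by simp [h])) hτ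
  have h4 : Nat.card (SubMulAction.ofFixingSubgroup H (τ.support : Set X)ᶜ) = p := by
    rw [Nat.card_eq_fintype_card, Fintype.card_subtype, ← h3]
    congr 1; ext x
    simp [SubMulAction.mem_ofFixingSubgroup_iff]
  have := IsPreprimitive.of_prime_card (G := fixingSubgroup H (τ.support : Set X)ᶜ) (h4 ▸ hp)
  refine IsPreprimitive.of_card_lt (f := SubMulAction.ofFixingSubgroup_equivariantMap H (τ.support : Set X)ᶜ) ?_
  rwa [← Nat.card_coe_set_eq, Nat.card_range_of_injective (f := ⇑(SubMulAction.ofFixingSubgroup_equivariantMap H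
    (τ.support : Set X)ᶜ)) Subtype.val_injective, h4, Nat.card_eq_fintype_card]

theorem core {G Ω : Type*} [Group G] [Finite G] [MulAction G Ω] [FaithfulSMul G Ω] [Finite Ω] [IsPretransitive G Ω]
    (ι : G →* Perm X) (hι : Function.Injective ι) (hA : alternatingGroup X ≤ ι.range) (hm : 5 ≤ Fintype.card X)
    (hG : IsPreprimitive G Ω ∨ Fintype.card X = 6) (hΩ : 2 ≤ Nat.card Ω) {r : ℕ} (hr : r.Prime)
    (hrd : r ∣ Nat.card Ω) (hmax : ∀ s : ℕ, s.Prime → s ∣ Nat.card Ω → s ≤ r) :
    ∃ g : G, orderOf g = r ∧ ∀ ω : Ω, g • ω ≠ ω := by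
  classical
  by_contra! hfix
  have : Nontrivial Ω := Finite.one_lt_card_iff_nontrivial.1 hΩ
  have := Fintype.ofFinite Ω
  obtain ⟨ω⟩ : Nonempty Ω := inferInstance
  set H := (stabilizer G ω).map ι with hH
  have h0 : ∀ g c : G, ι (c⁻¹ * g * c) ∈ H ↔ g • c • ω = c • ω := fun g c => by
    rw [hH, Subgroup.mem_map_iff_mem hι, mem_stabilizer_iff, mul_smul, mul_smul, inv_smul_eq_iff]
  have h1 : ∀ p a, p.Prime → 0 < a → a * p ≤ Fintype.card X → Odd p ∨ Even a →
      ∃ g : G, ι g ∈ alternatingGroup X ∧ orderOf g = p ∧ (ι g).cycleType = Multiset.replicate a p :=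
    fun p a hp a0 ha ho => by
    obtain ⟨σ, hσ⟩ := (exists_with_cycleType_iff X (m := Multiset.replicate a p)).2
      ⟨by simpa, fun c hc => Multiset.eq_of_mem_replicate hc ▸ hp.two_le⟩
    have f : σ ∈ alternatingGroup X := by
      rw [mem_alternatingGroup, sign_of_cycleType, hσ]
      refine Even.neg_one_pow ?_
      simp only [Multiset.sum_replicate, smul_eq_mul, Multiset.card_replicate, ← Nat.mul_succ]
      exact ho.elim (fun e => e.add_one.mul_left a) fun e => e.mul_right _
    obtain ⟨g, rfl⟩ := hA f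
    refine ⟨g, f, ?_, hσ⟩
    have := Fact.mk hp
    rw [← orderOf_injective ι hι]
    refine orderOf_eq_prime (pow_prime_eq_one_iff.2 fun c hc => Multiset.eq_of_mem_replicate (hσ ▸ hc)) fun e => ?_
    simpa [e, a0.ne] using congrArg Multiset.card hσ
  have h2 : ¬ alternatingGroup X ≤ H := fun e => by
    obtain ⟨g, g1, g2, -⟩ := h1 3 1 Nat.prime_three one_pos (by omega) (.inl (by decide))
    obtain rfl : g = 1 := eq_of_smul_eq_smul fun x : Ω => by
      obtain ⟨c, rfl⟩ := exists_smul_eq G ω x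
      rw [one_smul, ← h0]
      exact e (by simpa using (alternatingGroup.normal).conj_mem' _ g1 (ι c))
    simp at g2
  have h3 : ∀ p a, p.Prime → p = r ∨ ¬ p ∣ Nat.card Ω → 0 < a → a * p ≤ Fintype.card X → Odd p ∨ Even a →
      ∃ τ ∈ H, τ.cycleType = Multiset.replicate a p := fun p a hp hpr a0 ha ho => by
    obtain ⟨g, -, g2, g3⟩ := h1 p a hp a0 ha ho
    obtain ⟨x, hx⟩ : ∃ x : Ω, g • x = x := hpr.elim (fun e => hfix g (g2.trans e)) fun e => by
      have := Fact.mk hp
      exact exists_fixed_point_of_prime (p := p) (n := 1) (by rwa [← Nat.card_eq_fintype_card])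
        (σ := toPermHom G Ω g) (by rw [← map_pow, pow_one, ← g2, pow_orderOf_eq_one, map_one])
    obtain ⟨c, rfl⟩ := exists_smul_eq G ω x
    exact ⟨_, (h0 g c).2 hx, by simpa [g3] using cycleType_conj (σ := ι g) (τ := (ι c)⁻¹)⟩
  have h4 : 2 * r ≤ Fintype.card X := by
    have := Fact.mk hr
    have e : Nat.card (stabilizer G ω) * Nat.card Ω = Nat.card G := by
      rw [← index_stabilizer_of_transitive G ω, Subgroup.card_mul_index]
    obtain ⟨g, hg⟩ := exists_prime_orderOf_dvd_card' (G := G) r (e ▸ hrd.mul_left _)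
    obtain ⟨x, hx⟩ := hfix g hg
    have f1 : r ∣ Nat.card (stabilizer G ω) := by
      have e' : Nat.card (stabilizer G x) * Nat.card Ω = Nat.card G := by
        rw [← index_stabilizer_of_transitive G x, Subgroup.card_mul_index]
      rw [Nat.eq_of_mul_eq_mul_right (by omega) (e.trans e'.symm), ← hg]
      exact Subgroup.orderOf_dvd_natCard _ hx
    have f2 : r ^ 2 ∣ (Fintype.card X).factorial := by
      rw [← Fintype.card_perm, ← Nat.card_eq_fintype_card]
      exact (sq r ▸ e ▸ mul_dvd_mul f1 hrd).trans (Subgroup.card_dvd_of_injective ι hι)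
    by_contra! f
    rw [hr.pow_dvd_factorial_iff (b := 2) (Nat.log_lt_of_lt_pow (by omega) (by nlinarith [hr.two_le]))] at f2
    simp only [Nat.Ico_succ_singleton, sum_singleton, pow_one, Nat.le_div_iff_mul_le hr.pos] at f2
    omega
  by_cases ht : IsPretransitive H X
  · obtain ⟨p, hp, p1, p2⟩ := Nat.exists_prime_lt_and_le_two_mul (Fintype.card X / 2) (by omega)
    obtain ⟨τ, t1, t2⟩ := h3 p 1 hp (.inr fun e => by have := hmax p hp e; omega) one_pos (by omega)
      (.inl (hp.odd_of_ne_two (by omega)))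
    have := prim_of_cycle H t1 hp t2 (by omega)
    by_cases r2 : r = 2
    · obtain ⟨σ, s1, s2⟩ := h3 3 1 Nat.prime_three (.inr fun e => by have := hmax 3 Nat.prime_three e; omega)
        one_pos (by omega) (.inl (by decide))
      exact h2 (alternatingGroup_le_of_isPreprimitive_of_isThreeCycle_mem this s2 s1)
    · obtain ⟨σ, s1, s2⟩ := h3 r 1 hr (.inl rfl) one_pos (by omega) (.inl (hr.odd_of_ne_two r2))
      exact h2 (H2.Pm.jordan_cycle H this hr (by have := hr.two_le; omega) (card_cycleType_eq_one.1 (by simp [s2]))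
        (by rw [← sum_cycleType, s2]; simp) s1)
  obtain ⟨Δ, d0, d1, d2⟩ : ∃ Δ : Finset X, 0 < #Δ ∧ 2 * #Δ ≤ Fintype.card X ∧ ∀ τ ∈ H, τ • Δ = Δ := by
    obtain ⟨a⟩ : Nonempty X := Fintype.card_pos_iff.1 (by omega)
    rw [isPretransitive_iff_orbit_eq_univ a, ← Ne, Set.ne_univ_iff_exists_notMem] at ht
    obtain ⟨b, hb⟩ := ht
    have f : ∀ τ ∈ H, ∀ x, τ.symm x ∈ orbit H a ↔ x ∈ orbit H a := fun τ hτ x => by
      rw [← smul_orbit (⟨τ, hτ⟩ : H) a, Set.mem_smul_set_iff_inv_smul_mem (x := x), smul_orbit]; rfl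
    have f1 := card_add_card_compl (orbit H a).toFinset
    by_cases f2 : 2 * #(orbit H a).toFinset ≤ Fintype.card X
    · exact ⟨_, card_pos.2 ⟨a, by simp⟩, f2, fun τ hτ => by ext x; simp [← inv_smul_mem_iff, f τ hτ]⟩
    · exact ⟨(orbit H a).toFinsetᶜ, card_pos.2 ⟨b, by simpa⟩, by omega, fun τ hτ => by
        ext x; simp [← inv_smul_mem_iff, f τ hτ]⟩
  have h5 : ∀ p, p.Prime → p = r ∨ ¬ p ∣ Nat.card Ω → p ≤ Fintype.card X → Odd p ∨ Even (Fintype.card X / p) →
      #Δ % p ≤ Fintype.card X % p := fun p hp hpr p1 ho => by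
    obtain ⟨τ, t1, t2⟩ := h3 p _ hp hpr (Nat.div_pos p1 hp.pos) (Nat.div_mul_le_self _ _) ho
    exact mod_le_of_stab hp t2 (d2 τ t1)
  rcases hG with hG | h6
  swap
  · have f1 := h5 5 Nat.prime_five (.inr fun e => by have := hmax 5 Nat.prime_five e; omega) (by omega)
      (.inl (by decide))
    have f2 := h5 3 Nat.prime_three (or_iff_not_imp_right.2 fun e => by
      have := hmax 3 Nat.prime_three (not_not.1 e); omega) (by omega) (.inl (by decide))
    omega
  have h6 : Nat.card Ω = (Fintype.card X).choose #Δ := by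
    letI := MulAction.compHom (Set.powersetCard X #Δ) ι
    have := Set.powersetCard.isPretransitive_alternatingGroup (α := X) (n := #Δ) (by simp; omega)
    have : IsPretransitive G (Set.powersetCard X #Δ) := ⟨fun a b => by
      obtain ⟨σ, hσ⟩ := exists_smul_eq (alternatingGroup X) a b
      obtain ⟨g, hg⟩ := hA σ.2
      exact ⟨g, (congrArg (· • a) hg).trans hσ⟩⟩
    let D : Set.powersetCard X #Δ := ⟨Δ, rfl⟩
    have f1 : stabilizer G ω ≤ stabilizer G D := fun g hg => Subtype.ext (d2 _ ⟨g, hg, rfl⟩)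
    have f2 := index_stabilizer_of_transitive G D
    rw [Set.powersetCard.card, Nat.card_eq_fintype_card] at f2
    rw [← f2, ← index_stabilizer_of_transitive G ω]
    rcases (IsPreprimitive.isCoatom_stabilizer_of_isPreprimitive G ω).le_iff.1 f1 with e | e
    · have := choose_mono (show 1 ≤ #Δ from d0) d1
      rw [← f2, e, Subgroup.index_top, Nat.choose_one_right] at this
      omega
    · rw [e]
  rw [h6] at hrd hmax
  have h7 := largest_prime d0 d1 hmax
  refine (h5 r hr (.inl rfl) (by omega) ?_).not_gt (mod_lt_mod hr (by omega) hrd h7)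
  refine hr.eq_two_or_odd'.symm.imp_right ?_
  rintro rfl
  rw [show #Δ = 1 by omega, Nat.choose_one_right] at hmax
  rcases Nat.four_dvd_or_exists_odd_prime_and_dvd_of_two_lt (n := Fintype.card X) (by omega) with
    ⟨k, e⟩ | ⟨p, p1, p2, p3⟩
  · exact ⟨k, by omega⟩
  · have := hmax p p1 p2
    have := p1.two_le
    obtain rfl : p = 2 := by omega
    exact absurd p3 (by decide)

theorem derangement {G Ω : Type*} [Group G] [Finite G] [MulAction G Ω] [FaithfulSMul G Ω] [Finite Ω]
    (T : Subgroup G) [T.Normal] (hTc : Subgroup.centralizer (T : Set G) = ⊥) (hm : 5 ≤ Fintype.card X)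
    (eT : T ≃* alternatingGroup X) [hG : IsPreprimitive G Ω] (hΩ : 2 ≤ Nat.card Ω) {r : ℕ} (hr : r.Prime)
    (hrd : r ∣ Nat.card Ω) (hmax : ∀ s : ℕ, s.Prime → s ∣ Nat.card Ω → s ≤ r) :
    ∃ g : G, orderOf g = r ∧ ∀ ω : Ω, g • ω ≠ ω := by
  by_cases h6 : Fintype.card X = 6
  · have : IsPretransitive T Ω := IsQuasiPreprimitive.isPretransitive_of_normal fun e => by
      have := alternatingGroup.nontrivial_of_three_le_card (α := X) (by simp; omega)
      obtain ⟨x, hx⟩ := exists_ne (1 : alternatingGroup X)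
      exact hx (by simpa using congrArg eT (eq_of_smul_eq_smul (m₁ := eT.symm x) (m₂ := 1) fun y : Ω => by
        simpa using (e.ge (Set.mem_univ y)) (eT.symm x)))
    obtain ⟨g, g1, g2⟩ := core (G := T) ((alternatingGroup X).subtype.comp eT.toMonoidHom)
      (Subtype.val_injective.comp eT.injective) (fun σ hσ => ⟨eT.symm ⟨σ, hσ⟩, by simp⟩) hm (.inr h6) hΩ hr hrd hmax
    exact ⟨g, by simpa using g1, g2⟩
  let e := MulEquiv.ofBijective _ (GW.conjNormal_alt_bijective (α := X) (by omega) h6)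
  refine core (e.symm.toMonoidHom.comp ((MulAut.congr eT).toMonoidHom.comp MulAut.conjNormal))
    ((injective_iff_map_eq_one _).2 fun g hg => Subgroup.mem_bot.1 (hTc ▸ fun t ht => ?_))
    (fun σ hσ => ⟨eT.symm ⟨σ, hσ⟩, e.symm_apply_eq.2 (MulEquiv.ext fun x => ?_)⟩) hm (.inl hG) hΩ hr hrd hmax
  · have : MulAut.conjNormal (H := T) g = 1 :=
      (map_eq_one_iff _ (MulAut.congr eT).injective).1 ((map_eq_one_iff _ e.symm.injective).1 hg)
    exact (mul_inv_eq_iff_eq_mul.1 (congrArg (fun f : MulAut T => (f ⟨t, ht⟩ : G)) this)).symm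
  · have : MulAut.conjNormal (H := T) (eT.symm ⟨σ, hσ⟩ : G) (eT.symm x) = eT.symm (⟨σ, hσ⟩ * x * ⟨σ, hσ⟩⁻¹) :=
      Subtype.ext (by simp)
    refine Subtype.ext ?_
    simp [e, this]

end Cfsg.Agent.H19.Der
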