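import Cfsg.Agent.H19.Dih1

/-! Ma's lemma for the cubic equation of a rational element of a cyclic group ring -/

set_option autoImplicit false

namespace Cfsg.Agent.H19.Dih

open Finset MonoidAlgebra
open scoped Classical Pointwise

open Polynomial in
theorem poly_eis (q b : ℕ) [hq : Fact q.Prime] : ∃ (N : ℕ) (r : ℤ[X]), 0 < N ∧
    ∑ i ∈ range q, ((X + 1 : ℤ[X]) ^ q ^ b) ^ i = X ^ N + (q : ℤ[X]) * (1 + X * r) := by
  have h2 := hq.1.two_le
  have hN : 0 < q ^ b * (q - 1) := Nat.mul_pos (by positivity) (by omega)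
  obtain ⟨f, hf⟩ : C (q : ℤ) ∣ ∑ i ∈ range q, ((X + 1 : ℤ[X]) ^ q ^ b) ^ i - X ^ (q ^ b * (q - 1)) := by
    rw [C_dvd_iff_dvd_coeff]
    intro i
    rw [← ZMod.intCast_zmod_eq_zero_iff_dvd, ← eq_intCast (Int.castRingHom (ZMod q)), ← Polynomial.coeff_map]
    suffices ∑ i ∈ range q, ((X + 1 : (ZMod q)[X]) ^ q ^ b) ^ i = X ^ (q ^ b * (q - 1)) by
      simp [Polynomial.map_sum, this]
    refine mul_right_cancel₀ (b := X ^ q ^ b) (by simp) ?_
    have := geom_sum_mul ((X + 1 : (ZMod q)[X]) ^ q ^ b) q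
    rw [add_pow_char_pow, add_pow_char, one_pow, one_pow, add_sub_cancel_right, add_sub_cancel_right] at this
    rw [add_pow_char_pow, one_pow, this, ← pow_mul, ← pow_add, ← Nat.mul_succ]
    congr 2; omega
  have f0 : f.coeff 0 = 1 := by
    have := congrArg (eval 0) hf
    simp [eval_finset_sum, hN.ne', ← coeff_zero_eq_eval_zero f] at this
    exact (mul_eq_left₀ (by omega)).mp this.symm
  refine ⟨_, f.divX, hN, ?_⟩
  have := X_mul_divX_add f
  rw [f0, map_one] at this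
  rw [add_comm (1 : ℤ[X]), this, ← sub_eq_iff_eq_add', hf]
  simp

theorem ma_abs {S : Type*} [CommRing S] {π r q ρ U : S} {N : ℕ} (hq : π ^ N + q * (1 + π * r) = 0)
    (hπ : ∀ x, π * x = 0 → x = 0) (hr : ∀ x, π ∣ x ^ 3 → π ∣ x) (hU : U ^ 3 = (q * ρ) ^ 2 * U) : q ∣ U := by
  have h1 : ∀ (k : ℕ) x, π ^ k * x = 0 → x = 0 := fun k => by
    induction k with
    | zero => simp
    | succ k ih => exact fun x hx => hπ _ (ih _ (by rw [← hx]; ring))
  have h2 : ∀ k ≤ N, π ^ k ∣ U := fun k hk => by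
    induction k with
    | zero => simp
    | succ k ih =>
      obtain ⟨V, rfl⟩ := ih (by omega)
      obtain ⟨l, rfl⟩ : ∃ l, N = k + l + 1 := ⟨N - k - 1, by omega⟩
      have : (1 + π * r) ^ 2 * V ^ 3 - π ^ (2 * l + 2) * ρ ^ 2 * V = 0 := h1 (3 * k) _ (by
        linear_combination (1 + π * r) ^ 2 * hU + (q * (1 + π * r) - π ^ (k + l + 1)) * ρ ^ 2 * π ^ k * V * hq)
      exact pow_succ π k ▸ mul_dvd_mul_left _ (hr V ⟨π ^ (2 * l + 1) * ρ ^ 2 * V - (2 * r + π * r ^ 2) * V ^ 3,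
        by linear_combination this⟩)
  obtain ⟨V, rfl⟩ := h2 N le_rfl
  exact ⟨-(1 + π * r) * V, by linear_combination V * hq⟩

theorem exists_quot.{u} {R : Type u} [CommRing R] (I : Ideal R) : ∃ (S : Type u) (_ : CommRing S) (φ : R →+* S),
    Function.Surjective φ ∧ ∀ x, φ x = 0 ↔ x ∈ I :=
  ⟨R ⧸ I, inferInstance, Ideal.Quotient.mk I, Ideal.Quotient.mk_surjective, fun _ => Ideal.Quotient.eq_zero_iff_mem⟩

variable {C : Type*} [CommGroup C] [Fintype C]

local notation "⟪" x "⟫" => @Int.cast (MonoidAlgebra _ C) _ x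

theorem mul_univ (x : MonoidAlgebra ℤ C) : x * ind ℤ univ = ⟪∑ g, x.coeff g⟫ * ind ℤ univ := by
  ext g
  rw [coeff_mul', coeff_cast_mul]
  simp

theorem frob_fix {R : Type*} [CommRing R] (ψ : MonoidAlgebra ℤ C →+* R) {q j : ℕ} (hq : q.Prime)
    (h0 : (q : R) = 0) (h : ∀ g : C, ψ (single (g ^ q ^ j) 1) = ψ (single g 1)) (x : MonoidAlgebra ℤ C) :
    ψ x ^ q ^ j = ψ x := by
  rcases subsingleton_or_nontrivial R with _ | _
  · exact Subsingleton.elim _ _
  have := Fact.mk hq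
  have := (CharP.charP_iff_prime_eq_zero hq).2 h0
  refine RingHom.congr_fun (MonoidAlgebra.ringHom_ext (f := (iterateFrobenius R q j).comp ψ) (g := ψ)
    (fun r => ?_) fun g => ?_) x
  · have : (single 1 r : MonoidAlgebra ℤ C) = ⟪r⟫ := by ext g; simp [Finsupp.single_apply, eq_comm]
    rw [this, map_intCast, map_intCast]
  · simp [iterateFrobenius_def, ← map_pow, single_pow, h]

theorem ma [IsCyclic C] {U : MonoidAlgebra ℤ C} {ρ κ : ℤ} (hU : U ^ 3 = ⟪ρ ^ 2⟫ * U + ⟪κ⟫ * ind ℤ univ)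
    {q : ℕ} (hq : q.Prime) (hρ : (q : ℤ) ∣ ρ) : (∀ g g', U.coeff g ≡ U.coeff g' [ZMOD q]) ∨
      ∃ y : C, orderOf y = q ∧ ∀ g, U.coeff (y⁻¹ * g) ≡ U.coeff g [ZMOD q] := by
  obtain ⟨ρ, rfl⟩ := hρ
  have := Fact.mk hq
  obtain ⟨γ, hγ⟩ := IsCyclic.exists_monoid_generator (α := C)
  have o1 : orderOf γ = Fintype.card C := by
    rw [← Nat.card_eq_fintype_card]
    exact orderOf_eq_card_of_forall_mem_powers hγ
  obtain ⟨a, m, hm, hn⟩ := Nat.exists_eq_pow_mul_and_not_dvd (Fintype.card_ne_zero (α := C)) q hq.ne_one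
  have m0 : 0 < m := Nat.pos_of_ne_zero (by rintro rfl; simp at hm)
  obtain ⟨j, l, j3, hj⟩ : ∃ j l, 3 ≤ q ^ j ∧ q ^ j = 1 + m * l := by
    have e := (Nat.ModEq.pow_totient ((hq.coprime_iff_not_dvd.2 hm))).pow 2
    rw [← pow_mul, one_pow] at e
    obtain ⟨l, hl⟩ := (Nat.modEq_iff_exists_eq_add (Nat.one_le_pow _ _ hq.pos)).1 e.symm
    refine ⟨_, l, ?_, hl⟩
    have := Nat.totient_pos.2 m0
    calc 3 ≤ 2 ^ 2 := by norm_num
      _ ≤ q ^ 2 := Nat.pow_le_pow_left hq.two_le 2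
      _ ≤ _ := Nat.pow_le_pow_right hq.pos (by omega)
  have key : ∀ {R : Type _} [CommRing R] (ψ : MonoidAlgebra ℤ C →+* R), (q : R) = 0 →
      ψ (single (γ ^ m) 1) = 1 → ∀ x, ψ x ^ q ^ j = ψ x := fun ψ h0 h1 => frob_fix ψ hq h0 fun g => by
    obtain ⟨i, rfl⟩ := hγ g
    rw [hj, pow_add, pow_one, ← pow_mul, mul_left_comm, pow_mul γ m, ← one_mul (1 : ℤ), ← single_mul_single,
      map_mul, ← one_pow (i * l), ← single_pow, map_pow, h1]
    simp
  cases a with
  | zero =>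
    left
    let ψ := mapRingHom C (Int.castRingHom (ZMod q))
    have e0 : (q : MonoidAlgebra (ZMod q) C) = 0 := by
      rw [← map_natCast (algebraMap (ZMod q) _), ZMod.natCast_self, map_zero]
    have e1 := key ψ e0 (by rw [show m = orderOf γ by simpa [o1] using hn.symm, pow_orderOf_eq_one]; exact map_one ψ) U
    have e2 : ψ U = ψ (⟪κ * ∑ g, (U ^ (q ^ j - 3)).coeff g⟫ * ind ℤ univ) := by
      rw [← e1, ← pow_sub_mul_pow _ j3, ← map_pow ψ U 3, hU, Int.cast_mul κ, mul_assoc, ← mul_univ]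
      simp only [map_add, map_mul, map_pow, Int.cast_pow, Int.cast_mul, Int.cast_natCast, map_natCast, e0]
      ring
    intro g g'
    rw [← ZMod.intCast_eq_intCast_iff]
    have e3 := fun g => congrArg (·.coeff g) e2
    simp only [ψ, coeff_mapRingHom, coeff_cast_mul, coeff_ind, mem_univ, if_true, eq_intCast] at e3
    rw [e3, e3]
  | succ b =>
    right
    obtain ⟨N, r, N0, hr⟩ := poly_eis q b
    have o2 : orderOf (γ ^ (m * q ^ b)) = q := by
      rw [orderOf_pow' _ (by have := hq.pos; positivity), o1, hn, pow_succ, mul_right_comm, mul_comm _ m,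
        Nat.gcd_eq_right (dvd_mul_right _ _), Nat.mul_div_cancel_left _ (by have := hq.pos; positivity)]
    refine ⟨_, o2, fun g => ?_⟩
    set h : MonoidAlgebra ℤ C := single (γ ^ m) 1 with hh
    have y1 : h ^ q ^ b = single (γ ^ (m * q ^ b)) 1 := by rw [hh, single_pow, one_pow, pow_mul]
    have y2 : (∑ i ∈ range q, (h ^ q ^ b) ^ i) * (h ^ q ^ b - 1) = 0 := by
      rw [geom_sum_mul, y1, single_pow, one_pow, pow_eq_one_iff_modEq.2 (by simp [o2, Nat.modEq_zero_iff_dvd])]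
      exact sub_self _
    obtain ⟨S, _, φ, φs, hφ⟩ := exists_quot (Ideal.torsionOf (MonoidAlgebra ℤ C) _ (h ^ q ^ b - 1))
    simp only [Ideal.mem_torsionOf_iff, smul_eq_mul] at hφ
    have e1 : (φ h - 1) ^ N + q * (1 + (φ h - 1) * Polynomial.aeval (φ h - 1) r) = 0 := by
      have := congrArg (Polynomial.aeval (φ h - 1)) hr
      simp only [map_sum, map_pow, map_add, map_mul, Polynomial.aeval_X, map_one, map_natCast,
        sub_add_cancel] at this
      rw [← this, ← (hφ _).2 y2]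
      simp only [map_sum, map_pow]
    obtain ⟨V, hV⟩ := ma_abs (U := φ U) (ρ := φ ⟪ρ⟫) e1 (fun x hx => by
      obtain ⟨x, rfl⟩ := φs x
      have f1 : h * (x * (h ^ q ^ b - 1)) = x * (h ^ q ^ b - 1) := by
        linear_combination (hφ ((h - 1) * x)).1 (by simpa using hx)
      have f2 : ∀ k : ℕ, h ^ k * (x * (h ^ q ^ b - 1)) = x * (h ^ q ^ b - 1) := fun k => by
        induction k with
        | zero => simp
        | succ k ih => rw [pow_succ, mul_assoc, f1, ih]
      have f3 : ⟪q⟫ * (x * (h ^ q ^ b - 1)) = 0 := by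
        rw [← mul_zero x, ← y2, mul_left_comm x, sum_mul, sum_congr rfl fun i _ => by rw [← pow_mul, f2]]
        simp
      refine (hφ x).2 (MonoidAlgebra.ext (Finsupp.ext fun g => ?_))
      have := congrArg (·.coeff g) f3
      simp only [coeff_cast_mul] at this
      simpa [hq.ne_zero] using this) (fun x hx => by
      obtain ⟨x, rfl⟩ := φs x
      obtain ⟨R, _, χ, -, f1⟩ := exists_quot (Ideal.span {φ h - 1})
      simp only [Ideal.mem_span_singleton] at f1
      have f2 : χ (φ h - 1) = 0 := (f1 _).2 dvd_rfl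
      have f4 := congrArg χ e1
      rw [map_add, map_pow, map_mul, map_add, map_mul, f2, map_natCast] at f4
      have f3 := key (χ.comp φ) (by simpa [N0.ne'] using f4)
        (by simpa [sub_eq_zero] using f2) x
      rw [← f1, map_pow] at hx
      rw [← f1, ← pow_sub_mul_pow _ j3] at *
      exact f3.symm.trans (by rw [RingHom.comp_apply, hx, mul_zero])) (by
      rw [← map_pow, hU, map_add, map_mul φ ⟪κ⟫, (hφ (ind ℤ univ)).2 (by
        rw [y1, mul_comm, sub_mul, single_mul_univ, one_mul, sub_self])]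
      simp)
    obtain ⟨V, rfl⟩ := φs V
    have e2 := congrArg (·.coeff g) ((hφ (U - ⟪q⟫ * V)).1 (by simp [hV]))
    simp only [y1, sub_mul, mul_assoc, coeff_sub, Finsupp.sub_apply, coeff_cast_mul] at e2
    rw [mul_sub, mul_comm U, mul_one] at e2
    simp only [coeff_sub, Finsupp.sub_apply, coeff_single_mul_apply, one_mul] at e2
    exact (Int.modEq_iff_dvd.2 ⟨_, sub_eq_zero.1 e2⟩).symm

theorem ma_set [IsCyclic C] {A : Finset C} (h1 : 1 ∉ A) (hA : A.Nonempty) {ρ κ : ℤ}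
    (hU : ind ℤ A ^ 3 = ⟪ρ ^ 2⟫ * ind ℤ A + ⟪κ⟫ * ind ℤ univ) {q : ℕ} (hq : q.Prime) (hρ : (q : ℤ) ∣ ρ) :
    ∃ y : C, orderOf y = q ∧ ∀ g, y⁻¹ * g ∈ A ↔ g ∈ A := by
  have f : ¬ (1 : ℤ) ≡ 0 [ZMOD q] := by
    simpa [Int.modEq_zero_iff_dvd, Int.natCast_dvd] using hq.ne_one
  obtain ⟨g, hg⟩ := hA
  rcases ma hU hq hρ with e | ⟨y, y1, e⟩
  · exact (f (by simpa [hg, h1] using e g 1)).elim
  · refine ⟨y, y1, fun x => ⟨fun a => by_contra fun b => f ?_, fun b => by_contra fun a => f ?_⟩⟩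
    · simpa [a, b] using e x
    · simpa [a, b] using (e x).symm

theorem dec8 : ∀ F : ZMod 8 → Bool, ∑ j, (if F j then 1 else 0) * (if F j then 1 else 0 : ℤ) -
    ∑ j, (if F j then 1 else 0) * (if F (j + 4) then 1 else 0 : ℤ) = 4 →
    ∑ j, (if F j then 1 else 0) * (if F (j + 1) then 1 else 0 : ℤ) ≠
    ∑ j, (if F j then 1 else 0) * (if F (j + 5) then 1 else 0 : ℤ) := by
  decide +kernel

theorem SR.false0 [IsCyclic C] {A B : Finset C} {κ ν : ℤ} (h : SR A B 0 κ ν) (hA : A.Nonempty) : False := by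
  obtain ⟨f1, f2, f3⟩ := h.num
  have f4 : κ = ((#A - #B : ℤ).natAbs : ℤ) ^ 2 := by rw [Int.natAbs_sq]; linarith
  have e3 := h.cube
  simp only [Int.cast_zero, sub_zero, zero_pow two_ne_zero, zero_add] at e3
  generalize (#A - #B : ℤ).natAbs = ρ at f4
  subst f4
  have k2 := h.k2
  have r0 : 0 < ρ := Nat.pos_of_ne_zero (by rintro rfl; simp at k2)
  have o1 : ∀ q, q.Prime → q ∣ ρ → q = 2 := fun q hq q1 => by
    by_contra q2
    obtain ⟨y, y1, y2⟩ := ma_set h.h1 hA e3 hq (Int.natCast_dvd_natCast.2 q1)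
    have q3 := hq.two_le
    have := Nat.le_of_dvd r0 q1
    refine h.inv_case hA (by nlinarith [show (3 : ℤ) ≤ ρ by omega]) (y := y) (by rintro rfl; simp at y1; omega)
      (fun e => ?_) y2
    have := Nat.le_of_dvd two_pos (y1 ▸ orderOf_dvd_of_pow_eq_one e); omega
  obtain ⟨q, hq, q1⟩ := Nat.exists_prime_and_dvd (n := ρ) (by rintro rfl; simp at k2)
  obtain rfl := o1 q hq q1
  obtain ⟨z, z1, z2⟩ := ma_set h.h1 hA e3 hq (Int.natCast_dvd_natCast.2 q1)
  have z0 : z ≠ 1 := by rintro rfl; simp at z1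
  have z3 : z * z = 1 := by rw [← sq, ← z1, pow_orderOf_eq_one]
  have z4 : z⁻¹ = z := inv_eq_of_mul_eq_one_left z3
  have z5 : ∀ y : C, y ^ 2 = 1 → y = 1 ∨ y = z := fun y hy => by
    by_contra! f
    have := (card_le_card (show {y, 1, z} ⊆ ({a | a ^ 2 = 1} : Finset C) by
      simp [insert_subset_iff, hy, sq z, z3])).trans (IsCyclic.card_pow_eq_one_le (α := C) two_pos)
    rw [card_insert_of_notMem (by simpa), card_pair z0.symm] at this
    omega
  rw [z4] at z2
  by_cases r2 : ρ = 2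
  · subst r2
    have p1 : (0 : ℤ) < #A := by exact_mod_cast hA.card_pos
    have p2 : (0 : ℤ) < Fintype.card C := by exact_mod_cast Fintype.card_pos
    have p3 : ν * (Fintype.card C - ν - 4) = 3 := by push_cast at *; nlinarith
    have p4 : 0 ≤ ν := by nlinarith [mul_nonneg p1.le (Nat.cast_nonneg #B)]
    have p5 : ν ≤ 3 := Int.le_of_dvd (by norm_num) ⟨_, p3.symm⟩
    have n8 : Fintype.card C = 8 := by interval_cases ν <;> omega
    let e : Multiplicative (ZMod 8) ≃* C := mulEquivOfCyclicCardEq (by simp [n8])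
    have e4 : e (.ofAdd 4) = z := (z5 _ (by rw [← map_pow, map_eq_one_iff _ e.injective]; decide)).resolve_left
      (by rw [map_eq_one_iff _ e.injective]; decide)
    have e5 : ∀ i, (ind ℤ B * ind ℤ B⁻¹).coeff (e (.ofAdd i))⁻¹ = ∑ j : ZMod 8,
        (if decide (e (.ofAdd j) ∈ B) then 1 else 0) * (if decide (e (.ofAdd (j + i)) ∈ B) then 1 else 0) := fun i => by
      rw [coeff_mul', ← (Multiplicative.ofAdd.trans e.toEquiv).sum_comp]
      simp [mul_comm]
    have a5 : single z (1 : ℤ) * ind ℤ A = ind ℤ A := by ext g; simp [z4, z2]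
    have e6 : (1 - single z 1) * (ind ℤ B * ind ℤ B⁻¹) = ⟪4⟫ * (1 - single z (1 : ℤ)) := by
      have e1 := h.e1
      have a0 := single_mul_univ (K := ℤ) z
      push_cast at *
      linear_combination (1 - single z 1) * e1 + ind ℤ A * a5 - 2 * ⟪ν⟫ * a0
    have e7 := fun i => congrArg (·.coeff (e (.ofAdd i))⁻¹) e6
    simp only [sub_mul, one_mul, coeff_sub, Finsupp.sub_apply, coeff_single_mul_apply, coeff_cast_mul,
      ← mul_inv, ← e4, ← map_mul, ← ofAdd_add, e5] at e7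
    refine dec8 (fun j => decide (e (.ofAdd j) ∈ B)) ?_ (sub_eq_zero.1 ?_)
    · simpa [e4, z0, Finsupp.single_apply] using e7 0
    · have := e7 1
      rwa [one_def, coeff_single, coeff_single, Finsupp.single_eq_of_ne, Finsupp.single_eq_of_ne, sub_zero,
        mul_zero] at this
      · rw [← map_inv, e.injective.ne_iff]; decide
      · rw [← map_inv, map_ne_one_iff _ e.injective]; decide
  obtain ⟨ρ, rfl⟩ : 4 ∣ ρ := by
    refine (Nat.four_dvd_or_exists_odd_prime_and_dvd_of_two_lt (by omega)).resolve_right ?_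
    rintro ⟨q, q1, q2, q3⟩
    rw [o1 q q1 q2] at q3
    exact absurd q3 (by decide)
  let f := QuotientGroup.mk' (Subgroup.zpowers z)
  have := Fintype.ofFinite (C ⧸ Subgroup.zpowers z)
  have := isCyclic_of_surjective f (QuotientGroup.mk'_surjective _)
  have g0 : ∀ y : C, f y = 1 ↔ y ^ 2 = 1 := fun y => (QuotientGroup.eq_one_iff y).trans
    ⟨fun ⟨k, hk⟩ => by rw [← hk, ← zpow_natCast, ← zpow_mul, mul_comm, zpow_mul, zpow_natCast, sq, z3, one_zpow],
      fun e => (z5 y e).elim (fun e => e ▸ one_mem _) fun e => e ▸ Subgroup.mem_zpowers _⟩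
  have g1 : ∀ x y : C, f x = f y ↔ x = y ∨ x = z * y := fun x y => by
    rw [← mul_inv_eq_one, ← map_inv, ← map_mul, g0, ← mul_inv_eq_one (a := x), ← mul_inv_eq_iff_eq_mul]
    exact ⟨z5 _, fun e => e.elim (fun e => by simp [e]) fun e => by rw [e, sq, z3]⟩
  have g2 : ∀ S : Finset C, (∀ g, z * g ∈ S ↔ g ∈ S) → ∀ g, f g ∈ S.image f ↔ g ∈ S := fun S hS g => by
    simp only [mem_image, g1]
    exact ⟨fun ⟨a, a1, a2⟩ => a2.elim (· ▸ a1) fun e => (hS g).1 (e ▸ a1), fun e => ⟨g, e, .inl rfl⟩⟩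
  have g3 : ∀ S : Finset C, (∀ g, z * g ∈ S ↔ g ∈ S) →
      mapDomainRingHom ℤ f (ind ℤ S) = 2 * ind ℤ (S.image f) := fun S hS => by
    ext c
    obtain ⟨g, rfl⟩ : ∃ g, f g = c := QuotientGroup.mk'_surjective _ c
    rw [two_mul, coeff_add, Finsupp.add_apply, coeff_ind, ind, map_sum]
    simp only [mapDomainRingHom_apply, mapDomain_single, coeff_sum, Finsupp.finset_sum_apply, coeff_single,
      Finsupp.single_apply, g1, g2 S hS]
    rw [sum_congr rfl (g := fun x => (if x = g then 1 else 0) + if x = z * g then 1 else 0) fun x _ => by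
      by_cases a : x = g <;> simp [a, z0], sum_add_distrib]
    simp [hS]
  have g4 := congrArg (mapDomainRingHom ℤ f) e3
  rw [map_add, map_pow, map_mul, map_mul, map_intCast, map_intCast, g3 A z2, g3 univ (by simp),
    image_univ_of_surjective (QuotientGroup.mk'_surjective _)] at g4
  have g5 : 1 ∉ A.image f := by rw [← map_one f, g2 A z2]; exact h.h1
  obtain ⟨y, y1, y2⟩ := ma_set g5 (hA.image f) (ρ := 2 * ρ) (κ := (ind ℤ (A.image f) ^ 3).coeff 1) (by
    ext c
    have a1 := congrArg (·.coeff c) g4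
    have a2 := congrArg (·.coeff 1) g4
    simp only [mul_pow, show ∀ C' : Type _, ∀ [CommGroup C'], (2 : MonoidAlgebra ℤ C') = ((2 : ℤ) : MonoidAlgebra ℤ C') by simp,
      ← Int.cast_pow, coeff_add, Finsupp.add_apply, coeff_cast_mul, coeff_ind, g5, mem_univ, if_true, if_false,
      Int.cast_id] at a1 a2 ⊢
    push_cast at *
    linarith) hq (dvd_mul_right _ _)
  obtain ⟨y, rfl⟩ : ∃ g, f g = y := QuotientGroup.mk'_surjective _ y
  have y3 : y ^ 2 ≠ 1 := fun e => by simp [(g0 y).2 e] at y1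
  refine h.inv_case hA (by push_cast; nlinarith [show (1 : ℤ) ≤ ρ by omega]) (y := y) (by rintro rfl; simp at y3) y3
    fun g => ?_
  rw [← g2 A z2, ← g2 A z2 g, map_mul, map_inv, y2]

end Cfsg.Agent.H19.Dih
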