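import Cfsg.Agent.H19.Dih4
import Cfsg.Agent.H2.SRing

/-! Dihedral groups are Burnside groups (Wielandt) -/

set_option autoImplicit false

namespace Cfsg.Agent.H19.Dih

open Finset MonoidAlgebra MulAction Cfsg.Agent.H2.Pm
open scoped Classical Pointwise

/-- The group ring element with given coefficients. -/
noncomputable def fn {H : Type*} [Finite H] (f : H → ℤ) : MonoidAlgebra ℤ H :=
  .ofCoeff (Finsupp.equivFunOnFinite.symm f)

@[simp] theorem coeff_fn {H : Type*} [Finite H] (f : H → ℤ) (x : H) : (fn f).coeff x = f x := rfl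

theorem coeff_mul2 {H : Type*} [Group H] [Fintype H] (x y : MonoidAlgebra ℤ H) (g : H) :
    (x * y).coeff g = ∑ h, x.coeff h * y.coeff (h⁻¹ * g) := by
  simp only [coeff_mul_apply_left, Finsupp.sum_fintype, zero_mul, implies_true]

theorem sum_var {H : Type*} [Fintype H] (f : H → ℤ) :
    ∑ x, ∑ y, (f x - f y) ^ 2 = 2 * Fintype.card H * ∑ x, f x ^ 2 - 2 * (∑ x, f x) ^ 2 := by
  simp only [sub_sq, sum_add_distrib, sum_sub_distrib, sum_const, card_univ, nsmul_eq_mul, ← mul_sum, ← sum_mul,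
    mul_assoc]
  ring

variable {G H C : Type*} [Group G] [Group H] [Fintype H] [MulAction G H] [CommGroup C] [Fintype C]

local notation "⟪" x "⟫" => @Int.cast (MonoidAlgebra _ C) _ x

variable (G) in
/-- `G` acts on the generalized dihedral group `H = t C ⋊ ⟨w⟩` and contains the left translations. -/
structure DH (t : C →* H) (w : H) : Prop where
  hl : ∀ h : H, ∃ g : G, ∀ x : H, g • x = h * x
  hw : w * w = 1
  htw : ∀ g, w * t g = t g⁻¹ * w
  hb : Function.Bijective (Sum.elim t (fun g => t g * w) : C ⊕ C → H)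

/-- rotation part -/
noncomputable def rot (t : C →* H) (Z : MonoidAlgebra ℤ H) : MonoidAlgebra ℤ C := fn fun g => Z.coeff (t g)
/-- reflection part -/
noncomputable def ref (t : C →* H) (w : H) (Z : MonoidAlgebra ℤ H) : MonoidAlgebra ℤ C :=
  fn fun g => Z.coeff (t g * w)
/-- the standard involution -/
noncomputable def st (V : MonoidAlgebra ℤ C) : MonoidAlgebra ℤ C := fn fun g => V.coeff g⁻¹

variable {t : C →* H} {w : H}

namespace DH
variable (h : DH G t w)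
include h

theorem cases (x : H) : (∃ c, x = t c) ∨ ∃ c, x = t c * w := by
  obtain ⟨c | c, rfl⟩ := h.hb.2 x
  exacts [.inl ⟨c, rfl⟩, .inr ⟨c, rfl⟩]

theorem ne (a b : C) : t a * w ≠ t b := fun e => by
  simpa using h.hb.1 (a₁ := .inr a) (a₂ := .inl b) e

theorem ne1 (a : C) : t a * w ≠ 1 := by simpa using h.ne a 1

theorem eq1 (a : C) : t a = 1 ↔ a = 1 :=
  ⟨fun e => by simpa using h.hb.1 (a₁ := .inl a) (a₂ := .inl 1) (by simpa using e), fun e => by simp [e]⟩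

theorem m1 (a b : C) : t a * w * t b = t (a * b⁻¹) * w := by rw [mul_assoc, h.htw, map_mul, mul_assoc]

theorem m2 (a b : C) : t a * w * (t b * w) = t (a * b⁻¹) := by
  rw [← mul_assoc, h.m1, mul_assoc, h.hw, mul_one]

theorem inv (a : C) : (t a * w)⁻¹ = t a * w := inv_eq_of_mul_eq_one_left (by simp [h.m2])

theorem sum (f : H → ℤ) : ∑ x, f x = ∑ c, f (t c) + ∑ c, f (t c * w) := by
  rw [← (Equiv.ofBijective _ h.hb).sum_comp, Fintype.sum_sum_type]; simp

theorem rot_mul (Z Z' : MonoidAlgebra ℤ H) :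
    rot t (Z * Z') = rot t Z * rot t Z' + ref t w Z * st (ref t w Z') := by
  ext g
  simp only [rot, ref, st, coeff_fn, coeff_add, Finsupp.add_apply, coeff_mul2, h.sum, h.inv, h.m1, ← map_inv,
    ← map_mul, mul_inv_rev, inv_inv, mul_comm]

theorem ref_mul (Z Z' : MonoidAlgebra ℤ H) :
    ref t w (Z * Z') = rot t Z * ref t w Z' + ref t w Z * st (rot t Z') := by
  ext g
  simp only [rot, ref, st, coeff_fn, coeff_add, Finsupp.add_apply, coeff_mul2, h.sum, h.inv, h.m2, ← map_inv,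
    ← mul_assoc (t _), ← map_mul, mul_inv_rev, inv_inv, fun a b : C => mul_comm a b]

theorem sgn : ∃ σ : H →* ℤ, (∀ c, σ (t c) = 1) ∧ ∀ c, σ (t c * w) = -1 := by
  have f : ∀ c, t c * w ∉ t.range := fun c ⟨b, e⟩ => h.ne c b e.symm
  refine ⟨⟨⟨fun x => if x ∈ t.range then 1 else -1, by simp⟩, fun x y => ?_⟩, by simp, fun c => if_neg (f c)⟩
  rcases h.cases x with ⟨a, rfl⟩ | ⟨a, rfl⟩ <;> rcases h.cases y with ⟨b, rfl⟩ | ⟨b, rfl⟩ <;>
    simp only [h.m1, h.m2, ← mul_assoc (t _), ← map_mul, f, MonoidHom.mem_range, exists_apply_eq_apply] <;> simp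

variable [IsPreprimitive G H]

theorem orb {x : H} (p : H → Prop) (hp : ∀ g : G, g • (1 : H) = 1 → p (g • x)) :
    ∃ U : Set H, x ∈ U ∧ (∀ y ∈ U, p y) ∧ ∀ g : G, g • (1 : H) = 1 → ∀ y ∈ U, g • y ∈ U :=
  ⟨{y | ∃ g : G, g • (1 : H) = 1 ∧ g • x = y}, ⟨1, by simp⟩, fun _ ⟨g, a, b⟩ => b ▸ hp g a,
    fun g a _ ⟨k, b, c⟩ => ⟨g * k, by rw [mul_smul, b, a], by rw [mul_smul, c]⟩⟩

theorem orb_ref {x : H} (hx : x ≠ 1) : ∃ (g : G) (c : C), g • (1 : H) = 1 ∧ g • x = t c * w := by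
  by_contra! f
  obtain ⟨U, u1, u2, u3⟩ := h.orb (· ∈ t.range) fun g hg =>
    (h.cases (g • x)).elim (fun ⟨c, e⟩ => ⟨c, e.symm⟩) fun ⟨c, e⟩ => (f g c hg e).elim
  refine hx (sr_closure h.hl u3 (L := t.range) u2 (fun e => ?_) x u1)
  obtain ⟨b, e⟩ : t 1 * w ∈ t.range := e ▸ Subgroup.mem_top _
  exact h.ne 1 b e.symm

theorem symm {Z : H → ℤ} (hZ : ∀ g : G, g • (1 : H) = 1 → ∀ x, Z (g • x) = Z x) (x : H) : Z x⁻¹ = Z x := by
  by_cases hx : x = 1
  · simp [hx]
  obtain ⟨g, c, g1, g2⟩ := h.orb_ref hx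
  obtain ⟨k, k1, k2⟩ := sr_key h.hl g x
  have := k2 x⁻¹
  rw [mul_inv_cancel, g1, eq_comm, mul_eq_one_iff_inv_eq, g2, h.inv] at this
  rw [← hZ k k1, ← this, ← g2, hZ g g1]

theorem eqs {Z : MonoidAlgebra ℤ H} (hZ : ∀ g : G, g • (1 : H) = 1 → ∀ x, Z.coeff (g • x) = Z.coeff x) {D δ : ℤ}
    (e : ∀ x, (Z * Z).coeff x = (if x = 1 then D else 0) + δ) : ∃ ν : ℤ,
      rot t Z ^ 2 + ref t w Z * st (ref t w Z) = ⟪D⟫ + ⟪2 * ν⟫ * ind ℤ univ ∧
      rot t Z * ref t w Z = ⟪ν⟫ * ind ℤ univ := by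
  have e1 : st (rot t Z) = rot t Z := by ext g; simp [st, rot, h.symm hZ]
  have e2 : ∀ g, 2 * (rot t Z * ref t w Z).coeff g = δ := fun g => by
    have := congrArg (·.coeff g) (h.ref_mul Z Z)
    simp only [e1, mul_comm (ref t w Z), coeff_add, Finsupp.add_apply] at this
    rw [two_mul, ← this]
    simp [ref, e, h.ne1]
  refine ⟨(rot t Z * ref t w Z).coeff 1, ?_, ?_⟩
  · rw [sq, ← h.rot_mul, e2]
    ext g
    simp only [coeff_add, Finsupp.add_apply, coeff_cast_mul]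
    simp [rot, e, h.eq1]
  · ext g
    have := (e2 g).trans (e2 1).symm
    simp only [coeff_cast_mul]
    simpa using this

variable [Nontrivial C]

theorem orb_rot {x : H} (hx : x ≠ 1) : ∃ (g : G) (c : C), g • (1 : H) = 1 ∧ g • x = t c := by
  by_contra! f
  obtain ⟨U, u1, u2, u3⟩ := h.orb (fun y => ∃ c, y = t c * w) fun g hg =>
    (h.cases (g • x)).resolve_left fun ⟨c, e⟩ => f g c hg e
  have f1 := sr_closure h.hl (U := U * U) (L := t.range) (by
    rintro g hg _ ⟨a, ha, b, hb, rfl⟩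
    obtain ⟨k, k1, k2⟩ := sr_key h.hl g a
    exact ⟨_, u3 g hg a ha, _, u3 k k1 b hb, (k2 b).symm⟩) (by
    rintro _ ⟨a, ha, b, hb, rfl⟩
    obtain ⟨a, rfl⟩ := u2 a ha
    obtain ⟨b, rfl⟩ := u2 b hb
    exact ⟨_, (h.m2 a b).symm⟩) fun e => by
    obtain ⟨b, e⟩ : t 1 * w ∈ t.range := e ▸ Subgroup.mem_top _
    exact h.ne 1 b e.symm
  obtain ⟨c, rfl⟩ := u2 x u1
  refine hx (sr_closure h.hl u3 (L := Subgroup.zpowers (t c * w)) (fun y hy => ?_) (fun e => ?_) _ u1)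
  · rw [eq_inv_of_mul_eq_one_left (f1 _ ⟨y, hy, _, u1, rfl⟩)]
    exact inv_mem (Subgroup.mem_zpowers _)
  · obtain ⟨b, hb⟩ := exists_ne (1 : C)
    obtain ⟨k, hk⟩ : t b ∈ Subgroup.zpowers (t c * w) := e ▸ Subgroup.mem_top _
    have : (t c * w) ^ (2 : ℤ) = 1 := by rw [zpow_two, h.m2]; simp
    rw [show (fun k : ℤ => (t c * w) ^ k) k = (t c * w) ^ (k % 2) from zpow_eq_zpow_emod k this] at hk
    rcases Int.emod_two_eq_zero_or_one k with f2 | f2 <;> rw [f2] at hk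
    · exact hb ((h.eq1 b).1 (by simpa using hk.symm))
    · exact h.ne c b (by simpa using hk)

theorem two_le {S : Finset H} (hS : ∀ g : G, g • (1 : H) = 1 → ∀ x ∈ S, g • x ∈ S) {x : H} (hx : x ≠ 1)
    (hs : x ∈ S) : 2 ≤ #S := by
  obtain ⟨g, a, g1, g2⟩ := h.orb_ref hx
  obtain ⟨k, b, k1, k2⟩ := h.orb_rot hx
  exact one_lt_card.2 ⟨_, g2 ▸ hS g g1 x hs, _, k2 ▸ hS k k1 x hs, h.ne a b⟩

theorem one_lt {Z : MonoidAlgebra ℤ H} (hZ : ∀ g : G, g • (1 : H) = 1 → ∀ x, Z.coeff (g • x) = Z.coeff x) {D δ : ℤ}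
    (e : ∀ x, (Z * Z).coeff x = (if x = 1 then D else 0) + δ) {x y : H} (hx : x ≠ 1) (hy : y ≠ 1)
    (hxy : Z.coeff x ≠ Z.coeff y) : 1 < D := by
  have e1 : ∑ x, Z.coeff x ^ 2 = D + δ := by simpa [coeff_mul2, h.symm hZ, sq] using e 1
  have e2 : (∑ x, Z.coeff x) ^ 2 = D + Fintype.card H * δ := by
    have := sum_congr (rfl (a := univ)) fun x _ => e x
    simp only [coeff_mul2] at this
    rw [sum_comm, sum_congr rfl fun x _ => by
      rw [← mul_sum, show ∑ y, Z.coeff (x⁻¹ * y) = _ from Equiv.sum_comp (Equiv.mulLeft x⁻¹) Z.coeff], ← sum_mul] at this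
    simpa [sq, sum_add_distrib] using this
  set S : Finset H := {z | Z.coeff z = Z.coeff x} with hS
  have s1 : 2 ≤ #S := h.two_le (by simp +contextual [hS, hZ]) hx (by simp [hS])
  have s2 : 2 ≤ #Sᶜ := h.two_le (by simp +contextual [hS, hZ]) hy (by simpa [hS] using hxy.symm)
  have s3 := card_add_card_compl S
  have v1 := sum_var Z.coeff
  have v2 := sum_var fun z => if z ∈ S then 1 else 0
  have v3 : ∑ a, ∑ b, ((if a ∈ S then 1 else 0) - if b ∈ S then 1 else 0 : ℤ) ^ 2 ≤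
      ∑ a, ∑ b, (Z.coeff a - Z.coeff b) ^ 2 := sum_le_sum fun a _ => sum_le_sum fun b _ => by
    have : Z.coeff a ≠ Z.coeff b → 1 ≤ (Z.coeff a - Z.coeff b) ^ 2 := fun f =>
      sq_pos_of_ne_zero (sub_ne_zero.2 f)
    by_cases ha : a ∈ S <;> by_cases hb : b ∈ S <;> simp only [ha, hb, if_true, if_false] <;>
      simp only [hS, mem_filter_univ] at ha hb
    · simpa using sq_nonneg _
    · simpa using this (ha ▸ Ne.symm hb)
    · simpa using this (hb ▸ ha)
    · simpa using sq_nonneg _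
  rw [v1, v2, e1, e2, ← s3] at v3
  simp only [ite_pow, one_pow, zero_pow two_ne_zero, sum_ite_mem, univ_inter, sum_const, nsmul_eq_mul, mul_one] at v3
  push_cast at v3
  by_contra! f
  have s4 : (2 : ℤ) ≤ #S := by exact_mod_cast s1
  have s5 : (2 : ℤ) ≤ #Sᶜ := by exact_mod_cast s2
  nlinarith

theorem descent [IsCyclic C] {r : H → H → Prop} (hr : ∀ g : G, g • (1 : H) = 1 → ∀ x, r (g • x) x) (ρ : ℕ)
    (Z : MonoidAlgebra ℤ H) (δ : ℤ) (hZ : ∀ x y, r x y → Z.coeff x = Z.coeff y)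
    (e : ∀ x, (Z * Z).coeff x = (if x = 1 then (ρ : ℤ) ^ 2 else 0) + δ) {x y : H} (hx : x ≠ 1) (hy : y ≠ 1)
    (hxy : Z.coeff x ≠ Z.coeff y) : ∃ (T : Finset H) (y : C), (∀ a b, r a b → (a ∈ T ↔ b ∈ T)) ∧ 1 ∉ T ∧
      T.Nonempty ∧ y ≠ 1 ∧ ∀ g, t (y⁻¹ * g) ∈ T ↔ t g ∈ T := by
  induction ρ using Nat.strong_induction_on generalizing Z δ with | _ ρ ih => ?_
  have hZ' : ∀ g : G, g • (1 : H) = 1 → ∀ x, Z.coeff (g • x) = Z.coeff x := fun g hg x => hZ _ _ (hr g hg x)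
  have r1 := h.one_lt hZ' e hx hy hxy
  obtain ⟨q, hq, ρ, rfl⟩ := Nat.exists_prime_and_dvd (n := ρ) (by rintro rfl; simp at r1)
  have q0 : (q : ℤ) ≠ 0 := by exact_mod_cast hq.ne_zero
  by_cases hall : ∀ x, Z.coeff 1 ≡ Z.coeff x [ZMOD q]
  · choose f hf using fun x => (hall x).dvd
    have e1 : ∀ z, q ^ 2 * (fn f * fn f).coeff z = (Z * Z).coeff z - 2 * Z.coeff 1 * ∑ x, Z.coeff x +
        Fintype.card H * Z.coeff 1 ^ 2 := fun z => by
      rw [coeff_mul2, coeff_mul2, mul_sum, sum_congr rfl (g := fun a => Z.coeff a * Z.coeff (a⁻¹ * z) -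
        Z.coeff 1 * Z.coeff a - Z.coeff 1 * Z.coeff (a⁻¹ * z) + Z.coeff 1 ^ 2) fun a _ => by
          simp only [coeff_fn]
          linear_combination (-(q : ℤ) * f (a⁻¹ * z)) * hf a - (Z.coeff a - Z.coeff 1) * hf (a⁻¹ * z)]
      simp only [sum_add_distrib, sum_sub_distrib, ← mul_sum, sum_const, card_univ, nsmul_eq_mul]
      rw [show ∑ a, Z.coeff (a⁻¹ * z) = _ from Equiv.sum_comp ((Equiv.inv H).trans (Equiv.mulRight z)) Z.coeff]
      ring
    refine ih ρ (lt_mul_left (Nat.pos_of_ne_zero (by rintro rfl; simp at r1)) hq.one_lt) (fn f)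
      ((fn f * fn f).coeff x) (fun a b hab => mul_left_cancel₀ q0 ?_) (fun z => mul_left_cancel₀ (pow_ne_zero 2 q0) ?_)
      fun e => hxy ?_
    · simp only [coeff_fn, ← hf, hZ a b hab]
    · rw [mul_add, e1, e1, e, e, if_neg hx]
      split_ifs <;> push_cast <;> ring
    · have := congrArg ((q : ℤ) * ·) e
      simpa only [coeff_fn, ← hf, sub_left_inj] using this
  obtain ⟨ν, e1, e2⟩ := h.eqs hZ' e
  have e3 : rot t Z ^ 3 = ⟪(q * ρ : ℕ) ^ 2⟫ * rot t Z + ⟪2 * ν * ∑ g, (rot t Z).coeff g -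
      ν * ∑ g, (st (ref t w Z)).coeff g⟫ * ind ℤ univ := by
    have a1 := mul_univ (rot t Z)
    have a2 := mul_univ (st (ref t w Z))
    rw [Int.cast_sub, Int.cast_mul _ (∑ g, _), Int.cast_mul _ (∑ g, _)]
    linear_combination rot t Z * e1 - st (ref t w Z) * e2 + ⟪2 * ν⟫ * a1 - ⟪ν⟫ * a2
  rcases ma e3 hq (by simp) with f | ⟨y, y1, f⟩
  · refine (hall fun z => ?_).elim
    by_cases hz : z = 1
    · rw [hz]
    obtain ⟨g, c, g1, g2⟩ := h.orb_rot hz
    simpa [rot, ← g2, hZ' g g1] using f 1 c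
  · push Not at hall
    refine ⟨univ.filter fun z => ¬ Z.coeff 1 ≡ Z.coeff z [ZMOD q], y, fun a b hab => by simp [hZ a b hab], by simp,
      hall.imp fun z hz => by simpa, by rintro rfl; simp at y1; exact hq.ne_one y1.symm, fun g => ?_⟩
    simp only [mem_filter, mem_univ, true_and]
    exact not_congr ⟨fun a => a.trans (f g), fun a => a.trans (f g).symm⟩

omit [Nontrivial C] in
theorem idem {r : H → H → Prop} (hr : ∀ g : G, g • (1 : H) = 1 → ∀ x, r (g • x) x) (re : Equivalence r)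
    (r1 : ∀ x, r 1 x → x = 1) (rm : ∀ f f' : MonoidAlgebra ℤ H, (∀ x y, r x y → f.coeff x = f.coeff y) →
      (∀ x y, r x y → f'.coeff x = f'.coeff y) → ∀ x y, r x y → (f * f').coeff x = (f * f').coeff y)
    {x y : H} (hx : x ≠ 1) (hy : y ≠ 1) (hxy : ¬ r x y) : ∃ (ρ : ℕ) (Z : MonoidAlgebra ℤ H) (x y : H),
      (∀ x y, r x y → Z.coeff x = Z.coeff y) ∧ (∀ x, (Z * Z).coeff x = (if x = 1 then (ρ : ℤ) ^ 2 else 0) + 0) ∧
      x ≠ 1 ∧ y ≠ 1 ∧ Z.coeff x ≠ Z.coeff y := by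
  obtain ⟨σ, s1, s2⟩ := h.sgn
  let O (x : H) : Finset H := {y | r x y}
  have o1 : ∀ x y, r x y → O x = O y := fun x y hxy => filter_congr fun z _ =>
    ⟨re.trans (re.symm hxy), re.trans hxy⟩
  have o2 : ∀ x, #(O x) * ((Fintype.card H).factorial / #(O x)) = (Fintype.card H).factorial := fun x =>
    Nat.mul_div_cancel' (Nat.dvd_factorial (card_pos.2 ⟨x, by simp [O, re.refl]⟩) (card_le_univ _))
  set M := (Fintype.card H).factorial
  have M0 : (0 : ℤ) < M := by exact_mod_cast Nat.factorial_pos _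
  obtain ⟨E, hE⟩ : ∃ E : MonoidAlgebra ℤ H, ∀ x, E.coeff x = (M / #(O x) : ℕ) * ∑ y ∈ O x, σ y :=
    ⟨fn _, fun _ => rfl⟩
  have i1 : ∀ x y, r x y → E.coeff x = E.coeff y := fun x y hxy => by rw [hE, hE, o1 x y hxy]
  have i2 : ∀ f : H → ℤ, (∀ x y, r x y → f x = f y) → ∑ x, f x * E.coeff x = M * ∑ x, f x * σ x := fun f hf => by
    simp only [hE, O, sum_filter, mul_sum]
    rw [sum_comm]
    refine sum_congr rfl fun y _ => ?_
    rw [sum_congr rfl (g := fun x => if x ∈ O y then f y * ((M / #(O y) : ℕ) * σ y) else 0) fun x _ => by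
      by_cases hxy : r x y
      · rw [if_pos hxy, if_pos (by simpa [O] using re.symm hxy), hf x y hxy, ← o1 x y hxy]
      · rw [if_neg hxy, if_neg (by simpa [O] using mt re.symm hxy)]; simp]
    rw [sum_ite_mem, univ_inter, sum_const, nsmul_eq_mul, ← congrArg (Nat.cast : ℕ → ℤ) (o2 y), Nat.cast_mul]
    ring
  let φ := MonoidAlgebra.lift ℤ ℤ H σ
  have i3 : ∀ f : MonoidAlgebra ℤ H, (∀ x y, r x y → f.coeff x = f.coeff y) → (f * E).coeff 1 = M * φ f :=
    fun f hf => by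
    simp only [coeff_mul2, mul_one, h.symm fun g hg x => i1 _ _ (hr g hg x), i2 _ hf, φ, lift_apply]
    rw [Finsupp.sum_fintype _ _ (by simp)]
    simp
  have i4 : E * E = φ E • E := by
    set D := E * E - φ E • E with hD
    have d1 : ∀ x y, r x y → D.coeff x = D.coeff y := fun x y hxy => by
      simp [-zsmul_eq_mul, hD, rm E E i1 i1 x y hxy, i1 x y hxy]
    have d2 : (D * D).coeff 1 = 0 := by
      nth_rewrite 2 [hD]
      rw [mul_sub, mul_smul_comm, ← mul_assoc, coeff_sub, Finsupp.sub_apply, coeff_smul_apply, i3 _ d1,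
        i3 _ (rm D E d1 i1), map_mul, smul_eq_mul]
      ring
    simp only [coeff_mul2, mul_one, h.symm fun g hg x => d1 _ _ (hr g hg x)] at d2
    rw [sum_eq_zero_iff_of_nonneg fun _ _ => mul_self_nonneg _] at d2
    exact sub_eq_zero.1 (MonoidAlgebra.ext (Finsupp.ext fun z => mul_self_eq_zero.1 (d2 z (mem_univ _))))
  have i5 : ∀ z, z ≠ 1 → ((2 : ℤ) • E - φ E • (1 : MonoidAlgebra ℤ H)).coeff z = 2 * E.coeff z := fun z hz => by
    simp [-zsmul_eq_mul, one_def, hz]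
  by_contra! f
  replace f : ∀ x y, x ≠ 1 → y ≠ 1 → E.coeff x = E.coeff y := fun x y hx hy => by
    have := f (φ E).natAbs ((2 : ℤ) • E - φ E • 1) x y (fun x y hxy => by
      by_cases hx : x = 1
      · rw [hx, r1 y (hx ▸ hxy)]
      · rw [i5 x hx, i5 y fun e => hx (r1 x (e ▸ re.symm hxy)), i1 x y hxy]) (fun z => by
      rw [show ((2 : ℤ) • E - φ E • 1) * ((2 : ℤ) • E - φ E • 1) = (φ E ^ 2) • 1 by
        simp only [mul_sub, sub_mul, smul_mul_assoc, mul_smul_comm, i4, mul_one, one_mul]; module]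
      simp [one_def, Finsupp.single_apply, eq_comm]) hx hy
    rw [i5 x hx, i5 y hy] at this
    omega
  have j1 := i2 (fun _ => 1) fun _ _ _ => rfl
  have j2 := i2 (fun z => if z ∈ O x then 1 else 0) fun a b hab => by
    simp only [O, mem_filter_univ, show r x a ↔ r x b from ⟨(re.trans · hab), (re.trans · (re.symm hab))⟩]
  have j3 : 1 ∉ O x := fun e => hx (r1 x (re.symm (by simpa [O] using e)))
  have j4 : E.coeff 1 = M := by
    rw [hE, show O 1 = {1} by ext z; simpa [O] using ⟨r1 z, fun e => e ▸ re.refl 1⟩]; simp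
  simp only [one_mul, h.sum σ, s1, s2, sum_neg_distrib, add_neg_cancel, mul_zero] at j1
  rw [← add_sum_erase _ _ (mem_univ 1), j4, sum_congr rfl fun z hz => f z x (ne_of_mem_erase hz) hx, sum_const,
    nsmul_eq_mul] at j1
  simp only [ite_mul, one_mul, zero_mul, sum_ite_mem, univ_inter] at j2
  rw [sum_congr rfl fun z hz => f z x (fun e => j3 (e ▸ hz)) hx, sum_const, nsmul_eq_mul] at j2
  have j5 : (#(univ.erase (1 : H)) : ℤ) ∣ #(O x) := ⟨-∑ z ∈ O x, σ z, mul_left_cancel₀ M0.ne' (by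
    linear_combination #(O x) * j1 - #(univ.erase (1 : H)) * j2)⟩
  refine (Nat.le_of_dvd (card_pos.2 ⟨x, by simp [O, re.refl]⟩) (Int.natCast_dvd_natCast.1 j5)).not_gt
    (card_lt_card ⟨fun z hz => by simpa using fun e : z = 1 => j3 (e ▸ hz), fun e => hxy ?_⟩)
  simpa [O] using e (show y ∈ _ by simpa)

omit [Nontrivial C] in
theorem two [IsCyclic C] {x y : H} (hx : x ≠ 1) (hy : y ≠ 1) : ∃ g : G, g • (1 : H) = 1 ∧ g • x = y := by
  rcases subsingleton_or_nontrivial C with _ | _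
  · have : ∀ x : H, x ≠ 1 → x = w := fun x hx => by
      rcases h.cases x with ⟨c, rfl⟩ | ⟨c, rfl⟩ <;> simp_all [Subsingleton.elim c 1]
    exact ⟨1, by simp [this x hx, this y hy]⟩
  by_contra hxy
  let P (K : Finset C) (f : MonoidAlgebra ℤ H) : Prop :=
    (∀ g : G, g • (1 : H) = 1 → ∀ x, f.coeff (g • x) = f.coeff x) ∧ ∀ k ∈ K, single k 1 * ref t w f = ref t w f
  have p1 : ∀ (k : C) f, single k 1 * ref t w f = ref t w f ↔
      ∀ c, f.coeff (t (k⁻¹ * c) * w) = f.coeff (t c * w) := fun k f =>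
    ⟨fun e c => by simpa [ref] using congrArg (·.coeff c) e, fun e => by ext c; simpa [ref] using e c⟩
  obtain ⟨K, hK, Km⟩ := exists_max_image (univ.filter fun K => ∃ f x y, P K f ∧ x ≠ 1 ∧ y ≠ 1 ∧
      f.coeff x ≠ f.coeff y) card ⟨∅, by
    simp only [mem_filter, mem_univ, true_and]
    refine ⟨fn fun z => if ∃ g : G, g • (1 : H) = 1 ∧ g • x = z then 1 else 0, x, y, ⟨fun g hg z => ?_, by simp⟩,
      hx, hy, ?_⟩
    · refine if_congr ⟨fun ⟨k, a, b⟩ => ⟨g⁻¹ * k, ?_, ?_⟩, fun ⟨k, a, b⟩ => ⟨g * k, ?_, ?_⟩⟩ rfl rfl <;>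
        simp [mul_smul, a, b, hg, inv_smul_eq_iff]
    · rw [coeff_fn, coeff_fn, if_neg hxy, if_pos ⟨1, by simp⟩]; simp⟩
  simp only [mem_filter, mem_univ, true_and] at hK Km
  clear hxy hx hy x y
  obtain ⟨f, x, y, hf, hx, hy, hxy⟩ := hK
  let r (x y : H) : Prop := ∀ f, P K f → f.coeff x = f.coeff y
  have hr : ∀ g : G, g • (1 : H) = 1 → ∀ x, r (g • x) x := fun g hg x f hf => hf.1 g hg x
  have p2 : ∀ f : MonoidAlgebra ℤ H, (∀ x y, r x y → f.coeff x = f.coeff y) → P K f := fun f hf =>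
    ⟨fun g hg x => hf _ _ (hr g hg x), fun k hk => (p1 k f).2 fun c => hf _ _ fun f' hf' => (p1 k f').1 (hf'.2 k hk) c⟩
  have p3 : ∀ f f', P K f → P K f' → P K (f * f') := fun f f' a b => ⟨sr_mul h.hl a.1 b.1, fun k hk => by
    rw [h.ref_mul]
    linear_combination rot t f * b.2 k hk + st (rot t f') * a.2 k hk⟩
  obtain ⟨ρ, Z, x, y, z1, z2, hx, hy, hxy⟩ := h.idem hr
    ⟨fun _ _ _ => rfl, fun e f hf => (e f hf).symm, fun e e' f hf => (e f hf).trans (e' f hf)⟩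
    (fun x hx => by
      simpa using (hx (fn fun z => if z = 1 then 1 else 0) ⟨fun g hg z => if_congr
        (by nth_rewrite 1 [← hg]; exact smul_left_cancel_iff g) rfl rfl, fun k _ => (p1 _ _).2 (by simp only [coeff_fn, h.ne1, implies_true])⟩).symm)
    (fun f f' a b x y hxy => hxy _ (p3 f f' (p2 f a) (p2 f' b))) hx hy fun e => hxy (e f hf)
  obtain ⟨T, k, t1, t2, ⟨u, t3⟩, k1, t4⟩ := h.descent hr ρ Z 0 z1 z2 hx hy hxy
  have t5 : ∀ g : G, g • (1 : H) = 1 → ∀ x, g • x ∈ T ↔ x ∈ T := fun g hg x => t1 _ _ (hr g hg x)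
  set F := fn fun z => if z ∈ T then 1 else 0 with hF
  have f1 : P K F := p2 _ fun a b hab => by simp [hF, t1 a b hab]
  have u1 : u ≠ 1 := fun e => t2 (e ▸ t3)
  by_cases hk : k ∈ K
  · rcases sr_sub h.hl (stabilizer H T) (fun g hg a ha => by
      simp only [mem_stabilizer_finset, smul_eq_mul] at ha ⊢
      intro b
      obtain ⟨l, l1, l2⟩ := sr_key h.hl g a
      rw [← smul_inv_smul l b, ← l2, t5 g hg, ha, t5 l l1]) with e | e
    · refine k1 (inv_eq_one.1 ((h.eq1 _).1 (Subgroup.mem_bot.1 (e ▸ mem_stabilizer_finset.2 fun b => ?_))))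
      rcases h.cases b with ⟨c, rfl⟩ | ⟨c, rfl⟩
      · rw [smul_eq_mul, ← map_mul, t4]
      · have := (p1 k F).1 (f1.2 k hk) c
        rw [smul_eq_mul, ← mul_assoc, ← map_mul]
        by_cases a : t c * w ∈ T <;> simpa [hF, a] using this
    · exact t2 ((mem_stabilizer_finset.1 (show u ∈ stabilizer H T from e ▸ Subgroup.mem_top _) 1).1 (by simpa))
  have a1 : rot t F = ind ℤ (univ.filter fun c => t c ∈ T) := by ext; simp [rot, hF]
  have a2 : ref t w F = ind ℤ (univ.filter fun c => t c * w ∈ T) := by ext; simp [ref, hF]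
  have a3 : st (ref t w F) = ind ℤ (univ.filter fun c => t c * w ∈ T)⁻¹ := by ext; simp [st, ref, hF]
  have a4 : st (rot t F) = rot t F := by ext g; simp [st, rot, h.symm f1.1]
  have f2 : ∀ a b, a ≠ 1 → b ≠ 1 → (F * F).coeff a = (F * F).coeff b := fun a b ha hb => by
    by_contra e
    refine (Km (insert k K) ⟨F * F, a, b, ⟨(p3 F F f1 f1).1, fun l hl => ?_⟩, ha, hb, e⟩).not_gt
      (card_lt_card (ssubset_insert hk))
    rcases mem_insert.1 hl with rfl | hl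
    · have : single l 1 * rot t F = rot t F := by ext c; simp [rot, hF, -map_mul, t4]
      rw [h.ref_mul, a4]
      linear_combination 2 * ref t w F * this
    · exact (p3 F F f1 f1).2 l hl
  have f3 : ∀ a, (F * F).coeff a = (if a = 1 then (F * F).coeff 1 - (F * F).coeff u else 0) + (F * F).coeff u :=
    fun a => by
    split_ifs with e
    · simp [e]
    · rw [f2 a u e u1, zero_add]
  have f4 := h.one_lt f1.1 f3 u1 (mt (h.eq1 k).1 k1) (by simp [hF, t3, ← t4 k, t2])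
  obtain ⟨ν, e1, e2⟩ := h.eqs f1.1 f3
  rw [a3, a1, a2] at e1
  rw [a1, a2] at e2
  obtain ⟨g, c, g1, g2⟩ := h.orb_rot u1
  generalize (F * F).coeff 1 - (F * F).coeff u = D at f4 e1
  refine SR.false0 (A := univ.filter fun c => t c ∈ T) (B := univ.filter fun c => t c * w ∈ T) (κ := D) (ν := ν)
    ⟨by simpa, fun g hg => ?_, by rw [e1]; simp, by rw [e2]; simp, by omega, by omega⟩
    ⟨c, by simp [← g2, t5 g g1, t3]⟩
  have := h.symm f1.1 (t g)
  simp only [mem_filter, mem_univ, true_and] at hg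
  simpa [hF, hg] using this

end DH

theorem two_trans_of_dihedral {G Ω : Type*} [Group G] [MulAction G Ω] [Finite Ω] [IsPreprimitive G Ω]
    (D : Subgroup G) {m : ℕ} (φ : D ≃* DihedralGroup m) [IsPretransitive D Ω]
    (hD : ∀ a : Ω, stabilizer D a = ⊥) : IsMultiplyPretransitive G Ω 2 := by
  refine is_two_pretransitive_iff.2 fun {a b c d} hab hcd => ?_
  let e : D ≃ Ω := .ofBijective (· • a) ⟨fun x y h => inv_mul_eq_one.1 ((hD a).le (by
    simpa [mul_smul, inv_smul_eq_iff] using h.symm)), exists_smul_eq D a⟩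
  have e1 : e 1 = a := one_smul D a
  have := Finite.of_equiv _ e.symm
  have := Fintype.ofFinite D
  have : NeZero m := ⟨by rintro rfl; exact not_finite_iff_infinite.2 inferInstance (Finite.of_equiv _ φ.toEquiv)⟩
  letI := e.mulAction G
  have he : ∀ (g : G) x, e (g • x) = g • e x := fun g x => e.apply_symm_apply _
  have : IsPreprimitive G D := .of_surjective (φ := id)
    (f := ⟨e.symm, fun g x => e.injective (by simp [he])⟩) e.symm.surjective
  obtain ⟨k, rfl⟩ := exists_smul_eq G a c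
  obtain ⟨t, ht⟩ : ∃ t : Multiplicative (ZMod m) →* DihedralGroup m, ∀ x, t x = .r x.toAdd :=
    ⟨⟨⟨fun x => .r x.toAdd, rfl⟩, fun _ _ => rfl⟩, fun _ => rfl⟩
  obtain ⟨g, h3, h4⟩ := DH.two (G := G) (t := φ.symm.toMonoidHom.comp t) (w := φ.symm (.sr 0))
    ⟨fun h => ⟨h, fun x => e.injective ((he _ _).trans (mul_smul h x a).symm)⟩, by simp [← map_mul],
      fun g => by simp [ht, -map_inv, ← map_mul], by
        rintro (x | x) (y | y) <;> simp [ht, -map_inv, ← map_mul], fun x => by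
        obtain ⟨i | i, rfl⟩ := φ.symm.surjective x
        exacts [⟨.inl (.ofAdd i), by simp [ht]⟩, ⟨.inr (.ofAdd (-i)), by simp [ht, -map_inv, ← map_mul]⟩]⟩
    (x := e.symm b) (y := e.symm (k⁻¹ • d)) (fun h => hab (by simpa [e1] using (e.symm_apply_eq.1 h).symm))
    fun h => hcd (by simpa [e1, eq_inv_smul_iff] using (e.symm_apply_eq.1 h).symm)
  exact ⟨k * g, by simpa [he, e1, mul_smul] using congrArg e h3, by
    simpa [he, mul_smul, eq_inv_smul_iff] using congrArg e h4⟩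

end Cfsg.Agent.H19.Dih
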