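import Cfsg.Agent.H19.Gen8
import Cfsg.Agent.H19.BD9

/-! Exceptional characters of degree `p - 2`: the exterior square -/

set_option autoImplicit false

namespace Cfsg.Agent.H19

open Cfsg Cfsg.Agent.H4 Cfsg.Agent.H5 Cfsg.Agent.H6
open scoped ComplexConjugate

variable {G : Type*} [Group G] {p : ℕ} [hp : Fact p.Prime] {x : G} {K : Subgroup G}

theorem per_two {E : Subgroup (ZMod p)ˣ} (hE : Nat.card E = 2) (i : ZMod p) :
    per E 1 i = ee i + ee (-i) := by
  classical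
  obtain ⟨a, b, hab, h⟩ := Set.ncard_eq_two.mp (show (E : Set (ZMod p)ˣ).ncard = 2 from hE)
  have h1 : ∀ c ∈ E, c = 1 ∨ c = -1 := fun c hc => by
    have : c ^ 2 = 1 := by
      have := pow_card_eq_one' (x := (⟨c, hc⟩ : E))
      rw [hE] at this
      exact congrArg Subtype.val this
    exact (sq_eq_one_iff (a := (c : ZMod p))).mp (by rw [← Units.val_pow_eq_pow_val, this]; rfl)
      |>.imp (fun e => Units.ext e) fun e => Units.ext e
  have ha : a ∈ E := by rw [← SetLike.mem_coe, h]; simp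
  have hb : b ∈ E := by rw [← SetLike.mem_coe, h]; simp
  have h2 : (1 : (ZMod p)ˣ) ≠ -1 := fun e => hab (by
    rcases h1 a ha with rfl | rfl <;> rcases h1 b hb with rfl | rfl <;> simp [← e])
  have h3 : (-1 : (ZMod p)ˣ) ∈ E := by
    rcases h1 a ha with rfl | rfl
    · rcases h1 b hb with rfl | rfl
      · exact (hab rfl).elim
      · exact hb
    · exact ha
  rw [per, ← Finset.sum_filter, show (Finset.univ.filter fun k : (ZMod p)ˣ => (k : _ ⧸ E) = 1) =
    {1, -1} from ?_, Finset.sum_pair h2]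
  · simp
  · ext k
    simp only [Finset.mem_filter, Finset.mem_univ, true_and, QuotientGroup.eq_one_iff,
      Finset.mem_insert, Finset.mem_singleton]
    exact ⟨h1 k, by rintro (rfl | rfl); exacts [one_mem _, h3]⟩

theorem per_two_sq {E : Subgroup (ZMod p)ˣ} (hE : Nat.card E = 2) (i : ZMod p) :
    per E 1 i ^ 2 = per E 1 (i + i) + 2 := by
  have h : ee i * ee (-i) = 1 := by rw [← ee_add, add_neg_cancel, ee_zero]
  rw [per_two hE, per_two hE, neg_add, ee_add, ee_add]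
  linear_combination 2 * h

theorem eq_sum_of_degree [Fintype G] {θ : G → ℂ} (hθ : IsCharacter G θ)
    (s : Finset (IrrCharacter G)) (hne : ∀ χ ∈ s, classInner θ χ ≠ 0)
    (hd : charDegree θ ≤ ∑ χ ∈ s, charDegree (χ : G → ℂ)) : θ = ∑ χ ∈ s, (χ : G → ℂ) := by
  classical
  obtain ⟨m, hm⟩ := isCharacter_iff_exists_nat.mp hθ
  have h2 : charDegree θ = ∑ χ : IrrCharacter G, m χ * charDegree (χ : G → ℂ) := by
    apply charDegree_eq_of
    conv_lhs => rw [hm]
    simp only [Finset.sum_apply, Pi.smul_apply, smul_eq_mul, Nat.cast_sum, Nat.cast_mul]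
    exact Finset.sum_congr rfl fun χ _ => by rw [χ.2.isCharacter.charDegree_cast]
  have h3 : ∀ χ ∈ (Finset.univ : Finset (IrrCharacter G)),
      (if χ ∈ s then 1 else 0) * charDegree (χ : G → ℂ) ≤ m χ * charDegree (χ : G → ℂ) := by
    intro χ _
    refine Nat.mul_le_mul_right _ ?_
    split_ifs with h
    · have := hne χ h
      rw [hm, classInner_sum_irr_left] at this
      exact Nat.pos_of_ne_zero (by exact_mod_cast this)
    · exact Nat.zero_le _
  have h4 := (Finset.sum_eq_sum_iff_of_le h3).mp (le_antisymm (Finset.sum_le_sum h3) (by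
    rw [← h2]; simpa using hd))
  rw [hm, ← Finset.sum_subset (Finset.subset_univ s) fun χ _ h => ?_]
  · refine Finset.sum_congr rfl fun χ h => ?_
    have := Nat.eq_of_mul_eq_mul_right χ.2.charDegree_pos (h4 χ (Finset.mem_univ _))
    rw [← this, if_pos h]; simp
  · have := Nat.eq_of_mul_eq_mul_right χ.2.charDegree_pos (h4 χ (Finset.mem_univ _))
    rw [← this, if_neg h]; simp

theorem exists_sq_exp [Finite G] (hp2 : p ≠ 2) (hn : ¬ p ^ 2 ∣ Nat.card G) : ∃ m : ℕ,
    m.Coprime (Nat.card G) ∧ (∀ (g : G) (k : ℕ), g ^ (2 ^ k * p) = 1 → g ^ m = g) ∧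
      ∀ g : G, Odd (orderOf g) → ¬ p ∣ orderOf g → g ^ m = g * g := by
  obtain ⟨a, w, hw, e⟩ := Nat.exists_eq_pow_mul_and_not_dvd (Nat.card_pos (α := G)).ne' 2 (by norm_num)
  obtain ⟨b, v, hv, rfl⟩ := Nat.exists_eq_pow_mul_and_not_dvd
    (show w ≠ 0 by rintro rfl; simp at hw) p hp.out.ne_one
  have hb : b ≤ 1 := by
    by_contra hb
    exact hn (e ▸ ((pow_dvd_pow p (by omega)).mul_right v).mul_left _)
  have h2 : Nat.Coprime 2 v := (Nat.prime_two.coprime_iff_not_dvd).mpr fun h => hw (h.mul_left _)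
  have h3 : Nat.Coprime p v := (hp.out.coprime_iff_not_dvd).mpr hv
  have hc : (2 ^ a * p).Coprime v := (h2.pow_left a).mul_left h3
  obtain ⟨m, m1, m2⟩ := Nat.chineseRemainder hc 1 2
  have c1 : m.Coprime (2 ^ a * p) := by rw [Nat.Coprime, m1.gcd_eq, Nat.gcd_one_left]
  refine ⟨m, ?_, fun g k hg => ?_, fun g h1 h2' => ?_⟩
  · rw [e]
    exact (c1.coprime_mul_right_right).mul_right (((c1.coprime_mul_left_right).pow_right b).mul_right
      (by rw [Nat.Coprime, m2.gcd_eq]; exact h2))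
  · have h4 : orderOf g ∣ 2 ^ a * p := by
      have h5 := orderOf_dvd_of_pow_eq_one hg
      have h6 := orderOf_dvd_natCard g
      have h7 : (orderOf g).Coprime v := Nat.Coprime.coprime_dvd_left h5
        ((h2.pow_left k).mul_left h3)
      rw [e, ← mul_assoc] at h6
      exact (h7.dvd_of_dvd_mul_right h6).trans (Nat.mul_dvd_mul_left _ (by
        simpa using pow_dvd_pow p hb))
    rw [pow_eq_pow_of_modEq m1 (orderOf_dvd_iff_pow_eq_one.mp h4), pow_one]
  · have h4 : orderOf g ∣ v := by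
      have h6 := orderOf_dvd_natCard g
      rw [e] at h6
      exact (((hp.out.coprime_iff_not_dvd.mpr h2').symm).pow_right b).dvd_of_dvd_mul_left
        (((Nat.coprime_two_right.mpr h1).pow_right a).dvd_of_dvd_mul_left h6)
    rw [pow_eq_pow_of_modEq m2 (orderOf_dvd_iff_pow_eq_one.mp h4), sq]

theorem iter_sq [Finite G] (f : G → ℝ) {c : ℝ} (hc : 0 < c) (hf : ∀ u, 0 ≤ f u) {g : G}
    (hg : Odd (orderOf g)) (h : ∀ k : ℕ, f (g ^ 2 ^ k) ^ 2 = c * f (g ^ 2 ^ k * g ^ 2 ^ k)) :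
    f g = 0 ∨ f g = c := by
  have h1 : ∀ k : ℕ, f (g ^ 2 ^ k) / c = (f g / c) ^ 2 ^ k := by
    intro k
    induction k with
    | zero => simp
    | succ k ih =>
      rw [pow_succ, pow_mul, pow_mul, ← ih, sq (g ^ _), div_pow, h k]; field_simp
  have h2 := Nat.ModEq.pow_totient (Nat.coprime_two_left.mpr hg)
  have h3 := h1 (orderOf g).totient
  rw [pow_eq_pow_of_modEq h2 (pow_orderOf_eq_one g), pow_one] at h3
  obtain ⟨j, hj⟩ : ∃ j, 2 ^ (orderOf g).totient = j + 2 := ⟨_, (Nat.sub_add_cancel (by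
    have := Nat.one_lt_two_pow (Nat.totient_pos.mpr (orderOf_pos g)).ne'; omega)).symm⟩
  rw [hj, pow_succ] at h3
  by_cases h0 : f g = 0
  · exact Or.inl h0
  · right
    have h4 : (f g / c) ^ (j + 1) = 1 :=
      mul_right_cancel₀ (div_ne_zero h0 hc.ne') (by rw [one_mul]; exact h3.symm)
    rw [pow_eq_one_iff_of_nonneg (div_nonneg (hf g) hc.le) (by omega)] at h4
    exact (div_eq_one_iff_eq hc.ne').mp h4

variable [Fintype G]

/-- a family of faithful exceptional characters of degree `p - 2` -/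
structure Fam (h : PO p x K) where
  μ : (ZMod p)ˣ ⧸ EE h.ord → IrrCharacter G
  inj : Function.Injective μ
  cen : K ≤ Subgroup.center G
  odd : Odd (Nat.card K)
  he : eN h.ord = 2
  five : 5 ≤ p
  deg : ∀ r, (μ r : G → ℂ) 1 = p - 2
  val : ∀ r, ∀ i : ZMod p, i ≠ 0 → (μ r : G → ℂ) (xp x i) = -per (EE h.ord) r i
  reg : ∀ r g, ¬ p ∣ orderOf g → (μ r : G → ℂ) g = (μ 1 : G → ℂ) g
  faith : ∀ g, (μ 1 : G → ℂ) g = p - 2 → g = 1

namespace Fam
variable {h : PO p x K} (F : Fam h)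
include F

theorem p_eq : p = 2 * tN h.ord + 1 := by rw [← F.he, eN_mul']

theorem deg_ne : (p : ℂ) - 2 ≠ 0 := by
  have := F.five
  rw [sub_ne_zero]; exact_mod_cast (by omega : p ≠ 2)

theorem mul_cen (r : (ZMod p)ˣ ⧸ EE h.ord) {y : G} (hy : y ∈ K) (g : G) :
    (F.μ r : G → ℂ) (g * y) = (F.μ 1 : G → ℂ) y / (p - 2) * (F.μ r : G → ℂ) g := by
  rw [Subgroup.mem_center_iff.mp (F.cen hy), apply_mul_of_mem_charCenter
    ((F.μ r).2.center_le_charCenter (F.cen hy)) (F.deg r ▸ F.deg_ne), F.deg, F.reg r y (h.not_dvd hy)]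

theorem norm_cen {y : G} (hy : y ∈ K) : ‖(F.μ 1 : G → ℂ) y / (p - 2)‖ = 1 := by
  rw [norm_div, (F.μ 1).2.isCharacter.mem_charCenter.mp ((F.μ 1).2.center_le_charCenter (F.cen hy)),
    F.deg, div_self (norm_ne_zero_iff.mpr F.deg_ne)]

theorem odd_of_mem {y : G} (hy : y ∈ K) : Odd (orderOf y) :=
  F.odd.of_dvd_nat (K.orderOf_dvd_natCard hy)

theorem odd_of_dvd {g : G} (hg : p ∣ orderOf g) : Odd (orderOf g) := by
  obtain ⟨t, i, hi, y, hy, rfl⟩ := h.exists_conj_of_dvd hg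
  rw [show orderOf (t * (xp x i * y) * t⁻¹) = orderOf (xp x i * y) from
    (MulAut.conj t).orderOf_eq _]
  refine Odd.of_dvd_nat ?_ (h.commute_xp i hy).orderOf_mul_dvd_mul_orderOf
  rw [orderOf_xp h.ord hi]
  exact (hp.out.odd_of_ne_two (by have := F.five; omega)).mul (F.odd_of_mem hy)

theorem mem_of_norm {g : G} (hg : ¬ p ∣ orderOf g) (e : ‖(F.μ 1 : G → ℂ) g‖ = ‖(p : ℂ) - 2‖) :
    g ∈ K := by
  have h1 := (F.μ 1).2.isCharacter.mem_charCenter.mpr (e.trans (by rw [F.deg]))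
  have h2 := (F.μ 1).2.isCharacter.charCenter_le_center (eq_bot_iff.mpr fun a ha =>
    F.faith a (by rw [apply_of_mem_charKer ha, F.deg])) h1
  exact (h.memK g).mpr ⟨Subgroup.mem_center_iff.mp h2 x, hg⟩

theorem ext_sq {m : ℕ} (hm : m.Coprime (Nat.card G))
    (h1 : ∀ (g : G) (k : ℕ), g ^ (2 ^ k * p) = 1 → g ^ m = g)
    (h2 : ∀ g : G, Odd (orderOf g) → ¬ p ∣ orderOf g → g ^ m = g * g) {g : G}
    (hg : ¬ p ∣ orderOf g) : (F.μ 1 : G → ℂ) (g * g) =
      (F.μ 1 : G → ℂ) g ^ 2 - (p - 3) * (F.μ 1 : G → ℂ) (g ^ m) := by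
  classical
  haveI := Fintype.ofFinite ((ZMod p)ˣ ⧸ EE h.ord)
  have hp2 : (2 : ZMod p) ≠ 0 := fun e => by
    have := Nat.le_of_dvd two_pos ((ZMod.natCast_eq_zero_iff 2 p).mp (by exact_mod_cast e))
    have := F.five
    omega
  set r₀ : (ZMod p)ˣ ⧸ EE h.ord := QuotientGroup.mk (Units.mk0 2 hp2)
  let ν : (ZMod p)ˣ ⧸ EE h.ord → IrrCharacter G := fun r => ⟨_, (F.μ r).2.comp_pow hm⟩
  have hν : ∀ r g, (ν r : G → ℂ) g = (F.μ r : G → ℂ) (g ^ m) := fun _ _ => rfl
  have hi : Function.Injective ν := fun r s e => F.inj (Subtype.ext (funext fun g => by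
    obtain ⟨a, rfl⟩ := (powCoprime hm.symm).surjective g
    exact congrFun (congrArg Subtype.val e) a))
  have hr : ∀ r g, ¬ p ∣ orderOf g → (ν r : G → ℂ) g = (F.μ 1 : G → ℂ) (g ^ m) := fun r g hg =>
    F.reg r _ fun e => hg (e.trans (orderOf_pow_dvd m))
  have hθ := (F.μ 1).2.isCharacter.sym_sq (s := -1) (by simp)
  set θ : G → ℂ := fun g => 2⁻¹ * ((F.μ 1 : G → ℂ) g ^ 2 + -1 * (F.μ 1 : G → ℂ) (g * g))
  have hD : ∀ g, p ∣ orderOf g → (θ - ∑ r ∈ Finset.univ.erase r₀, (ν r : G → ℂ)) g = 0 := by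
    intro g hg
    obtain ⟨t, i, hi, y, hy, rfl⟩ := h.exists_conj_of_dvd hg
    have e1 : (xp x i * y) ^ m = xp x i * y * y := by
      rw [(h.commute_xp i hy).mul_pow, h1 _ 0 (by
        rw [pow_zero, one_mul, ← orderOf_dvd_iff_pow_eq_one, orderOf_xp h.ord hi]),
        h2 y (F.odd_of_mem hy) (h.not_dvd hy), mul_assoc]
    have e2 : xp x i * y * (xp x i * y) = xp x (i + i) * y * y := by
      rw [xp_add h.ord, (h.commute_xp i hy).symm.mul_mul_mul_comm, mul_assoc, mul_assoc, mul_assoc]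
    have e3 : i + i ≠ 0 := by rw [← two_mul]; exact mul_ne_zero hp2 hi
    have e4 : per (EE h.ord) 1 (i + i) = per (EE h.ord) r₀ i := by
      rw [← two_mul, ← mul_one r₀, ← per_mul]; rfl
    have e5 := sum_per (EE h.ord) hi
    rw [← Finset.add_sum_erase _ _ (Finset.mem_univ r₀)] at e5
    rw [Pi.sub_apply, hθ.isClassFunction, Finset.sum_apply,
      Finset.sum_congr rfl fun r _ => (ν r).2.isClassFunction _ _]
    simp only [θ, hν, e1, e2, F.mul_cen _ hy, F.val _ _ hi, F.val _ _ e3, mul_pow, neg_sq,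
      per_two_sq F.he, e4, ← Finset.mul_sum, Finset.sum_neg_distrib]
    linear_combination ((F.μ 1 : G → ℂ) y / (p - 2)) ^ 2 * e5
  have h3 : ∀ χ ∈ (Finset.univ.erase r₀).image ν, classInner θ χ ≠ 0 := by
    intro χ hχ
    obtain ⟨r, hr', rfl⟩ := Finset.mem_image.mp hχ
    have e : classInner (θ - ∑ r ∈ Finset.univ.erase r₀, (ν r : G → ℂ)) (ν r) =
        classInner (θ - ∑ r ∈ Finset.univ.erase r₀, (ν r : G → ℂ)) (ν r₀) := by
      rw [classInner_def, classInner_def]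
      refine congrArg _ (Finset.sum_congr rfl fun g _ => ?_)
      by_cases hg : p ∣ orderOf g
      · rw [hD g hg, zero_mul, zero_mul]
      · rw [hr r g hg, hr r₀ g hg]
    obtain ⟨n, hn⟩ := hθ.classInner_nat (ν r₀).2.isCharacter
    simp only [classInner_sub_left, classInner_sum_left, irr_classInner, hi.eq_iff,
      Finset.sum_ite_eq', hr', if_true, Finset.notMem_erase, if_false, hn] at e
    rw [sub_eq_iff_eq_add.mp e, sub_zero]
    exact_mod_cast (by omega : n + 1 ≠ 0)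
  have ht : ((Finset.univ.erase r₀).card : ℂ) * 2 = p - 3 := by
    rw [Finset.card_erase_of_mem (Finset.mem_univ _), Finset.card_univ, Fintype.card_eq_nat_card,
      Nat.cast_sub (tN_pos h.ord)]
    have : (p : ℂ) = 2 * tN h.ord + 1 := by exact_mod_cast F.p_eq
    rw [this]; push_cast; ring
  have h4 := eq_sum_of_degree hθ _ h3 (le_of_eq (charDegree_eq_of (by
    rw [Finset.sum_image hi.injOn]
    simp only [θ, Nat.cast_sum, fun r => (ν r).2.isCharacter.charDegree_cast, hν, one_pow, mul_one,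
      F.deg, Finset.sum_const, nsmul_eq_mul]
    linear_combination (-(p - 2) / 2 : ℂ) * ht)))
  have h5 := congrFun h4 g
  rw [Finset.sum_image hi.injOn, Finset.sum_apply, Finset.sum_congr rfl fun r _ => hr r g hg,
    Finset.sum_const, nsmul_eq_mul] at h5
  simp only [θ] at h5
  linear_combination -2 * h5 - (F.μ 1 : G → ℂ) (g ^ m) * ht

end Fam

end Cfsg.Agent.H19
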