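import Cfsg.Agent.H19.FamA

/-! Exceptional characters of degree `p - 2`: involutions and the group order -/

set_option autoImplicit false

namespace Cfsg.Agent.H19

open Cfsg Cfsg.Agent.H4 Cfsg.Agent.H5 Cfsg.Agent.H6
open scoped ComplexConjugate

variable {G : Type*} [Group G] {p : ℕ} [hp : Fact p.Prime] {x : G} {K : Subgroup G}

theorem isCharacter_pm {χ : G → ℂ} (hχ : IsCharacter G χ) {J : G} (hJ : J * J = 1)
    {U : Subgroup G} (hU : ∀ y ∈ U, Commute J y) {s : ℂ} (hs : s * s = 1) :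
    IsCharacter U fun y => 2⁻¹ * (χ y + s * χ (y * J)) := by
  obtain ⟨n, ρ, rfl⟩ := hχ
  have := isCharacter_trace_mul_idem (G := U) (ρ.comp U.subtype)
    ((2⁻¹ : ℂ) • (1 + s • ρ J)) (fun g => by
      simp only [MonoidHom.comp_apply, Subgroup.coe_subtype, smul_mul_assoc, mul_smul_comm, add_mul,
        mul_add, one_mul, mul_one, ← map_mul, (hU g g.2).eq]) (by
      simp only [smul_mul_assoc, mul_smul_comm, add_mul, mul_add, one_mul, mul_one, ← map_mul, hJ,
        map_one, smul_smul, smul_add]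
      match_scalars
      · linear_combination 4⁻¹ * hs
      · ring)
  simpa [mul_add, ← map_mul, Representation.character] using this

theorem sum_ite_subgroup {U : Subgroup G} [Fintype U] (K : Subgroup G) [DecidablePred (· ∈ K)]
    (a b : ℂ) : ∑ y : U, (if (y : G) ∈ K then a else b) =
      Nat.card (K.subgroupOf U) * a + (Nat.card U - Nat.card (K.subgroupOf U)) * b := by
  have h1 : (Finset.univ.filter fun y : U => (y : G) ∈ K).card = Nat.card (K.subgroupOf U) := by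
    rw [← Fintype.card_subtype, ← Nat.card_eq_fintype_card]; rfl
  have h2 := Finset.card_filter_add_card_filter_not (s := Finset.univ) fun y : U => (y : G) ∈ K
  rw [Finset.card_univ, Fintype.card_eq_nat_card, h1] at h2
  rw [Finset.sum_ite, Finset.sum_const, Finset.sum_const, h1, ← h2]
  simp

variable [Fintype G]

namespace Fam
variable {h : PO p x K} (F : Fam h)
include F

theorem p_ne_two : p ≠ 2 := by have := F.five; omega

theorem norm_sub {c : ℕ} (hc : c ≤ 5) : ‖(p : ℂ) - c‖ = p - c := by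
  rw [← Nat.cast_sub (hc.trans F.five), Complex.norm_natCast, Nat.cast_sub (hc.trans F.five)]

theorem odd_zero {g : G} (h1 : Odd (orderOf g)) (h2 : ¬ p ∣ orderOf g) (h3 : g ∉ K) :
    (F.μ 1 : G → ℂ) g = 0 := by
  obtain ⟨m, hm, m1, m2⟩ := exists_sq_exp F.p_ne_two h.nsq
  have h5 : (5 : ℝ) ≤ p := by exact_mod_cast F.five
  have hn := F.norm_sub (c := 2) (by norm_num)
  rcases iter_sq (fun g => ‖(F.μ 1 : G → ℂ) g‖) (c := p - 2) (by linarith) (fun _ => norm_nonneg _)
    h1 (fun k => by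
      have d := orderOf_pow_dvd (x := g) (2 ^ k)
      have e := F.ext_sq hm m1 m2 (g := g ^ 2 ^ k) fun e => h2 (e.trans d)
      rw [m2 _ (h1.of_dvd_nat d) fun e => h2 (e.trans d)] at e
      rw [← norm_pow, show (F.μ 1 : G → ℂ) (g ^ 2 ^ k) ^ 2 =
        (p - (2 : ℕ)) * (F.μ 1 : G → ℂ) (g ^ 2 ^ k * g ^ 2 ^ k) by push_cast; linear_combination -e,
        norm_mul, hn]; rfl) with e | e
  · exact norm_eq_zero.mp e
  · exact (h3 (F.mem_of_norm h2 (e.trans hn.symm))).elim

theorem reg_of_even {g : G} (hg : 2 ∣ orderOf g) : ¬ p ∣ orderOf g := fun e => by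
  have := Nat.odd_iff.mp (F.odd_of_dvd e); omega

theorem invol {J : G} (hJ : orderOf J = 2) : (F.μ 1 : G → ℂ) J = -1 := by
  obtain ⟨m, hm, m1, m2⟩ := exists_sq_exp F.p_ne_two h.nsq
  have e := F.ext_sq hm m1 m2 (F.reg_of_even hJ.symm.dvd)
  have hJ2 : J * J = 1 := by rw [← sq, ← hJ, pow_orderOf_eq_one]
  rw [m1 J 1 (by rw [pow_mul, pow_one, sq, hJ2, one_pow]), hJ2, F.deg] at e
  have : ((F.μ 1 : G → ℂ) J + 1) * ((F.μ 1 : G → ℂ) J - (p - 2)) = 0 := by
    push_cast at e; linear_combination -e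
  rcases mul_eq_zero.mp this with e | e
  · exact eq_neg_of_add_eq_zero_left e
  · rw [F.faith J (sub_eq_zero.mp e), orderOf_one] at hJ; omega

theorem no_four (h7 : 7 ≤ p) (g : G) : orderOf g ≠ 4 := fun hg => by
  obtain ⟨m, hm, m1, m2⟩ := exists_sq_exp F.p_ne_two h.nsq
  have e := F.ext_sq hm m1 m2 (F.reg_of_even (g := g) (by rw [hg]; norm_num))
  have g4 : g ^ 4 = 1 := by rw [← hg, pow_orderOf_eq_one]
  rw [m1 g 2 (by rw [pow_mul, show 2 ^ 2 = 4 from rfl, g4, one_pow]), ← sq, F.invol (by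
    rw [orderOf_pow' _ two_ne_zero, hg]; rfl)] at e
  have h5 : (7 : ℝ) ≤ p := by exact_mod_cast h7
  have h1 : conj ((F.μ 1 : G → ℂ) g) = (F.μ 1 : G → ℂ) g := by
    rw [Complex.conj_eq_iff_im]
    have e1 := congrArg Complex.re e
    have e2 := congrArg Complex.im e
    simp [sq] at e1 e2
    by_contra hb
    have : 2 * ((F.μ 1 : G → ℂ) g).re = p - 3 :=
      mul_right_cancel₀ hb (by linear_combination -e2)
    nlinarith [mul_self_nonneg ((F.μ 1 : G → ℂ) g).im]
  obtain ⟨v, hv⟩ := (F.μ 1).2.isGen.exists_int_of_forall_pow (g := g) fun k hk => by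
    rw [hg] at hk
    have h2 : k % 2 = 1 := Nat.odd_iff.mp (Nat.coprime_two_right.mp
      (hk.coprime_dvd_right (by norm_num)))
    rw [← pow_mod_orderOf, hg]
    obtain e | e : k % 4 = 1 ∨ k % 4 = 3 := by omega
    · rw [e, pow_one]
    · rw [e, show g ^ 3 = g⁻¹ from eq_inv_of_mul_eq_one_left (by rw [← pow_succ, g4]),
        (F.μ 1).2.isCharacter.apply_inv, h1]
  rw [hv] at e
  have e' : v * (p - 3 - v) = 1 := by
    have : ((v * (p - 3 - v) : ℤ) : ℂ) = (1 : ℤ) := by push_cast; linear_combination e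
    exact_mod_cast this
  rcases Int.eq_one_or_neg_one_of_mul_eq_one' e' with e | e <;> omega

theorem sq_eq_one (h7 : 7 ≤ p) {g : G} {k : ℕ} (hg : orderOf g = 2 ^ k) : g * g = 1 := by
  rcases k with _ | _ | k
  · rw [orderOf_eq_one_iff.mp hg, one_mul]
  · rw [← sq, show 2 = orderOf g from hg.symm, pow_orderOf_eq_one]
  · obtain ⟨j, hj⟩ := H8.exists_orderOf_eq_of_dvd (g := g) (n := 4)
      (by rw [hg, pow_add, pow_add]; exact ⟨2 ^ k, by ring⟩)
    exact (F.no_four h7 _ hj).elim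

theorem reg_of_comm {J u : G} (hJ : orderOf J = 2) (hc : Commute J u) : ¬ p ∣ orderOf u := by
  intro hu
  obtain ⟨t, i, hi, y, hy, rfl⟩ := h.exists_conj_of_dvd hu
  have h1 : Commute (t⁻¹ * J * t⁻¹⁻¹) (xp x i * y) := by
    simpa [mul_assoc] using hc.conj t⁻¹
  have h2 := (commute_xp_iff h.ord hi).mp
    (IsPPart.commute_of_commute hp.out (h.isPPart i hy) h1).symm
  have h3 := F.odd_of_mem ((h.memK _).mpr ⟨h2, F.reg_of_even (by rw [orderOf_conj', hJ])⟩)
  rw [orderOf_conj', hJ] at h3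
  exact absurd h3 (by decide)

theorem t_cast : (p : ℂ) = 2 * tN h.ord + 1 := by exact_mod_cast F.p_eq

theorem pm_val {J y : G} (hJ : orderOf J = 2) (hy : y ∈ K) {s s' : ℂ} :
    2⁻¹ * ((F.μ 1 : G → ℂ) y + s * (F.μ 1 : G → ℂ) (y * J)) *
      conj (2⁻¹ * ((F.μ 1 : G → ℂ) y + s' * (F.μ 1 : G → ℂ) (y * J))) =
      2⁻¹ * (p - 2 - s) * (2⁻¹ * (p - 2 - conj s')) := by
  have h1 := F.mul_cen 1 hy 1
  have h2 := F.mul_cen 1 hy J
  have h3 := F.norm_cen hy
  rw [one_mul, F.deg] at h1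
  rw [F.invol hJ, Subgroup.mem_center_iff.mp (F.cen hy)] at h2
  generalize (F.μ 1 : G → ℂ) y / (p - 2) = ω at h1 h2 h3
  have h4 : ω * conj ω = 1 := by rw [Complex.mul_conj, Complex.normSq_eq_norm_sq, h3]; simp
  rw [h1, h2]
  simp only [map_mul, map_add, map_sub, map_neg, map_one, map_inv₀, map_natCast, map_ofNat]
  linear_combination (2⁻¹ * (p - 2 - s) * (2⁻¹ * (p - 2 - conj s'))) * h4

theorem twist_zero (h7 : 7 ≤ p) {J u : G} (hJ : orderOf J = 2) (hu : Odd (orderOf u))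
    (hc : Commute J u) (hK : u ∉ K) : (F.μ 1 : G → ℂ) (u * J) = 0 := by
  classical
  obtain ⟨m, hm, m1, m2⟩ := exists_sq_exp F.p_ne_two h.nsq
  have hJ2 : J * J = 1 := by rw [← sq, ← hJ, pow_orderOf_eq_one]
  have h5 : (5 : ℝ) ≤ p := by exact_mod_cast F.five
  have hn := F.norm_sub (c := 3) (by norm_num)
  have hU : ∀ y ∈ Subgroup.zpowers u, Commute J y := fun y hy => by
    obtain ⟨k, rfl⟩ := Subgroup.mem_zpowers_iff.mp hy; exact hc.zpow_right k
  have ho : ∀ y ∈ Subgroup.zpowers u, Odd (orderOf y) := fun y hy =>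
    hu.of_dvd_nat (orderOf_dvd_of_mem_zpowers hy)
  have hz : ∀ y ∈ Subgroup.zpowers u, y ∉ K → (F.μ 1 : G → ℂ) y = 0 := fun y hy =>
    F.odd_zero (ho y hy) (F.reg_of_comm hJ (hU y hy))
  rcases iter_sq (fun g => ‖(F.μ 1 : G → ℂ) (g * J)‖) (c := p - 3) (by linarith)
    (fun _ => norm_nonneg _) hu (fun k => by
      have d : u ^ 2 ^ k ∈ Subgroup.zpowers u := Subgroup.npow_mem_zpowers _ _
      have d2 : u ^ 2 ^ k * u ^ 2 ^ k ∉ K := fun e => hK (by
        rw [← pow_add, ← two_mul, ← pow_succ'] at e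
        exact (Subgroup.zpowers_le.mpr e) (mem_zpowers_pow_iff.mpr
          ((Nat.coprime_two_left.mpr hu).pow_left _)))
      generalize u ^ 2 ^ k = y at d d2
      have e := F.ext_sq hm m1 m2 (F.reg_of_comm hJ ((hU y d).mul_right (Commute.refl J)))
      rw [(hU y d).symm.mul_pow, m2 _ (ho y d) (F.reg_of_comm hJ (hU y d)), m1 J 1 (by
        rw [pow_mul, pow_one, sq, hJ2, one_pow]), (hU y d).mul_mul_mul_comm, hJ2, mul_one,
        hz _ (mul_mem d d) d2] at e
      rw [← norm_pow, show (F.μ 1 : G → ℂ) (y * J) ^ 2 =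
        (p - (3 : ℕ)) * (F.μ 1 : G → ℂ) (y * y * J) by push_cast; linear_combination -e,
        norm_mul, hn]; rfl) with e | e
  · exact norm_eq_zero.mp e
  exfalso
  have c1 := isCharacter_pm (F.μ 1).2.isCharacter hJ2 hU (s := 1) (by simp)
  have c2 := isCharacter_pm (F.μ 1).2.isCharacter hJ2 hU (s := -1) (by simp)
  have h1 : 2⁻¹ * ((F.μ 1 : G → ℂ) (1 : Subgroup.zpowers u) +
      1 * (F.μ 1 : G → ℂ) ((1 : Subgroup.zpowers u) * J)) = 2⁻¹ * (p - (3 : ℕ)) := by
    simp [F.deg, F.invol hJ]; ring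
  have h2 : ∀ y : Subgroup.zpowers u, y ∈ charCenter fun y : Subgroup.zpowers u =>
      2⁻¹ * ((F.μ 1 : G → ℂ) y + 1 * (F.μ 1 : G → ℂ) (y * J)) := fun y => by
    have := (c1.mem_charCenter (z := ⟨u, Subgroup.mem_zpowers u⟩)).mpr (by
      rw [h1]; simp only [hz u (Subgroup.mem_zpowers u) hK, zero_add, one_mul, norm_mul, e, hn]; rfl)
    obtain ⟨y, k, rfl⟩ := y
    exact Subgroup.zpow_mem _ this k
  obtain ⟨n, hn'⟩ := c1.classInner_nat c2
  have h3 := congrArg ((Nat.card (Subgroup.zpowers u) : ℂ) * ·) hn'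
  rw [card_mul_classInner, Finset.sum_congr rfl (g := fun y : Subgroup.zpowers u => if (y : G) ∈ K then
    ((tN h.ord - 1) * tN h.ord : ℂ) else -(tN h.ord - 1) ^ 2) fun y _ => ?_, sum_ite_subgroup] at h3
  · have h4 := (K.subgroupOf (Subgroup.zpowers u)).card_mul_index
    have h6 : (K.subgroupOf (Subgroup.zpowers u)).index ≠ 1 := fun e => hK (by
      have := Subgroup.index_eq_one.mp e ▸ Subgroup.mem_top (⟨u, Subgroup.mem_zpowers u⟩ :
        Subgroup.zpowers u)
      exact this)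
    have h8 := Nat.odd_iff.mp (hu.of_dvd_nat (Nat.card_zpowers u ▸ Dvd.intro_left _ h4))
    have h9 : 0 < Nat.card (K.subgroupOf (Subgroup.zpowers u)) := Nat.card_pos
    rw [← h4] at h3
    have h10 := F.p_eq
    generalize Nat.card (K.subgroupOf (Subgroup.zpowers u)) = a at *
    generalize (K.subgroupOf (Subgroup.zpowers u)).index = f at *
    obtain ⟨t, ht⟩ : ∃ t, tN h.ord = t + 3 := ⟨tN h.ord - 3, by omega⟩
    obtain ⟨f, rfl⟩ : ∃ f', f = f' + 3 := ⟨f - 3, by omega⟩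
    rw [ht] at h3
    have h11 : (a * ((t + 2) * (t + 3)) : ℕ) = a * (f + 3) * n + a * ((f + 2) * (t + 2) ^ 2) := by
      have : ((a * ((t + 2) * (t + 3)) : ℕ) : ℂ) =
          (a * (f + 3) * n + a * ((f + 2) * (t + 2) ^ 2) : ℕ) := by
        push_cast at h3 ⊢; linear_combination h3
      exact_mod_cast this
    have h12 := Nat.le_of_mul_le_mul_left (h11 ▸ Nat.le_add_left _ _ :
      a * ((f + 2) * (t + 2) ^ 2) ≤ a * ((t + 2) * (t + 3))) h9
    nlinarith
  · split_ifs with hy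
    · rw [F.pm_val hJ hy, F.t_cast]; simp; ring
    · have h4 := c1.mem_charCenter.mp (h2 y)
      rw [h1] at h4
      simp only [hz y y.2 hy, zero_add] at h4 ⊢
      have h6 := Complex.mul_conj (2⁻¹ * (1 * (F.μ 1 : G → ℂ) (y * J)))
      rw [Complex.normSq_eq_norm_sq, h4, ← Complex.normSq_eq_norm_sq, ← Complex.mul_conj,
        F.t_cast] at h6
      simp only [map_mul, map_add, map_sub, map_neg, map_one, map_inv₀, map_natCast, map_ofNat]
        at h6 ⊢
      push_cast at h6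
      linear_combination -h6

theorem mem_of_comm (h7 : 7 ≤ p) {J u : G} (hJ : orderOf J = 2) (hu : Odd (orderOf u))
    (hc : Commute J u) : u ∈ K := by
  classical
  have hJ2 : J * J = 1 := by rw [← sq, ← hJ, pow_orderOf_eq_one]
  have hU : ∀ y ∈ Subgroup.zpowers u, Commute J y := fun y hy => by
    obtain ⟨k, rfl⟩ := Subgroup.mem_zpowers_iff.mp hy; exact hc.zpow_right k
  have key : ∀ (s : ℂ) (c : ℕ), s * s = 1 → 2⁻¹ * (p - 2 - s) * (2⁻¹ * (p - 2 - conj s)) = c ^ 2 →
      Nat.card (Subgroup.zpowers u) ∣ Nat.card (K.subgroupOf (Subgroup.zpowers u)) * c ^ 2 := by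
    intro s c hs e
    have c1 := isCharacter_pm (F.μ 1).2.isCharacter hJ2 hU hs
    obtain ⟨n, hn⟩ := c1.classInner_nat c1
    have h3 := congrArg ((Nat.card (Subgroup.zpowers u) : ℂ) * ·) hn
    rw [card_mul_classInner, Finset.sum_congr rfl (g := fun y : Subgroup.zpowers u => if (y : G) ∈ K then
      (c ^ 2 : ℂ) else 0) fun y _ => ?_, sum_ite_subgroup] at h3
    · exact ⟨n, by rw [mul_zero, add_zero] at h3; exact_mod_cast h3⟩
    · have ho := hu.of_dvd_nat (orderOf_dvd_of_mem_zpowers y.2)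
      split_ifs with hy
      · rw [F.pm_val hJ hy, e]
      · simp [F.odd_zero ho (F.reg_of_comm hJ (hU y y.2)) hy, F.twist_zero h7 hJ ho (hU y y.2) hy]
  obtain ⟨t, ht⟩ : ∃ t, tN h.ord = t + 1 := ⟨tN h.ord - 1, by have := tN_pos h.ord; omega⟩
  have h1 := key 1 t (by simp) (by rw [F.t_cast, ht]; simp; ring)
  have h2 := key (-1) (t + 1) (by simp) (by rw [F.t_cast, ht]; simp; ring)
  have h3 := Nat.dvd_gcd h1 h2
  rw [Nat.gcd_mul_left, Nat.Coprime.pow 2 2 (by simp : Nat.Coprime t (t + 1)), mul_one] at h3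
  have h4 := Subgroup.eq_top_of_le_card _ (Nat.le_of_dvd Nat.card_pos h3)
  exact (h4 ▸ Subgroup.mem_top (⟨u, Subgroup.mem_zpowers u⟩ : Subgroup.zpowers u) :
    _ ∈ K.subgroupOf _)

theorem exists_of_even (h7 : 7 ≤ p) {g : G} (hg : 2 ∣ orderOf g) :
    ∃ J y, orderOf J = 2 ∧ y ∈ K ∧ g = J * y := by
  obtain ⟨J, hJ⟩ := exists_isPPart Nat.prime_two g
  have h1 : J ≠ 1 := fun e => (IsPPart.eq_one_iff Nat.prime_two hJ).mp e hg
  obtain ⟨y, rfl, hc, ⟨k, hk⟩, hy⟩ := hJ
  have h2 : orderOf J = 2 := orderOf_eq_prime (by rw [sq, F.sq_eq_one h7 hk]) h1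
  exact ⟨J, y, h2, F.mem_of_comm h7 h2 (Nat.odd_iff.mpr (by omega)) hc, rfl⟩

theorem norm_even (h7 : 7 ≤ p) {g : G} (hg : 2 ∣ orderOf g) :
    (F.μ 1 : G → ℂ) g * conj ((F.μ 1 : G → ℂ) g) = 1 := by
  obtain ⟨J, y, hJ, hy, rfl⟩ := F.exists_of_even h7 hg
  rw [Complex.mul_conj, Complex.normSq_eq_norm_sq, F.mul_cen 1 hy, norm_mul, F.norm_cen hy,
    F.invol hJ]; simp

theorem card_even (h7 : 7 ≤ p) : Nat.card {g : G // 2 ∣ orderOf g} =
    Nat.card {J : G // orderOf J = 2} * Nat.card K := by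
  have hc : ∀ (J : G) {y : G}, y ∈ K → Commute J y := fun J y hy =>
    Subgroup.mem_center_iff.mp (F.cen hy) J
  have hP : ∀ {J y : G}, orderOf J = 2 → y ∈ K → IsPPart 2 (J * y) J := fun hJ hy =>
    isPPart_mul (hc _ hy) ⟨1, hJ⟩ (by have := Nat.odd_iff.mp (F.odd_of_mem hy); omega)
  rw [← Nat.card_prod]
  have h2 : ∀ {J y : G}, orderOf J = 2 → y ∈ K → 2 ∣ orderOf (J * y) := fun hJ hy => by
    by_contra e
    rw [(IsPPart.eq_one_iff Nat.prime_two (hP hJ hy)).mpr e, orderOf_one] at hJ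
    omega
  refine (Nat.card_congr (Equiv.ofBijective (fun a => ⟨a.1.1 * a.2.1, h2 a.1.2 a.2.2⟩)
    ⟨?_, ?_⟩)).symm
  · rintro ⟨⟨J, hJ⟩, y, hy⟩ ⟨⟨J', hJ'⟩, y', hy'⟩ e
    have e' : J * y = J' * y' := congrArg Subtype.val e
    obtain rfl := IsPPart.unique Nat.prime_two (hP hJ hy) (e' ▸ hP hJ' hy')
    obtain rfl := mul_left_cancel e'
    rfl
  · rintro ⟨g, hg⟩
    obtain ⟨J, y, hJ, hy, rfl⟩ := F.exists_of_even h7 hg
    exact ⟨⟨⟨J, hJ⟩, y, hy⟩, rfl⟩

theorem count (h7 : 7 ≤ p) : 2 * Nat.card G =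
    p * (((p - 2) ^ 2 + Nat.card {J : G // orderOf J = 2}) * Nat.card K) := by
  classical
  haveI := Fintype.ofFinite ((ZMod p)ˣ ⧸ EE h.ord)
  set Φ : G → ℂ := ∑ r, (F.μ r : G → ℂ)
  have ht : (Fintype.card ((ZMod p)ˣ ⧸ EE h.ord) : ℂ) = tN h.ord := by
    rw [Fintype.card_eq_nat_card]
  have h1 : classInner Φ Φ = tN h.ord := by
    simp [Φ, classInner_sum_left, classInner_sum_right, irr_classInner, F.inj.eq_iff, ht]
  have h2 := congrArg ((Nat.card G : ℂ) * ·) h1
  have h3 := h.sum_singular (θ := fun _ => 1) (fun _ _ => rfl)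
  rw [sum_fn_eq_units, Finset.sum_congr rfl fun (k : (ZMod p)ˣ) _ => fn_one (k : ZMod p) k.ne_zero,
    h.card_N,
    show Nat.card (EE h.ord) = 2 from F.he, Finset.sum_const, Finset.card_univ, ZMod.card_units,
    nsmul_eq_mul, Nat.cast_sub hp.out.one_le] at h3
  rw [card_mul_classInner, Finset.sum_congr rfl (g := fun g => (if p ∣ orderOf g then 1 else 0) +
    (tN h.ord : ℂ) ^ 2 * ((if g ∈ K then (p - 2 : ℂ) ^ 2 else 0) + if 2 ∣ orderOf g then 1 else 0))
    fun g _ => ?_, Finset.sum_add_distrib, ← Finset.mul_sum, Finset.sum_add_distrib] at h2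
  · have h4 : ∑ g : G, (if g ∈ K then (p - 2 : ℂ) ^ 2 else 0) = Nat.card K * (p - 2) ^ 2 := by
      rw [← Finset.sum_filter, Finset.sum_const, ← Fintype.card_subtype, nsmul_eq_mul,
        Nat.card_eq_fintype_card]
    have h5 : ∑ g : G, (if 2 ∣ orderOf g then (1 : ℂ) else 0) =
        Nat.card {J : G // orderOf J = 2} * Nat.card K := by
      rw [← Nat.cast_mul, ← F.card_even h7, ← Finset.sum_filter, Finset.sum_const,
        ← Fintype.card_subtype, nsmul_eq_mul, Nat.card_eq_fintype_card, mul_one]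
    rw [h4, h5] at h2
    have h6 : (Nat.card K : ℂ) ≠ 0 := natCard_ne_zero'
    have h8 : (tN h.ord : ℂ) ≠ 0 := Nat.cast_ne_zero.mpr (tN_pos h.ord).ne'
    have h9 := F.t_cast
    have : ((2 * Nat.card G : ℕ) : ℂ) =
        (p * (((p - 2) ^ 2 + Nat.card {J : G // orderOf J = 2}) * Nat.card K) : ℕ) := by
      apply mul_left_cancel₀ (mul_ne_zero h6 (pow_ne_zero 2 h8))
      push_cast [Nat.cast_sub hp.out.two_le] at h3 ⊢
      linear_combination (-p * Nat.card K) * h2 + 2⁻¹ * h3 +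
        (Nat.card K * Nat.card G * (2⁻¹ - tN h.ord)) * h9
    exact_mod_cast this
  by_cases hg : p ∣ orderOf g
  · have := Nat.odd_iff.mp (F.odd_of_dvd hg)
    rw [if_pos hg, if_neg fun e => h.not_dvd e hg, if_neg (by omega)]
    obtain ⟨t, i, hi, y, hy, rfl⟩ := h.exists_conj_of_dvd hg
    have e : ∀ r, (F.μ r : G → ℂ) (t * (xp x i * y) * t⁻¹) = (F.μ r : G → ℂ) (xp x i * y) :=
      fun r => (F.μ r).2.isClassFunction _ _
    simp only [Φ, Finset.sum_apply, e, F.mul_cen _ hy,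
      F.val _ _ hi, ← Finset.mul_sum, Finset.sum_neg_distrib, sum_per _ hi]
    rw [Complex.mul_conj, Complex.normSq_eq_norm_sq, norm_mul, F.norm_cen hy]; simp
  · simp only [Φ, Finset.sum_apply, F.reg _ g hg, Finset.sum_const, Finset.card_univ, nsmul_eq_mul,
      ht, if_neg hg, zero_add, map_mul, map_natCast]
    rw [mul_mul_mul_comm, ← sq]
    congr 1
    by_cases h2 : 2 ∣ orderOf g
    · have : g ∉ K := fun e => by have := Nat.odd_iff.mp (F.odd_of_mem e); omega
      rw [F.norm_even h7 h2, if_pos h2, if_neg this, zero_add]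
    · rw [if_neg h2, add_zero]
      split_ifs with hK
      · have e := F.mul_cen 1 hK 1
        rw [one_mul, F.deg] at e
        rw [Complex.mul_conj, Complex.normSq_eq_norm_sq, e, norm_mul, F.norm_cen hK, one_mul,
          show (2 : ℂ) = (2 : ℕ) from rfl, F.norm_sub (by norm_num)]
        simp
      · rw [F.odd_zero (Nat.odd_iff.mpr (by omega)) hg hK, zero_mul]

theorem card_centralizer (h7 : 7 ≤ p) {J : G} (hJ : orderOf J = 2) : ∃ a, 2 ^ a ∣ p - 1 ∧
    Nat.card (Subgroup.centralizer ({J} : Set G)) = 2 ^ a * Nat.card K := by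
  classical
  set C := Subgroup.centralizer ({J} : Set G)
  have hKC : K ≤ C := fun y hy =>
    mem_centralizer_singleton.mpr (Subgroup.mem_center_iff.mp (F.cen hy) J)
  haveI : (K.subgroupOf C).Normal := ⟨fun y hy g => by
    rw [Subgroup.mem_subgroupOf] at hy ⊢
    rwa [Subgroup.coe_mul, Subgroup.coe_mul, Subgroup.mem_center_iff.mp (F.cen hy),
      Subgroup.coe_inv, mul_inv_cancel_right]⟩
  obtain ⟨a, ha⟩ := IsPGroup.iff_card.mp (show IsPGroup 2 (C ⧸ K.subgroupOf C) from fun c => by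
    obtain ⟨c, rfl⟩ := QuotientGroup.mk_surjective c
    refine ⟨1, ?_⟩
    rw [pow_one, ← QuotientGroup.mk_pow, QuotientGroup.eq_one_iff, Subgroup.mem_subgroupOf,
      Subgroup.coe_pow]
    by_cases h2 : 2 ∣ orderOf (c : G)
    · obtain ⟨J', y, hJ', hy, e⟩ := F.exists_of_even h7 h2
      rw [e, Commute.mul_pow (Subgroup.mem_center_iff.mp (F.cen hy) J'), ← hJ', pow_orderOf_eq_one,
        one_mul]
      exact pow_mem hy _
    · exact pow_mem (F.mem_of_comm h7 hJ (Nat.odd_iff.mpr (by omega))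
        (mem_centralizer_singleton.mp c.2)) _)
  have h1 : Nat.card C = 2 ^ a * Nat.card K := by
    rw [Subgroup.card_eq_card_quotient_mul_card_subgroup (K.subgroupOf C), ha,
      Nat.card_congr (Subgroup.subgroupOfEquivOfLe hKC).toEquiv]
  refine ⟨a, ?_, h1⟩
  obtain ⟨S, hS⟩ := Sylow.exists_subgroup_card_pow_prime (G := C) 2 (n := a) (h1 ▸ dvd_mul_right _ _)
  obtain ⟨n, hn⟩ := ((F.μ 1).2.isCharacter.comp (C.subtype.comp S.subtype)).classInner_nat
    isCharacter_one
  rw [classInner_one_right, ← Finset.add_sum_erase _ _ (Finset.mem_univ 1), map_one, F.deg,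
    Finset.sum_congr rfl (g := fun _ => -1) fun s hs => F.invol ?_, Finset.sum_const,
    Finset.card_erase_of_mem (Finset.mem_univ _), Finset.card_univ, Fintype.card_eq_nat_card, hS,
    inv_mul_eq_iff_eq_mul₀ (by simp), nsmul_eq_mul, Nat.cast_sub Nat.one_le_two_pow] at hn
  · refine ⟨n + 1, ?_⟩
    have : ((p - 1 : ℕ) : ℂ) = (2 ^ a * (n + 1) : ℕ) := by
      push_cast [Nat.cast_sub hp.out.one_le] at hn ⊢; linear_combination hn
    exact_mod_cast this
  · obtain ⟨k, -, hk⟩ := (Nat.dvd_prime_pow Nat.prime_two).mp (hS ▸ orderOf_dvd_natCard s)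
    refine orderOf_eq_prime (by
      rw [sq]; exact F.sq_eq_one h7 (k := k) (by simpa using hk)) fun e => ?_
    exact Finset.ne_of_mem_erase hs (Subtype.ext (Subtype.ext e))

theorem card_eq (h7 : 7 ≤ p) : Nat.card G = p * (p - 1) * (p - 2) * Nat.card K ∧
    ∀ J : G, orderOf J = 2 →
      Nat.card (Subgroup.centralizer ({J} : Set G)) = (p - 1) * Nat.card K := by
  classical
  have h1 := F.count h7
  have hK : 0 < Nat.card K := Nat.card_pos
  have cl : ∀ J : G, (Finset.univ.filter fun g => IsConj J g).card =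
      (Subgroup.centralizer ({J} : Set G)).index := fun J => by
    rw [← card_isConj_eq_index, Nat.card_eq_fintype_card, Fintype.card_subtype]
  set T := Finset.univ.filter fun J : G => orderOf J = 2
  have hT : Nat.card {J : G // orderOf J = 2} = T.card := by
    rw [Nat.card_eq_fintype_card, Fintype.card_subtype]
  have sub : ∀ J : G, orderOf J = 2 → (Finset.univ.filter fun g => IsConj J g) ⊆ T :=
    fun J hJ g hg => by
      simp only [T, Finset.mem_filter, Finset.mem_univ, true_and] at hg ⊢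
      rw [← orderOf_eq_of_isConj hg, hJ]
  rw [hT] at h1
  have h2 : ∀ J : G, orderOf J = 2 →
      Nat.card (Subgroup.centralizer ({J} : Set G)) = (p - 1) * Nat.card K := fun J hJ => by
    obtain ⟨a, ⟨b, hb⟩, ha⟩ := F.card_centralizer h7 hJ
    have h3 := Finset.card_le_card (sub J hJ)
    have h4 := (Subgroup.centralizer ({J} : Set G)).card_mul_index
    rw [cl] at h3
    rw [ha] at h4 ⊢
    obtain rfl : b = 1 := by
      by_contra hb1
      have h5 : 2 ≤ b := by rcases b with _ | _ | b <;> omega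
      have h6 : 2 ^ a * 2 < p := by have := Nat.mul_le_mul_left (2 ^ a) h5; omega
      have h8 : 0 < T.card := lt_of_lt_of_le (Nat.pos_of_ne_zero
        Subgroup.index_ne_zero_of_finite) h3
      have h9 : 2 * Nat.card G ≤ 2 ^ a * 2 * (T.card * Nat.card K) := by
        rw [← h4]; nlinarith [Nat.mul_le_mul_left (2 ^ a * Nat.card K) h3]
      have h10 := Nat.mul_lt_mul_of_pos_right h6 (Nat.mul_pos h8 hK)
      have h11 : p * (T.card * Nat.card K) ≤ 2 * Nat.card G := by
        rw [h1]; exact Nat.mul_le_mul_left _ (Nat.mul_le_mul_right _ (Nat.le_add_left _ _))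
      omega
    rw [hb, mul_one]
  refine ⟨?_, h2⟩
  obtain ⟨J, hJ⟩ := exists_prime_orderOf_dvd_card' (G := G) 2 (by
    rw [h.card_G, show Nat.card (EE h.ord) = 2 from F.he]; exact (dvd_mul_right _ _).mul_left _)
  have h3 : ∀ J : G, orderOf J = 2 → (p - 1) * Nat.card K *
      (Finset.univ.filter fun g => IsConj J g).card = Nat.card G := fun J hJ => by
    rw [cl, ← h2 J hJ, Subgroup.card_mul_index]
  obtain ⟨q, rfl⟩ : ∃ q, p = q + 2 := ⟨p - 2, by omega⟩
  simp only [Nat.add_sub_cancel, show q + 2 - 1 = q + 1 by omega] at *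
  have h4 : (Finset.univ.filter fun g => IsConj J g) = T := by
    by_contra hne
    obtain ⟨J', h5, h6⟩ := Finset.exists_of_ssubset (Finset.ssubset_iff_subset_ne.mpr ⟨sub J hJ, hne⟩)
    have hJ' : orderOf J' = 2 := (Finset.mem_filter.mp h5).2
    have h8 := Finset.card_le_card (Finset.union_subset (sub J hJ) (sub J' hJ'))
    rw [Finset.card_union_of_disjoint (Finset.disjoint_filter.mpr fun g _ a b =>
      h6 (Finset.mem_filter.mpr ⟨Finset.mem_univ _, a.trans b.symm⟩))] at h8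
    have h9 := h3 J hJ
    have h10 := h3 J' hJ'
    have h11 := Nat.mul_le_mul_left ((q + 1) * Nat.card K) h8
    have h12 : 0 < q * q * Nat.card K := by have : 0 < q := by omega
                                            positivity
    nlinarith
  have h5 := h3 J hJ
  rw [h4] at h5
  have h6 : T.card = (q + 2) * q := by
    refine Nat.eq_of_mul_eq_mul_left (by omega : 0 < q) (Nat.eq_of_mul_eq_mul_left hK ?_)
    nlinarith
  rw [← h5, h6]; ring

end Fam

end Cfsg.Agent.H19
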