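import Cfsg.Agent.H19.FamA
import Cfsg.Agent.H19.SC

/-! Sylow subgroup of prime order `p`: characters of degree less than `p - 1` -/

set_option autoImplicit false

namespace Cfsg.Agent.H19

open Cfsg Cfsg.Agent.H4 Cfsg.Agent.H5 Cfsg.Agent.H6
open scoped ComplexConjugate

variable {G : Type*} [Group G] {p : ℕ} [hp : Fact p.Prime] {x : G} {K : Subgroup G}

theorem const_ker [Finite G] (hx : orderOf x = p) {χ : G → ℂ} (hχ : IsCharacter G χ)
    (hd : charDegree χ + 1 < p) {c : ℂ} (hc : ∀ i : ZMod p, i ≠ 0 → χ (xp x i) = c) : χ x = χ 1 := by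
  have h1 := p_mul_fd hx hχ
  have h2 := (isCharacter_th hx (K := ⊥) (fun y hy => by
    rw [Subgroup.mem_bot.mp hy]; exact Commute.one_right x) hχ 1).charDegree_cast
  generalize charDegree (fun y : (⊥ : Subgroup G) => th p x χ 1 y) = m at h2
  have h3 := sum_units_ee (p := p) (i := -1) (by simp)
  simp only [neg_mul, one_mul] at h3
  simp only [th, Subgroup.coe_one, mul_one, sum_zmod_eq_units, xp_zero, neg_zero, ee_zero,
    fun i : (ZMod p)ˣ => hc i i.ne_zero, ← Finset.mul_sum, h3, ← hχ.charDegree_cast] at h2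
  rw [eq_inv_mul_iff_mul_eq₀ p_ne_zero_C] at h2
  rw [sg_const hc] at h1
  have h4 : fd p x χ + (p - 1) * m = charDegree χ := by
    have : ((fd p x χ + (p - 1) * m : ℕ) : ℂ) = charDegree χ := by
      apply mul_left_cancel₀ (p_ne_zero_C (p := p))
      push_cast [Nat.cast_sub hp.out.one_le]
      linear_combination h1 + (p - 1) * h2
    exact_mod_cast this
  obtain rfl : m = 0 := by
    by_contra hm
    have := Nat.le_mul_of_pos_right (p - 1) (Nat.pos_of_ne_zero hm)
    omega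
  rw [← xp_one hx, hc 1 one_ne_zero, ← hχ.charDegree_cast]
  linear_combination h2

theorem sum_per_ee (E : Subgroup (ZMod p)ˣ) (q : (ZMod p)ˣ ⧸ E) (k : (ZMod p)ˣ)
    [Decidable ((k : _ ⧸ E) = q)] : ∑ i : (ZMod p)ˣ, per E q (i : ZMod p) *
      (1 - ee (-((i : ZMod p) * (k : ZMod p)))) = if (k : _ ⧸ E) = q then -(p : ℂ) else 0 := by
  classical
  have h1 : ∑ i : ZMod p, per E q i * ee (-(i * (k : ZMod p))) =
      if (k : _ ⧸ E) = q then (p : ℂ) else 0 := by
    simp only [per, Finset.sum_mul, ite_mul, zero_mul, ← ee_add, ← sub_eq_add_neg, ← mul_sub]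
    rw [Finset.sum_comm, Finset.sum_eq_single k]
    · split_ifs <;> simp
    · intro l _ hl
      split_ifs
      · rw [sum_ee, if_neg]
        rw [sub_eq_zero]; exact fun e => hl (Units.ext e)
      · simp
    · simp
  rw [sum_zmod_eq_units, per_zero] at h1
  simp only [mul_sub, Finset.sum_sub_distrib, mul_one, sum_units_per]
  simp only [zero_mul, neg_zero, ee_zero, mul_one] at h1
  split_ifs at h1 ⊢ <;> linear_combination -h1

theorem per_one_card {E : Subgroup (ZMod p)ˣ} (hE : Nat.card E = 1) (q : (ZMod p)ˣ ⧸ E)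
    (i : ZMod p) : ‖per E q i‖ = 1 := by
  classical
  obtain ⟨c, rfl⟩ := QuotientGroup.mk_surjective q
  rw [per, Finset.sum_eq_single c]
  · simp [ee]
  · intro l _ hl
    rw [if_neg]
    rw [QuotientGroup.eq, Subgroup.card_eq_one.mp hE, Subgroup.mem_bot, inv_mul_eq_one]
    exact hl
  · simp

theorem sum_actN [Fintype (NN x)] (hx : orderOf x = p) : ∃ κ : ℕ, κ * eN hx = Nat.card (NN x) ∧
    ∀ j : ZMod p, ∑ n : NN x, ee ((actN hx n : ZMod p) * j) = κ * per (EE hx) 1 j := by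
  classical
  have h1 : ∀ j : ZMod p, ∑ n : NN x, ee ((actN hx n : ZMod p) * j) =
      Nat.card (actN hx).ker * per (EE hx) 1 j := fun j => by
    rw [← Finset.sum_fiberwise (g := actN hx), per, Finset.mul_sum]
    refine Finset.sum_congr rfl fun c _ => ?_
    rw [Finset.sum_congr rfl (g := fun _ => ee (j * (c : ZMod p))) fun n hn => by
      rw [(Finset.mem_filter.mp hn).2, mul_comm], Finset.sum_const, nsmul_eq_mul]
    split_ifs with hc
    · obtain ⟨g, hg⟩ := (mem_EE hx).mp ((QuotientGroup.eq_one_iff c).mp hc)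
      have hN : g ∈ NN x := (mem_normalizer_iff_xp hx).mpr (hg ▸ xp_mem x _)
      rw [MonoidHom.card_fiber_eq_of_mem_range (actN hx) ⟨⟨g, hN⟩, actN_eq hx _ hg⟩ ⟨1, map_one _⟩,
        Nat.card_eq_fintype_card, Fintype.card_subtype]
      simp [MonoidHom.mem_ker]
    · rw [Finset.filter_eq_empty_iff.mpr fun n _ (e : actN hx n = c) =>
        hc ((QuotientGroup.eq_one_iff c).mpr (e ▸ actN_mem hx n))]
      simp
  refine ⟨_, ?_, h1⟩
  have := h1 0
  simp only [mul_zero, ee_zero, Finset.sum_const, Finset.card_univ, per_zero, nsmul_eq_mul, mul_one,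
    Fintype.card_eq_nat_card] at this
  exact_mod_cast this.symm

variable [Fintype G] [Fintype K] {θ : K → ℂ}

namespace GD
variable {h : PO p x K} (D : GD h θ)

theorem valμ_one (c : (ZMod p)ˣ) {i : ZMod p} (hi : i ≠ 0) :
    (D.μ c : G → ℂ) (xp x i) = D.ε * D.d * per (EE h.ord) c i := by
  classical
  obtain ⟨κ, h1, h2⟩ := sum_actN h.ord
  have h3 := D.valμ c hi 1
  have h4 : κ * D.e = Nat.card (h.TT θ) := Nat.eq_of_mul_eq_mul_right D.r_pos (by
    rw [mul_assoc, D.e_mul_r, h1, D.card_NN])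
  have h5 : ∑ n : NN x, per (h.EW θ) c ((actN h.ord n : ZMod p) * i) =
      D.e * (κ * per (EE h.ord) c i) := by
    simp only [show per (h.EW θ) = fun q i => _ from rfl, per]
    rw [Finset.sum_comm, e, ← sum_ite_coe_eq _ (c : (ZMod p)ˣ ⧸ h.EW θ)]
    refine Finset.sum_congr rfl fun k _ => ?_
    split_ifs with hk
    · simp only [mul_assoc]
      rw [h2, mul_comm i, per_mul, mul_one]
      obtain ⟨g, -, hg⟩ := QuotientGroup.eq.mp hk
      rw [QuotientGroup.eq.mpr ((mem_EE h.ord).mpr ⟨g, hg⟩)]; rfl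
    · simp
  simp only [Subgroup.coe_one, mul_one, map_one, D.θ_one, ← Finset.sum_mul, h5, ← h4] at h3
  have h6 : ((κ * D.e : ℕ) : ℂ) ≠ 0 := h4 ▸ natCard_ne_zero'
  apply mul_left_cancel₀ h6
  rw [h3]; push_cast; ring

theorem of_inv (hi : ∀ n y, θ (h.cK n y) = θ y) : D.r = 1 ∧ h.EW θ = EE h.ord ∧
    ∀ q, ∀ i : ZMod p, i ≠ 0 → ∀ y : K,
      (D.μ q : G → ℂ) (xp x i * y) = D.ε * per (h.EW θ) q i * θ y := by
  classical
  have hT : ∀ n : NN x, (n : G) ∈ h.TT θ := fun n => h.mem_TT.mpr (hi n)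
  have hr : D.r = 1 := Subgroup.relIndex_eq_one.mpr fun n hn => hT ⟨n, hn⟩
  have hE : h.EW θ = EE h.ord := by
    ext c
    exact ⟨fun ⟨g, _, hg⟩ => (mem_EE h.ord).mpr ⟨g, hg⟩, fun hc => by
      obtain ⟨g, hg⟩ := (mem_EE h.ord).mp hc
      exact ⟨g, hT ⟨g, (mem_normalizer_iff_xp h.ord).mpr (hg ▸ xp_mem x _)⟩, hg⟩⟩
  refine ⟨hr, hE, fun q i hi0 y => ?_⟩
  have h1 := D.valμ q hi0 y
  have h2 : ∀ n : NN x, ((actN h.ord n : (ZMod p)ˣ) : _ ⧸ h.EW θ) = 1 := fun n =>
    (QuotientGroup.eq_one_iff _).mpr (hE ▸ actN_mem h.ord n)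
  simp only [hi, per_mul, h2, one_mul, Finset.sum_const, Finset.card_univ, Fintype.card_eq_nat_card,
    D.card_NN, hr, mul_one, nsmul_eq_mul] at h1
  apply mul_left_cancel₀ (natCard_ne_zero' (G := h.TT θ))
  rw [h1]; ring

theorem inner_th (q : (ZMod p)ˣ ⧸ h.EW θ) (k : (ZMod p)ˣ) [Decidable ((k : _ ⧸ h.EW θ) = q)] :
    classInner (fun y : K => th p x (D.μ q) (0 : ZMod p) y) θ =
      classInner (fun y : K => th p x (D.μ q) (k : ZMod p) y) θ -
        if (k : _ ⧸ h.EW θ) = q then (D.ε : ℂ) else 0 := by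
  have h1 : ∀ j : ZMod p, classInner (fun y : K => th p x (D.μ q) j y) θ = gm x K θ (D.μ q) j := by
    intro j
    simp only [classInner_def, th, gm, AW, Finset.mul_sum, Finset.sum_mul]
    rw [Finset.sum_comm]
    refine Finset.sum_congr rfl fun _ _ => Finset.sum_congr rfl fun _ _ => by ring
  have h2 := gn_eq (x := x) (θ := θ) (D.μ q : G → ℂ) (k : ZMod p)
  rw [sum_zmod_eq_units, Finset.sum_congr rfl fun (i : (ZMod p)ˣ) _ => by
    rw [D.Aμ q _ i.ne_zero, mul_assoc, mul_assoc], ← Finset.mul_sum, ← Finset.mul_sum, sum_per_ee,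
    gn] at h2
  have hK : (Nat.card K : ℂ) ≠ 0 := natCard_ne_zero'
  have := p_ne_zero_C (p := p)
  rw [h1, h1, sub_eq_iff_eq_add.mp h2]
  split_ifs <;> simp <;> field_simp <;> ring

theorem neg_case (q : (ZMod p)ˣ ⧸ h.EW θ) (hε : D.ε = -1) (ht : D.t ≠ 1)
    (hd : charDegree (D.μ q : G → ℂ) < p) : D.d = 1 ∧ charDegree (D.μ q : G → ℂ) + eN h.ord = p ∧
      (∀ n y, θ (h.cK n y) = θ y) ∧
      ∀ y : K, (D.μ q : G → ℂ) y = charDegree (D.μ q : G → ℂ) * θ y := by
  classical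
  have hc := isCharacter_th h.ord (K := K) (fun y hy => h.commute hy) (D.μ q).2.isCharacter
  have h0 : classInner (fun y : K => th p x (D.μ q) (0 : ZMod p) y) θ ≠ 0 := by
    obtain ⟨n, hn⟩ := (hc (q.out : (ZMod p)ˣ)).classInner_nat D.irr.isCharacter
    rw [D.inner_th q q.out, hn, if_pos (QuotientGroup.out_eq' q), hε]
    exact_mod_cast (by omega : (n : ℤ) - -1 ≠ 0)
  have h1 : ∀ j : ZMod p, classInner (fun y : K => th p x (D.μ q) j y) θ ≠ 0 →
      D.d ≤ charDegree fun y : K => th p x (D.μ q) j y := fun j hj =>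
    (hc j).degree_le_of_constituent D.irr hj (hc j).charDegree_cast.symm D.θ_one
  have h2 : charDegree (D.μ q : G → ℂ) =
      ∑ j : ZMod p, charDegree fun y : K => th p x (D.μ q) j y := charDegree_eq_of (by
    rw [Nat.cast_sum, Finset.sum_congr rfl fun j _ => (hc j).charDegree_cast]
    exact (sum_th _ _).symm)
  have h3 : ∑ k : (ZMod p)ˣ, D.d ≤ ∑ k : (ZMod p)ˣ, ((charDegree fun y : K =>
      th p x (D.μ q) (k : ZMod p) y) + if (k : _ ⧸ h.EW θ) = q then D.d else 0) :=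
    Finset.sum_le_sum fun k _ => by
      split_ifs with hk
      · omega
      · exact h1 _ (by rwa [D.inner_th q k, if_neg hk, sub_zero] at h0)
  rw [Finset.sum_add_distrib, sum_ite_coe_eq, Finset.sum_const, Finset.card_univ, ZMod.card_units,
    smul_eq_mul, Nat.cast_id, show Nat.card (h.EW θ) = D.e from rfl] at h3
  rw [sum_zmod_eq_units] at h2
  have h4 := h1 0 h0
  have h5 := D.e_mul_t
  have h6 : D.e * 2 ≤ p - 1 := h5 ▸ Nat.mul_le_mul_left _ (by have := D.t_pos; omega)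
  have h7 := D.d_pos
  have h8 : D.d = 1 := by
    by_contra h8
    obtain ⟨a, ha⟩ := Nat.exists_eq_add_of_le h6
    have : (p - 1) * D.d = D.e * D.d + (D.e + a) * D.d := by rw [ha]; ring
    have := Nat.mul_le_mul_left (D.e + a) (by omega : 2 ≤ D.d)
    omega
  have h9 := D.fd_μ q
  have h10 : fd p x (D.μ q) = charDegree fun y : K => th p x (D.μ q) (0 : ZMod p) y := by
    have := (fd_cast h.ord (D.μ q).2.isCharacter).trans
      (?_ : _ = (fun y : K => th p x (D.μ q) (0 : ZMod p) y) 1)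
    · exact_mod_cast this.trans (hc 0).charDegree_cast.symm
    · simp [fx, th]
  have h11 := eN_mul' h.ord
  have h12 := Nat.le_mul_of_pos_right (eN h.ord) (tN_pos h.ord)
  rw [hε, h8, Nat.cast_one, mul_one, ← Nat.cast_mul D.e, D.e_mul_r] at h9
  have h13 : fd p x (D.μ q) = 1 := by
    have : fd p x (D.μ q) < 2 := by
      by_contra h13
      have : (p : ℤ) * 2 ≤ p * fd p x (D.μ q) := by gcongr; omega
      omega
    omega
  have h14 : (fun y : K => th p x (D.μ q) (0 : ZMod p) y) = θ := by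
    simpa using eq_sum_of_degree (hc 0) {⟨θ, D.irr⟩} (by simpa using h0) (by
      rw [Finset.sum_singleton, ← h10, h13]; exact h7)
  have h15 : ∀ y : K, θ y = fx p x (D.μ q) y := fun y => (congrFun h14 y).symm.trans (by simp [fx, th])
  have h16 : ∀ n y, θ (h.cK n y) = θ y := fun n y => by
    rw [h15, h15]
    exact (isCharacter_fx h.ord (D.μ q).2.isCharacter).isClassFunction
      ⟨y, mem_normalizer_of_commute h.ord (h.commute y.2)⟩ n
  rw [h13] at h9
  refine ⟨h8, by omega, h16, fun y => ?_⟩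
  obtain ⟨hr, -, hv⟩ := D.of_inv h16
  have h17 := h15 y
  rw [fx, sum_zmod_eq_units, Finset.sum_congr rfl fun (i : (ZMod p)ˣ) _ => hv q i i.ne_zero y,
    ← Finset.sum_mul, ← Finset.mul_sum, sum_units_per, eq_inv_mul_iff_mul_eq₀ p_ne_zero_C, xp_zero,
    one_mul, hε, show Nat.card (h.EW θ) = D.e from rfl] at h17
  have h18 : (charDegree (D.μ q : G → ℂ) : ℂ) + D.e = p := by
    rw [← D.e_mul_r, hr, mul_one] at h9
    exact_mod_cast (by omega : charDegree (D.μ q : G → ℂ) + D.e = p)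
  push_cast at h17
  linear_combination -h17 - θ y * h18

end GD

/-- characters of degree less than `p - 1` -/
theorem PO.small_cases (h : PO p x K) {χ : IrrCharacter G} (hd : charDegree (χ : G → ℂ) + 1 < p)
    (hx : (χ : G → ℂ) x ≠ (χ : G → ℂ) 1) : ∃ (θ : K → ℂ) (D : GD h θ) (c : (ZMod p)ˣ),
      D.μ c = χ ∧ tN h.ord ≠ 1 ∧ ((D.ε = 1 ∧ charDegree (χ : G → ℂ) = eN h.ord * D.d) ∨
      (D.ε = -1 ∧ D.d = 1 ∧ charDegree (χ : G → ℂ) + eN h.ord = p ∧ (∀ n y, θ (h.cK n y) = θ y) ∧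
        ∀ y : K, (χ : G → ℂ) y = charDegree (χ : G → ℂ) * θ y)) := by
  obtain ⟨θ, D, hχ | ⟨q, rfl⟩⟩ := h.exists_family_of_not_dvd (χ := χ) fun e => by
    have := Nat.le_of_dvd χ.2.charDegree_pos e; omega
  · exact (hx (const_ker h.ord χ.2.isCharacter hd fun i hi => D.valX_one hχ hi)).elim
  obtain ⟨c, rfl⟩ := QuotientGroup.mk_surjective q
  have ht : tN h.ord ≠ 1 := fun e => hx (const_ker h.ord (D.μ c).2.isCharacter hd
    (c := D.ε * D.d * -1) fun i hi => by
      haveI := Fintype.ofFinite ((ZMod p)ˣ ⧸ EE h.ord)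
      haveI := (Nat.card_eq_one_iff_unique.mp e).1
      rw [D.valμ_one c hi, ← sum_per (EE h.ord) hi, Fintype.sum_subsingleton _ (c : _ ⧸ EE h.ord)])
  refine ⟨θ, D, c, rfl, ht, D.hε.imp (fun e => ⟨e, ?_⟩) fun e => ⟨e, D.neg_case _ e (fun e' => ?_)
    (by omega)⟩⟩
  · have h1 := D.fd_μ c
    rw [e, one_mul, ← mul_assoc, ← Nat.cast_mul D.e, D.e_mul_r, ← Nat.cast_mul (eN _)] at h1
    have : fd p x (D.μ c) = 0 := by
      by_contra h2
      have : (p : ℤ) * 1 ≤ p * fd p x (D.μ c) := by gcongr; omega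
      omega
    rw [this] at h1
    omega
  · have h1 := D.e_mul_t
    have h2 := eN_mul h.ord
    rw [e', ← h2, ← D.e_mul_r, mul_assoc] at h1
    exact ht (Nat.eq_one_of_mul_eq_one_left (Nat.eq_of_mul_eq_mul_left D.e_pos h1).symm)

omit [Fintype K] in
theorem central_of_e_one (hx : orderOf x = p) (hn : ¬ p ^ 2 ∣ Nat.card G)
    (he : ∀ g ∈ NN x, Commute x g) {χ : G → ℂ} (hχ : IsCharacter G χ) (hd : charDegree χ + 1 < p)
    (hf : ∀ g, χ g = χ 1 → g = 1) (g : G) : Commute x g := by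
  obtain ⟨K, h⟩ := exists_PO hx hn
  haveI := Fintype.ofFinite K
  have h1 : eN h.ord = 1 := Subgroup.card_eq_one.mpr (eq_bot_iff.mpr fun c hc => by
    obtain ⟨g, hg⟩ := (mem_EE h.ord).mp hc
    have := he g ((mem_normalizer_iff_xp hx).mpr (hg ▸ xp_mem x _))
    rw [← this.eq, mul_inv_cancel_right] at hg
    exact Units.ext (xp_injective hx (hg.symm.trans (xp_one hx).symm)))
  refine commutatorElement_eq_one_iff_commute.mp (hf _ (hχ.mem_charKer.mp
    (hχ.mem_charKer_of_forall_constituent fun ψ hψ hne => apply_of_mem_charKer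
      (hψ.isCharacter.commutator_mem_charKer ?_ g))))
  have h2 := hχ.degree_le_of_constituent hψ hne hχ.charDegree_cast.symm
    hψ.isCharacter.charDegree_cast.symm
  rw [hψ.isCharacter.mem_charCenter]
  by_cases h3 : ψ x = ψ 1
  · rw [h3]
  obtain ⟨θ, D, c, hc, -, ⟨e1, e2⟩ | ⟨-, -, e, -⟩⟩ := h.small_cases (χ := ⟨ψ, hψ⟩)
    (lt_of_le_of_lt (Nat.succ_le_succ h2) hd) h3
  · have h4 := D.valμ_one c (one_ne_zero (α := ZMod p))
    rw [xp_one hx, hc] at h4
    rw [← hψ.isCharacter.charDegree_cast, show ψ x = _ from h4, show charDegree ψ = _ from e2, h1,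
      e1, norm_mul, per_one_card h1]
    simp
  · exact absurd (show charDegree ψ + _ = p from e) (by omega)

omit [Fintype K] in
theorem central_of_e_one' (hx : orderOf x = p) (hn : ¬ p ^ 2 ∣ Nat.card G) {H : Subgroup G}
    (hH : x ∈ H) (he : ∀ g ∈ H, g ∈ NN x → Commute x g) {χ : G → ℂ} (hχ : IsCharacter G χ)
    (hd : charDegree χ + 1 < p) (hf : ∀ g, χ g = χ 1 → g = 1) {g : G} (hg : g ∈ H) :
    Commute x g := by
  haveI := Fintype.ofFinite H
  have hx' : orderOf (⟨x, hH⟩ : H) = p := by rw [← hx, ← Subgroup.orderOf_coe]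
  refine congrArg Subtype.val (central_of_e_one hx' (fun e => hn (e.trans H.card_subgroup_dvd_card))
    (fun g hg => Subtype.ext (he g g.2 ?_)) (hχ.comp H.subtype) hd
    (fun g hg => Subtype.ext (hf g hg)) ⟨g, hg⟩)
  obtain ⟨k, hk⟩ := (mem_normalizer_iff_xp hx').mp hg
  exact (mem_normalizer_iff_xp hx).mpr ⟨k, congrArg Subtype.val hk⟩

end Cfsg.Agent.H19
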