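import Cfsg.Agent.H19.FamB
import Cfsg.Agent.H19.Small
import Cfsg.Agent.H19.BR4
import Cfsg.Agent.H19.E3
import Cfsg.Agent.H27.MSL2
import Cfsg.Agent.H4.PermChar
import Cfsg.Agent.S0494

/-! Characters of degree `p - 2`: identification of the group -/

set_option autoImplicit false

namespace Cfsg.Agent.H19

open Cfsg Cfsg.Agent.H4 Cfsg.Agent.H5 Cfsg.Agent.H6
open scoped ComplexConjugate MatrixGroups

variable {G : Type*} [Group G] {p : ℕ} [hp : Fact p.Prime] {x : G} {K : Subgroup G}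

/-- `G` is `SL(2, 2 ^ a)` with `p = 2 ^ a + 1` -/
def IsoF (p : ℕ) (G : Type*) [Group G] : Prop := ∃ (a : ℕ) (F : Type) (_ : Field F) (_ : Fintype F),
  p = 2 ^ a + 1 ∧ Fintype.card F = 2 ^ a ∧ Nonempty (G ≃* SL(2, F))

theorem norm_per_two {E : Subgroup (ZMod p)ˣ} (hE : Nat.card E = 2) (i : ZMod p) :
    ‖per E 1 i‖ ≤ 2 := by
  rw [per_two hE]
  exact (norm_add_le _ _).trans (by simp [ee]; norm_num)

theorem no_half {H : Type*} [Group H] [Finite H] {b : ℕ} (hb : 2 ≤ b)
    (hH : Nat.card H = 2 ^ b * (2 * 2 ^ b - 1))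
    (hc : ∀ t c : H, orderOf t = 2 → Commute t c → c * c = 1) : False := by
  obtain ⟨T⟩ : Nonempty (Sylow 2 H) := inferInstance
  have h4 : 4 ≤ 2 ^ b := Nat.pow_le_pow_right two_pos hb
  have hT : Nat.card (T : Subgroup H) = 2 ^ b := by
    rw [T.card_eq_multiplicity, hH, Nat.factorization_mul (by omega) (by omega), Finsupp.add_apply,
      Nat.factorization_eq_zero_of_not_dvd (by omega : ¬ 2 ∣ 2 * 2 ^ b - 1),
      Nat.prime_two.factorization_pow]
    simp
  have h1 : ∀ t ∈ (T : Subgroup H), t * t = 1 := fun t ht => by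
    by_cases e : t = 1
    · rw [e, one_mul]
    obtain ⟨k, hk⟩ := exists_orderOf_eq_of_mem Nat.prime_two T.isPGroup' ht
    obtain ⟨j, hj⟩ := H8.exists_orderOf_eq_of_dvd (g := t) (n := 2) (hk ▸ dvd_pow_self 2 (by
      rintro rfl; exact e (orderOf_eq_one_iff.mp hk)))
    exact hc _ _ hj ((Commute.refl t).pow_left j)
  have h2 : ∀ s ∈ (T : Subgroup H), ∀ t ∈ (T : Subgroup H), s * t = t * s := fun s hs t ht => by
    rw [← inv_eq_of_mul_eq_one_right (h1 _ (mul_mem hs ht)), mul_inv_rev,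
      inv_eq_of_mul_eq_one_right (h1 _ hs), inv_eq_of_mul_eq_one_right (h1 _ ht)]
  have h3 : ∀ t ∈ (T : Subgroup H), t ≠ 1 → ∀ c, c * t = t * c → c ∈ (T : Subgroup H) := by
    intro t ht h0 c e
    have : Subgroup.centralizer ({t} : Set H) = T := T.is_maximal' (fun c => ⟨1, Subtype.ext (by
      simpa [sq] using hc t c (orderOf_eq_prime (by rw [sq, h1 t ht]) h0)
        (mem_centralizer_singleton.mp c.2))⟩) fun s hs =>
      mem_centralizer_singleton.mpr (h2 t ht s hs)
    exact this ▸ mem_centralizer_singleton.mpr e.symm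
  have h5 := relIndex_dvd_card_sub_one (Subgroup.normalizer ((T : Subgroup H) : Set H)) T T le_rfl
    fun c _ t ht h0 e => h3 t ht h0 c e
  have h6 : (T : Subgroup H).index = 2 * 2 ^ b - 1 := Nat.eq_of_mul_eq_mul_left (Nat.two_pow_pos b)
    (by rw [← hH, ← hT, Subgroup.card_mul_index])
  have h7 := Subgroup.relIndex_dvd_index_of_le
    (Subgroup.le_normalizer : (T : Subgroup H) ≤ Subgroup.normalizer ((T : Subgroup H) : Set H))
  rw [hT] at h5
  rw [h6, show 2 * 2 ^ b - 1 = 2 * (2 ^ b - 1) + 1 by omega, Nat.dvd_add_right (h5.mul_left 2),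
    Nat.dvd_one, Subgroup.relIndex_eq_one] at h7
  have h8 : Subgroup.normalizer (T : Set H) ≤ Subgroup.centralizer (T : Set H) :=
    fun c hc' t ht => h2 t ht c (h7 hc')
  have h9 := MonoidHom.ker_transferSylow_isComplement' T h8
  have h10 := relIndex_dvd_card_sub_one T ⊥ (MonoidHom.transferSylow T h8).ker
    Subgroup.le_normalizer_of_normal fun t ht c hc' h0 e => by
      by_contra h
      exact h0 (Subgroup.disjoint_def.mp h9.disjoint hc' (h3 t ht h c e.symm))
  rw [Subgroup.relIndex_bot_left, hT, ← h9.index_eq_card, h6,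
    show 2 * 2 ^ b - 1 - 1 = 2 ^ b + (2 ^ b - 2) by omega, Nat.dvd_add_right dvd_rfl] at h10
  have := Nat.le_of_dvd (by omega) h10
  omega

theorem NN_eq_top_of_e_one [Finite G] (hx : orderOf x = p) (hn : ¬ p ^ 2 ∣ Nat.card G)
    (hO : pPrimeCore p G = ⊥) {H : Subgroup G} [H.Normal] (hH : x ∈ H)
    (he : ∀ g ∈ H, g ∈ NN x → Commute x g) : H = Subgroup.zpowers x := by
  have hx' : orderOf (⟨x, hH⟩ : H) = p := by rw [← hx, ← Subgroup.orderOf_coe]
  obtain ⟨P, hP⟩ := exists_sylow_eq hx' fun e => hn (e.trans H.card_subgroup_dvd_card)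
  have h1 : Subgroup.normalizer (P : Set H) ≤ Subgroup.centralizer (P : Set H) := by
    change Subgroup.normalizer ((P : Subgroup H) : Set H) ≤
      Subgroup.centralizer ((P : Subgroup H) : Set H)
    rw [hP, centralizer_zpowers]
    intro g hg
    obtain ⟨k, hk⟩ := (mem_normalizer_iff_xp hx').mp hg
    exact mem_centralizer_singleton.mpr (Subtype.ext (he g g.2
      ((mem_normalizer_iff_xp hx).mpr ⟨k, congrArg Subtype.val hk⟩)))
  have h2 := (H1.le_pPrimeCore (hp.out.coprime_iff_not_dvd.mpr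
    (MonoidHom.not_dvd_card_ker_transferSylow P h1)).symm)
  have h3 := H1.map_subtype_pPrimeCore_le (p := p) H
  rw [hO, le_bot_iff, Subgroup.map_eq_bot_iff_of_injective _ H.subtype_injective] at h3
  have h4 := (MonoidHom.ker_transferSylow_isComplement' P h1).sup_eq_top
  rw [h3, le_bot_iff] at h2
  rw [h2, bot_sup_eq, hP] at h4
  refine le_antisymm (fun g hg => ?_) (Subgroup.zpowers_le.mpr hH)
  obtain ⟨k, hk⟩ := h4 ▸ Subgroup.mem_top (⟨g, hg⟩ : H)
  exact ⟨k, congrArg Subtype.val hk⟩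

theorem PO.top_or_commute [Finite G] (h : PO p x K) (he : eN h.ord = 2) {S : Subgroup G} [S.Normal]
    (hx : x ∈ S) (hK : K ≤ S) : S = ⊤ ∨ ∀ g ∈ S, g ∈ NN x → Commute x g := by
  by_contra hc
  push Not at hc
  obtain ⟨h1, g, hg, hN, h2⟩ := hc
  refine h1 (by
    rw [← h.frattini S hx, eq_comm, sup_eq_right]
    have hC : ∀ c, Commute x c → c ∈ S := fun c hc => by
      obtain ⟨i, y, hy, rfl⟩ := h.exists_eq_mul hc
      exact mul_mem (pow_mem hx _) (hK hy)
    intro n hn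
    by_cases h3 : Commute x n
    · exact hC n h3
    obtain ⟨u, -, hu⟩ := (Nat.card_eq_two_iff' (1 : EE h.ord)).mp he
    have h4 : ∀ m : NN x, ¬ Commute x m → actN h.ord m = u := fun m hm =>
      congrArg Subtype.val (hu ⟨_, actN_mem h.ord m⟩ fun e =>
        hm ((actN_eq_one_iff h.ord m).mp (congrArg Subtype.val e)))
    have h5 := hC _ ((actN_eq_one_iff h.ord ((⟨g, hN⟩ : NN x)⁻¹ * ⟨n, hn⟩)).mp (by
      rw [map_mul, map_inv, h4 ⟨g, hN⟩ h2, h4 ⟨n, hn⟩ h3, inv_mul_cancel]))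
    simpa using mul_mem hg h5)

theorem setup_two [Finite G] (hx : orderOf x = p) (hn : ¬ p ^ 2 ∣ Nat.card G)
    (hO : pPrimeCore p G = ⊥) (hN : Nat.card (NN x) = 2 * p) (hne : NN x ≠ ⊤) :
    ∃ h : PO p x ⊥, eN h.ord = 2 ∧ commutator G = ⊤ := by
  obtain ⟨K, h⟩ := exists_PO hx hn
  have h0 : ∀ (H : Subgroup G) [H.Normal], x ∈ H → ¬ ∀ g ∈ H, g ∈ NN x → Commute x g :=
    fun H _ hH he => hne (Subgroup.normalizer_eq_top_iff.mpr
      (NN_eq_top_of_e_one hx hn hO hH he ▸ inferInstance))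
  have h1 : eN h.ord ≠ 1 := fun e => h0 ⊤ trivial fun g _ hg => (actN_eq_one_iff h.ord ⟨g, hg⟩).mp
    (Subgroup.mem_bot.mp (Subgroup.card_eq_one.mp e ▸ actN_mem h.ord _))
  have h2 := h.card_N
  rw [hN, mul_comm 2, mul_assoc] at h2
  have h3 : 2 = Nat.card K * eN h.ord := Nat.eq_of_mul_eq_mul_left hp.out.pos h2
  have h4 := ((Nat.dvd_prime Nat.prime_two).mp (Dvd.intro_left _ h3.symm)).resolve_left h1
  obtain rfl : K = ⊥ := Subgroup.card_eq_one.mp (by rw [h4] at h3; omega)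
  exact ⟨h, h4, (h.top_or_commute h4 (h.mem_commutator h1) bot_le).resolve_right
    (h0 _ (h.mem_commutator h1))⟩

variable [Fintype G]

theorem Fam.iso {h : PO p x K} (F : Fam h) (hG : commutator G = ⊤) (h7 : 7 ≤ p) : IsoF p G := by
  have h1 := (F.card_eq h7).1
  have h2 := h.card_G
  obtain ⟨n, hn⟩ : ∃ n, p = 2 * n + 3 := ⟨tN h.ord - 1, by have := F.p_eq; omega⟩
  have hK : 0 < Nat.card K := Nat.card_pos
  have h3 : sN x = n * p + 1 := by
    rw [h1, show Nat.card (EE h.ord) = 2 from F.he, mul_right_comm, mul_assoc, mul_assoc, mul_assoc,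
      mul_left_comm (p - 1)] at h2
    have := Nat.eq_of_mul_eq_mul_left hK (Nat.eq_of_mul_eq_mul_left hp.out.pos h2)
    rw [show p - 1 = 2 * n + 2 by omega, show p - 2 = 2 * n + 1 by omega] at this
    rw [hn]; nlinarith
  haveI : K.Normal := ⟨fun y hy g => by
    rwa [Subgroup.mem_center_iff.mp (F.cen hy), mul_inv_cancel_right]⟩
  have h4 : K ≤ pPrimeCore p G :=
    H1.le_pPrimeCore (hp.out.coprime_iff_not_dvd.mpr h.not_dvd_card).symm
  have h5 := Subgroup.card_eq_card_quotient_mul_card_subgroup (pPrimeCore p G)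
  have h6 := brauer_reynolds h.ord h.nsq hG h3 (NR.of_lt (by omega))
  have h8 := Subgroup.card_le_of_le h4
  have h9 : Nat.card (G ⧸ pPrimeCore p G) = p * (p - 1) * (p - 2) := by
    refine h6.elim (fun e => ?_) fun e => (card_of_PSL_even e).1
    have h10 := card_of_PSL (ZMod.card p) e.2
    obtain ⟨c, hc⟩ := Subgroup.card_dvd_of_le h4
    rw [h1, hc, mul_left_comm, mul_comm _ (Nat.card K)] at h5
    have h11 := Nat.eq_of_mul_eq_mul_left hK h5
    generalize Nat.card (G ⧸ pPrimeCore p G) = u at h10 h11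
    subst hn
    rw [Nat.gcd_eq_left (by omega), show (2 * n + 3) ^ 2 - 1 = 4 * ((n + 1) * (n + 2)) from
      Nat.sub_eq_of_eq_add (by ring)] at h10
    rw [show 2 * n + 3 - 1 = 2 * (n + 1) by omega, show 2 * n + 3 - 2 = 2 * n + 1 by omega,
      show u = (2 * n + 3) * (2 * (n + 1)) * (n + 2) by linarith, mul_assoc _ (n + 2)] at h11
    have h12 := Nat.eq_of_mul_eq_mul_left (by positivity) h11
    rcases c with _ | _ | c
    · omega
    · omega
    · nlinarith
  obtain rfl : K = pPrimeCore p G := Subgroup.eq_of_le_of_card_ge h4 (by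
    rw [h1, h9] at h5
    exact (Nat.eq_of_mul_eq_mul_left (by rw [← h9]; exact Nat.card_pos) h5).ge)
  rcases h6.sl with ⟨E, _, _, e1, -, e2⟩ | ⟨m, E, _, _, e1, e2, -, ⟨e⟩⟩
  · have h10 := card_of_PSL e1 e2
    rw [h9] at h10
    subst hn
    rw [Nat.gcd_eq_left (by omega), show (2 * n + 3) ^ 2 - 1 = 4 * ((n + 1) * (n + 2)) from
      Nat.sub_eq_of_eq_add (by ring), show 2 * n + 3 - 1 = 2 * (n + 1) by omega,
      show 2 * n + 3 - 2 = 2 * n + 1 by omega] at h10
    have : 2 * n + 1 = n + 2 := Nat.eq_of_mul_eq_mul_left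
      (by positivity : 0 < 4 * (2 * n + 3) * (n + 1)) (by linarith)
    omega
  let σ := e.toMonoidHom.comp (QuotientGroup.mk' (pPrimeCore p G))
  have hσ : σ.ker = pPrimeCore p G := by
    ext g; simp [σ]
  have hs : Function.Surjective σ := e.surjective.comp (QuotientGroup.mk'_surjective _)
  have h10 : Nat.card σ.ker = 1 := by
    by_contra hne
    obtain ⟨r, hr, hd⟩ := Nat.exists_prime_and_dvd hne
    exact (H27.closedAt_sl2 (F := E) (by rw [Nat.card_eq_fintype_card]; omega)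
      (by rw [Nat.card_eq_fintype_card]; omega) hr).not_dvd hr
      ⟨hs, hσ ▸ F.cen, hG ▸ le_top⟩ hd
  exact ⟨m, E, inferInstance, inferInstance, e2, e1, ⟨MulEquiv.ofBijective σ
    ⟨(MonoidHom.ker_eq_bot_iff σ).mp (Subgroup.card_eq_one.mp h10), hs⟩⟩⟩

theorem faith_of_two (h : PO p x K) (he : eN h.ord = 2) (h5 : 5 ≤ p) {χ : G → ℂ}
    (hχ : IsCharacter G χ) (h1 : χ 1 = p - 2) (h2 : χ x = -per (EE h.ord) 1 1) {g : G}
    (hg : χ g = p - 2) : ¬ p ∣ Nat.card (charKer χ) ∧ g ∈ charKer χ := by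
  haveI := hχ.charKer_normal
  refine ⟨fun e => ?_, hχ.mem_charKer.mpr (hg.trans h1.symm)⟩
  have h3 := norm_per_two he 1
  rw [← norm_neg, ← h2, apply_of_mem_charKer (h.mem_of_dvd _ e), h1, show (2 : ℂ) = (2 : ℕ) from rfl,
    ← Nat.cast_sub hp.out.two_le, Complex.norm_natCast] at h3
  have : p - 2 ≤ 2 := by exact_mod_cast h3
  omega

namespace BD
variable {h : PO p x ⊥} (B : BD h)

/-- the family of exceptional characters of the principal block -/
noncomputable def fam (he : eN h.ord = 2) (h5 : 5 ≤ p) (hε : B.ε = -1) (hz : B.z + 2 = p)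
    (hO : pPrimeCore p G = ⊥) : Fam h :=
  have hd : ∀ r, (B.μ r : G → ℂ) 1 = p - 2 := fun r => by
    rw [B.μ_one, eq_sub_iff_add_eq]; exact_mod_cast hz
  have hv : ∀ r, ∀ i : ZMod p, i ≠ 0 → (B.μ r : G → ℂ) (xp x i) = -per (EE h.ord) r i :=
    fun r i hi => by rw [B.valμ' r hi, hε]; simp
  { μ := B.μ, inj := B.inj, cen := bot_le, odd := by simp, he := he, five := h5, deg := hd, val := hv
    reg := fun r g hg => B.μ_eq r 1 hg
    faith := fun g hg => by
      haveI := (B.μ 1).2.isCharacter.charKer_normal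
      obtain ⟨a, b⟩ := faith_of_two h he h5 (B.μ 1).2.isCharacter (hd 1)
        (by rw [← hv 1 1 one_ne_zero, xp_one h.ord]) hg
      exact Subgroup.mem_bot.mp (hO ▸ H1.le_pPrimeCore (hp.out.coprime_iff_not_dvd.mpr a).symm b) }

theorem neg_of_theta (hG : commutator G = ⊤) (he : eN h.ord = 2) (h5 : 5 ≤ p) {θ : G → ℂ}
    (hθ : IsCharacter G θ) (hv : ∀ i : ZMod p, i ≠ 0 → θ (xp x i) = -1)
    (h1 : classInner θ (fun _ => 1) = 0) (hd : charDegree θ < 2 * p)
    (hi : IsIrrCharacter G θ → charDegree θ < p) : B.ε = -1 ∧ B.z + 2 = p := by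
  classical
  obtain ⟨χ, c1, c2, c3, c4, c5⟩ := B.exists_two he
  have key : ∀ r, classInner θ (B.μ r) = classInner θ χ + B.ε := fun r => by
    have e : classInner (θ + (B.ε : ℂ) • (χ : G → ℂ))
        ((B.μ r : G → ℂ) - χ - (B.ε : ℂ) • (irrOne G : G → ℂ)) = 0 := by
      rw [classInner_def, Finset.sum_eq_zero fun g _ => ?_, mul_zero]
      by_cases hg : p ∣ orderOf g
      · have := B.valX_sing c2 hg
        obtain ⟨t, i, hi, y, hy, rfl⟩ := h.exists_conj_of_dvd hg
        rw [Pi.add_apply, Pi.smul_apply, this, hθ.isClassFunction, Subgroup.mem_bot.mp hy, mul_one,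
          hv i hi, c3]
        rcases B.hε with e | e <;> simp [e]
      · simp [B.μ_eq r 1 hg, B.μ_two c5 hg, irrOne]
    have e1 : χ ≠ B.μ r := fun e => B.notX r (e ▸ c2)
    rw [classInner_sub_right, classInner_sub_right, classInner_smul_right, classInner_add_left,
      classInner_add_left, classInner_add_left, classInner_smul_left, classInner_smul_left,
      classInner_smul_left, irr_classInner, irr_classInner, irr_classInner, if_neg e1, if_pos rfl,
      if_neg c1, show classInner θ (irrOne G : G → ℂ) = 0 from h1] at e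
    linear_combination e
  obtain ⟨m, hm⟩ := hθ.classInner_nat χ.2.isCharacter
  obtain ⟨m', hm'⟩ := hθ.classInner_nat (B.μ 1).2.isCharacter
  have h2 := B.le_degX hG c2 c1
  rcases B.hε with e | e
  · exfalso
    obtain ⟨r, hr⟩ := exists_ne_one (h := h) (by have := eN_mul' h.ord; rw [he] at this; omega)
    have h3 := sum_degree_le hθ {B.μ 1, B.μ r} (by
      simp only [Finset.mem_insert, Finset.mem_singleton]
      rintro _ (rfl | rfl) <;> rw [key, hm, e] <;> exact_mod_cast (by omega : m + 1 ≠ 0))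
    rw [Finset.sum_pair (B.inj.ne hr), B.deg_μ, B.deg_μ] at h3
    have := h2.2.1 (c3.trans e)
    omega
  refine ⟨e, ?_⟩
  have h3 : classInner θ χ ≠ 0 := by
    rw [eq_sub_of_add_eq (key 1).symm, hm', e]; exact_mod_cast (by omega : (m' : ℤ) - -1 ≠ 0)
  have h4 := sum_degree_le hθ {χ} (by simpa using h3)
  rw [Finset.sum_singleton] at h4
  obtain ⟨k, hk⟩ := Nat.dvd_of_mod_eq_zero (mod_eq_zero_of_modEq (c3.trans e ▸ B.degX χ c2))
  obtain rfl | rfl : k = 1 ∨ k = 2 := by
    have : k < 3 := by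
      by_contra h
      have := Nat.mul_le_mul_left p (not_lt.mp h)
      omega
    rcases k with _ | _ | _ | k <;> omega
  · omega
  · have h6 := eq_sum_of_degree hθ {χ} (by simpa using h3) (by rw [Finset.sum_singleton]; omega)
    rw [Finset.sum_singleton] at h6
    have := hi (h6 ▸ χ.2)
    omega

theorem card_five (hG : commutator G = ⊤) (he : eN h.ord = 2) (h5 : p = 5) (hε : B.ε = -1)
    (hz : B.z + 2 = p) (hO : pPrimeCore p G = ⊥) : Nat.card G = 60 ∧ IsSimpleGroup G := by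
  classical
  have F := B.fam he h5.ge hε hz hO
  obtain ⟨χ, c1, c2, c3, c4, c5⟩ := B.exists_two he
  have hd : charDegree (χ : G → ℂ) = 4 := by omega
  have hz' : B.z = 3 := by omega
  have h0 := h.card_G
  rw [Subgroup.card_bot, show Nat.card (EE h.ord) = 2 from he] at h0
  have h1 : ∀ J : G, orderOf J = 2 →
      4 * Nat.card G = 15 * Nat.card (Subgroup.centralizer ({J} : Set G)) ^ 2 := fun J hJ => by
    have h2 : (χ : G → ℂ) J = 0 := by
      have := B.μ_two c5 ((B.fam he h5.ge hε hz hO).reg_of_even hJ.symm.dvd)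
      rw [show (B.μ 1 : G → ℂ) J = -1 from (B.fam he h5.ge hε hz hO).invol hJ, hε] at this
      simpa using this
    obtain ⟨v, h3, h4, -⟩ := B.invol_two c4 c5 (by omega) hJ (by
      rw [h2, ← χ.2.isCharacter.charDegree_cast, hd]; norm_num)
    obtain rfl : v = 0 := by exact_mod_cast h3.symm.trans h2
    rw [hd, hz', h5] at h4
    zify; push_cast at h4; linarith
  have h2 : ∀ r : ℕ, r.Prime → r ≠ 2 → ¬ r ^ 2 ∣ Nat.card G := fun r hr h2 hd => by
    haveI := Fact.mk hr
    have h3 : r ≠ p := by rintro rfl; exact h.nsq hd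
    obtain ⟨R, hR⟩ := Sylow.exists_subgroup_card_pow_prime r hd
    obtain ⟨n, hn⟩ := ((F.μ 1).2.isCharacter.comp R.subtype).classInner_nat isCharacter_one
    rw [classInner_one_right, Finset.sum_eq_single 1 (fun s _ hs => ?_) (by simp), map_one, F.deg, hR,
      inv_mul_eq_iff_eq_mul₀ (by simp [hr.ne_zero]), h5] at hn
    · have h4 : 3 = r ^ 2 * n := by norm_num at hn; exact_mod_cast hn
      have := Nat.le_of_dvd (by norm_num) (Dvd.intro _ h4.symm)
      nlinarith [hr.two_le]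
    · have h4 := hR ▸ orderOf_dvd_natCard s
      rw [← Subgroup.orderOf_coe] at h4
      exact F.odd_zero (((hr.odd_of_ne_two h2).pow).of_dvd_nat h4) (fun e => h3
        ((Nat.prime_dvd_prime_iff_eq hp.out hr).mp (hp.out.dvd_of_dvd_pow (e.trans h4))).symm)
        fun e => hs (Subtype.ext e)
  obtain ⟨a, w, hw, e⟩ := Nat.exists_eq_pow_mul_and_not_dvd (Nat.card_pos (α := G)).ne' 2 (by norm_num)
  obtain ⟨J, hJ, c, hc⟩ := exists_central_invol (G := G) (a := a) (by
    rintro rfl; rw [h0, pow_zero, one_mul] at e; exact hw (e ▸ (dvd_mul_right _ _).mul_left _))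
    (Dvd.intro _ e.symm)
  have h3 := h1 J hJ
  obtain rfl : c = 1 := by
    by_contra hne
    obtain ⟨r, hr, hd⟩ := Nat.exists_prime_and_dvd hne
    have h4 : r ≠ 2 := by
      rintro rfl
      have := (Subgroup.centralizer ({J} : Set G)).card_subgroup_dvd_card
      rw [hc, e] at this
      exact hw (hd.trans (Nat.dvd_of_mul_dvd_mul_left (by positivity) this))
    refine h2 r hr h4 ((Nat.Coprime.pow 2 2 ((Nat.coprime_primes hr Nat.prime_two).mpr h4)
      ).dvd_of_dvd_mul_left ?_)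
    rw [show 2 ^ 2 * Nat.card G = _ from h3, hc, mul_pow]
    exact ((pow_dvd_pow_of_dvd hd 2).mul_left _).mul_left _
  have h4 : 4 * w = 15 * 2 ^ a := Nat.eq_of_mul_eq_mul_left (Nat.two_pow_pos a) (by
    rw [hc, e] at h3; linarith)
  have h6 : a ≤ 2 := by
    by_contra h6
    obtain ⟨b, rfl⟩ : ∃ b, a = b + 3 := ⟨a - 3, by omega⟩
    rw [pow_add] at h4; omega
  obtain ⟨n, hn⟩ := exists_sN_eq h.ord h.nsq
  have h7 := sN_pos_of_perfect h hG hn
  rw [hn, h5] at h0
  have h8 : Nat.card G = 60 := by interval_cases a <;> omega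
  refine ⟨h8, ?_⟩
  rcases (⟨hG, hn, by omega, h7⟩ : Few h n).iso with ⟨-, -, ⟨e⟩⟩ | ⟨m, E, _, _, e1, e2, -, ⟨e⟩⟩
  · haveI := H12.PSL_fin_simple (F := ZMod p) 2 le_rfl fun _ => by rw [ZMod.card]; omega
    exact e.isSimpleGroup
  · haveI := H12.PSL_fin_simple (F := E) 2 le_rfl fun _ => by omega
    exact e.isSimpleGroup

end BD

theorem isoF_five {G : Type*} [Group G] [Finite G] [IsSimpleGroup G] (h : Nat.card G = 60) :
    IsoF 5 G := by
  haveI := Fintype.ofFinite (GaloisField 2 2)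
  have h1 : Fintype.card (GaloisField 2 2) = 2 ^ 2 := by
    rw [← Nat.card_eq_fintype_card, GaloisField.card 2 2 two_ne_zero]
  haveI := H12.PSL_fin_simple (F := GaloisField 2 2) 2 le_rfl fun _ => by omega
  obtain ⟨e1⟩ := S0494.result h
  obtain ⟨e2⟩ := S0494.result (G := PSL(2, GaloisField 2 2)) (by simpa using H12.card_PSL2 h1)
  obtain ⟨e3⟩ := nonempty_PSL2_equiv_SL2 (F := GaloisField 2 2)
  exact ⟨2, _, inferInstance, inferInstance, rfl, h1, ⟨(e1.trans e2.symm).trans e3⟩⟩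

theorem PO.two_of_degree (h : PO p x K) {χ : IrrCharacter G} (hf : ∀ g, (χ : G → ℂ) g = (χ : G → ℂ) 1 → g = 1)
    (hd : charDegree (χ : G → ℂ) + 2 = p) (hne : NN x ≠ ⊤) :
    eN h.ord = 2 ∧ K ≤ Subgroup.center G ∧ (commutator G = ⊤ → 5 ≤ p → Nonempty (Fam h)) := by
  haveI := Fintype.ofFinite K
  have hx : x ≠ 1 := fun e => hp.out.one_lt.ne (by rw [← h.ord, e, orderOf_one])
  obtain ⟨θ, D, c, rfl, -, ⟨-, e⟩ | ⟨e1, e2, e3, e4, e5⟩⟩ := h.small_cases (χ := χ) (by omega)
    fun e => hx (hf x e)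
  · have h1 : eN h.ord = 1 := by
      have h2 := Dvd.intro _ (eN_mul h.ord)
      rw [show p - 1 = eN h.ord * D.d + 1 by omega, Nat.dvd_add_right (dvd_mul_right _ _)] at h2
      exact Nat.dvd_one.mp h2
    refine (hne (eq_top_iff.mpr fun g _ => mem_normalizer_of_commute h.ord (central_of_e_one h.ord
      h.nsq (fun g hg => ?_) (D.μ c).2.isCharacter (by omega) hf g))).elim
    exact (actN_eq_one_iff h.ord ⟨g, hg⟩).mp
      (Subgroup.mem_bot.mp (Subgroup.card_eq_one.mp h1 ▸ actN_mem h.ord _))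
  have he : eN h.ord = 2 := by omega
  obtain ⟨lam, hl⟩ := D.irr.isCharacter.exists_linear (by rw [D.θ_one, e2, Nat.cast_one])
  have hK : K ≤ Subgroup.center G := fun y hy => (D.μ c).2.isCharacter.charCenter_le_center
    (eq_bot_iff.mpr fun a ha => hf a (apply_of_mem_charKer ha))
    ((D.μ c).2.isCharacter.mem_charCenter.mpr (by
      rw [show y = (⟨y, hy⟩ : K) from rfl, e5, norm_mul, congrFun hl, linear_norm, mul_one,
        (D.μ c).2.isCharacter.charDegree_cast]))
  refine ⟨he, hK, fun hG h5 => ?_⟩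
  obtain ⟨-, hE, hv⟩ := D.of_inv e4
  have hd' : (D.μ c : G → ℂ) 1 = p - 2 := by
    rw [← (D.μ c).2.isCharacter.charDegree_cast, eq_sub_iff_add_eq]; exact_mod_cast hd
  obtain ⟨μ, m1, m2, m3⟩ : ∃ μ : (ZMod p)ˣ ⧸ EE h.ord → IrrCharacter G, Function.Injective μ ∧
      (∀ r, ∀ i : ZMod p, i ≠ 0 → (μ r : G → ℂ) (xp x i) = -per (EE h.ord) r i) ∧
      ∀ r g, ¬ p ∣ orderOf g → (μ r : G → ℂ) g = (D.μ c : G → ℂ) g := by
    rw [← hE]
    exact ⟨D.μ, D.inj, fun r i hi => by simpa [e1, D.θ_one, e2] using hv r i hi 1,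
      fun r g hg => D.μ_eq r c hg⟩
  have hd'' : ∀ r, (μ r : G → ℂ) 1 = p - 2 := fun r => by
    rw [m3 r 1 (by rw [orderOf_one]; exact hp.out.not_dvd_one), hd']
  refine ⟨⟨μ, m1, hK, ?_, he, h5, hd'', m2, fun r g hg => by rw [m3 r g hg, m3 1 g hg], fun g hg => ?_⟩⟩
  · rw [← Nat.not_even_iff_odd, even_iff_two_dvd]
    intro h2
    obtain ⟨J, hJ⟩ := exists_prime_orderOf_dvd_card' 2 h2
    have hJ2 : J * J = 1 := by rw [← sq, ← hJ, pow_orderOf_eq_one]
    obtain ⟨k, -, hk⟩ := exists_invol_val (D.μ c).2.isCharacter (J := J)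
      (congrArg Subtype.val hJ2) (by rw [linear_eq_one_of_perfect hG (detHom _)]; rfl)
    have h3 : (lam J : ℂ) * lam J = 1 := by rw [← Units.val_mul, ← map_mul, hJ2]; simp
    have h4 := e5 J
    rcases mul_self_eq_one_iff.mp h3 with e | e
    · rw [congrFun hl, e, mul_one, (D.μ c).2.isCharacter.charDegree_cast] at h4
      rw [show J = 1 from Subtype.ext (hf _ h4), orderOf_one] at hJ
      omega
    · rw [congrFun hl, e, hk] at h4
      have : 2 * charDegree (D.μ c : G → ℂ) = 4 * k := by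
        exact_mod_cast (by linear_combination h4 : (2 * charDegree (D.μ c : G → ℂ) : ℂ) = 4 * k)
      have := hp.out.eq_two_or_odd
      omega
  · obtain ⟨a, b⟩ := faith_of_two h he h5 (μ 1).2.isCharacter (hd'' 1)
      (by rw [← m2 1 1 one_ne_zero, xp_one h.ord]) hg
    exact hf g (by rw [← m3 1 g fun e => a (e.trans (Subgroup.orderOf_dvd_natCard _ b)), hg, hd'])

end Cfsg.Agent.H19
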