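import Cfsg.Agent.H19.FamC

/-! Central products and permutation groups with small Sylow normalizer -/

set_option autoImplicit false

namespace Cfsg.Agent.H19

open Cfsg Cfsg.Agent.H4 Cfsg.Agent.H5 Cfsg.Agent.H6 MulAction

variable {G : Type*} [Group G]

theorem cenProd_comm (H : Subgroup G) (a : H) (z : Subgroup.center G) :
    Commute (H.subtype a) ((Subgroup.center G).subtype z) := Subgroup.mem_center_iff.mp z.2 a

/-- multiplication map of a subgroup with the centre -/
def cenProd (H : Subgroup G) : H × Subgroup.center G →* G :=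
  H.subtype.noncommCoprod (Subgroup.center G).subtype (cenProd_comm H)

theorem cenProd_surjective {H : Subgroup G} (h : H ⊔ Subgroup.center G = ⊤) :
    Function.Surjective (cenProd H) := by
  rw [← MonoidHom.range_eq_top, cenProd, MonoidHom.noncommCoprod_range, H.range_subtype,
    Subgroup.range_subtype, h]

theorem irr_restrict_of_sup [Finite G] {H : Subgroup G} (h : H ⊔ Subgroup.center G = ⊤) {χ : G → ℂ}
    (hχ : IsIrrCharacter G χ) : IsIrrCharacter H fun a => χ a := by
  obtain ⟨φ, ψ, h1, h2, e⟩ := (hχ.comp_of_surjective _ (cenProd_surjective h)).exists_prod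
  convert h1 with a
  simpa [cenProd, h2.apply_one_eq_one_of_comm fun a b =>
    Subtype.ext (Subgroup.mem_center_iff.mp b.2 a)] using congrFun e (a, 1)

theorem perfect_of_sup (h : commutator G ⊔ Subgroup.center G = ⊤) :
    commutator (commutator G) = ⊤ := by
  apply Subgroup.map_injective (commutator G).subtype_injective
  rw [commutator_def (commutator G), Subgroup.map_commutator, ← MonoidHom.range_eq_map, Subgroup.range_subtype]
  refine le_antisymm (Subgroup.commutator_le_left _ _) (Subgroup.commutator_le.mpr fun a _ b _ => ?_)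
  obtain ⟨⟨a, z⟩, rfl⟩ := cenProd_surjective h a
  obtain ⟨⟨b, w⟩, rfl⟩ := cenProd_surjective h b
  have hz := Subgroup.mem_center_iff.mp z.2
  have hw := Subgroup.mem_center_iff.mp w.2
  convert Subgroup.commutator_mem_commutator a.2 b.2 using 1
  simp only [cenProd, MonoidHom.noncommCoprod_apply, Subgroup.coe_subtype, commutatorElement_def,
    mul_inv_rev, mul_assoc]
  rw [← mul_assoc (w : G), ← hw, ← mul_assoc (z : G), ← hz, mul_assoc, mul_assoc,
    mul_inv_cancel_left, ← mul_assoc (w : G), ← hw, mul_assoc, mul_inv_cancel_left]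

theorem iso_prod_center {H : Subgroup G} (h : H ⊔ Subgroup.center G = ⊤)
    (hZ : Subgroup.center H = ⊥) : Nonempty (H × Subgroup.center G ≃* G) := by
  refine ⟨MulEquiv.ofBijective (cenProd H) ⟨(MonoidHom.noncommCoprod_injective _ _ _).mpr
    ⟨H.subtype_injective, Subgroup.subtype_injective _, ?_⟩, cenProd_surjective h⟩⟩
  rw [H.range_subtype, Subgroup.range_subtype, Subgroup.disjoint_def]
  exact fun {a} ha hz => congrArg Subtype.val (Subgroup.mem_bot.mp (hZ ▸ Subgroup.mem_center_iff.mpr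
    fun b => Subtype.ext (Subgroup.mem_center_iff.mp hz b) : (⟨a, ha⟩ : H) ∈ ⊥))

variable {p : ℕ} [hp : Fact p.Prime] {x : G}

theorem NN_ne_top_of_normal [Finite G] {K : Subgroup G} (h : PO p x K) (hne : NN x ≠ ⊤)
    {S : Subgroup G} [S.Normal] (hx : x ∈ S) : NN (⟨x, hx⟩ : S) ≠ ⊤ := fun e => hne (by
  have hx' : orderOf (⟨x, hx⟩ : S) = p := by rw [← h.ord, ← Subgroup.orderOf_coe]
  rw [← h.frattini S hx, eq_comm, sup_eq_left]
  intro g hg
  obtain ⟨k, hk⟩ := (mem_normalizer_iff_xp hx').mp (e ▸ Subgroup.mem_top (⟨g, hg⟩ : S) : _ ∈ NN _)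
  exact (mem_normalizer_iff_xp h.ord).mpr ⟨k, congrArg Subtype.val hk⟩)

theorem core_bot_of_primitive [Finite G] {α : Type*} [Finite α] [MulAction G α] [FaithfulSMul G α]
    [IsPreprimitive G α] (hd : p ∣ Nat.card α) [Nonempty α] : pPrimeCore p G = ⊥ := by
  by_contra hne
  haveI := IsQuasiPreprimitive.isPretransitive_of_normal (G := G) (X := α) (N := pPrimeCore p G)
    fun e => hne (eq_bot_iff.mpr fun g hg => eq_of_smul_eq_smul (α := α) fun a => by
      simpa using (e ▸ Set.mem_univ a : a ∈ fixedPoints (pPrimeCore p G) α) ⟨g, hg⟩)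
  obtain ⟨a⟩ := ‹Nonempty α›
  exact H1.not_dvd_card_pPrimeCore p G (hd.trans
    (index_stabilizer_of_transitive (pPrimeCore p G) a ▸ Subgroup.index_dvd_card _))

theorem perm_two [Fintype G] {α : Type*} [Finite α] [MulAction G α] [FaithfulSMul G α]
    [IsPreprimitive G α] [Nontrivial α] (hd : p ∣ Nat.card α) (hα : Nat.card α ≤ 2 * p) (h5 : 5 ≤ p)
    (hi : IsMultiplyPretransitive G α 2 → Nat.card α ≤ p) (hx : orderOf x = p)
    (hn : ¬ p ^ 2 ∣ Nat.card G) (hN : Nat.card (NN x) = 2 * p) (hne : NN x ≠ ⊤) :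
    (p = 5 ∧ Nat.card G = 60 ∧ IsSimpleGroup G) ∨
      (7 ≤ p ∧ IsoF p G ∧ ∃ h : PO p x ⊥, Nonempty (Fam h)) := by
  have hO := core_bot_of_primitive (G := G) hd
  obtain ⟨h, he, hG⟩ := setup_two hx hn hO hN hne
  obtain ⟨B⟩ := h.nonempty_BD
  have h1 : charDegree (permChar G α - fun _ => 1) + 1 = Nat.card α := by
    have := (isCharacter_permChar_sub_one (G := G) α).charDegree_cast
    rw [Pi.sub_apply, permChar_one, eq_sub_iff_add_eq] at this
    exact_mod_cast this
  obtain ⟨hε, hz⟩ := B.neg_of_theta hG he h5 (isCharacter_permChar_sub_one α) (fun i hi => by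
      haveI : IsEmpty (fixedBy α (xp x i)) := ⟨fun ⟨a, ha⟩ => hn (by
        rw [← (stabilizer G a).card_mul_index, index_stabilizer_of_transitive, sq]
        exact mul_dvd_mul (orderOf_xp hx hi ▸ Subgroup.orderOf_dvd_natCard _ ha) hd)⟩
      simp [permChar])
    (by rw [classInner_sub_left, classInner_permChar_one, card_orbits_eq_one, classInner_one_one]
        simp) (by omega)
    fun e => by have := hi ((isIrr_permChar_sub_one_iff α).mp e); omega
  rcases h5.eq_or_lt with e | e
  · exact Or.inl ⟨e.symm, B.card_five hG he e.symm hε hz hO⟩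
  · have h7 : 7 ≤ p := by have := hp.out.eq_two_or_odd; omega
    exact Or.inr ⟨h7, (B.fam he h5 hε hz hO).iso hG h7, h, ⟨B.fam he h5 hε hz hO⟩⟩

theorem exists_gen_of_two [Finite G] (P : Sylow p G) (h2 : 2 < p) (hd : (P : Subgroup G) ≠ ⊥)
    (hN : Nat.card (Subgroup.normalizer ((P : Subgroup G) : Set G)) = 2 * p) :
    ∃ x : G, orderOf x = p ∧ Subgroup.zpowers x = P ∧ ¬ p ^ 2 ∣ Nat.card G := by
  refine exists_gen_of_sylow P ?_
  obtain ⟨k, hk⟩ := IsPGroup.iff_card.mp P.isPGroup'
  have h1 := Subgroup.card_dvd_of_le (H := (P : Subgroup G)) Subgroup.le_normalizer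
  rw [hN, hk] at h1
  have h3 := (Nat.Coprime.pow_left k ((Nat.coprime_primes hp.out Nat.prime_two).mpr
    h2.ne')).dvd_of_dvd_mul_left h1
  rw [hk]
  exact ((Nat.dvd_prime hp.out).mp h3).resolve_left fun e => hd (Subgroup.card_eq_one.mp (hk.trans e))

end Cfsg.Agent.H19
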