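import Cfsg.Agent.H19.Two
import Cfsg.Agent.H11.ElC2
import Cfsg.Agent.H12.Transport

/-! Groups whose elements have order dividing one of three pairwise coprime numbers -/

set_option autoImplicit false

namespace Cfsg.Agent.H19

open Cfsg Subgroup Cfsg.Agent.H11
open scoped MatrixGroups

variable {G : Type*} [Group G] [Finite G]

/-- nontrivial elements of `N` of order dividing `m` -/
def ty (N : Subgroup G) (m : ℕ) : Set G := {g | g ∈ N ∧ g ≠ 1 ∧ g ^ m = 1}

structure Tri (G : Type*) [Group G] (a b c : ℕ) : Prop where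
  ab : a.Coprime b
  ac : a.Coprime c
  bc : b.Coprime c
  cov : ∀ g : G, g ^ a = 1 ∨ g ^ b = 1 ∨ g ^ c = 1

namespace Tri

variable {a b c : ℕ} (h : Tri G a b c)
include h

omit [Finite G] in
theorem rot : Tri G b c a := ⟨h.bc, h.ab.symm, h.ac.symm, fun g => by have := h.cov g; tauto⟩

theorem prime_dvd {g : G} (h1 : g ≠ 1) (hg : g ^ a = 1) {r : ℕ} (hr : r.Prime)
    (hd : r ∣ Nat.card (centralizer ({g} : Set G))) : r ∣ a := by
  haveI := Fact.mk hr
  obtain ⟨z, hz⟩ := exists_prime_orderOf_dvd_card' r hd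
  obtain ⟨s, hs, k, hk⟩ := Nat.exists_prime_and_dvd (mt orderOf_eq_one_iff.mp h1)
  have hk0 : k ≠ 0 := fun e => (orderOf_pos g).ne' (by rw [hk, e, mul_zero])
  have h2 : orderOf (g ^ k) = s := by
    rw [orderOf_pow_of_dvd hk0 ⟨s, by rw [hk, mul_comm]⟩, hk, Nat.mul_div_cancel _ (by omega)]
  have h3 : s ∣ a := (Dvd.intro _ hk.symm).trans (orderOf_dvd_of_pow_eq_one hg)
  by_cases e : r = s
  · exact e ▸ h3
  have h4 : Commute (z : G) (g ^ k) :=
    Commute.pow_right (mem_centralizer_singleton_iff.mp z.2) k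
  have h5 := h4.orderOf_mul_eq_mul_orderOf_of_coprime
    (by rw [orderOf_coe, hz, h2]; exact (Nat.coprime_primes hr hs).mpr e)
  rw [orderOf_coe, hz, h2] at h5
  rcases h.cov (z * g ^ k) with e | e | e <;> have h6 := h5 ▸ orderOf_dvd_of_pow_eq_one e
  · exact (Dvd.intro _ rfl).trans h6
  · exact absurd (Nat.eq_one_of_dvd_coprimes h.ab h3 ((Dvd.intro_left _ rfl).trans h6)) hs.ne_one
  · exact absurd (Nat.eq_one_of_dvd_coprimes h.ac h3 ((Dvd.intro_left _ rfl).trans h6)) hs.ne_one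

theorem cent_coprime {g : G} (h1 : g ≠ 1) (hg : g ^ a = 1) {n : ℕ} (hn : n.Coprime a) :
    n.Coprime (Nat.card (centralizer ({g} : Set G))) :=
  Nat.coprime_of_dvd fun _ hr h2 h3 => hr.ne_one
    (Nat.eq_one_of_dvd_coprimes hn h2 (h.prime_dvd h1 hg hr h3))

theorem dvd_ty (N : Subgroup G) [hN : N.Normal] {n : ℕ} (hd : n ∣ Nat.card G) (hn : n.Coprime a) :
    n ∣ (ty N a).ncard := by
  refine dvd_ncard_of_invariant' (H := ConjAct G) n _ (fun g x hx => ⟨?_, ?_, ?_⟩) fun x hx => ?_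
  · exact hN.conj_mem x hx.1 _
  · exact fun e => hx.2.1 (by simpa [ConjAct.smul_def] using e)
  · rw [← smul_pow', hx.2.2, smul_one]
  · have h1 : (MulAction.stabilizer (ConjAct G) x).index = (centralizer ({x} : Set G)).index := by
      rw [← natCard_orbit_eq_index, ← card_class_eq_index]
      exact Nat.card_congr (Equiv.subtypeEquivRight fun y => by
        rw [ConjAct.mem_orbit_conjAct, isConj_comm])
    rw [← (centralizer ({x} : Set G)).card_mul_index] at hd
    exact h1 ▸ (h.cent_coprime hx.2.1 hx.2.2 hn).dvd_of_dvd_mul_left hd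

theorem card_eq (N : Subgroup G) :
    Nat.card N = 1 + (ty N a).ncard + (ty N b).ncard + (ty N c).ncard := by
  have hd : ∀ {u v : ℕ}, u.Coprime v → Disjoint (ty N u) (ty N v) := fun huv =>
    Set.disjoint_left.mpr fun g h1 h2 => h1.2.1 (orderOf_eq_one_iff.mp (Nat.eq_one_of_dvd_coprimes
      huv (orderOf_dvd_of_pow_eq_one h1.2.2) (orderOf_dvd_of_pow_eq_one h2.2.2)))
  have h1 : (N : Set G) = insert 1 (ty N a ∪ ty N b ∪ ty N c) := by
    ext g
    have := h.cov g
    by_cases e : g = 1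
    · simp [e]
    · simp only [ty, SetLike.mem_coe, Set.mem_insert_iff, Set.mem_union, Set.mem_setOf_eq]; tauto
  rw [← SetLike.coe_sort_coe, Nat.card_coe_set_eq, h1, Set.ncard_insert_of_notMem (by simp [ty]),
    Set.ncard_union_eq (Set.disjoint_union_left.mpr ⟨hd h.ac, hd h.bc⟩), Set.ncard_union_eq (hd h.ab)]
  ring

theorem coprime_of_zero {N : Subgroup G} (h0 : (ty N a).ncard = 0) {n : ℕ} (hb : n.Coprime b)
    (hc : n.Coprime c) : (Nat.card N).Coprime n :=
  Nat.coprime_of_dvd fun r hr h2 h3 => by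
    haveI := Fact.mk hr
    obtain ⟨z, hz⟩ := exists_prime_orderOf_dvd_card' r h2
    rw [← orderOf_coe] at hz
    have h1 : (z : G) ≠ 1 := fun e => hr.ne_one (by rw [← hz, e, orderOf_one])
    rcases h.cov z with e | e | e
    · exact Set.eq_empty_iff_forall_notMem.mp ((Set.ncard_eq_zero (Set.toFinite _)).mp h0) z
        ⟨z.2, h1, e⟩
    · exact hr.ne_one (Nat.eq_one_of_dvd_coprimes hb h3 (hz ▸ orderOf_dvd_of_pow_eq_one e))
    · exact hr.ne_one (Nat.eq_one_of_dvd_coprimes hc h3 (hz ▸ orderOf_dvd_of_pow_eq_one e))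

omit h in
theorem zero_of_coprime {N : Subgroup G} (h0 : (Nat.card N).Coprime a) : (ty N a).ncard = 0 :=
  (Set.ncard_eq_zero (Set.toFinite _)).mpr (Set.eq_empty_of_forall_notMem fun g hg =>
    hg.2.1 (orderOf_eq_one_iff.mp (Nat.eq_one_of_dvd_coprimes h0 (N.orderOf_dvd_natCard hg.1)
      (orderOf_dvd_of_pow_eq_one hg.2.2))))

end Tri

theorem l2_arith1 {p q e o i j k : ℕ} (hq : q = e + o) (heo : e = o + 1 ∨ o = e + 1)
    (hp : p ∣ 1 + 2 * e * o * i + 2 * e * q * j + q * o * k) (hpq : p ∣ q) (h3 : 2 < p)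
    (hi : i < p) : i = 2 := by
  have h1 : (p : ℤ) ∣ 1 + 2 * e * o * i + 2 * e * q * j + q * o * k := by exact_mod_cast hp
  have h2 : (p : ℤ) ∣ q := by exact_mod_cast hpq
  have h4 : (4 * e * o : ℤ) = q ^ 2 - 1 := by
    rcases heo with rfl | rfl <;> subst hq <;> push_cast <;> ring
  have h5 : (p : ℤ) ∣ 2 - i := by
    have := (h1.mul_left 2).sub (h2.mul_right (q * i + 4 * e * j + 2 * o * k))
    rwa [show (2 * (1 + 2 * e * o * i + 2 * e * q * j + q * o * k) -
      q * (q * i + 4 * e * j + 2 * o * k) : ℤ) = 2 - i by linear_combination i * h4] at this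
  have := Int.eq_zero_of_abs_lt_dvd h5 (abs_lt.mpr ⟨by omega, by omega⟩)
  omega

theorem l2_arith2 {q e o j k m : ℕ} (hq : q = e + o) (h2 : o.Coprime (2 * e)) (ho : 0 < o)
    (he : 0 < e) (hm : m = q + 2 * e * j + o * k) (hd : m ∣ o * (2 * e)) : m = o * (2 * e) := by
  obtain ⟨u, v, hu, ⟨c, hv⟩, rfl⟩ := Nat.dvd_mul.mp hd
  have h3 : u * v = e * (1 + 2 * j) + o * (1 + k) := by rw [hm, hq]; ring
  have h4 : u ∣ 1 + 2 * j := (h2.coprime_dvd_left hu).coprime_mul_left_right.dvd_of_dvd_mul_left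
    ((Nat.dvd_add_left (hu.mul_right (1 + k))).mp (h3 ▸ Dvd.intro _ rfl))
  have h5 := Nat.mul_le_mul_left e (Nat.le_of_dvd (by omega) h4)
  have h6 : c = 1 := by
    rcases c with _ | _ | c
    · omega
    · rfl
    · have : v ≤ e := by nlinarith
      have := Nat.mul_le_mul_left u this
      nlinarith
  rw [h6, mul_one] at hv
  subst hv
  have h7 : e ∣ 1 + k := h2.coprime_mul_left_right.symm.dvd_of_dvd_mul_left
    ((Nat.dvd_add_right (Dvd.intro (1 + 2 * j) rfl)).mp (h3 ▸ ⟨u * 2, by ring⟩))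
  have h8 := Nat.mul_le_mul_left o (Nat.le_of_dvd (by omega) h7)
  have h9 : o ≤ u := by nlinarith
  rw [le_antisymm (Nat.le_of_dvd ho hu) h9]

theorem l2_simple {p n e o : ℕ} (hp : p.Prime) (h : Tri G p o e) (heo : e = o + 1 ∨ o = e + 1)
    (hq : p ^ n = e + o) (h2 : 2 ∣ e) (h3 : 3 ≤ o) (hG : Nat.card G = p ^ n * (o * (2 * e))) :
    IsSimpleGroup G := by
  have he : 0 < e := by omega
  have hn : n ≠ 0 := by rintro rfl; simp at hq; omega
  have c1 : o.Coprime 2 := h.bc.coprime_dvd_right h2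
  have c2 : p.Coprime 2 := h.ac.coprime_dvd_right h2
  have c3 : o.Coprime (2 * e) := c1.mul_right h.bc
  have c4 : p.Coprime (2 * e) := c2.mul_right h.ac
  have hp2 : 2 < p := lt_of_le_of_ne hp.two_le fun e => by simp [← e] at c2
  have key : ∀ N : Subgroup G, N.Normal → ∃ i j k, (ty N p).ncard = 2 * e * o * i ∧
      (ty N o).ncard = 2 * e * p ^ n * j ∧ (ty N e).ncard = p ^ n * o * k ∧
      Nat.card N = 1 + 2 * e * o * i + 2 * e * p ^ n * j + p ^ n * o * k := fun N hN => by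
    obtain ⟨i, hi⟩ := h.dvd_ty N (n := 2 * e * o) ⟨p ^ n, by rw [hG]; ring⟩
      (c4.symm.mul_left h.ab.symm)
    obtain ⟨j, hj⟩ := h.rot.dvd_ty N (n := 2 * e * p ^ n) ⟨o, by rw [hG]; ring⟩
      (c3.symm.mul_left (h.ab.pow_left _))
    obtain ⟨k, hk⟩ := h.rot.rot.dvd_ty N (n := p ^ n * o) ⟨2 * e, by rw [hG]; ring⟩
      ((h.ac.pow_left _).mul_left h.bc)
    exact ⟨i, j, k, hi, hj, hk, by rw [h.card_eq N, hi, hj, hk]⟩
  obtain ⟨I, J, K, hI, -, -, hT⟩ := key ⊤ inferInstance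
  rw [card_top] at hT
  have h0 : 0 < 2 * e * o := by positivity
  have hI2 : I = 2 := l2_arith1 (p := p ^ n) hq heo (hT ▸ hG ▸ Dvd.intro _ rfl) dvd_rfl (by omega)
    (Nat.lt_of_mul_lt_mul_left (a := 2 * e * o) (by
      rw [show 2 * e * o * p ^ n = p ^ n * (o * (2 * e)) by ring, ← hG, hT]; omega))
  haveI : Nontrivial G := Finite.one_lt_card_iff_nontrivial.mp (by rw [hT, hI2]; omega)
  refine ⟨fun N hN => ?_⟩
  obtain ⟨i, j, k, hi, hj, hk, hc⟩ := key N hN
  have hd : Nat.card N ∣ p ^ n * (o * (2 * e)) := hG ▸ card_subgroup_dvd_card N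
  by_cases hpN : p ∣ Nat.card N
  · have h4 : 2 * e * o * i ≤ 2 * e * o * I := by
      rw [← hi, ← hI]; exact Set.ncard_le_ncard fun g hg => ⟨trivial, hg.2⟩
    have h5 : i = 2 := l2_arith1 hq heo (hc ▸ hpN) (dvd_pow_self p hn) hp2
      (by have := Nat.le_of_mul_le_mul_left h4 h0; omega)
    have h6 : Nat.card N = p ^ n * (p ^ n + 2 * e * j + o * k) := by
      rw [hc, h5, hq]; rcases heo with rfl | rfl <;> ring
    rw [h6] at hd
    have h7 := l2_arith2 hq c3 (by omega) he rfl (Nat.dvd_of_mul_dvd_mul_left (by omega) hd)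
    exact Or.inr (eq_top_of_card_eq _ (by rw [h6, h7, hG]))
  · have h4 := ((Nat.Prime.coprime_iff_not_dvd hp).mpr hpN).symm
    have h5 := (h4.pow_right n).dvd_of_dvd_mul_left hd
    have h6 := Nat.le_of_dvd (by positivity) h5
    have h7 : j = 0 := by
      by_contra hj0
      have := Nat.mul_le_mul_left (2 * e * p ^ n) (Nat.one_le_iff_ne_zero.mpr hj0)
      have h11 := Nat.mul_le_mul_left (2 * e) (show o ≤ p ^ n by omega)
      rw [mul_comm o] at h6
      omega
    have h8 := (h.rot.coprime_of_zero (by rw [hj, h7, mul_zero]) h.bc h.ab.symm).dvd_of_dvd_mul_left h5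
    have h9 := Nat.le_of_dvd (by positivity) h8
    have h10 : k = 0 := by
      by_contra hk0
      have := Nat.mul_le_mul_left (p ^ n * o) (Nat.one_le_iff_ne_zero.mpr hk0)
      have h11 := Nat.mul_le_mul_left (p ^ n) h3
      omega
    rw [← hi, Tri.zero_of_coprime h4, h7, h10] at hc
    exact Or.inl (card_eq_one.mp (by simpa using hc))

theorem conc_of_cyclic [IsSimpleGroup G] (hc : ¬ IsMulCommutative G) {x : G} {e : ℕ}
    (hx : orderOf x = e) (h2 : 2 ∣ e) (hG : ∃ m, Odd m ∧ Nat.card G = m * (2 * e))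
    (hC : ∀ z ∈ zpowers x, orderOf z = 2 → Nat.card (centralizer ({z} : Set G)) ∣ 2 * e) :
    GW.Conc G := by
  have he : e ≠ 0 := hx ▸ (orderOf_pos x).ne'
  obtain ⟨k, m, hm, rfl⟩ := Nat.exists_eq_two_pow_mul_odd he
  obtain ⟨u, hu, hG⟩ := hG
  have hm0 := hm.pos
  have ha : orderOf (x ^ m) = 2 ^ k := by
    rw [orderOf_pow_of_dvd hm0.ne' (hx ▸ Dvd.intro_left _ rfl), hx, Nat.mul_div_cancel _ hm0]
  obtain ⟨P, hP⟩ := (IsPGroup.of_card (p := 2) ((Nat.card_zpowers _).trans ha)).exists_le_sylow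
  have hP2 : Nat.card (P : Subgroup G) = 2 * orderOf (x ^ m) := by
    rw [P.card_eq_multiplicity, hG, show u * (2 * (2 ^ k * m)) = 2 ^ (k + 1) * (u * m) by ring,
      Nat.factorization_mul (by positivity) (hu.mul hm).pos.ne', Nat.prime_two.factorization_pow,
      Finsupp.add_apply, Finsupp.single_eq_same, Nat.factorization_eq_zero_of_not_dvd
        (hu.mul hm).not_two_dvd_nat, ha, add_zero, pow_succ']
  rcases cyc_two_cases hc P (hP (mem_zpowers _)) hP2 with h | ⟨n, X, Y, h3, hM, h4, h5⟩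
  · exact h
  exfalso
  have hk : orderOf (x ^ m) = 2 ^ n := by rw [h4, pow_succ'] at hP2; omega
  have hX : ∀ c, X c ∈ zpowers x := fun c => by
    obtain ⟨a, e | e⟩ := (hM.mem _).mp (hP (mem_zpowers _))
    · have : zpowers (x ^ m) = zpowers (X 1) := eq_of_le_of_card_ge
        (zpowers_le.mpr (e ▸ hM.X_mem_zpowers_one a))
        (by rw [Nat.card_zpowers, Nat.card_zpowers, hk, hM.orderOf_X_one])
      exact zpowers_le.mpr (pow_mem (mem_zpowers x) m) (this ▸ hM.X_mem_zpowers_one c)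
    · have h6 : (x ^ m) ^ 4 = 1 := by
        rw [e, show 4 = 2 * 2 by rfl, pow_mul, sq, sq, hM.Y_sq, hM.X_sq_eq_one]
        exact hM.Y_sq_cases a
      have := Nat.le_of_dvd (by norm_num) (orderOf_dvd_of_pow_eq_one h6)
      have := Nat.pow_le_pow_right two_pos h3
      omega
  obtain ⟨g, hg⟩ := isConj_iff.mp h5
  have h6 : g ∈ centralizer ({X (hh n)} : Set G) := by
    have h7 : g * X (hh n) * g⁻¹ = X (hh n) := by
      conv_lhs => rw [← hM.qq2, two_mul, ← hM.XX, ← sq, ← conj_pow, hg, sq, hM.Y_sq]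
      simp
    exact mem_centralizer_singleton_iff.mpr (mul_inv_eq_iff_eq_mul.mp h7)
  have h7 : zpowers x ≤ centralizer ({X (hh n)} : Set G) := fun y hy =>
    mem_centralizer_singleton_iff.mpr (mul_comm_of_mem_isMulCommutative _ hy (hX _))
  have h8 := hC _ (hX _) hM.orderOf_z
  generalize centralizer ({X (hh n)} : Set G) = C at h6 h7 h8
  have h9 := ((zpowers x).subgroupOf C).index_mul_card
  rw [Nat.card_congr (subgroupOfEquivOfLe h7).toEquiv, Nat.card_zpowers, hx] at h9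
  rw [← h9, Nat.mul_dvd_mul_iff_right (by positivity)] at h8
  have h10 : ((zpowers x).subgroupOf C).Normal := by
    rcases (Nat.dvd_prime Nat.prime_two).mp h8 with e | e
    · rw [index_eq_one.mp e]; infer_instance
    · exact normal_of_index_eq_two e
  have h11 : Y 1 ∈ zpowers x := hg ▸ h10.conj_mem ⟨_, h7 (hX _)⟩ (hX _) ⟨g, h6⟩
  rcases hM.XY_comm_iff.mp (mul_comm_of_mem_isMulCommutative _ (hX 1) h11) with e | e
  · have := hM.orderOf_X_one
    rw [e, hM.X_zero, orderOf_one] at this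
    have := Nat.pow_le_pow_right two_pos h3
    omega
  · have := hM.orderOf_X_one
    rw [e, hM.orderOf_z] at this
    have := Nat.pow_le_pow_right two_pos h3
    omega

theorem cube_inj {a b : ℕ} (ha : 1 < a) (h : a * (a ^ 2 - 1) = b * (b ^ 2 - 1)) : a = b := by
  have key : ∀ a b : ℕ, 0 < a → a < b → a * (a ^ 2 - 1) < b * (b ^ 2 - 1) := fun a b h0 h1 => by
    have := Nat.pow_lt_pow_left h1 two_ne_zero
    have := Nat.pos_of_ne_zero (pow_ne_zero 2 h0.ne')
    exact Nat.mul_lt_mul'' h1 (by omega)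
  rcases lt_trichotomy a b with e | e | e
  · exact absurd h (key a b (by omega) e).ne
  · exact e
  · rcases Nat.eq_zero_or_pos b with rfl | hb
    · have := Nat.pow_lt_pow_left ha two_ne_zero
      have : 0 < a * (a ^ 2 - 1) := Nat.mul_pos (by omega) (by omega)
      omega
    · exact absurd h (key b a hb e).ne'

end Cfsg.Agent.H19
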