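import Cfsg.Agent.H24.Base2
import Cfsg.Agent.H11.Invol
import Cfsg.Agent.H3.Cocycle
import Mathlib.GroupTheory.FiniteAbelian.Duality
import Mathlib.RingTheory.RootsOfUnity.AlgebraicallyClosed
import Mathlib.Analysis.Complex.Polynomial.Basic

/-! Simple groups with a maximal Sylow 2-subgroup of order 128: basic lemmas. -/

set_option autoImplicit false

namespace Cfsg.Agent.H19.Len

open Subgroup H24
open scoped commutatorElement

variable {G : Type*} [Group G] [Finite G]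

instance : Fact (Nat.Prime 2) := ⟨Nat.prime_two⟩

theorem dbl {A B : Subgroup G} (hB : IsPGroup 2 B) (h : A < B) : 2 * Nat.card A ≤ Nat.card B := by
  have h1 := card_mul_relIndex h.le
  have h2 := dvd_relIndex_of_not_le hB (A := A) h.not_ge
  have h3 := Nat.le_of_dvd (Nat.pos_of_ne_zero (relIndex_ne_zero (H := B) A)) h2
  nlinarith

theorem coset {A B : Subgroup G} (h : A ≤ B) (hc : Nat.card B = 2 * Nat.card A) {r s : G} (hr : r ∈ B) (hr' : r ∉ A)
    (hs : s ∈ B) (hs' : s ∉ A) : r * s ∈ A := by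
  have h1 := card_mul_relIndex h
  have h2 : A.relIndex B = 2 := by
    have := card_pos' A
    rw [hc, mul_comm] at h1
    exact Nat.eq_of_mul_eq_mul_right this h1
  have := (mul_mem_iff_of_index_two (H := A.subgroupOf B) h2 (a := ⟨r, hr⟩) (b := ⟨s, hs⟩)).2 (by
    simp [mem_subgroupOf, hr', hs'])
  exact this

/-- index two from a coset description -/
theorem card_two {A B : Subgroup G} (h : A ≤ B) {a : G} (ha : a ∈ B) (ha' : a ∉ A)
    (hB : ∀ b ∈ B, b ∈ A ∨ b * a ∈ A) : Nat.card B = 2 * Nat.card A := by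
  have h2 : A.relIndex B = 2 := by
    refine index_eq_two_iff.2 ⟨⟨a, ha⟩, fun b => ?_⟩
    simp only [mem_subgroupOf, coe_mul]
    rcases hB b b.2 with h1 | h1
    · exact Or.inr ⟨h1, fun h2 => ha' ((mul_mem_cancel_left h1).1 h2)⟩
    · exact Or.inl ⟨h1, fun h2 => ha' ((mul_mem_cancel_left h2).1 h1)⟩
  rw [← card_mul_relIndex h, h2, mul_comm]

/-- the standing hypothesis -/
structure Hyp (S : Subgroup G) : Prop where
  simple : IsSimpleGroup G
  nc : ¬ IsMulCommutative G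
  syl : SylIn 2 S ⊤
  card : Nat.card S = 128
  max : ∀ M, S ≤ M → M = S ∨ M = ⊤

namespace Hyp

variable {S : Subgroup G} (h : Hyp S)
include h

theorem ne_top : S ≠ ⊤ := by
  rintro rfl
  haveI := h.simple
  rcases (inferInstance : (center G).Normal).eq_bot_or_eq_top with e | e
  · refine center_ne_bot h.syl.pgrp (fun e => ?_) (by rw [centralizer_top', e, inf_bot_eq])
    have := h.card
    rw [e, card_bot] at this
    omega
  · exact h.nc ⟨⟨fun a b => mem_center_iff.1 (e ▸ mem_top b) a⟩⟩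

theorem norm_le {X : Subgroup G} (hX : X ≤ S) (h0 : X ≠ ⊥) (hn : S ≤ 𝐍[X]) : 𝐍[X] ≤ S := by
  rcases h.max _ hn with e | e
  · exact e.le
  · haveI := h.simple
    rcases (top_le_normalizer_iff.1 e.ge).eq_bot_or_eq_top with e | e
    · exact absurd e h0
    · exact absurd (top_le_iff.1 (e ▸ hX)) h.ne_top

theorem cent_le {z g : G} (hz : z ∈ S) (h1 : z ≠ 1) (hc : ∀ s ∈ S, s * z = z * s) (hg : g * z = z * g) : g ∈ S := by
  have e : ∀ s, s * z = z * s → s ∈ 𝐍[zpowers z] := fun s hs => centralizer_le_normalizer' _ (by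
    rw [centralizer_zpowers]; exact mem_centralizer_singleton_iff.2 hs)
  exact h.norm_le (zpowers_le.2 hz) (by rwa [Ne, zpowers_eq_bot]) (fun s hs => e s (hc s hs)) (e g hg)

theorem transfer {D R : Subgroup G} (hD : ∀ a ∈ S, ∀ b ∈ S, a * b * a⁻¹ * b⁻¹ ∈ D) {y : G} (hyS : y ∈ S)
    (hy2 : y * y = 1) (hyD : y ∉ D) (hR : IsPGroup 2 R) (hyR : y ∈ R) (hUy : ∀ u ∈ R, u * y * u⁻¹ = y)
    (hext : ∀ g, cj R g ≤ S → g * y * g⁻¹ * y⁻¹ ∈ D) : False := by
  classical
  haveI := h.simple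
  haveI := Fintype.ofFinite (G ⧸ S)
  haveI hn : (D.subgroupOf S).Normal := ⟨fun n hn g => by
    have := mul_mem (hD g g.2 n n.2) (mem_subgroupOf.1 hn)
    rw [mem_subgroupOf]
    simpa using this⟩
  letI : CommGroup (S ⧸ D.subgroupOf S) := { (inferInstance : Group (S ⧸ D.subgroupOf S)) with
    mul_comm := fun a b => by
      obtain ⟨a, rfl⟩ := QuotientGroup.mk_surjective a
      obtain ⟨b, rfl⟩ := QuotientGroup.mk_surjective b
      rw [← QuotientGroup.mk_mul, ← QuotientGroup.mk_mul, QuotientGroup.eq, mem_subgroupOf]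
      simpa [mul_assoc] using hD _ (inv_mem b.2) _ (inv_mem a.2) }
  obtain ⟨χ, hχ⟩ := CommGroup.exists_apply_ne_one_of_hasEnoughRootsOfUnity (S ⧸ D.subgroupOf S) ℂ
    (a := ((⟨y, hyS⟩ : S) : S ⧸ D.subgroupOf S)) (fun e => hyD (mem_subgroupOf.1 ((QuotientGroup.eq_one_iff (⟨y, hyS⟩ : S)).1 e)))
  let φ : S →* ℂˣ := χ.comp (QuotientGroup.mk' _)
  have hc := H3.isCocycle_tc φ
  have hV : MonoidHom.transfer φ y = 1 := by
    refine ((MonoidHom.normal_ker (MonoidHom.transfer φ)).eq_bot_or_eq_top.resolve_left fun e => h.nc ?_).ge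
      (mem_top y)
    exact ⟨⟨fun a b => (MonoidHom.ker_eq_bot_iff _).mp e (by rw [map_mul, map_mul, mul_comm])⟩⟩
  have hu : ∀ a : ℂˣ, a * a = 1 → a ≠ 1 → a = -1 := fun a h1 h2 => by
    have : (a : ℂ) * a = 1 := by simpa using congrArg Units.val h1
    rcases mul_self_eq_one_iff.1 this with e | e
    · exact absurd (Units.ext e) h2
    · exact Units.ext e
  obtain ⟨ω, h1, h2⟩ : ∃ ω : G ⧸ S, (∀ u ∈ R, u • ω = ω) ∧ H3.tc φ y ω = 1 := by
    by_contra! hh
    let B : SubMulAction R (G ⧸ S) := ⟨{ω | y • ω = ω ∧ H3.tc φ y ω ≠ 1}, fun u ω hω =>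
      ⟨show y • (u : G) • ω = (u : G) • ω by
          rw [← mul_smul, ← mul_inv_eq_iff_eq_mul.1 (hUy u u.2), mul_smul, hω.1],
        show H3.tc φ y ((u : G) • ω) ≠ 1 by rw [← hUy u u.2, hc.conj hω.1]; exact hω.2⟩⟩
    have h3 := hR.card_modEq_card_fixedPoints B
    have h4 := hR.card_modEq_card_fixedPoints (G ⧸ S)
    have h5 : Nat.card (MulAction.fixedPoints R B) = Nat.card (MulAction.fixedPoints R (G ⧸ S)) :=
      Nat.card_congr ⟨fun x => ⟨x.1.1, fun u => congrArg Subtype.val (x.2 u)⟩,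
        fun x => ⟨⟨x.1, x.2 ⟨y, hyR⟩, hh _ fun u hu => x.2 ⟨u, hu⟩⟩, fun u => Subtype.ext (x.2 u)⟩,
        fun _ => rfl, fun _ => rfl⟩
    have hz : orderOf (-1 : ℂˣ) = 2 := orderOf_eq_prime (by simp) (by
      intro e; have := congrArg Units.val e; norm_num at this)
    rw [H3.transfer_eq_prod_tc, ← Finset.prod_filter_mul_prod_filter_not _ (· ∈ B),
      Finset.prod_involution (s := Finset.univ.filter (· ∉ B)) (fun ω _ => y • ω)
        (fun ω _ => by rw [mul_comm, ← hc, hy2, hc.one])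
        (fun ω hω h6 h7 => (Finset.mem_filter.mp hω).2 ⟨h7, h6⟩)
        (fun ω hω => Finset.mem_filter.mpr ⟨Finset.mem_univ _, fun h6 => (Finset.mem_filter.mp hω).2
          (MulAction.injective y h6.1 ▸ h6)⟩)
        (fun ω _ => by rw [← mul_smul, hy2, one_smul]), mul_one,
      Finset.prod_congr rfl (g := fun _ => (-1 : ℂˣ)) fun ω hω => hu _
        (by rw [← pow_two, ← hc.pow_of_fixed (Finset.mem_filter.mp hω).2.1, pow_two, hy2, hc.one])
        (Finset.mem_filter.mp hω).2.2, Finset.prod_const, ← orderOf_dvd_iff_pow_eq_one,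
      hz, ← Fintype.card_subtype, ← Nat.card_eq_fintype_card] at hV
    exact h.syl.toSylowTop.not_dvd_index ((h4.trans (h5 ▸ h3.symm)).symm.dvd_iff dvd_rfl |>.mp hV)
  induction ω using QuotientGroup.induction_on with | H g =>
  have h3 : ∀ u ∈ R, g⁻¹ * u * g⁻¹⁻¹ ∈ S := fun u hu => by
    rw [inv_inv]; exact H3.smul_coe_eq_iff.mp (h1 u hu)
  rw [H3.tc_coe φ (H3.smul_coe_eq_iff.mp (h1 y hyR))] at h2
  have h4 := hext g⁻¹ (cj_le_iff'.2 h3)
  rw [inv_inv] at h4
  refine hχ ?_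
  have h5 : φ ⟨g⁻¹ * y * g * y⁻¹, mul_mem (H3.smul_coe_eq_iff.mp (h1 y hyR)) (inv_mem hyS)⟩ = 1 := by
    change χ _ = 1
    rw [QuotientGroup.mk'_apply, (QuotientGroup.eq_one_iff _).2 (mem_subgroupOf.2 h4), map_one]
  have h6 : φ ⟨y, hyS⟩ = 1 := by
    have : φ (⟨g⁻¹ * y * g, H3.smul_coe_eq_iff.mp (h1 y hyR)⟩ * ⟨y, hyS⟩⁻¹) = 1 := h5
    rwa [map_mul, h2, one_mul, map_inv, inv_eq_one] at this
  exact h6

end Hyp

omit [Finite G] in
theorem comm_mem {S D : Subgroup G} (hn : S ≤ 𝐍[D]) {p q : G} (hp : p ∈ S) (hq : q ∈ S)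
    (hgen : ∀ K : Subgroup G, D ≤ K → p ∈ K → q ∈ K → S ≤ K) (hpq : p * q * p⁻¹ * q⁻¹ ∈ D) :
    ∀ a ∈ S, ∀ b ∈ S, a * b * a⁻¹ * b⁻¹ ∈ D := by
  -- `K b` is the set of elements of `S` commuting with `b` modulo `D`
  let K : ∀ b ∈ S, Subgroup G := fun b hb =>
    { carrier := {a | a ∈ 𝐍[D] ∧ a * b * a⁻¹ * b⁻¹ ∈ D}
      one_mem' := ⟨one_mem _, by simp⟩
      mul_mem' := fun {a a'} ha ha' => ⟨mul_mem ha.1 ha'.1, by
        convert mul_mem (conj_mem_of_mem_normalizer ha.1 ha'.2) ha.2 using 1; group⟩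
      inv_mem' := fun {a} ha => ⟨inv_mem ha.1, by
        convert conj_mem_of_mem_normalizer' ha.1 (inv_mem ha.2) using 1; group⟩ }
  have hDK : ∀ b hb, D ≤ K b hb := fun b hb d hd => ⟨le_normalizer hd, by
    convert mul_mem hd (conj_mem_of_mem_normalizer (hn hb) (inv_mem hd)) using 1; group⟩
  have sy : ∀ a b : G, a * b * a⁻¹ * b⁻¹ ∈ D → b * a * b⁻¹ * a⁻¹ ∈ D := fun a b h => by
    convert inv_mem h using 1; group
  intro a ha b hb
  exact (hgen (K b hb) (hDK b hb)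
    ⟨hn hp, sy _ _ (hgen (K p hp) (hDK p hp) ⟨hn hp, by simp⟩ ⟨hn hq, sy _ _ hpq⟩ hb).2⟩
    ⟨hn hq, sy _ _ (hgen (K q hq) (hDK q hq) ⟨hn hp, hpq⟩ ⟨hn hq, by simp⟩ hb).2⟩ ha).2

omit [Finite G] in
/-- central elements of a dihedral group are fixed by automorphisms of the rotation subgroup -/
theorem dih_fix {a b t y : G} (ha : a * a = 1) (hb : b * b = 1) (hab : a * b ≠ b * a) (ht : t ∈ closure {a, b})
    (hta : t * a = a * t) (htb : t * b = b * t) {m : ℤ} (hy : y * (a * b) * y⁻¹ = (a * b) ^ (2 * m + 1)) :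
    y * t * y⁻¹ = t := by
  have hi := H11.invol_inverts_left ha hb
  obtain ⟨k, rfl | rfl⟩ := (H11.mem_closure_pair_iff ha hb).1 ht
  · have h1 := H11.conj_zpow_of_inv hi k
    rw [← hta, mul_inv_cancel_right] at h1
    have h2 : (a * b) ^ (2 * k) = 1 := by
      rw [two_mul, zpow_add]; nth_rewrite 1 [h1]; rw [zpow_neg, inv_mul_cancel]
    rw [← conj_zpow, hy, ← zpow_mul, show (2 * m + 1) * k = 2 * k * m + k by ring, zpow_add, zpow_mul, h2, one_zpow,
      one_mul]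
  · exfalso
    have h1 : a * (a * b) ^ k * (a * b) = a * b * (a * (a * b) ^ k) := by
      rw [← mul_assoc, hta, mul_assoc a, htb, mul_assoc]
    have h2 : a * (a * b) = a * b * a := by
      rw [mul_assoc, ← ((Commute.refl (a * b)).zpow_right k).eq, ← mul_assoc, ← mul_assoc (a * b)] at h1
      exact mul_right_cancel h1
    exact hab (mul_left_cancel (h2.trans (mul_assoc _ _ _)))

end Cfsg.Agent.H19.Len
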