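import Cfsg.Agent.H19.Len1
import Cfsg.Agent.H6.ZStar2

/-! A maximal intersection of Sylow 2-subgroups containing a 2-central involution. -/

set_option autoImplicit false

namespace Cfsg.Agent.H19.Len

open Subgroup H24

variable {G : Type*} [Group G] [Finite G]

omit [Finite G] in
theorem cconj {a b : G} (k : G) (h : a * b = b * a) : k * a * k⁻¹ * (k * b * k⁻¹) = k * b * k⁻¹ * (k * a * k⁻¹) := by
  rw [conj_mul, conj_mul, h]

omit [Finite G] in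
theorem cfix {a b : G} : a * b * a⁻¹ = b ↔ a * b = b * a := mul_inv_eq_iff_eq_mul

theorem exists_step {A B : Subgroup G} (hB : IsPGroup 2 B) (h : A < B) :
    ∃ x ∈ B, x ∈ 𝐍[A] ∧ x ∉ A ∧ x * x ∈ A := by
  classical
  obtain ⟨x, hx, hxA⟩ := SetLike.exists_of_lt (lt_inf_normalizer hB h)
  obtain ⟨k, hk⟩ := isPGroup_iff.1 hB x hx.1
  have hex : ∃ j, x ^ 2 ^ j ∈ A := ⟨k, hk ▸ A.one_mem⟩
  have h1 := Nat.find_spec hex
  have h0 : Nat.find hex ≠ 0 := fun e => by rw [e] at h1; exact hxA (by simpa using h1)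
  obtain ⟨j, hj⟩ := Nat.exists_eq_succ_of_ne_zero h0
  refine ⟨x ^ 2 ^ j, pow_mem hx.1 _, pow_mem hx.2 _, Nat.find_min hex (by omega), ?_⟩
  rwa [hj, pow_succ, pow_mul, pow_two] at h1

structure Loc (S U : Subgroup G) (z : G) : Prop extends Hyp S where
  z2 : z * z = 1
  z1 : z ≠ 1
  zS : z ∈ S
  zc : ∀ s ∈ S, s * z = z * s
  le : U ≤ S
  uniq : ∀ X, U < X → X ≤ S → ∀ g, cj X g ≤ S → g ∈ S
  nle : ¬ 𝐍[U] ≤ S
  cU : IsPGroup 2 𝐂[U]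

theorem Hyp.exists_loc {S : Subgroup G} (h : Hyp S) {z : G} (z2 : z * z = 1) (z1 : z ≠ 1) (zS : z ∈ S)
    (zc : ∀ s ∈ S, s * z = z * s) : ∃ U, Loc S U z := by
  haveI := h.simple
  have hS0 : S ≠ ⊥ := fun e => z1 (mem_bot.1 (e ▸ zS))
  have hO : pPrimeCore 2 G = ⊥ := by
    refine (inferInstance : (pPrimeCore 2 G).Normal).eq_bot_or_eq_top.resolve_right fun e => ?_
    have h2 := H10.pPrimeCore_coprime 2 G
    rw [e, card_top] at h2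
    have := (Nat.Coprime.coprime_dvd_left (card_subgroup_dvd_card S) h2)
    rw [h.card] at this
    norm_num at this
  obtain ⟨g, hg, hgz⟩ : ∃ g, g * z * g⁻¹ ∈ S ∧ g * z * g⁻¹ ≠ z := by
    by_contra! hh
    have := H6.mem_center_of_closed hO h.syl.toSylowTop zS hh
    exact h.ne_top (eq_top_iff.2 fun g _ => h.cent_le zS z1 zc (mem_center_iff.1 this g))
  let P : Subgroup G → Prop := fun X => X ≤ S ∧ (∃ k, k * z * k⁻¹ ∈ X) ∧ ∃ g, g ∉ S ∧ cj X g ≤ S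
  haveI : Nonempty {X // P X} := ⟨⟨zpowers z, zpowers_le.2 zS, ⟨1, by simp⟩, g, fun e => hgz (cfix.2 (zc g e)), by
    rw [cj_zpowers]; exact zpowers_le.2 hg⟩⟩
  obtain ⟨⟨U, hU, ⟨k, hk⟩, g, hg, hgU⟩, hmax⟩ := Finite.exists_max fun X : {X // P X} => Nat.card X.1
  have uniq : ∀ X, U < X → X ≤ S → ∀ g, cj X g ≤ S → g ∈ S := fun X h1 h2 g h3 => by
    by_contra h4
    exact (card_lt_of_lt h1).not_ge (hmax ⟨X, h2, ⟨k, h1.le hk⟩, g, h4, h3⟩)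
  refine ⟨U, h, z2, z1, zS, zc, hU, uniq, fun hn => hg ?_, ?_⟩
  · have h1 : U < cj S g⁻¹ := lt_of_le_of_ne (cj_le_iff.1 hgU) fun e => by
      have e2 : U = S := eq_of_le_of_card_le hU (by rw [e, card_cj])
      exact hg (h.norm_le le_rfl hS0 le_normalizer (mem_normalizer_of_cj_le (e2 ▸ hgU)))
    exact uniq _ (lt_inf_normalizer (IsPGroup.cj h.syl.pgrp _) h1) (inf_le_right.trans hn) g
      (cj_le_iff.2 inf_le_left)
  · refine (IsPGroup.cj h.syl.pgrp k).to_le fun y hy => mem_cj.2 (h.cent_le zS z1 zc ?_)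
    have := cconj k⁻¹ (mem_centralizer_iff'.1 hy _ hk)
    simpa [mul_assoc] using this.symm

/-- conjugates of `z` under the normalizer of `U` -/
def Δ (U : Subgroup G) (z d : G) : Prop := ∃ k ∈ 𝐍[U], d = k * z * k⁻¹

omit [Finite G] in
theorem Δ.conj {U : Subgroup G} {z d k : G} (hd : Δ U z d) (hk : k ∈ 𝐍[U]) : Δ U z (k * d * k⁻¹) := by
  obtain ⟨l, hl, rfl⟩ := hd
  exact ⟨k * l, mul_mem hk hl, by group⟩

omit [Finite G] in
theorem Δ.self (U : Subgroup G) (z : G) : Δ U z z := ⟨1, one_mem _, by simp⟩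

namespace Loc

variable {S U : Subgroup G} {z : G} (h : Loc S U z)
include h

omit [Finite G] in
theorem up {y g : G} (hy : y ∈ S) (hyU : y ∉ U) (hg : g ∈ 𝐍[U]) (hc : g * y * g⁻¹ ∈ S) : g ∈ S := by
  refine h.uniq (U ⊔ zpowers y) (lt_of_le_of_ne le_sup_left fun e => hyU ?_) (sup_le h.le (zpowers_le.2 hy)) g ?_
  · rw [e]; exact mem_sup_right (mem_zpowers y)
  · rw [cj_sup, cj_eq_of_mem_normalizer hg, cj_zpowers]
    exact sup_le h.le (zpowers_le.2 hc)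

theorem two {X Y : Subgroup G} (hY : IsPGroup 2 Y) (h1 : U < X) (h2 : X ≤ S) (h3 : X ≤ Y) : Y ≤ S := by
  obtain ⟨g, -, hg⟩ := h.syl.exists_cj_le hY le_top
  exact le_of_cj_le_of_mem hg (h.uniq X h1 h2 g ((cj_mono h3 g).trans hg))

omit [Finite G] in
theorem S0 : S ≠ ⊥ := fun e => h.z1 (mem_bot.1 (e ▸ h.zS))

theorem ltT : U < S ⊓ 𝐍[U] :=
  lt_inf_normalizer h.syl.pgrp (lt_of_le_of_ne h.le fun e => h.nle (e ▸ h.norm_le le_rfl h.S0 le_normalizer))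

theorem core {X : Subgroup G} (hX : IsPGroup 2 X) (h1 : U ≤ X) (h2 : 𝐍[U] ≤ 𝐍[X]) : X ≤ U := by
  by_contra h3
  have h4 : X ≤ S := le_sup_left.trans (h.two (isPGroup_sup_of_le_normalizer_left hX h.syl.pgrp.to_inf_left
    (inf_le_right.trans h2)) h.ltT inf_le_left le_sup_right)
  exact h.nle fun g hg => h.uniq X (lt_of_le_of_ne h1 fun e => h3 e.ge) h4 g
    ((cj_eq_of_mem_normalizer (h2 hg)).le.trans h4)

theorem cent : 𝐂[U] ≤ U := le_sup_right.trans (h.core (isPGroup_sup_of_le_normalizer_left (h.syl.pgrp.to_le h.le) h.cU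
  (centralizer_le_normalizer' U)) le_sup_left (le_normalizer_sup le_rfl (normalizer_le_normalizer_centralizer U)))

theorem zU : z ∈ U := h.cent (mem_centralizer_iff'.2 fun u hu => h.zc u (h.le hu))

theorem Tlt : S ⊓ 𝐍[U] < S := lt_of_le_of_ne inf_le_left fun e => h.nle
  (h.norm_le h.le (fun e => h.z1 (mem_bot.1 (e ▸ h.zU))) (inf_eq_left.1 e))

theorem czS {g : G} (hg : g * z = z * g) : g ∈ S := h.cent_le h.zS h.z1 h.zc hg

theorem dU {d : G} (hd : Δ U z d) : d ∈ U := by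
  obtain ⟨k, hk, rfl⟩ := hd
  exact conj_mem_of_mem_normalizer hk h.zU

omit [Finite G] in
theorem d2 {d : G} (hd : Δ U z d) : d * d = 1 := by
  obtain ⟨k, hk, rfl⟩ := hd
  rw [conj_mul, h.z2]; simp

omit [Finite G] in
theorem dc {d u : G} (hd : Δ U z d) (hu : u ∈ U) : u * d = d * u := by
  obtain ⟨k, hk, rfl⟩ := hd
  have := cconj k (h.zc _ (h.le (conj_mem_of_mem_normalizer' hk hu)))
  simpa [mul_assoc] using this

theorem TI0 {y d : G} (hy : y ∈ S) (hyU : y ∉ U) (hd : Δ U z d) (hc : y * d = d * y) : d = z := by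
  obtain ⟨k, hk, rfl⟩ := hd
  have h1 : k⁻¹ * y * k⁻¹⁻¹ ∈ S := h.czS (by simpa [mul_assoc] using cconj k⁻¹ hc)
  exact cfix.2 (h.zc k (inv_mem_iff.1 (h.up hy hyU (inv_mem hk) h1)))

theorem TI {y d d' : G} (hy : y ∈ 𝐍[U]) (hyU : y ∉ U) (hd : Δ U z d) (hd' : Δ U z d') (hc : y * d = d * y)
    (hc' : y * d' = d' * y) : d' = d := by
  obtain ⟨k, hk, rfl⟩ := hd
  have h1 : k⁻¹ * y * k⁻¹⁻¹ ∈ S := h.czS (by simpa [mul_assoc] using cconj k⁻¹ hc)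
  have := h.TI0 h1 (fun e => hyU (by simpa [mul_assoc] using conj_mem_of_mem_normalizer hk e))
    (hd'.conj (inv_mem hk)) (cconj k⁻¹ hc')
  rw [← this]; group

theorem exists_ne : ∃ d, Δ U z d ∧ d ≠ z := by
  obtain ⟨k, hk, hkS⟩ := SetLike.not_le_iff_exists.1 h.nle
  exact ⟨_, ⟨k, hk, rfl⟩, fun e => hkS (h.czS (cfix.1 e))⟩

theorem CV {g : G} (hg : ∀ d, Δ U z d → d * g = g * d) : g ∈ U := by
  refine h.core (X := centralizer {d | Δ U z d}) (h.syl.pgrp.to_le fun y hy => h.czS (hy z (Δ.self U z)).symm)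
    (fun u hu d hd => (h.dc hd hu).symm) (fun k hk => mem_normalizer_of_conj_mem fun y hy d hd => ?_) hg
  simpa [mul_assoc] using cconj k (hy _ (hd.conj (inv_mem hk)))

theorem conj_mod {y y' : G} (hy : y ∈ S ⊓ 𝐍[U]) (hyU : y ∉ U) (hy2 : y * y ∈ U) (hy' : y' ∈ S ⊓ 𝐍[U]) (hyU' : y' ∉ U)
    (hy2' : y' * y' ∈ U) : ∃ s ∈ S ⊓ 𝐍[U], s * y' * s⁻¹ * y⁻¹ ∈ U := by
  obtain ⟨k, hk, hkS⟩ := SetLike.not_le_iff_exists.1 h.nle
  haveI : (U.subgroupOf 𝐍[U]).Normal := normal_subgroupOf_of_le_normalizer' le_rfl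
  let π := QuotientGroup.mk' (U.subgroupOf 𝐍[U])
  have hπ : ∀ a : 𝐍[U], π a = 1 ↔ (a : G) ∈ U := fun a => (QuotientGroup.eq_one_iff a).trans mem_subgroupOf
  let a : 𝐍[U] := ⟨y', hy'.2⟩
  let b : 𝐍[U] := ⟨k * y * k⁻¹, mul_mem (mul_mem hk hy.2) (inv_mem hk)⟩
  have ha : π a * π a = 1 := by rw [← map_mul, hπ]; exact hy2'
  have hb : π b * π b = 1 := by
    rw [← map_mul, hπ]
    change k * y * k⁻¹ * (k * y * k⁻¹) ∈ U
    rw [conj_mul]; exact conj_mem_of_mem_normalizer hk hy2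
  by_cases hc : IsConj (π a) (π b)
  · obtain ⟨l, hl⟩ := isConj_iff.1 hc
    obtain ⟨l, rfl⟩ := QuotientGroup.mk'_surjective _ l
    have h1 : (l : G) * y' * (l : G)⁻¹ * (k * y * k⁻¹)⁻¹ ∈ U :=
      (hπ (l * a * l⁻¹ * b⁻¹)).1 (by rw [map_mul, map_mul, map_mul, map_inv, map_inv, hl, mul_inv_cancel])
    have h2 : k⁻¹ * l * y' * (k⁻¹ * l)⁻¹ * y⁻¹ ∈ U := by
      convert conj_mem_of_mem_normalizer' hk h1 using 1; group
    have h3 : k⁻¹ * l ∈ 𝐍[U] := mul_mem (inv_mem hk) l.2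
    exact ⟨_, ⟨h.up hy'.1 hyU' h3 (by simpa using mul_mem (h.le h2) hy.1), h3⟩, h2⟩
  · exfalso
    obtain ⟨u, -, hu, hua, hub⟩ := H11.exists_invol_commute_of_not_isConj ha hb hc
    obtain ⟨u, rfl⟩ : ∃ v, π v = u := QuotientGroup.mk'_surjective _ u
    have hu1 : (u : G) ∉ U := fun e => H11.ne_one_of_orderOf_two hu ((hπ u).2 e)
    have h1 : (u : G) * y' * (u : G)⁻¹ * y'⁻¹ ∈ U :=
      (hπ (u * a * u⁻¹ * a⁻¹)).1 (by rw [map_mul, map_mul, map_mul, map_inv, map_inv, hua.eq]; group)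
    have h2 : (b : G) * u * (b : G)⁻¹ * (u : G)⁻¹ ∈ U :=
      (hπ (b * u * b⁻¹ * u⁻¹)).1 (by rw [map_mul, map_mul, map_mul, map_inv, map_inv, ← hub.eq]; group)
    have h3 : (u : G) ∈ S := h.up hy'.1 hyU' u.2 (by simpa using mul_mem (h.le h1) hy'.1)
    have h4 : (b : G) ∈ S := h.up h3 hu1 b.2 (by simpa using mul_mem (h.le h2) h3)
    exact hkS (h.up hy.1 hyU hk h4)

theorem uinv {y y' : G} (hy : y ∈ S ⊓ 𝐍[U]) (hyU : y ∉ U) (hy2 : y * y ∈ U) (hy' : y' ∈ S ⊓ 𝐍[U]) (hyU' : y' ∉ U)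
    (hy2' : y' * y' ∈ U) : y * y' ∈ U := by
  set T := S ⊓ 𝐍[U] with hT
  haveI : (U.subgroupOf T).Normal := normal_subgroupOf_of_le_normalizer' inf_le_right
  let π := QuotientGroup.mk' (U.subgroupOf T)
  have hπ : ∀ a : T, π a = 1 ↔ (a : G) ∈ U := fun a => (QuotientGroup.eq_one_iff a).trans mem_subgroupOf
  have hQ : IsPGroup 2 (T ⧸ U.subgroupOf T) := (h.syl.pgrp.to_inf_left).to_quotient _
  haveI : Nontrivial (T ⧸ U.subgroupOf T) := ⟨⟨π ⟨y, hy⟩, 1, fun e => hyU ((hπ _).1 e)⟩⟩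
  haveI := hQ.center_nontrivial
  obtain ⟨⟨c, hc⟩, hc1⟩ := _root_.exists_ne (α := center (T ⧸ U.subgroupOf T)) 1
  obtain ⟨k, hk⟩ := hQ c
  obtain ⟨c', hc', h1, h2⟩ := exists_pow_prime_of_ne_one hk fun e => hc1 (Subtype.ext e)
  replace hc' : c' ∈ center _ := zpowers_le.2 hc hc'
  obtain ⟨w, rfl⟩ : ∃ v, π v = c' := QuotientGroup.mk'_surjective _ c'
  have hw1 : (w : G) ∉ U := fun e => h1 ((hπ w).2 e)
  have hw2 : (w : G) * w ∈ U := (hπ (w * w)).1 (by rw [map_mul, ← pow_two]; exact h2)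
  have key : ∀ v ∈ T, v ∉ U → v * v ∈ U → (w : G) * v⁻¹ ∈ U := fun v hv hvU hv2 => by
    obtain ⟨s, hs, h3⟩ := h.conj_mod hv hvU hv2 w.2 hw1 hw2
    have h4 : (w : G) * s * (w : G)⁻¹ * s⁻¹ ∈ U := (hπ (w * ⟨s, hs⟩ * w⁻¹ * ⟨s, hs⟩⁻¹)).1 (by
      rw [map_mul, map_mul, map_mul, map_inv, map_inv, ← mem_center_iff.1 hc' (π ⟨s, hs⟩)]; group)
    convert mul_mem h4 h3 using 1; group
  convert mul_mem (mul_mem (inv_mem (key y hy hyU hy2)) (key y' hy' hyU' hy2')) hy2' using 1; group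

section three

variable {τ z₂ : G} (hτ : τ ∈ S ⊓ 𝐍[U]) (hτU : τ ∉ U) (h2 : Δ U z z₂) (h2z : z₂ ≠ z)
include hτ hτU h2 h2z

theorem ne32 : τ * z₂ * τ⁻¹ ≠ z₂ := fun e => h2z (h.TI0 hτ.1 hτU h2 (cfix.1 e))

omit [Finite G] hτU h2 in
theorem ne3 : τ * z₂ * τ⁻¹ ≠ z := fun e => h2z (by
  rw [← cfix.2 (h.zc τ hτ.1)] at e; simpa using e)

theorem three (htv : ∀ d d', Δ U z d → Δ U z d' → d ≠ z → d' ≠ z → τ * (d * d') = d * d' * τ) {d : G}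
    (hd : Δ U z d) : d = z ∨ d = z₂ ∨ d = τ * z₂ * τ⁻¹ := by
  by_contra! hh
  obtain ⟨n1, n2, n3⟩ := hh
  have h3 := h2.conj hτ.2
  have n32 := h.ne32 hτ hτU h2 h2z
  have e1 : τ * z₂ * τ⁻¹ * (τ * d * τ⁻¹) = z₂ * d := by rw [conj_mul, htv _ _ h2 hd h2z n1, mul_inv_cancel_right]
  have hd' := hd.conj hτ.2
  generalize τ * z₂ * τ⁻¹ = z₃ at *
  generalize τ * d * τ⁻¹ = d' at *
  have e2 : d' = z₂ * (z₃ * d) := by
    rw [← mul_assoc, h.dc h3 (h.dU h2), mul_assoc, ← e1, ← mul_assoc, h.d2 h3, one_mul]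
  obtain ⟨k, hk, e⟩ := id h2
  have hne : ∀ d, d ≠ z₂ → k⁻¹ * d * k⁻¹⁻¹ ≠ z := fun d hd e' => hd (by rw [e, ← e']; group)
  have c1 := cconj k (htv _ _ (h3.conj (inv_mem hk)) (hd.conj (inv_mem hk)) (hne _ n32) (hne _ n2))
  have c1' : k * τ * k⁻¹ * (z₃ * d) = z₃ * d * (k * τ * k⁻¹) := by simpa [mul_assoc] using c1
  have c2 : k * τ * k⁻¹ * z₂ = z₂ * (k * τ * k⁻¹) := by rw [e]; exact cconj k (h.zc τ hτ.1)
  have := h.TI (mul_mem (mul_mem hk hτ.2) (inv_mem hk))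
    (fun e => hτU (by simpa [mul_assoc] using conj_mem_of_mem_normalizer' hk e)) h2 hd' c2
    (by rw [e2, ← mul_assoc, c2, mul_assoc, c1', ← mul_assoc])
  rw [this, h.dc h2 (h.dU h3)] at e1
  exact n3 (mul_left_cancel e1).symm

variable (hΔ : ∀ d, Δ U z d → d = z ∨ d = z₂ ∨ d = τ * z₂ * τ⁻¹)
include hΔ

theorem swap {y : G} (hy : y ∈ S ⊓ 𝐍[U]) (hyU : y ∉ U) :
    y * z₂ * y⁻¹ = τ * z₂ * τ⁻¹ ∧ y * (τ * z₂ * τ⁻¹) * y⁻¹ = z₂ :=
  ⟨((hΔ _ (h2.conj hy.2)).resolve_left (h.ne3 hy h2z)).resolve_left (h.ne32 hy hyU h2 h2z),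
    ((hΔ _ ((h2.conj hτ.2).conj hy.2)).resolve_left (h.ne3 hy (h.ne3 hτ h2z))).resolve_right
      (h.ne32 hy hyU (h2.conj hτ.2) (h.ne3 hτ h2z))⟩

theorem idx {y : G} (hy : y ∈ S ⊓ 𝐍[U]) : y ∈ U ∨ y * τ ∈ U := by
  by_contra! hh
  refine h.ne32 (mul_mem hy hτ) hh.2 h2 h2z ?_
  exact Eq.trans (by group) (h.swap hτ hτU h2 h2z hΔ hy hh.1).2

end three

end Loc

end Cfsg.Agent.H19.Len
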