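import Cfsg.Agent.H19.Len2

/-! The two cases of the local analysis. -/

set_option autoImplicit false

namespace Cfsg.Agent.H19.Len

open Subgroup H24

variable {G : Type*} [Group G] [Finite G]

omit [Finite G] in
theorem mem_zp2 {c g : G} (hc : c * c = 1) : g ∈ zpowers c ↔ g = 1 ∨ g = c := by
  constructor
  · rintro ⟨k, rfl⟩
    have h2 : c ^ (2 : ℤ) = 1 := by rw [zpow_two, hc]
    obtain ⟨j, rfl | rfl⟩ := Int.even_or_odd' k
    · left; change c ^ (2 * j) = 1; rw [zpow_mul, h2, one_zpow]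
    · right; change c ^ (2 * j + 1) = c; rw [zpow_add, zpow_mul, h2, one_zpow, one_mul, zpow_one]
  · rintro (rfl | rfl)
    · exact one_mem _
    · exact mem_zpowers _

omit [Finite G] in
theorem card_zp2 {c : G} (hc : c * c = 1) (h1 : c ≠ 1) : Nat.card (zpowers c) = 2 := by
  rw [Nat.card_zpowers, H11.orderOf_two_of h1 hc]

/-- normalizing a subgroup and an element outside an index two subgroup -/
theorem le_of_coset {A B K : Subgroup G} (h : A ≤ B) (hc : Nat.card B = 2 * Nat.card A) {r : G} (hr : r ∈ B)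
    (hr' : r ∉ A) (hA : A ≤ K) (hK : r ∈ K) : B ≤ K := fun s hs => by
  by_cases hs' : s ∈ A
  · exact hA hs'
  · exact (mul_mem_cancel_left hK).1 (hA (coset h hc hr hr' hs hs'))

namespace Loc

variable {S U : Subgroup G} {z x : G} (h : Loc S U z) (hx : x ∈ S) (hxn : x ∈ 𝐍[S ⊓ 𝐍[U]]) (hxT : x ∉ S ⊓ 𝐍[U])
  (hx2 : x * x ∈ S ⊓ 𝐍[U])
include h hx hxn hxT hx2

theorem case2 (hc : ∀ d, Δ U z d → x * d * x⁻¹ ∈ U) : False := by
  have p2 : ∀ {X : Subgroup G}, X ≤ S → IsPGroup 2 X := fun hX => h.syl.pgrp.to_le hX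
  set T := S ⊓ 𝐍[U] with hT
  set V := closure {d | Δ U z d} with hV
  have dV : ∀ {d}, Δ U z d → d ∈ V := fun hd => subset_closure hd
  have hVU : V ≤ U := (closure_le _).2 fun d hd => h.dU hd
  have hVc : ∀ v ∈ V, ∀ u ∈ U, u * v = v * u := fun v hv => mem_centralizer_iff'.1
    (((closure_le 𝐂[U]).2 fun d hd => mem_centralizer_iff'.2 fun u hu => h.dc hd hu) hv)
  have hVn : 𝐍[U] ≤ 𝐍[V] := fun k hk => mem_normalizer_of_cj_le (by
    rw [cj_closure]
    exact (closure_le _).2 (by rintro _ ⟨d, hd, rfl⟩; exact dV (Δ.conj hd hk)))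
  have hCV : 𝐂[V] = U := le_antisymm (fun g hg => h.CV fun d hd => mem_centralizer_iff'.1 hg d (dV hd))
    fun u hu => mem_centralizer_iff'.2 fun v hv => (hVc v hv u hu).symm
  have hV2 : ∀ v ∈ V, v * v = 1 := fun v hv => by
    induction hv using closure_induction with
    | mem d hd => exact h.d2 hd
    | one => simp
    | mul a b ha hb h1 h2 => rw [mul_assoc, ← mul_assoc b, ← hVc b hb a (hVU ha), mul_assoc, h2, mul_one, h1]
    | inv a ha h1 => rw [← mul_inv_rev, h1, inv_one]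
  have xN : x ∉ 𝐍[U] := fun e => hxT ⟨hx, e⟩
  have hWU : cj V x ≤ U := by
    rw [cj_closure]
    exact (closure_le _).2 (by rintro _ ⟨d, hd, rfl⟩; exact hc d hd)
  have hVx : V ≤ cj U x := by
    have := cj_mono hWU x
    rwa [cj_cj, cj_eq_of_mem_normalizer (hVn hx2.2)] at this
  have hCW : 𝐂[cj V x] = cj U x := by rw [← cj_centralizer, hCV]
  set I := U ⊓ cj U x with hI
  have hIU : I < U := lt_of_le_of_ne inf_le_left fun e =>
    xN (inv_mem_iff.1 (mem_normalizer_of_cj_le (le_cj_iff.1 (inf_eq_left.1 e))))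
  have hVF : V < V ⊔ cj V x := lt_of_le_of_ne le_sup_left fun e => xN (by
    rw [← hCV]
    exact normalizer_le_normalizer_centralizer V (mem_normalizer_of_cj_le (le_sup_right.trans e.ge)))
  have hFI : V ⊔ cj V x ≤ I := sup_le (le_inf hVU hVx) (le_inf hWU (cj_mono hVU x))
  have c1 := dbl h.syl.pgrp h.Tlt
  have c2 := dbl (p2 inf_le_left) h.ltT
  have c3 := dbl (p2 h.le) hIU
  have c4 := card_le_of_le' hFI
  have c5 := dbl (p2 (hFI.trans (hIU.le.trans h.le))) hVF
  rw [h.card, ← hT] at c1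
  rw [← hT] at c2
  have hIn : Nat.card T = 64 → 𝐍[I] ≤ S := fun e => by
    refine h.norm_le (hIU.le.trans h.le) (fun e => h.z1 (mem_bot.1 (e.le (hFI (mem_sup_left (dV (Δ.self U z)))))))
      (le_of_coset (A := T) inf_le_left (by rw [h.card]; omega) hx hxT (le_normalizer_inf inf_le_right ?_) ?_)
    · rw [← cj_normalizer]
      exact (cj_eq_of_mem_normalizer hxn).ge.trans (cj_mono inf_le_right x)
    · refine mem_normalizer_of_cj_le ?_
      rw [cj_inf, cj_cj, cj_eq_of_mem_normalizer hx2.2, inf_comm]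
  obtain ⟨τ, hτ, -, hτU, hτ2⟩ := exists_step (p2 inf_le_left) h.ltT
  have hCl : V ⊓ centralizer {τ} < V := lt_of_le_of_ne inf_le_left fun e => by
    obtain ⟨d, hd, hdz⟩ := h.exists_ne
    exact hdz (h.TI0 hτ.1 hτU hd (mem_centralizer_singleton_iff.1 (inf_eq_left.1 e (dV hd))).symm)
  have c6 := dbl (p2 (hVU.trans h.le)) hCl
  have cC : ∀ {d}, Δ U z d → d * (τ * d * τ⁻¹) ∈ V ⊓ centralizer {τ} := fun {d} hd =>
    ⟨mul_mem (dV hd) (dV (hd.conj hτ.2)), mem_centralizer_singleton_iff.2 (cfix.1 (by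
      rw [← conj_mul, ← h.dc hd (h.dU (hd.conj hτ.2))]
      congr 1
      exact Eq.trans (by group) (cfix.2 (h.dc hd hτ2)))).symm⟩
  have c2sq : ∀ {d}, Δ U z d → d * (τ * d * τ⁻¹) * (d * (τ * d * τ⁻¹)) = 1 := fun hd => hV2 _ (cC hd).1
  have cne : ∀ {d}, Δ U z d → d ≠ z → d * (τ * d * τ⁻¹) ≠ 1 := fun {d} hd hdz e =>
    h.ne32 hτ hτU hd hdz (mul_left_cancel (e.trans (h.d2 hd).symm))
  have htv : ∀ d d', Δ U z d → Δ U z d' → d ≠ z → d' ≠ z → τ * (d * d') = d * d' * τ := fun d d' hd hd' n n' => by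
    by_contra hh
    have h1 : zpowers (d * (τ * d * τ⁻¹)) < V ⊓ centralizer {τ} :=
      lt_of_le_of_ne (zpowers_le.2 (cC hd)) fun e => by
        rcases (mem_zp2 (c2sq hd)).1 (e.ge (cC hd')) with e | e
        · exact cne hd' n' e
        · refine hh (cfix.1 ?_)
          have e1 : τ * d' * τ⁻¹ = d' * (d * (τ * d * τ⁻¹)) := by rw [← e, ← mul_assoc d' d', h.d2 hd', one_mul]
          rw [← conj_mul, e1, h.dc (hd.conj hτ.2) (mul_mem (h.dU hd') (hVU (cC hd).1)) |>.symm, mul_assoc, mul_assoc d,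
            h.d2 (hd.conj hτ.2), mul_one, h.dc hd (h.dU hd')]
    have c7 := dbl (p2 (hCl.le.trans (hVU.trans h.le))) h1
    rw [card_zp2 (c2sq hd) (cne hd n)] at c7
    have nC : ∀ {d}, Δ U z d → d ≠ z → d ∉ V ⊓ centralizer {τ} := fun hd n e =>
      n (h.TI0 hτ.1 hτU hd (mem_centralizer_singleton_iff.1 e.2).symm)
    exact hh (mem_centralizer_singleton_iff.1
      (coset hCl.le (by omega) (dV hd) (nC hd n) (dV hd') (nC hd' n')).2).symm
  obtain ⟨z₂, h2, h2z⟩ := h.exists_ne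
  have hΔ := fun d => h.three hτ hτU h2 h2z htv (d := d)
  have h3 := h2.conj hτ.2
  have hzl : zpowers z ≤ V ⊓ centralizer {τ} :=
    zpowers_le.2 ⟨dV (Δ.self U z), mem_centralizer_singleton_iff.2 (h.zc τ hτ.1).symm⟩
  have c8 := card_le_of_le' hzl
  rw [card_zp2 h.z2 h.z1] at c8
  by_cases hcz : z₂ * (τ * z₂ * τ⁻¹) = z
  · -- `V` is a four-group
    have act : ∀ y ∈ T, ∀ v ∈ V, y * v * y⁻¹ * v⁻¹ ∈ zpowers z := fun y hy v hv => by
      by_cases hyU : y ∈ U
      · rw [cfix.2 (hVc v hv y hyU)]; simp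
      induction hv using closure_induction with
      | mem d hd =>
        obtain ⟨s1, s2⟩ := h.swap hτ hτU h2 h2z hΔ hy hyU
        rcases hΔ d hd with rfl | rfl | rfl
        · rw [cfix.2 (h.zc y hy.1)]; simp
        · rw [s1, inv_eq_of_mul_eq_one_left (h.d2 hd), ← h.dc h3 (h.dU hd), hcz]; exact mem_zpowers z
        · rw [s2, inv_eq_of_mul_eq_one_left (h.d2 hd), hcz]; exact mem_zpowers z
      | one => simp
      | mul a b ha hb h1 h2 =>
        have hn : a ∈ 𝐍[zpowers z] := centralizer_le_normalizer' _ (by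
          rw [centralizer_zpowers]; exact mem_centralizer_singleton_iff.2 (h.zc a (h.le (hVU ha))))
        convert mul_mem h1 (conj_mem_of_mem_normalizer hn h2) using 1; group
      | inv a ha h1 =>
        have hn : a ∈ 𝐍[zpowers z] := centralizer_le_normalizer' _ (by
          rw [centralizer_zpowers]; exact mem_centralizer_singleton_iff.2 (h.zc a (h.le (hVU ha))))
        convert conj_mem_of_mem_normalizer' hn (inv_mem h1) using 1; group
    have actW : ∀ y ∈ T, ∀ f ∈ cj V x, y * f * y⁻¹ * f⁻¹ ∈ zpowers z := fun y hy f hf => by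
      have := conj_mem_cj (act _ (conj_mem_of_mem_normalizer' hxn hy) _ (mem_cj.1 hf)) x
      rw [cj_zpowers, cfix.2 (h.zc x hx)] at this
      convert this using 1; group
    have hTW : T ≤ 𝐍[cj V x] := by
      rw [← cj_normalizer, ← cj_eq_of_mem_normalizer hxn]
      exact cj_mono (inf_le_right.trans hVn) x
    have hL : V ⊔ ncl (cj V x) 𝐍[U] ≤ I := by
      refine sup_le (le_sup_left.trans hFI) (le_inf (ncl_le hWU le_rfl) (ncl_le_iff.2 fun k hk => ?_))
      by_cases hkS : k ∈ S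
      · rw [cj_eq_of_mem_normalizer (hTW ⟨hkS, hk⟩)]; exact cj_mono hVU x
      rw [← hCW]
      refine cj_le_iff'.2 fun f hf => mem_centralizer_iff'.2 fun f' hf' => ?_
      have hfU := conj_mem_of_mem_normalizer hk (hWU hf)
      have a1 := actW _ (h.ltT.le hfU) f' hf'
      have a2 := conj_mem_cj (actW _ (h.ltT.le (conj_mem_of_mem_normalizer' hk (hWU hf'))) f hf) k
      rw [cj_zpowers] at a2
      rcases (mem_zp2 h.z2).1 a1 with e | e
      · exact (cfix.1 (mul_inv_eq_one.1 e)).symm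
      have a3 : z ∈ zpowers (k * z * k⁻¹) := by
        convert inv_mem a2 using 1; rw [← e]; group
      rcases (mem_zp2 (h.d2 ⟨k, hk, rfl⟩)).1 a3 with e | e
      · exact absurd e h.z1
      · exact absurd (h.czS (cfix.1 e.symm)) hkS
    have hLn : 𝐍[U] ≤ 𝐍[V ⊔ ncl (cj V x) 𝐍[U]] := le_normalizer_sup hVn (le_normalizer_ncl _ _)
    have hFL : V ⊔ cj V x < V ⊔ ncl (cj V x) 𝐍[U] := lt_of_le_of_ne (sup_le_sup_left (le_ncl _ _) _) fun e => by
      obtain ⟨u, hu, huI⟩ := SetLike.exists_of_lt hIU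
      obtain ⟨f, hf, hfu⟩ : ∃ f ∈ cj V x, u * f * u⁻¹ * f⁻¹ = z := by
        by_contra! hh
        refine huI ⟨hu, hCW.le (mem_centralizer_iff'.2 fun f hf => ?_)⟩
        exact (cfix.1 (mul_inv_eq_one.1 (((mem_zp2 h.z2).1 (actW u (h.ltT.le hu) f hf)).resolve_right (hh f hf)))).symm
      obtain ⟨k, hk, hkS⟩ := SetLike.not_le_iff_exists.1 h.nle
      have h1 : k * f * k⁻¹ ∈ V ⊔ cj V x := e.ge (conj_mem_of_mem_normalizer (hLn hk) (mem_sup_right (le_ncl _ _ hf)))
      obtain ⟨v, hv, f', hf', e1⟩ := (mem_sup_of_le_normalizer_left (hWU.trans (le_normalizer.trans hVn))).1 h1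
      have hu' := conj_mem_of_mem_normalizer hk hu
      have a1 := actW _ (h.ltT.le hu') f' hf'
      have a2 : k * z * k⁻¹ = v * (k * u * k⁻¹ * f' * (k * u * k⁻¹)⁻¹ * f'⁻¹) * v⁻¹ := by
        rw [← hfu, ← conj_mul, ← conj_mul, ← conj_mul, ← conj_inv, ← conj_inv, e1, ← mul_assoc _ v f', hVc v hv _ hu']
        group
      rcases (mem_zp2 h.z2).1 a1 with e2 | e2
      · rw [e2] at a2; exact h.z1 (by simpa using a2)
      · rw [e2, cfix.2 (h.zc v (h.le (hVU hv)))] at a2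
        exact hkS (h.czS (cfix.1 a2))
    have c9 := dbl (p2 (hL.trans (hIU.le.trans h.le))) hFL
    have c10 := card_le_of_le' hL
    rw [eq_of_le_of_card_le hL (by omega)] at hLn
    exact h.nle (hLn.trans (hIn (by omega)))
  · have h1 : zpowers z < V ⊓ centralizer {τ} := lt_of_le_of_ne hzl fun e =>
      (((mem_zp2 h.z2).1 (e.ge (cC h2))).elim (cne h2 h2z) hcz)
    have c7 := dbl (p2 (hCl.le.trans (hVU.trans h.le))) h1
    rw [card_zp2 h.z2 h.z1] at c7
    have hN := hIn (by omega)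
    obtain ⟨f, hf, hfV⟩ : ∃ f ∈ cj V x, f ∉ V := by
      by_contra! hh
      exact hVF.not_ge (sup_le le_rfl hh)
    have hVI : V ≤ I := le_sup_left.trans hFI
    have hfI : f ∈ I := hFI (mem_sup_right hf)
    have f2 : f * f = 1 := by simpa [mul_assoc] using congrArg (fun a => x * a * x⁻¹) (hV2 _ (mem_cj.1 hf))
    have key : ∀ k ∈ 𝐍[U], k * f * k⁻¹ ∈ I → k ∈ S := fun k hk e => hN (mem_normalizer_of_cj_le (cj_le_iff.2
      (le_of_coset hVI (by omega) hfI hfV (cj_le_iff.1 ((cj_eq_of_mem_normalizer (hVn hk)).le.trans hVI))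
        (mem_cj.2 (by rw [inv_inv]; exact e)))))
    obtain ⟨k, hk, e⟩ := id h2
    have hkS : k ∉ S := fun e' => h2z (e.trans (cfix.2 (h.zc k e')))
    have hk3 : τ * k ∈ 𝐍[U] := mul_mem hτ.2 hk
    have n2 : k * f * k⁻¹ ∉ I := fun e => hkS (key k hk e)
    have n3 : τ * k * f * (τ * k)⁻¹ ∉ I := fun e => hkS ((S.mul_mem_cancel_left hτ.1).1 (key _ hk3 e))
    have u2 := conj_mem_of_mem_normalizer hk hfI.1
    have u3 := conj_mem_of_mem_normalizer hk3 hfI.1
    have m1 := coset hIU.le (by omega) u2 n2 u3 n3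
    have m2 : k * f * k⁻¹ * (τ * k * f * (τ * k)⁻¹) ∉ V := fun e' => by
      have a1 := key (k⁻¹ * (τ * k)) (mul_mem (inv_mem hk) hk3) (by
        convert mul_mem (inv_mem hfI) (hVI (conj_mem_of_mem_normalizer' (hVn hk) e')) using 1; group)
      refine h.ne32 hτ hτU h2 h2z ?_
      rw [e]
      exact Eq.trans (by group) (congrArg (fun a => k * a * k⁻¹) (cfix.2 (h.zc _ a1)))
    have m3 := coset hVI (by omega) hfI hfV m1 m2
    have s2 : k * f * k⁻¹ * (k * f * k⁻¹) = 1 := by rw [conj_mul, f2]; simp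
    have s3 : τ * k * f * (τ * k)⁻¹ * (τ * k * f * (τ * k)⁻¹) = 1 := by rw [conj_mul, f2]; simp
    generalize k * f * k⁻¹ = f₂ at *
    generalize τ * k * f * (τ * k)⁻¹ = f₃ at *
    have m4 : f * f₂ = f * (f₂ * f₃) * f₃ := by rw [mul_assoc, mul_assoc, s3, mul_one]
    have m5 : f * f₂ * (f * f₂) = 1 := by
      have := hV2 _ m3
      have hc := hVc _ m3 _ u3
      rw [m4]
      generalize f * (f₂ * f₃) = v at this hc
      rw [mul_assoc v, ← mul_assoc f₃, hc, mul_assoc v, s3, mul_one, this]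
    have m6 : f * f₂ = f₂ * f := by
      rw [eq_inv_of_mul_eq_one_left m5, mul_inv_rev, inv_eq_of_mul_eq_one_left s2, inv_eq_of_mul_eq_one_left f2]
    refine n2 ⟨u2, hCW.le (centralizer_anti (le_sup_right.trans hFI) ((le_centralizer_iff (K := zpowers f₂)).1
      (le_of_coset hVI (by omega) hfI hfV ?_ ?_) (mem_zpowers f₂)))⟩
    · rw [centralizer_zpowers]
      exact fun v hv => mem_centralizer_singleton_iff.2 (hVc v hv _ u2).symm
    · rw [centralizer_zpowers]
      exact mem_centralizer_singleton_iff.2 m6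

end Loc

end Cfsg.Agent.H19.Len
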