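import Cfsg.Agent.H19.Len3

/-! The local configuration `N_S(U) = E × D₈`. -/

set_option autoImplicit false

namespace Cfsg.Agent.H19.Len

open Subgroup H24

variable {G : Type*} [Group G] [Finite G]

structure Cfg (S U E : Subgroup G) (z x a τ c w : G) : Prop extends Loc S U z where
  hx : x ∈ S
  hxn : x ∈ 𝐍[S ⊓ 𝐍[U]]
  hxT : x ∉ S ⊓ 𝐍[U]
  hx2 : x * x ∈ S ⊓ 𝐍[U]
  EI : E ≤ U ⊓ cj U x
  IE : ∀ i ∈ U ⊓ cj U x, i ∈ E ∨ i * c ∈ E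
  cI : c ∈ U ⊓ cj U x
  cE : c ∉ E
  UI : ∀ u ∈ U, u ∈ cj U x ∨ u * a ∈ cj U x
  aU : a ∈ U
  aI : a ∉ cj U x
  TU : ∀ y ∈ S ⊓ 𝐍[U], y ∈ U ∨ y * τ ∈ U
  τT : τ ∈ S ⊓ 𝐍[U]
  τU : τ ∉ U
  τx : τ ∈ cj U x
  a2 : a * a = 1
  τ2 : τ * τ = 1
  c2 : c * c = 1
  rel : τ * a * τ⁻¹ = a * c
  ac : ∀ u ∈ U, u * a = a * u
  cc : ∀ u ∈ U, u * c = c * u
  τc : ∀ i ∈ cj U x, i * τ = τ * i
  Ew : ∀ e ∈ E, e * w = w * e
  wS : w ∉ S

theorem Loc.exists_cfg {S U : Subgroup G} {z : G} (h : Loc S U z) : ∃ E x a τ c w, Cfg S U E z x a τ c w := by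
  obtain ⟨x, hx, hxn, hxT, hx2⟩ := exists_step h.syl.pgrp h.Tlt
  obtain ⟨d₀, hd₀, hτU⟩ : ∃ d, Δ U z d ∧ x * d * x⁻¹ ∉ U := by
    by_contra! hh
    exact h.case2 hx hxn hxT hx2 hh
  have hτ : x * d₀ * x⁻¹ ∈ S ⊓ 𝐍[U] := conj_mem_of_mem_normalizer hxn (h.ltT.le (h.dU hd₀))
  have τ2 : x * d₀ * x⁻¹ * (x * d₀ * x⁻¹) = 1 := by rw [conj_mul, h.d2 hd₀]; simp
  have τc : ∀ i ∈ cj U x, i * (x * d₀ * x⁻¹) = x * d₀ * x⁻¹ * i := fun i hi => by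
    simpa [mul_assoc] using cconj x (h.dc hd₀ (mem_cj.1 hi))
  have τx := conj_mem_cj (h.dU hd₀) x
  generalize x * d₀ * x⁻¹ = τ at *
  have nx : ∀ {d}, Δ U z d → d ≠ z → d ∉ cj U x := fun hd n e => n (h.TI0 hτ.1 hτU hd (τc _ e).symm)
  have htv : ∀ d d', Δ U z d → Δ U z d' → d ≠ z → d' ≠ z → τ * (d * d') = d * d' * τ := fun d d' hd hd' n n' => by
    have sq : ∀ {d}, Δ U z d → x⁻¹ * d * x * (x⁻¹ * d * x) ∈ U := fun {d} hd => by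
      rw [show x⁻¹ * d * x * (x⁻¹ * d * x) = x⁻¹ * (d * d) * x by group, h.d2 hd]; simp
    have := h.uinv (conj_mem_of_mem_normalizer' hxn (h.ltT.le (h.dU hd))) (fun e => nx hd n (mem_cj.2 e)) (sq hd)
      (conj_mem_of_mem_normalizer' hxn (h.ltT.le (h.dU hd'))) (fun e => nx hd' n' (mem_cj.2 e)) (sq hd')
    exact (τc _ (mem_cj.2 (by convert this using 1; group))).symm
  obtain ⟨z₂, h2, h2z⟩ := h.exists_ne
  have hΔ := fun d => h.three hτ hτU h2 h2z htv (d := d)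
  have h3 := h2.conj hτ.2
  have n32 := h.ne32 hτ hτU h2 h2z
  have TU := fun y => h.idx hτ hτU h2 h2z hΔ (y := y)
  have cT := card_two h.ltT.le hτ hτU TU
  have hUx : cj U x ≤ S ⊓ 𝐍[U] := cj_le_of_mem_normalizer h.ltT.le hxn
  have zx : z ∈ cj U x := by rw [← cfix.2 (h.zc x hx)]; exact conj_mem_cj h.zU x
  have aI : z * z₂ ∉ cj U x := fun e => nx h2 h2z ((mul_mem_cancel_left zx).1 e)
  have aU : z * z₂ ∈ U := mul_mem h.zU (h.dU h2)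
  have UI : ∀ u ∈ U, u ∈ cj U x ∨ u * (z * z₂) ∈ cj U x := fun u hu => by
    by_cases e : u ∈ cj U x
    · exact Or.inl e
    · exact Or.inr (coset hUx (by rw [card_cj, cT]) (h.ltT.le hu) e (h.ltT.le aU) aI)
  have dd : ∀ {d d' u}, Δ U z d → Δ U z d' → u ∈ U → u * (d * d') = d * d' * u := fun hd hd' hu => by
    rw [← mul_assoc, h.dc hd hu, mul_assoc, h.dc hd' hu, mul_assoc]
  have dd2 : ∀ {d d'}, Δ U z d → Δ U z d' → d * d' * (d * d') = 1 := fun {d d'} hd hd' => by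
    rw [mul_assoc, ← mul_assoc d', h.dc hd (h.dU hd'), mul_assoc, h.d2 hd', mul_one, h.d2 hd]
  have rel : τ * (z * z₂) * τ⁻¹ = z * z₂ * (z₂ * (τ * z₂ * τ⁻¹)) := by
    rw [← conj_mul, cfix.2 (h.zc τ hτ.1), mul_assoc z, ← mul_assoc z₂, h.d2 h2, one_mul]
  have a2 := dd2 (Δ.self U z) h2
  have ac := fun u (hu : u ∈ U) => dd (Δ.self U z) h2 hu
  have c2 := dd2 h2 h3
  have cc := fun u (hu : u ∈ U) => dd h2 h3 hu
  have cU := mul_mem (h.dU h2) (h.dU h3)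
  have cτ := htv _ _ h2 h3 h2z (h.ne3 hτ h2z)
  obtain ⟨k, hk, e⟩ := id h2
  have hw : k * τ * k⁻¹ ∈ 𝐍[U] := mul_mem (mul_mem hk hτ.2) (inv_mem hk)
  have hwU : k * τ * k⁻¹ ∉ U := fun e => hτU (by simpa [mul_assoc] using conj_mem_of_mem_normalizer' hk e)
  have wz : k * τ * k⁻¹ * z₂ = z₂ * (k * τ * k⁻¹) := by rw [e]; exact cconj k (h.zc τ hτ.1)
  have wc : k * τ * k⁻¹ * (z₂ * (τ * z₂ * τ⁻¹)) ≠ z₂ * (τ * z₂ * τ⁻¹) * (k * τ * k⁻¹) := fun e' => by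
    rw [← mul_assoc, wz, mul_assoc, mul_assoc z₂ (τ * z₂ * τ⁻¹)] at e'
    exact n32 (h.TI hw hwU h2 h3 wz (mul_left_cancel e'))
  have c1 : z₂ * (τ * z₂ * τ⁻¹) ≠ 1 := fun e' => wc (by rw [e', mul_one, one_mul])
  have wS : k * τ * k⁻¹ ∉ S := fun e' => h2z (e.trans (cfix.2 (h.zc k (h.up hτ.1 hτU hk e'))))
  clear e wz n32 hΔ htv
  generalize z₂ * (τ * z₂ * τ⁻¹) = c at *
  generalize z * z₂ = a at *
  have act : ∀ u ∈ U, τ * u * τ⁻¹ = u ∨ τ * u * τ⁻¹ = u * c := fun u hu => (UI u hu).imp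
    (fun e => cfix.2 (τc u e).symm) fun e => by
      have e1 := cfix.2 (τc _ e).symm
      rw [← conj_mul, rel] at e1
      calc τ * u * τ⁻¹ = τ * u * τ⁻¹ * (a * c) * (a * c) := by
            rw [mul_assoc _ (a * c), mul_assoc a c, ← mul_assoc c, ← cc a aU, mul_assoc a c c, c2, mul_one, a2, mul_one]
        _ = _ := by rw [e1, mul_assoc, ← mul_assoc a, a2, one_mul]
  have cx : c ∈ cj U x := (UI c cU).resolve_right fun e => c1 (by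
    have e1 := cfix.2 (τc _ e).symm
    rw [← conj_mul, rel, cfix.2 cτ] at e1
    simpa using e1)
  have act2 : ∀ u ∈ U, k * τ * k⁻¹ * u * (k * τ * k⁻¹)⁻¹ = u ∨
      k * τ * k⁻¹ * u * (k * τ * k⁻¹)⁻¹ = u * (k * c * k⁻¹) := fun u hu =>
    (act _ (conj_mem_of_mem_normalizer' hk hu)).imp
      (fun e => by simpa [mul_assoc] using congrArg (fun a => k * a * k⁻¹) e)
      (fun e => by simpa [mul_assoc] using congrArg (fun a => k * a * k⁻¹) e)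
  have c2' : k * c * k⁻¹ * (k * c * k⁻¹) = 1 := by rw [conj_mul, c2]; simp
  have cU' := conj_mem_of_mem_normalizer hk cU
  generalize k * τ * k⁻¹ = w at *
  generalize k * c * k⁻¹ = c' at *
  refine ⟨(U ⊓ cj U x) ⊓ centralizer {w}, x, a, τ, c, w, h, hx, hxn, hxT, hx2, inf_le_left, fun i hi => ?_, ⟨cU, cx⟩,
    fun e => wc (mem_centralizer_singleton_iff.1 e.2).symm, UI, aU, aI, TU, hτ, hτU, τx, a2, τ2, c2, rel, ac, cc, τc,
    fun e he => mem_centralizer_singleton_iff.1 he.2, wS⟩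
  refine (act2 i hi.1).imp (fun e => ⟨hi, mem_centralizer_singleton_iff.2 (cfix.1 e).symm⟩) fun e =>
    ⟨mul_mem hi ⟨cU, cx⟩, mem_centralizer_singleton_iff.2 (cfix.1 ?_).symm⟩
  rw [← conj_mul, e, (act2 c cU).resolve_left fun e => wc (cfix.1 e), mul_assoc, ← mul_assoc c', cc c' cU', mul_assoc,
    c2', mul_one]

end Cfsg.Agent.H19.Len
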