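import Cfsg.Agent.H19.Len4

/-! Normal four-subgroups in the local configuration. -/

set_option autoImplicit false

namespace Cfsg.Agent.H19.Len

open Subgroup H24

variable {G : Type*} [Group G] [Finite G]

/-- `⟨z, v⟩` is a normal four-subgroup of `S` -/
structure Four (S : Subgroup G) (z v : G) : Prop where
  mem : v ∈ S
  sq : v * v = 1
  n1 : v ≠ 1
  nz : v ≠ z
  act : ∀ s ∈ S, s * v * s⁻¹ = v ∨ s * v * s⁻¹ = v * z

namespace Cfg

variable {S U E : Subgroup G} {z x a τ c w : G} (h : Cfg S U E z x a τ c w)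
include h

omit [Finite G] in
theorem c1 : c ≠ 1 := fun e => h.cE (e ▸ E.one_mem)

omit [Finite G] in
theorem aτ : τ * a ≠ a * τ := fun e => h.c1 (by have := h.rel; rw [cfix.2 e] at this; simpa using this)

omit [Finite G] in
theorem IS : U ⊓ cj U x ≤ S := inf_le_left.trans h.le

theorem noS {v : G} (hv : v ∈ E) (hc : ∀ s ∈ S, s * v = v * s) : v = 1 := by
  by_contra e
  exact h.wS (h.cent_le (h.IS (h.EI hv)) e hc (h.Ew v hv).symm)

theorem noN {X : Subgroup G} (hX : X ≤ E) (hn : S ≤ 𝐍[X]) : X = ⊥ := by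
  by_contra e
  obtain ⟨⟨v, hv⟩, h1⟩ := ne_bot_iff_exists_ne_one.1
    (inf_centralizer_ne_bot (h.syl.pgrp.to_le (hX.trans (h.EI.trans h.IS))) h.syl.pgrp hn e)
  exact h1 (Subtype.ext (h.noS (hX hv.1) (mem_centralizer_iff'.1 hv.2)))

theorem zI {v : G} (hc : ∀ s ∈ S, s * v = v * s) : v ∈ U ⊓ cj U x := by
  have := h.cent (mem_centralizer_iff'.2 fun u hu => hc u (h.le hu))
  exact ⟨this, by rw [← cfix.2 (hc x h.hx)]; exact conj_mem_cj this x⟩

theorem zcE {v : G} (hc : ∀ s ∈ S, s * v = v * s) (h1 : v ≠ 1) : v * c ∈ E :=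
  (h.IE v (h.zI hc)).resolve_left fun e => h1 (h.noS e hc)

theorem cz {v : G} (hv : v * c ∈ E) : v * z ∈ E := by
  have := mul_mem hv (h.zcE h.zc h.z1)
  rwa [mul_assoc, ← mul_assoc c, ← h.cc z h.zU, mul_assoc, h.c2, mul_one] at this

omit [Finite G] in
theorem cases {y : G} (hy : y ∈ S ⊓ 𝐍[U]) :
    y ∈ U ⊓ cj U x ∨ y * a ∈ U ⊓ cj U x ∨ y * τ ∈ U ⊓ cj U x ∨ y * τ * a ∈ U ⊓ cj U x := by
  rcases h.TU y hy with e | e <;> rcases h.UI _ e with e' | e'
  · exact Or.inl ⟨e, e'⟩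
  · exact Or.inr (Or.inl ⟨mul_mem e h.aU, e'⟩)
  · exact Or.inr (Or.inr (Or.inl ⟨e, e'⟩))
  · exact Or.inr (Or.inr (Or.inr ⟨mul_mem e h.aU, e'⟩))

omit [Finite G] in
theorem sqE {i : G} (hi : i ∈ U ⊓ cj U x) : i * i ∈ E := by
  rcases h.IE i hi with e | e
  · exact mul_mem e e
  · have := mul_mem e e
    rwa [mul_assoc, ← mul_assoc c, ← h.cc i hi.1, mul_assoc, h.c2, mul_one] at this

omit [Finite G] in
theorem sq4 {y : G} (hy : y * τ * a ∈ U ⊓ cj U x) : y * y = y * τ * a * (y * τ * a) * c := by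
  have h1 := h.ac _ hy.1
  have h2 := h.τc _ hy.2
  have e : y = y * τ * a * a * τ := by rw [mul_assoc _ a a, h.a2, mul_one, mul_assoc, h.τ2, mul_one]
  generalize y * τ * a = i at h1 h2 e
  have h3 : τ * a * τ = a * c := by rw [← h.rel, inv_eq_of_mul_eq_one_left h.τ2]
  calc y * y = i * a * (τ * i) * a * τ := by rw [e]; group
    _ = i * (a * i) * (τ * a * τ) := by rw [← h2]; group
    _ = i * i * (a * a) * c := by rw [← h1, h3]; group
    _ = _ := by rw [h.a2, mul_one]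

omit [Finite G] in
theorem sq4' {y : G} (hy : y * τ * a ∈ U ⊓ cj U x) : y * y ≠ 1 := fun e => by
  rw [h.sq4 hy] at e
  exact h.cE ((mul_mem_cancel_left (h.sqE hy)).1 (e ▸ E.one_mem))

theorem nU {g : G} (hg : g ∈ 𝐍[U ⊓ cj U x]) (ha : g * a * g⁻¹ ∈ U) : g ∈ 𝐍[U] :=
  mem_normalizer_of_conj_mem fun u hu => by
    rcases h.UI u hu with e | e
    · exact (conj_mem_of_mem_normalizer hg (x := u) ⟨hu, e⟩).1
    · have := (conj_mem_of_mem_normalizer hg (x := u * a) ⟨mul_mem hu h.aU, e⟩).1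
      rw [← conj_mul] at this
      exact (U.mul_mem_cancel_right ha).1 this

theorem G1 {g : G} (hg : g ∈ S) (hn : g ∈ 𝐍[S ⊓ 𝐍[U]]) (hT : g ∉ S ⊓ 𝐍[U]) (hI : g ∈ 𝐍[U ⊓ cj U x]) :
    g * a * g⁻¹ * τ ∈ U ⊓ cj U x := by
  have h1 : g * a * g⁻¹ ∉ U := fun e => hT ⟨hg, h.nU hI e⟩
  rcases h.cases (conj_mem_of_mem_normalizer hn (h.ltT.le h.aU)) with e | e | e | e
  · exact absurd e.1 h1
  · exact absurd ((U.mul_mem_cancel_right h.aU).1 e.1) h1
  · exact e
  · exact absurd (by rw [conj_mul, h.a2]; simp) (h.sq4' e)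

theorem four {v : G} (hv : Four S z v) : v ∈ E ∨ v * z ∈ E := by
  have zI := h.zI h.zc
  have hT : v ∈ S ⊓ 𝐍[U] := ⟨hv.mem, mem_normalizer_of_conj_mem fun u hu => by
    rcases hv.act u (h.le hu) with e | e
    · rw [cfix.2 (cfix.1 e).symm]; exact hu
    · have : v * u * v⁻¹ = v * (u * v * u⁻¹)⁻¹ * u := by group
      rw [this, e, mul_inv_rev, ← mul_assoc, cfix.2 (by rw [inv_eq_of_mul_eq_one_left h.z2]; exact h.zc v hv.mem)]
      exact mul_mem (inv_mem zI.1) hu⟩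
  have h1 : v ∈ U → v ∈ U ⊓ cj U x := fun e => ⟨e, by
    have := conj_mem_cj e x
    rcases hv.act x h.hx with e | e <;> rw [e] at this
    · exact this
    · exact ((cj U x).mul_mem_cancel_right zI.2).1 this⟩
  have h2 : v ∈ U ⊓ cj U x := by
    rcases h.cases hT with e | e | e | e
    · exact e
    · exact h1 ((U.mul_mem_cancel_right h.aU).1 e.1)
    · have := mem_cj.1 (((cj U x).mul_mem_cancel_right h.τx).1 e.2)
      refine h1 ?_
      rcases hv.act x⁻¹ (inv_mem h.hx) with e | e <;> rw [inv_inv] at e <;> rw [e] at this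
      · exact this
      · exact (U.mul_mem_cancel_right zI.1).1 this
    · exact absurd hv.sq (h.sq4' e)
  exact (h.IE v h2).imp id h.cz

omit [Finite G] in
theorem genT {K : Subgroup G} (hE : E ≤ K) (hc : c ∈ K) (ha : a ∈ K) (hτ : τ ∈ K) : S ⊓ 𝐍[U] ≤ K := fun y hy => by
  have hI : U ⊓ cj U x ≤ K := fun i hi => (h.IE i hi).elim (fun e => hE e) fun e => (K.mul_mem_cancel_right hc).1 (hE e)
  rcases h.cases hy with e | e | e | e
  · exact hI e
  · exact (K.mul_mem_cancel_right ha).1 (hI e)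
  · exact (K.mul_mem_cancel_right hτ).1 (hI e)
  · exact (K.mul_mem_cancel_right hτ).1 ((K.mul_mem_cancel_right ha).1 (hI e))

theorem cardI : Nat.card (U ⊓ cj U x : Subgroup G) = 2 * Nat.card E := card_two h.EI h.cI h.cE h.IE

theorem cardT : Nat.card (S ⊓ 𝐍[U] : Subgroup G) = 8 * Nat.card E := by
  rw [card_two h.ltT.le h.τT h.τU h.TU, card_two (A := U ⊓ cj U x) inf_le_left h.aU (fun e => h.aI e.2)
    fun u hu => (h.UI u hu).imp (fun e => ⟨hu, e⟩) fun e => ⟨mul_mem hu h.aU, e⟩, h.cardI]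
  ring

theorem inter {F : Subgroup G} (hF : F ≤ U ⊓ cj U x) (h3 : 3 ≤ Nat.card F) : E ⊓ F ≠ ⊥ := fun e => by
  have h1 := card_inf_mul_relIndex E F
  have h2 := card_mul_relIndex h.EI
  have h4 := relIndex_le_of_le_right (H := E) hF (relIndex_ne_zero E)
  rw [e, card_bot] at h1
  rw [h.cardI] at h2
  have := card_pos' E
  nlinarith

theorem xI : x ∈ 𝐍[U ⊓ cj U x] := mem_normalizer_of_cj_le (by
  rw [cj_inf, cj_cj, cj_eq_of_mem_normalizer h.hx2.2, inf_comm])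

theorem cardE (h0 : E ≠ ⊥) : Nat.card E = 2 ∨ Nat.card E = 4 := by
  have hE := h.syl.pgrp.to_le (h.EI.trans h.IS)
  have c1 := dbl h.syl.pgrp h.Tlt
  rw [h.card, h.cardT] at c1
  obtain ⟨n, hn⟩ := exists_card_eq_pow hE
  have h8 : Nat.card E ≠ 8 := fun e => by
    have cE : ∀ {g}, (∀ e ∈ E, e * g = g * e) → g ∈ 𝐍[E] := fun hg =>
      centralizer_le_normalizer' E (mem_centralizer_iff'.2 hg)
    have hT : S ⊓ 𝐍[U] ≤ 𝐍[E] := h.genT le_normalizer (cE fun e he => h.cc e (h.EI he).1)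
      (cE fun e he => h.ac e (h.EI he).1) (cE fun e he => h.τc e (h.EI he).2)
    refine h.inter (cj_le_of_mem_normalizer h.EI h.xI) (by rw [card_cj]; omega) (h.noN inf_le_left
      (le_of_coset (A := S ⊓ 𝐍[U]) inf_le_left (by rw [h.card, h.cardT, e]) h.hx h.hxT (le_normalizer_inf hT ?_) ?_))
    · rw [← cj_normalizer]
      exact (cj_eq_of_mem_normalizer h.hxn).ge.trans (cj_mono hT x)
    · refine mem_normalizer_of_cj_le ?_
      rw [cj_inf, cj_cj, cj_eq_of_mem_normalizer (hT h.hx2), inf_comm]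
  have h1 : Nat.card E ≠ 1 := fun e => h0 (card_eq_one.1 e)
  rw [hn] at c1 h8 h1 ⊢
  have : n ≤ 3 := by
    by_contra hh
    have := Nat.pow_le_pow_right (n := 2) (by norm_num) (show 4 ≤ n by omega)
    omega
  interval_cases n <;> simp_all

variable (hEc : ∀ e ∈ E, ∀ e' ∈ E, e * e' = e' * e)
include hEc

omit [Finite G] in
theorem Ic {i y : G} (hi : i ∈ U ⊓ cj U x) (hy : y ∈ S ⊓ 𝐍[U]) : y * i = i * y := by
  refine mem_centralizer_singleton_iff.1 (h.genT (fun e he => mem_centralizer_singleton_iff.2 ?_)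
    (mem_centralizer_singleton_iff.2 (h.cc i hi.1).symm) (mem_centralizer_singleton_iff.2 (h.ac i hi.1).symm)
    (mem_centralizer_singleton_iff.2 (h.τc i hi.2).symm) hy)
  rcases h.IE i hi with e1 | e1
  · exact hEc _ he _ e1
  · have := hEc _ he _ e1
    rw [← mul_assoc, mul_assoc i, ← h.cc e (h.EI he).1, ← mul_assoc] at this
    exact mul_right_cancel this

omit [Finite G] hEc in
theorem ZT {y : G} (hy : y ∈ S ⊓ 𝐍[U]) (ha : y * a = a * y) (hτ : y * τ = τ * y) : y ∈ U ⊓ cj U x := by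
  rcases h.cases hy with e | e | e | e
  · exact e
  · have := h.τc _ e.2
    rw [← mul_assoc, ← hτ, mul_assoc, mul_assoc] at this
    exact absurd (mul_left_cancel this).symm h.aτ
  · have := h.ac _ e.1
    rw [← mul_assoc, ← ha, mul_assoc, mul_assoc] at this
    exact absurd (mul_left_cancel this) h.aτ
  · have := h.ac _ e.1
    rw [← mul_assoc, ← mul_assoc, ← ha, mul_assoc y τ, mul_assoc y a] at this
    exact absurd (mul_left_cancel (mul_right_cancel this)) h.aτ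

theorem NI {g : G} (hg : g ∈ 𝐍[S ⊓ 𝐍[U]]) : g ∈ 𝐍[U ⊓ cj U x] := mem_normalizer_of_conj_mem fun i hi => by
  have key : ∀ y ∈ S ⊓ 𝐍[U], g * i * g⁻¹ * y = y * (g * i * g⁻¹) := fun y hy => by
    simpa [mul_assoc] using (cconj g (h.Ic hEc hi (conj_mem_of_mem_normalizer' hg hy))).symm
  exact h.ZT (conj_mem_of_mem_normalizer hg (h.ltT.le hi.1)) (key a (h.ltT.le h.aU)) (key τ h.τT)

theorem ext {t g : G} (htE : t ∈ E) (ht : Four S z t) (hR : Nat.card (S ⊓ centralizer {t} : Subgroup G) = 64)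
    (hg : cj (S ⊓ centralizer {t}) g ≤ S) : Four S z (g * t * g⁻¹) := by
  have hc : ∀ s ∈ cj (S ⊓ centralizer {t}) g, s * (g * t * g⁻¹) * s⁻¹ = g * t * g⁻¹ := fun s hs => cfix.2 (by
    simpa [mul_assoc] using cconj g (mem_centralizer_singleton_iff.1 (mem_cj.1 hs).2))
  have hR' : Nat.card S = 2 * Nat.card (cj (S ⊓ centralizer {t}) g) := by rw [card_cj, hR, h.card]
  have m := hg (conj_mem_cj (H := S ⊓ centralizer {t}) (x := t) ⟨ht.mem, mem_centralizer_singleton_iff.2 rfl⟩ g)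
  have n1 : g * t * g⁻¹ ≠ 1 := by simpa using ht.n1
  have sq : g * t * g⁻¹ * (g * t * g⁻¹) = 1 := by rw [conj_mul, ht.sq]; simp
  obtain ⟨s₀, hs₀, hs₀'⟩ : ∃ s ∈ S, s * (g * t * g⁻¹) * s⁻¹ ≠ g * t * g⁻¹ := by
    by_contra! hh
    have key : ∀ y, y * t = t * y → y ∈ cj S g⁻¹ := fun y hy =>
      mem_cj.2 (by rw [inv_inv]; exact h.cent_le m n1 (fun s hs => cfix.1 (hh s hs)) (cconj g hy))
    exact h.wS (h.two (IsPGroup.cj h.syl.pgrp g⁻¹) h.ltT inf_le_left (fun y hy => key y (h.Ic hEc (h.EI htE) hy))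
      (key w (h.Ew t htE).symm))
  generalize g * t * g⁻¹ = u at *
  generalize cj (S ⊓ centralizer {t}) g = R at *
  have n0 : s₀ ∉ R := fun e => hs₀' (hc _ e)
  have out : ∀ s ∈ S, s ∉ R → s * u * s⁻¹ = s₀ * u * s₀⁻¹ := fun s hs hs' => by
    have := hc _ (coset hg hR' (inv_mem hs₀) (fun e => n0 (inv_mem_iff.1 e)) hs hs')
    exact Eq.trans (by group) (congrArg (fun b => s₀ * b * s₀⁻¹) this)
  have m' : s₀ * u * s₀⁻¹ ∈ S := mul_mem (mul_mem hs₀ m) (inv_mem hs₀)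
  have cm : s₀ * u * s₀⁻¹ * u = u * (s₀ * u * s₀⁻¹) := by
    refine cfix.1 (hc _ ?_)
    by_contra e
    have := out _ m' e
    generalize s₀ * u * s₀⁻¹ = u' at this hs₀'
    rw [mul_inv_eq_iff_eq_mul] at this
    exact hs₀' (mul_left_cancel this).symm
  have hz : ∀ s ∈ S, s * (u * (s₀ * u * s₀⁻¹)) = u * (s₀ * u * s₀⁻¹) * s := fun s hs => cfix.1 (by
    rw [← conj_mul]
    by_cases e : s ∈ R
    · rw [hc s e, ← out (s * s₀) (mul_mem hs hs₀) fun e' => n0 ((R.mul_mem_cancel_left e).1 e')]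
      congr 1
      rw [out (s * s₀) (mul_mem hs hs₀) fun e' => n0 ((R.mul_mem_cancel_left e).1 e')]
      exact Eq.trans (by group) (out (s * s₀) (mul_mem hs hs₀) fun e' => n0 ((R.mul_mem_cancel_left e).1 e'))
    · rw [out s hs e, ← cm]
      congr 1
      exact Eq.trans (by group) (hc _ (coset hg hR' hs e hs₀ n0)))
  have hz1 : u * (s₀ * u * s₀⁻¹) ≠ 1 := fun e => hs₀' (mul_left_cancel (e.trans sq.symm))
  have hz2 := h.noS (h.cz (h.zcE hz hz1)) fun s hs => by rw [← mul_assoc, hz s hs, mul_assoc, h.zc s hs, ← mul_assoc]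
  have hz3 : s₀ * u * s₀⁻¹ = u * z := by
    rw [← mul_left_cancel_iff (a := u), ← mul_assoc u u, sq, one_mul, ← mul_right_cancel_iff (a := z), hz2, h.z2]
  refine ⟨m, sq, n1, fun e => hs₀' (by rw [e]; exact cfix.2 (h.zc _ hs₀)), fun s hs => ?_⟩
  by_cases e : s ∈ R
  · exact Or.inl (hc s e)
  · exact Or.inr ((out s hs e).trans hz3)

end Cfg

end Cfsg.Agent.H19.Len
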