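import Cfsg.Agent.H19.Len5

/-! The case `|E| = 2`. -/

set_option autoImplicit false

namespace Cfsg.Agent.H19.Len

open Subgroup H24

variable {G : Type*} [Group G] [Finite G]

structure Cfg2 (S U E : Subgroup G) (z x a τ c w t y : G) : Prop extends Cfg S U E z x a τ c w where
  Ec : ∀ e ∈ E, ∀ e' ∈ E, e * e' = e' * e
  tE : t ∈ E
  ft : Four S z t
  yS : y ∈ S
  yt : y * t * y⁻¹ = t * z

namespace Cfg2

variable {S U E : Subgroup G} {z x a τ c w t y : G} (h : Cfg2 S U E z x a τ c w t y)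
include h

omit [Finite G] in
theorem yR : y ∉ S ⊓ centralizer {t} := fun e =>
  h.z1 (by have := h.yt; rw [cfix.2 (mem_centralizer_singleton_iff.1 e.2)] at this; simpa using this)

omit [Finite G] in
theorem tz {s : G} (hs : s ∈ S) : s * (t * z) * s⁻¹ = s * t * s⁻¹ * z := by rw [← conj_mul, cfix.2 (h.zc s hs)]

theorem cardS : Nat.card S = 2 * Nat.card (S ⊓ centralizer {t} : Subgroup G) :=
  card_two inf_le_left h.yS h.yR fun s hs => (h.ft.act s hs).imp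
    (fun e => ⟨hs, mem_centralizer_singleton_iff.2 (cfix.1 e)⟩) fun e =>
    ⟨mul_mem hs h.yS, mem_centralizer_singleton_iff.2 (cfix.1 (by
      rw [show s * y * t * (s * y)⁻¹ = s * (y * t * y⁻¹) * s⁻¹ by group, h.yt, h.tz hs, e, mul_assoc, h.z2, mul_one]))⟩

theorem cardR : Nat.card (S ⊓ centralizer {t} : Subgroup G) = 64 := by have := h.cardS; rw [h.card] at this; omega

omit [Finite G] in
theorem TR : S ⊓ 𝐍[U] ≤ S ⊓ centralizer {t} := fun _ hs =>
  ⟨hs.1, mem_centralizer_singleton_iff.2 (h.Ic h.Ec (h.EI h.tE) hs)⟩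

omit [Finite G] in
theorem memN {n : G} : n ∈ zpowers t ⊔ zpowers z ↔ n = 1 ∨ n = t ∨ n = z ∨ n = t * z := by
  rw [mem_sup_of_le_normalizer_right (zpowers_le.2 (centralizer_le_normalizer' _ (by
    rw [centralizer_zpowers]; exact mem_centralizer_singleton_iff.2 (h.zc t h.ft.mem))))]
  simp only [mem_zp2 h.ft.sq, mem_zp2 h.z2]
  constructor
  · rintro ⟨_, rfl | rfl, _, rfl | rfl, rfl⟩ <;> simp
  · rintro (rfl | rfl | rfl | rfl)
    · exact ⟨1, Or.inl rfl, 1, Or.inl rfl, by simp⟩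
    · exact ⟨_, Or.inr rfl, 1, Or.inl rfl, by simp⟩
    · exact ⟨1, Or.inl rfl, _, Or.inr rfl, by simp⟩
    · exact ⟨_, Or.inr rfl, _, Or.inr rfl, rfl⟩

theorem NI' : zpowers t ⊔ zpowers z ≤ U ⊓ cj U x := sup_le (zpowers_le.2 (h.EI h.tE)) (zpowers_le.2 (h.zI h.zc))

omit [Finite G] in
theorem NR {n r : G} (hn : n ∈ zpowers t ⊔ zpowers z) (hr : r ∈ S ⊓ centralizer {t}) : r * n = n * r :=
  mem_centralizer_singleton_iff.1 ((sup_le (zpowers_le.2 (mem_centralizer_singleton_iff.2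
    (mem_centralizer_singleton_iff.1 hr.2).symm)) (zpowers_le.2 (mem_centralizer_singleton_iff.2 (h.zc r hr.1).symm)) :
      _ ≤ centralizer {r}) hn) |>.symm

omit [Finite G] in
theorem Nn {n s : G} (hn : n ∈ zpowers t ⊔ zpowers z) (hs : s ∈ S) : s * n * s⁻¹ ∈ zpowers t ⊔ zpowers z := by
  refine (cj_le_iff'.1 ?_) n hn
  rw [cj_sup, cj_zpowers, cj_zpowers, cfix.2 (h.zc s hs)]
  refine sup_le (zpowers_le.2 (h.memN.2 ?_)) le_sup_right
  rcases h.ft.act s hs with e | e <;> simp [e]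

omit [Finite G] in
theorem N2 {n : G} (hn : n ∈ zpowers t ⊔ zpowers z) : n * n = 1 := by
  rcases h.memN.1 hn with rfl | rfl | rfl | rfl
  · simp
  · exact h.ft.sq
  · exact h.z2
  · rw [mul_assoc, ← mul_assoc z, ← h.zc t h.ft.mem, mul_assoc, h.z2, mul_one, h.ft.sq]

omit [Finite G] in
theorem nR {r s : G} (hr : r ∈ S ⊓ centralizer {t}) (hs : s ∈ S) : s * r * s⁻¹ ∈ S ⊓ centralizer {t} :=
  ⟨S.mul_mem (S.mul_mem hs hr.1) (S.inv_mem hs), mem_centralizer_singleton_iff.2 (by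
    simpa [mul_assoc] using cconj s (h.NR (h.Nn (mem_sup_left (mem_zpowers t)) (inv_mem hs)) hr))⟩

theorem yy : y * y ∈ S ⊓ centralizer {t} := coset inf_le_left h.cardS h.yS h.yR h.yS h.yR

theorem fin (hE : ∀ e ∈ E, e * e = 1 → e = 1 ∨ e = t) {D : Subgroup G} (hz : z ∈ D) (ht : t ∉ D)
    (hD : ∀ a ∈ S, ∀ b ∈ S, a * b * a⁻¹ * b⁻¹ ∈ D) : False := by
  refine h.transfer (R := S ⊓ centralizer {t}) hD h.ft.mem h.ft.sq ht h.syl.pgrp.to_inf_left
    ⟨h.ft.mem, mem_centralizer_singleton_iff.2 rfl⟩ (fun u hu => cfix.2 (mem_centralizer_singleton_iff.1 hu.2))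
    fun g hg => ?_
  have f := h.ext h.Ec h.tE h.ft h.cardR hg
  generalize g * t * g⁻¹ = u at f
  rcases h.four f with e | e
  · rw [(hE u e f.sq).resolve_left f.n1, mul_inv_cancel]; exact one_mem _
  · rcases hE _ e (by rw [mul_assoc, ← mul_assoc z, ← h.zc u f.mem, mul_assoc, h.z2, mul_one, f.sq]) with e | e
    · exact absurd (mul_right_cancel (e.trans h.z2.symm)) f.nz
    · rw [← e, mul_inv_rev, ← mul_assoc, inv_eq_of_mul_eq_one_left h.z2, cfix.2 (h.zc u f.mem)]; exact hz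

theorem two' (hE : Nat.card E = 2) : False := by
  have eE : zpowers t = E := eq_of_le_of_card_le (zpowers_le.2 h.tE) (by rw [hE, card_zp2 h.ft.sq h.ft.n1])
  have IN : U ⊓ cj U x ≤ zpowers t ⊔ zpowers z := fun i hi => (h.IE i hi).elim (fun e => mem_sup_left (eE.ge e))
    fun e => (mul_mem_cancel_right (mem_sup_right (mem_zpowers z))).1 (mem_sup_left (eE.ge (h.cz e)))
  have nI : ∀ {s i}, s ∈ S → i ∈ U ⊓ cj U x → s * i * s⁻¹ ∈ U ⊓ cj U x := fun hs hi => h.NI' (h.Nn (IN hi) hs)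
  have nT : ∀ {s}, s ∈ S → s * a * s⁻¹ ∈ U → s ∈ S ⊓ 𝐍[U] := fun hs ha =>
    ⟨hs, h.nU (mem_normalizer_of_conj_mem fun i hi => nI hs hi) ha⟩
  have cU2 : ∀ {s}, s ∈ S ⊓ centralizer {t} → s * a = a * s → s ∈ U := fun {s} hs ha =>
    h.cent (mem_centralizer_iff'.2 fun u hu => (h.UI u hu).elim (fun e => (h.NR (IN ⟨hu, e⟩) hs).symm) fun e => by
      have := h.NR (IN ⟨mul_mem hu h.aU, e⟩) hs
      rw [mul_assoc u, ← ha, ← mul_assoc, ← mul_assoc] at this
      exact (mul_right_cancel this).symm)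
  have aR := h.TR (h.ltT.le h.aU)
  have bR := h.nR aR h.yS
  have bU : y * a * y⁻¹ ∉ U := fun e => h.yR (h.TR (nT h.yS e))
  have b2 : y * a * y⁻¹ * (y * a * y⁻¹) = 1 := by rw [conj_mul, h.a2]; simp
  obtain ⟨b, hb⟩ : ∃ b, b = y * a * y⁻¹ := ⟨_, rfl⟩
  rw [← hb] at bR bU b2
  have ab : a * b ≠ b * a := fun e => bU (cU2 bR e.symm)
  have DR : closure {a, b} ≤ S ⊓ centralizer {t} := (closure_le _).2 (by rintro _ (rfl | rfl); exacts [aR, bR])
  have aD : a ∈ closure ({a, b} : Set G) := subset_closure (by simp)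
  have bD : b ∈ closure ({a, b} : Set G) := subset_closure (by simp)
  have NC : zpowers t ⊔ zpowers z ≤ 𝐂[closure ({a, b} : Set G)] := fun n hn =>
    mem_centralizer_iff'.2 fun d hd => h.NR hn (DR hd)
  obtain ⟨R₀, hR₀⟩ : ∃ R₀, R₀ = (zpowers t ⊔ zpowers z) ⊔ closure {a, b} := ⟨_, rfl⟩
  have mR₀ : ∀ {g}, g ∈ R₀ → ∃ n ∈ zpowers t ⊔ zpowers z, ∃ k : ℤ, g = n * (a * b) ^ k ∨ g = n * (a * (a * b) ^ k) :=
    fun hg => by
      obtain ⟨n, hn, d, hd, rfl⟩ :=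
        (mem_sup_of_le_normalizer_right (NC.trans (centralizer_le_normalizer' _))).1 (hR₀.le hg)
      obtain ⟨k, e | e⟩ := (H11.mem_closure_pair_iff h.a2 b2).1 hd
      exacts [⟨n, hn, k, Or.inl (by rw [e])⟩, ⟨n, hn, k, Or.inr (by rw [e])⟩]
  have NR₀ : zpowers t ⊔ zpowers z ≤ R₀ := le_sup_left.trans hR₀.ge
  have DR₀ : closure {a, b} ≤ R₀ := le_sup_right.trans hR₀.ge
  have R₀R : R₀ ≤ S ⊓ centralizer {t} := hR₀.le.trans (sup_le (h.NI'.trans (inf_le_left.trans (h.ltT.le.trans h.TR))) DR)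
  have UR₀ : U ≤ R₀ := fun u hu => (h.UI u hu).elim (fun e => NR₀ (IN ⟨hu, e⟩)) fun e =>
    (R₀.mul_mem_cancel_right (DR₀ aD)).1 (NR₀ (IN ⟨mul_mem hu h.aU, e⟩))
  have TR₀ : S ⊓ 𝐍[U] ≤ R₀ := by
    obtain ⟨s, hs, hsU⟩ := SetLike.exists_of_lt (lt_inf_normalizer (h.syl.pgrp.to_le (R₀R.trans inf_le_left))
      (lt_of_le_of_ne UR₀ fun e => bU (e.ge (DR₀ bD))))
    exact h.genT (h.EI.trans (inf_le_left.trans UR₀)) (UR₀ h.cI.1) (UR₀ h.aU)
      ((R₀.mul_mem_cancel_left hs.1).1 (UR₀ ((h.TU s ⟨(R₀R hs.1).1, hs.2⟩).resolve_left hsU)))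
  have ia := H11.invol_inverts_left h.a2 b2
  have ib := H11.invol_inverts_right h.a2 b2
  have σR : ∀ k : ℤ, (a * b) ^ k ∈ S ⊓ centralizer {t} := fun k => zpow_mem (mul_mem aR bR) k
  have σR₀ : ∀ k : ℤ, (a * b) ^ k ∈ R₀ := fun k => zpow_mem (DR₀ (mul_mem aD bD)) k
  have RR₀ : S ⊓ centralizer {t} ≤ R₀ := le_of_inf_normalizer_le h.syl.pgrp.to_inf_left R₀R fun v hv => by
    have uR := h.nR aR hv.1.1
    obtain ⟨n, hn, k, e | e⟩ := mR₀ (conj_mem_of_mem_normalizer hv.2 (DR₀ aD))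
    · exfalso
      have u2 : v * a * v⁻¹ * (v * a * v⁻¹) = 1 := by rw [conj_mul, h.a2]; simp
      have uI : v * a * v⁻¹ ∉ U ⊓ cj U x := fun e => h.aI (by simpa [mul_assoc] using (nI (inv_mem hv.1.1) e).2)
      generalize v * a * v⁻¹ = u at *
      have s2 : (a * b) ^ (-k) = (a * b) ^ k := by
        rw [e, mul_assoc, ← mul_assoc _ n, h.NR hn (σR k), ← mul_assoc, ← mul_assoc, h.N2 hn, one_mul] at u2
        rw [zpow_neg, inv_eq_of_mul_eq_one_left u2]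
      have ua : u * a = a * u := by
        rw [e, mul_assoc, H11.zpow_mul_of_inv ia, s2, ← mul_assoc, ← h.NR hn aR, mul_assoc]
      have ub : u * b = b * u := by
        rw [e, mul_assoc, H11.zpow_mul_of_inv ib, s2, ← mul_assoc, ← h.NR hn bR, mul_assoc]
      have h1 := cU2 uR ua
      have h2 := cU2 (h.nR uR (inv_mem h.yS)) (by rw [hb] at ub; simpa [mul_assoc] using cconj y⁻¹ ub)
      have h3 := (h.UI _ h2).resolve_left fun e => uI (by simpa [mul_assoc] using nI h.yS ⟨h2, e⟩)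
      have h4 := (nI h.yS ⟨mul_mem h2 h.aU, h3⟩).1
      rw [← conj_mul, ← hb] at h4
      exact bU ((U.mul_mem_cancel_left h1).1 (by simpa [mul_assoc] using h4))
    · obtain ⟨j, rfl | rfl⟩ := Int.even_or_odd' k
      · refine (R₀.mul_mem_cancel_left (σR₀ j)).1 (TR₀ (nT (mul_mem (σR j).1 hv.1.1) ?_))
        rw [show (a * b) ^ j * v * a * ((a * b) ^ j * v)⁻¹ = (a * b) ^ j * (v * a * v⁻¹) * (a * b) ^ (-j) by group, e,
          ← mul_assoc, h.NR hn (σR j), mul_assoc n, ← mul_assoc _ a, H11.zpow_mul_of_inv ia]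
        convert U.mul_mem (h.NI' hn).1 h.aU using 1; group
      · exfalso
        have := h.TR (nT (mul_mem (inv_mem h.yS) (mul_mem (σR j).1 hv.1.1)) ?_)
        · exact h.yR (inv_mem_iff.1 ((mul_mem_cancel_right (mul_mem (σR j) hv.1)).1 this))
        rw [show y⁻¹ * ((a * b) ^ j * v) * a * (y⁻¹ * ((a * b) ^ j * v))⁻¹ =
          y⁻¹ * ((a * b) ^ j * (v * a * v⁻¹) * (a * b) ^ (-j)) * y by group, e,
          ← mul_assoc _ n, h.NR hn (σR j), mul_assoc n, ← mul_assoc _ a, H11.zpow_mul_of_inv ia,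
          show n * (a * (a * b) ^ (-j) * (a * b) ^ (2 * j + 1)) * (a * b) ^ (-j) = n * (a * a * b) by group, h.a2, one_mul,
          hb]
        convert U.mul_mem (h.NI' (h.Nn hn (inv_mem h.yS))).1 h.aU using 1; group
  obtain ⟨j, hj⟩ : ∃ j : ℤ, y * b * y⁻¹ = a * (a * b) ^ (2 * j) := by
    have e0 : y * b * y⁻¹ = y * y * a * (y * y)⁻¹ := by rw [hb]; group
    have e1 : ∀ k : ℤ, (a * b) ^ k * a * ((a * b) ^ k)⁻¹ = a * (a * b) ^ (2 * -k) := fun k => by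
      rw [H11.zpow_mul_of_inv ia]; group
    have e2 : ∀ {n r}, n ∈ zpowers t ⊔ zpowers z → r ∈ S ⊓ centralizer {t} → n * r * a * (n * r)⁻¹ = r * a * r⁻¹ :=
      fun {n r} hn hr => Eq.trans (by group) (cfix.2 (h.NR hn (h.nR aR hr.1)).symm)
    obtain ⟨n, hn, k, e | e⟩ := mR₀ (RR₀ h.yy)
    · exact ⟨-k, by rw [e0, e, e2 hn (σR k), e1]⟩
    · refine ⟨k, ?_⟩
      rw [e0, e, e2 hn (mul_mem aR (σR k)), show a * (a * b) ^ k * a * (a * (a * b) ^ k)⁻¹ =
        a * ((a * b) ^ k * a * ((a * b) ^ k)⁻¹) * a⁻¹ by group, e1, mul_assoc, mul_assoc, ← mul_assoc a _ a⁻¹,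
        H11.conj_zpow_of_inv ia]
      group
  have hσ : y * (a * b) * y⁻¹ = (a * b) ^ (2 * (j - 1) + 1) := by
    rw [← conj_mul, ← hb, hj, ← mul_assoc, show b * a = (a * b)⁻¹ by
      rw [mul_inv_rev, inv_eq_of_mul_eq_one_left b2, inv_eq_of_mul_eq_one_left h.a2]]
    generalize a * b = σ
    group
  have fx : ∀ n ∈ zpowers t ⊔ zpowers z, n ∈ closure ({a, b} : Set G) → y * n * y⁻¹ = n := fun n hn hd =>
    dih_fix h.a2 b2 ab hd (h.NR hn aR).symm (h.NR hn bR).symm hσ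
  have zN : z ∈ zpowers t ⊔ zpowers z := mem_sup_right (mem_zpowers z)
  have tN : t ∈ zpowers t ⊔ zpowers z := mem_sup_left (mem_zpowers t)
  refine h.fin (fun e he _ => (mem_zp2 h.ft.sq).1 (eE.ge he)) (D := closure {a, b} ⊔ zpowers z)
    (mem_sup_right (mem_zpowers z)) (fun e => h.z1 ?_) (comm_mem ?_ h.ft.mem h.yS (fun K h1 h2 h3 => ?_) ?_)
  · obtain ⟨d, hd, z', hz', e⟩ := (mem_sup_of_le_normalizer_left (le_sup_right.trans
      (NC.trans (centralizer_le_normalizer' _)))).1 e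
    rcases (mem_zp2 h.z2).1 hz' with e' | e' <;> rw [e'] at e
    · rw [mul_one] at e
      simpa [h.yt] using fx t tN (e.symm ▸ hd)
    · have := fx _ (mul_mem tN zN) (by rw [show t * z = d by rw [e, mul_assoc, h.z2, mul_one]]; exact hd)
      rw [h.tz h.yS, h.yt, mul_assoc, h.z2] at this
      simpa using this
  · refine le_of_coset inf_le_left h.cardS h.yS h.yR (RR₀.trans (hR₀.le.trans (sup_le ?_
      (le_sup_left.trans le_normalizer)))) (mem_normalizer_of_cj_le ?_)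
    · exact fun n hn => centralizer_le_normalizer' _ (mem_centralizer_iff'.2 fun d hd => h.NR hn
        (sup_le DR (zpowers_le.2 (R₀R (NR₀ zN))) hd))
    · rw [cj_sup, cj_zpowers, cfix.2 (h.zc y h.yS), cj_closure]
      refine sup_le_sup_right ((closure_le _).2 ?_) _
      rintro _ ⟨g, e | e, rfl⟩
      · change y * g * y⁻¹ ∈ _
        rw [e, ← hb]; exact bD
      · change y * g * y⁻¹ ∈ _
        rw [show g = b from e, hj]; exact mul_mem aD (zpow_mem (mul_mem aD bD) _)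
  · exact le_of_coset inf_le_left h.cardS h.yS h.yR (RR₀.trans (hR₀.le.trans (sup_le (sup_le (zpowers_le.2 h2)
      (le_sup_right.trans h1)) (le_sup_left.trans h1)))) h3
  · rw [show t * y * t⁻¹ * y⁻¹ = t * (y * t * y⁻¹)⁻¹ by group, h.yt, mul_inv_rev, ← mul_assoc,
      inv_eq_of_mul_eq_one_left h.z2, cfix.2 (h.zc t h.ft.mem)]
    exact mem_sup_right (mem_zpowers z)

end Cfg2

end Cfsg.Agent.H19.Len
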