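import Cfsg.Agent.H19.Len6

/-! The case `|E| = 4`. -/

set_option autoImplicit false

namespace Cfsg.Agent.H19.Len

open Subgroup H24

variable {G : Type*} [Group G] [Finite G]

namespace Cfg2

variable {S U E : Subgroup G} {z x a τ c w t y : G} (h : Cfg2 S U E z x a τ c w t y) (hE : Nat.card E = 4)
include h hE

theorem cTR : Nat.card (S ⊓ centralizer {t} : Subgroup G) = 2 * Nat.card (S ⊓ 𝐍[U] : Subgroup G) := by
  rw [h.cardR, h.cardT, hE]

theorem RT : S ⊓ centralizer {t} ≤ 𝐍[S ⊓ 𝐍[U]] := fun r hr => by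
  by_cases e : r ∈ S ⊓ 𝐍[U]
  · exact le_normalizer e
  · exact mem_normalizer_of_conj_mem fun s hs => coset h.TR (h.cTR hE) (mul_mem hr (h.TR hs))
      (fun e' => e ((mul_mem_cancel_right hs).1 e')) (inv_mem hr) fun e' => e (inv_mem_iff.1 e')

theorem RI {r i : G} (hr : r ∈ S ⊓ centralizer {t}) (hi : i ∈ U ⊓ cj U x) : r * i * r⁻¹ ∈ U ⊓ cj U x :=
  conj_mem_of_mem_normalizer (h.NI h.Ec (h.RT hE hr)) hi

theorem G1a {r : G} (hr : r ∈ S ⊓ centralizer {t}) (hT : r ∉ S ⊓ 𝐍[U]) : r * a * r⁻¹ * τ ∈ U ⊓ cj U x :=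
  h.G1 hr.1 (h.RT hE hr) hT (h.NI h.Ec (h.RT hE hr))

theorem G1b {r : G} (hr : r ∈ S ⊓ centralizer {t}) (hT : r ∉ S ⊓ 𝐍[U]) : r * τ * r⁻¹ ∈ U := by
  have := (h.RI hE hr (h.G1a hE (inv_mem hr) fun e => hT (inv_mem_iff.1 e))).1
  exact (U.mul_mem_cancel_left h.aU).1 (by simpa [mul_assoc] using this)

theorem exists_r : ∃ r ∈ S ⊓ centralizer {t}, r ∉ S ⊓ 𝐍[U] := by
  by_contra! hh
  have := card_le_of_le' (show S ⊓ centralizer {t} ≤ S ⊓ 𝐍[U] from hh)
  rw [h.cardR, h.cardT, hE] at this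
  omega

variable {e : G} (he : e ∈ E) (het : e ∉ zpowers t)
include he het

theorem Ecos {f : G} (hf : f ∈ E) (hft : f ∉ zpowers t) : e * f ∈ zpowers t :=
  coset (zpowers_le.2 h.tE) (by rw [hE, card_zp2 h.ft.sq h.ft.n1]) he het hf hft

theorem IN {i : G} (hi : i ∈ U ⊓ cj U x) (hN : i ∉ zpowers t ⊔ zpowers z) : e⁻¹ * i ∈ zpowers t ⊔ zpowers z := by
  have key := fun f => h.Ecos hE (inv_mem he) (fun e => het (inv_mem_iff.1 e)) (f := f)
  have zN : z ∈ zpowers t ⊔ zpowers z := mem_sup_right (mem_zpowers z)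
  rcases h.IE i hi with e1 | e1
  · exact mem_sup_left (key i e1 fun e => hN (mem_sup_left e))
  · have := key _ (h.cz e1) fun e => hN ((mul_mem_cancel_right zN).1 (mem_sup_left e))
    rw [← mul_assoc] at this
    exact (mul_mem_cancel_right zN).1 (mem_sup_left this)

omit hE in
theorem eN : e ∉ zpowers t ⊔ zpowers z := fun hh => by
  rcases h.memN.1 hh with e1 | e1 | e1 | e1
  · exact het (e1 ▸ one_mem _)
  · exact het (e1 ▸ mem_zpowers _)
  · exact h.z1 (h.noS (e1 ▸ he) h.zc)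
  · exact h.z1 (h.noS ((E.mul_mem_cancel_left h.tE).1 (e1 ▸ he)) h.zc)

theorem conjE {r : G} (hr : r ∈ S ⊓ centralizer {t}) :
    ∃ n ∈ zpowers t ⊔ zpowers z, r * (y * e * y⁻¹) * r⁻¹ = y * e * y⁻¹ * n := by
  have h1 := h.nR hr (inv_mem h.yS)
  have h2 := h.IN hE he het (h.RI hE h1 (h.EI he)) fun e1 => h.eN he het (by
    simpa [mul_assoc] using h.Nn e1 (inv_mem h1.1))
  exact ⟨_, h.Nn h2 h.yS, by group⟩

theorem eT : y * e * y⁻¹ ∈ S ⊓ 𝐍[U] := by
  by_contra hh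
  have h1 := h.nR (h.TR (h.ltT.le (h.EI he).1)) h.yS
  have h2 := (h.G1a hE (inv_mem h1) fun e => hh (inv_mem_iff.1 e)).1
  obtain ⟨n, hn, e1⟩ := h.conjE hE he het (h.TR (h.ltT.le h.aU))
  generalize y * e * y⁻¹ = e' at *
  rw [show e'⁻¹ * a * e'⁻¹⁻¹ = e'⁻¹ * (a * e' * a⁻¹) * a by group, e1, inv_mul_cancel_left] at h2
  exact h.τU ((U.mul_mem_cancel_left (U.mul_mem (h.NI' hn).1 h.aU)).1 h2)

theorem eI : y * e * y⁻¹ ∉ U ⊓ cj U x := fun hh => by
  have yI : y ∈ 𝐍[U ⊓ cj U x] := mem_normalizer_of_conj_mem fun i hi => by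
    by_cases e1 : i ∈ zpowers t ⊔ zpowers z
    · exact h.NI' (h.Nn e1 h.yS)
    · convert mul_mem hh (h.NI' (h.Nn (h.IN hE he het hi e1) h.yS)) using 1; group
  obtain ⟨r, hr, hrT⟩ := h.exists_r hE
  obtain ⟨s, hs, hsT⟩ : ∃ s ∈ S ⊓ 𝐍[U], y * s * y⁻¹ ∉ S ⊓ 𝐍[U] := by
    by_contra! hy
    have h1 := h.G1 h.yS (mem_normalizer_of_conj_mem hy) (fun e => h.yR (h.TR e)) yI
    have h2 := (h.RI hE hr h1).1
    rw [← conj_mul] at h2
    have h3 := (U.mul_mem_cancel_right (h.G1b hE hr hrT)).1 h2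
    have h4 := h.nU (mul_mem (h.NI h.Ec (h.RT hE hr)) yI) (by convert h3 using 1; group)
    exact h.yR ((mul_mem_cancel_left hr).1 (h.TR ⟨S.mul_mem hr.1 h.yS, h4⟩))
  have RC : S ⊓ centralizer {t} ≤ 𝐂[U ⊓ cj U x] := le_of_coset h.TR (h.cTR hE) (h.nR (h.TR hs) h.yS) hsT
    (fun s hs => mem_centralizer_iff'.2 fun i hi => (h.Ic h.Ec hi hs).symm)
    (mem_centralizer_iff'.2 fun i hi => by
      simpa [mul_assoc] using (cconj y (h.Ic h.Ec (conj_mem_of_mem_normalizer' yI hi) hs)).symm)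
  refine h.inter (cj_le_of_mem_normalizer h.EI yI) (by rw [card_cj]; omega) (h.noN inf_le_left
    (le_of_coset inf_le_left h.cardS h.yS h.yR (RC.trans ((centralizer_anti (inf_le_left.trans h.EI)).trans
      (centralizer_le_normalizer' _))) (mem_normalizer_of_cj_le ?_)))
  rw [cj_inf, cj_cj, cj_eq_of_mem_normalizer (centralizer_le_normalizer' _ (centralizer_anti h.EI (RC h.yy))), inf_comm]

theorem e4 : y * e * y⁻¹ * τ * a ∈ U ⊓ cj U x := by
  obtain ⟨r, hr, hrT⟩ := h.exists_r hE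
  obtain ⟨n, hn, e1⟩ := h.conjE hE he het hr
  have nU := (h.NI' hn).1
  rcases h.cases (h.eT hE he het) with e2 | e2 | e2 | e2
  · exact absurd e2 (h.eI hE he het)
  · have h1 := (h.RI hE hr e2).1
    rw [← conj_mul, e1] at h1
    exact absurd ((U.mul_mem_cancel_left ((U.mul_mem_cancel_left (U.mul_mem ((U.mul_mem_cancel_right h.aU).1 e2.1)
      nU)).1 h1)).1 (h.G1a hE hr hrT).1) h.τU
  · have h1 := (h.RI hE hr e2).1
    rw [← conj_mul, e1] at h1
    exact absurd ((U.mul_mem_cancel_left ((U.mul_mem_cancel_right nU).1 ((U.mul_mem_cancel_right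
      (h.G1b hE hr hrT)).1 h1))).1 e2.1) h.τU
  · exact e2

theorem esq : e * e = t := ((mem_zp2 h.ft.sq).1 (h.Ecos hE he het he het)).resolve_left fun e1 =>
  h.sq4' (h.e4 hE he het) (by rw [conj_mul, e1]; simp)

theorem Iinv {i : G} (hi : i ∈ U ⊓ cj U x) (h2 : i * i = 1) : i ∈ zpowers t ⊔ zpowers z := by
  by_contra hh
  have h1 := h.N2 (h.IN hE he het hi hh)
  rw [mul_assoc, ← mul_assoc i, ← h.Ic h.Ec hi (h.ltT.le (inv_mem (h.EI he).1)), mul_assoc, h2, mul_one, ← mul_inv_rev,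
    h.esq hE he het, inv_eq_one] at h1
  exact h.ft.n1 h1

theorem bT : y * a * y⁻¹ ∉ S ⊓ 𝐍[U] := fun hb => by
  have b2 : y * a * y⁻¹ * (y * a * y⁻¹) = 1 := by rw [conj_mul, h.a2]; simp
  have be := cconj y (h.ac e (h.EI he).1)
  have e4 := h.e4 hE he het
  have eT := h.eT hE he het
  rcases h.cases hb with e1 | e1 | e1 | e1
  · exact h.aI (by simpa [mul_assoc] using (h.NI' (h.Nn (h.Iinv hE he het e1 b2) (inv_mem h.yS))).2)
  · have h1 := h.Ic h.Ec e1 eT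
    rw [← mul_assoc, be, mul_assoc, mul_assoc (y * a * y⁻¹)] at h1
    have h2 := mul_left_cancel h1
    have h3 := h.ac _ e4.1
    generalize y * e * y⁻¹ = e' at *
    rw [← mul_assoc, ← mul_assoc, ← h2, mul_assoc e' τ, mul_assoc e' a] at h3
    exact h.aτ (mul_left_cancel (mul_right_cancel h3))
  · have h1 := h.Ic h.Ec e1 eT
    rw [← mul_assoc, be, mul_assoc, mul_assoc (y * a * y⁻¹)] at h1
    have h2 := mul_left_cancel h1
    have h3 := h.τc _ e4.2
    generalize y * e * y⁻¹ = e' at *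
    rw [← mul_assoc, ← mul_assoc, ← h2, mul_assoc _ a, mul_assoc _ τ a] at h3
    exact h.aτ (mul_left_cancel h3).symm
  · exact h.sq4' e1 b2

omit [Finite G] hE he het in
theorem τc' {g : G} (hg : g * τ ∈ cj U x) : g * τ = τ * g := by
  have := h.τc _ hg
  rw [← mul_assoc] at this
  exact mul_right_cancel this

omit he het in
theorem four' : False := by
  obtain ⟨e, he, het⟩ : ∃ e ∈ E, e ∉ zpowers t := by
    by_contra! hh
    have := card_le_of_le' (show E ≤ zpowers t from hh)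
    rw [hE, card_zp2 h.ft.sq h.ft.n1] at this
    omega
  have aT := h.ltT.le h.aU
  have aR := h.TR aT
  have eT := h.ltT.le (h.EI he).1
  have bR := h.nR aR h.yS
  have bT := h.bT hE he het
  have b2 : y * a * y⁻¹ * (y * a * y⁻¹) = 1 := by rw [conj_mul, h.a2]; simp
  have be := cconj y (h.ac e (h.EI he).1)
  have e4 := h.e4 hE he het
  have esq := h.esq hE he het
  have e'sq : y * e * y⁻¹ * (y * e * y⁻¹) = t * z := by rw [conj_mul, esq, h.yt]
  obtain ⟨b, hb⟩ : ∃ b, b = y * a * y⁻¹ := ⟨_, rfl⟩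
  obtain ⟨e', he'⟩ : ∃ e', e' = y * e * y⁻¹ := ⟨_, rfl⟩
  rw [← hb] at bR bT b2 be
  rw [← he'] at be e4 e'sq
  have bi : b⁻¹ = b := inv_eq_of_mul_eq_one_left b2
  have i1 := h.G1a hE bR bT
  have i1N : b * a * b⁻¹ * τ ∈ zpowers t ⊔ zpowers z := h.Iinv hE he het i1 (by
    nth_rewrite 2 [h.τc' i1.2]
    rw [mul_assoc, ← mul_assoc τ, h.τ2, one_mul, conj_mul, h.a2]
    simp)
  obtain ⟨r, hr⟩ : ∃ r, r = a * b * (a * b) := ⟨_, rfl⟩
  have hr2 : r = (a * b) ^ (2 : ℤ) := by rw [hr, zpow_two]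
  have r4 : r * τ * a = b * a * b⁻¹ * τ := by
    rw [hr, show a * b * (a * b) * τ * a = a * (b * a * b * τ) * a by group]
    nth_rewrite 2 [← bi]
    rw [← h.ac _ i1.1, mul_assoc, h.a2, mul_one]
  have rT : r ∈ S ⊓ 𝐍[U] := (mul_mem_cancel_right h.τT).1 ((mul_mem_cancel_right aT).1 (r4 ▸ h.ltT.le i1.1))
  have rr : r * r = c := by rw [h.sq4 (r4 ▸ i1), r4, h.N2 i1N, one_mul]
  have br : b * r * b⁻¹ = r⁻¹ := by
    rw [hr, ← conj_mul, H11.invol_inverts_right h.a2 b2, mul_inv_rev (a * b)]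
  have i3 : e' * r⁻¹ ∈ U ⊓ cj U x := by
    convert mul_mem e4 (inv_mem (r4 ▸ i1)) using 1; group
  have b3 : b * (e' * r⁻¹) * b⁻¹ = e' * r⁻¹ * c := by
    rw [← conj_mul, ← conj_inv, br, cfix.2 be.symm, ← rr]; group
  have hn := h.IN hE he het i3 fun e1 => h.c1 (by rw [cfix.2 (h.NR e1 bR)] at b3; simpa using b3)
  obtain ⟨n, hn'⟩ : ∃ n, n = e⁻¹ * (e' * r⁻¹) := ⟨_, rfl⟩
  rw [← hn'] at hn
  have e1 : e' = e * n * r := by rw [hn']; group
  have re : r * e = e * r := h.Ic h.Ec (h.EI he) rT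
  have rn : r * n = n * r := h.NR hn (h.TR rT)
  have cz : c = z := by
    rw [e1, show e * n * r * (e * n * r) = e * n * (r * e) * n * r by group, re,
      show e * n * (e * r) * n * r = e * (n * e) * (r * n) * r by group, rn, ← h.NR hn (h.TR eT),
      show e * (e * n) * (n * r) * r = e * e * (n * n) * (r * r) by group, esq, h.N2 hn, rr, mul_one] at e'sq
    exact mul_left_cancel e'sq
  subst cz
  have beb : b * e * b⁻¹ = e * c := by
    rw [show e' * r⁻¹ = e * n by rw [e1]; group, ← conj_mul, cfix.2 (h.NR hn bR), mul_assoc e n,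
      h.zc n (h.IS (h.NI' hn)), ← mul_assoc] at b3
    exact mul_right_cancel b3
  have Ta : ∀ s ∈ S ⊓ 𝐍[U], s * a * s⁻¹ = a ∨ s * a * s⁻¹ = a * c := fun s hs => (h.TU s hs).imp
    (fun e => cfix.2 (h.ac s e)) fun e => by
      rw [show s * a * s⁻¹ = s * τ * (τ⁻¹ * a * τ) * (s * τ)⁻¹ by group, inv_eq_of_mul_eq_one_left h.τ2,
        show τ * a * τ = a * c by rw [← h.rel, inv_eq_of_mul_eq_one_left h.τ2], ← conj_mul, cfix.2 (h.ac _ e),
        cfix.2 (h.cc _ e)]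
  have yb : y * b * y⁻¹ = y * y * a * (y * y)⁻¹ := by rw [hb]; group
  have ye : y * e' * y⁻¹ = y * y * e * (y * y)⁻¹ := by rw [he']; group
  have ba : b * a = (a * b)⁻¹ := by rw [mul_inv_rev, bi, inv_eq_of_mul_eq_one_left h.a2]
  have c4 : c = (a * b) ^ (4 : ℤ) := by rw [← rr, hr2, ← zpow_add]; rfl
  have c8 : (a * b) ^ (8 : ℤ) = 1 := by rw [← h.c2, c4]; generalize a * b = σ; group
  have hσ : ∀ m : ℤ, y * (a * b) * y⁻¹ = (a * b) ^ m → y * r * y⁻¹ = (a * b) ^ (2 * m) := fun m hm => by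
    rw [hr, ← conj_mul, hm, two_mul, zpow_add]
  obtain ⟨hw, m, hm, hD⟩ : ((y * e' * y⁻¹ = e ∧ y * r * y⁻¹ = r⁻¹) ∨ (y * e' * y⁻¹ = e * c ∧ y * r * y⁻¹ = r)) ∧
      ∃ m : ℤ, y * (a * b) * y⁻¹ = (a * b) ^ (2 * m + 1) ∧ y * b * y⁻¹ ∈ closure ({a, b} : Set G) := by
    have aD : a ∈ closure ({a, b} : Set G) := subset_closure (by simp)
    have bD : b ∈ closure ({a, b} : Set G) := subset_closure (by simp)
    have cD : c ∈ closure ({a, b} : Set G) := c4 ▸ zpow_mem (mul_mem aD bD) _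
    by_cases hy : y * y ∈ S ⊓ 𝐍[U]
    · have h1 : y * e' * y⁻¹ = e := ye.trans (cfix.2 (h.Ic h.Ec (h.EI he) hy))
      rcases Ta _ hy with e2 | e2 <;> rw [← yb] at e2
      · have h2 : y * (a * b) * y⁻¹ = (a * b) ^ (-1 : ℤ) := by rw [← conj_mul, ← hb, e2, ba, zpow_neg_one]
        exact ⟨Or.inl ⟨h1, by rw [hσ _ h2, hr]; generalize a * b = σ; group⟩, -1, by simpa using h2, e2 ▸ aD⟩
      · have h2 : y * (a * b) * y⁻¹ = (a * b) ^ (3 : ℤ) := by
          rw [← conj_mul, ← hb, e2, ← mul_assoc, ba, c4]; generalize a * b = σ; group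
        refine ⟨Or.inl ⟨h1, ?_⟩, 1, h2, e2 ▸ mul_mem aD cD⟩
        rw [hσ _ h2, hr, eq_inv_iff_mul_eq_one, ← c8]; generalize a * b = σ; group
    · have hs := coset h.TR (h.cTR hE) bR bT h.yy hy
      have e0 : ∀ g, y * y * g * (y * y)⁻¹ = b * (b * (y * y) * g * (b * (y * y))⁻¹) * b⁻¹ := fun g => by
        rw [show b * (b * (y * y) * g * (b * (y * y))⁻¹) * b⁻¹ = b * b * (y * y * g * (y * y)⁻¹) * (b * b)⁻¹ by group, b2]
        simp
      have h1 : y * e' * y⁻¹ = e * c := by rw [ye, e0, cfix.2 (h.Ic h.Ec (h.EI he) hs), beb]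
      rcases Ta _ hs with e2 | e2 <;> have e3 := (yb.trans (e0 a)) <;> rw [e2] at e3
      · have h2 : y * (a * b) * y⁻¹ = (a * b) ^ (1 : ℤ) := by
          rw [← conj_mul, ← hb, e3, bi, ← mul_assoc, ← mul_assoc, b2, one_mul, zpow_one]
        exact ⟨Or.inr ⟨h1, by rw [hσ _ h2, hr2]; rfl⟩, 0, h2,
          e3 ▸ mul_mem (mul_mem bD aD) (inv_mem bD)⟩
      · have h2 : y * (a * b) * y⁻¹ = (a * b) ^ (5 : ℤ) := by
          rw [← conj_mul, ← hb, e3, ← conj_mul, cfix.2 (h.zc b bR.1), bi, ← mul_assoc, ← mul_assoc, ← mul_assoc, b2,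
            one_mul, c4]
          generalize a * b = σ; group
        refine ⟨Or.inr ⟨h1, ?_⟩, 2, h2, e3 ▸ mul_mem (mul_mem bD (mul_mem aD cD)) (inv_mem bD)⟩
        rw [hσ _ h2, hr, ← mul_one (a * b * (a * b)), ← c8]; generalize a * b = σ; group
  have aD : a ∈ closure ({a, b} : Set G) := subset_closure (by simp)
  have bD : b ∈ closure ({a, b} : Set G) := subset_closure (by simp)
  have cD : c ∈ closure ({a, b} : Set G) := c4 ▸ zpow_mem (mul_mem aD bD) _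
  have rD : r ∈ closure ({a, b} : Set G) := hr ▸ mul_mem (mul_mem aD bD) (mul_mem aD bD)
  have nD : n ∈ closure ({a, b} : Set G) := by
    have key : y * n * y⁻¹ ≠ n * c := fun e2 => by
      have e3 : y * e' * y⁻¹ = e * c * r * (y * r * y⁻¹) := by
        nth_rewrite 1 [e1]
        rw [← conj_mul, ← conj_mul, ← he', e2, e1, show e * n * r * (n * c) = e * n * (r * n) * c by group, rn,
          show e * n * (n * r) * c = e * (n * n) * (r * c) by group, h.N2 hn, h.zc r rT.1]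
        group
      rcases hw with ⟨h1, h2⟩ | ⟨h1, h2⟩ <;> rw [h1, h2] at e3
      · exact h.c1 (by simpa using e3)
      · rw [mul_assoc, rr] at e3
        exact h.c1 (by simpa using e3)
    rcases h.memN.1 hn with e2 | e2 | e2 | e2 <;> rw [e2] at key ⊢
    · exact one_mem _
    · exact absurd h.yt key
    · exact cD
    · exact absurd (by rw [h.tz h.yS, h.yt]) key
  have gen : ∀ K : Subgroup G, closure {a, b} ≤ K → e ∈ K → y ∈ K → S ≤ K := fun K h1 h2 h3 => by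
    have tK : zpowers t ≤ K := zpowers_le.2 (esq ▸ mul_mem h2 h2)
    refine le_of_coset inf_le_left h.cardS h.yS h.yR (le_of_coset h.TR (h.cTR hE) bR bT (h.genT
      (le_of_coset (zpowers_le.2 h.tE) (by rw [hE, card_zp2 h.ft.sq h.ft.n1]) he het tK h2) (h1 cD) (h1 aD) ?_)
      (h1 bD)) h3
    exact (K.mul_mem_cancel_left (h1 (mul_mem (mul_mem bD aD) (inv_mem bD)))).1
      (sup_le tK (zpowers_le.2 (h1 cD)) i1N)
  have nrm : ∀ g, g * a * g⁻¹ ∈ closure ({a, b} : Set G) → g * b * g⁻¹ ∈ closure ({a, b} : Set G) →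
      g ∈ 𝐍[closure ({a, b} : Set G)] := fun g h1 h2 => mem_normalizer_of_cj_le (by
    rw [cj_closure]
    refine (closure_le _).2 ?_
    rintro _ ⟨d, e | e, rfl⟩
    · change g * d * g⁻¹ ∈ _
      rw [e]; exact h1
    · change g * d * g⁻¹ ∈ _
      rw [show d = b from e]; exact h2)
  have en : e ∈ 𝐍[closure ({a, b} : Set G)] := nrm e (by rw [cfix.2 (h.ac e (h.EI he).1)]; exact aD) (by
    rw [show e * b * e⁻¹ = e * (b * e * b⁻¹)⁻¹ * b by group, beb, mul_inv_rev, ← mul_assoc,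
      inv_eq_of_mul_eq_one_left h.z2, cfix.2 (h.zc e eT.1)]
    exact mul_mem cD bD)
  refine h.fin (fun f hf f2 => (mem_zp2 h.ft.sq).1 ?_) cD (fun e => h.z1 ?_)
    (comm_mem (gen _ le_normalizer en (nrm y (hb ▸ bD) hD)) eT.1 h.yS gen ?_)
  · by_contra hh
    have := h.N2 (mem_sup_left (h.Ecos hE he het hf hh))
    rw [mul_assoc, ← mul_assoc f, h.Ec f hf e he, mul_assoc, f2, mul_one, esq] at this
    exact h.ft.n1 this
  · have ab : a * b ≠ b * a := fun e => h.c1 (by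
      rw [← rr, hr, mul_assoc a b, ← mul_assoc b, ← e, mul_assoc a b, b2, mul_one, h.a2, one_mul])
    simpa [h.yt] using dih_fix h.a2 b2 ab e (mem_centralizer_singleton_iff.1 aR.2).symm
      (mem_centralizer_singleton_iff.1 bR.2).symm hm
  · rw [show e * y * e⁻¹ * y⁻¹ = e * (y * e * y⁻¹)⁻¹ by group, ← he', e1,
      show e * (e * n * r)⁻¹ = e * (n * r)⁻¹ * e⁻¹ by group]
    exact conj_mem_of_mem_normalizer en (inv_mem (mul_mem nD rD))

end Cfg2

end Cfsg.Agent.H19.Len
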