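import Mathlib

/-! The Artin–Zorn theorem: finite alternative division rings are fields. -/

set_option autoImplicit false

namespace Cfsg.Agent.H19.ON

section AZ
variable {D : Type*} [NonAssocRing D]

/-- associator -/
def asc (a b c : D) : D := a * b * c - a * (b * c)

/-- alternative laws -/
structure Alt (D : Type*) [NonAssocRing D] : Prop where
  l : ∀ a b : D, a * (a * b) = a * a * b
  r : ∀ a b : D, b * a * a = b * (a * a)

namespace Alt
variable (h : Alt D)
include h

theorem ll (a b c : D) : a * (b * c) + b * (a * c) = a * b * c + b * a * c := by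
  have h1 := h.l (a + b) c
  simp only [mul_add, add_mul] at h1
  linear_combination (norm := abel1) h1 - h.l a c - h.l b c

theorem rr (a b c : D) : c * a * b + c * b * a = c * (a * b) + c * (b * a) := by
  have h1 := h.r (a + b) c
  simp only [mul_add, add_mul] at h1
  linear_combination (norm := abel1) h1 - h.r a c - h.r b c

theorem s12 (a b c : D) : asc a b c = -asc b a c := by
  unfold asc; linear_combination (norm := abel1) -h.ll a b c

theorem s23 (a b c : D) : asc a b c = -asc a c b := by
  unfold asc; linear_combination (norm := abel1) h.rr b c a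

theorem flex (a b : D) : a * b * a = a * (b * a) := by
  linear_combination (norm := abel1) h.rr b a a + h.l a b

theorem rM (x y a : D) : y * x * a * x = y * (x * a * x) := by
  have h1 := congrArg (· * x) (h.ll y a x)
  have h2 := h.r x (y * a + a * y)
  simp only [add_mul] at h1 h2
  rw [h.flex x a]
  have h3 := h.s23 y x (a * x)
  have h4 := h.s12 (y * x) a x
  have h5 := h.ll y a (x * x)
  unfold asc at h3 h4
  rw [h.r x a] at h3
  rw [h.r x y] at h4
  linear_combination (norm := abel1) h3 + h4 + h5 - h1 - h2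

theorem m1 (x y a : D) : asc y (x * a) x = -(asc y x a * x) := by
  unfold asc; rw [sub_mul]; linear_combination (norm := abel1) h.rM x y a

theorem m2 (x z y a : D) :
    asc y (x * a) z + asc y (z * a) x = -(asc y x a * z) - asc y z a * x := by
  have h1 := h.rM (x + z) y a
  unfold asc
  simp only [mul_add, add_mul, sub_mul] at h1 ⊢
  linear_combination (norm := abel1) h1 - h.rM x y a - h.rM z y a

end Alt

/-- right normed words -/
def wd (g : Bool → D) : List Bool → D
  | [] => 1
  | b :: l => g b * wd g l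

theorem wd_app {g : Bool → D} {n : ℕ}
    (hA : ∀ l1 l2 l3 : List Bool, l1.length + l2.length + l3.length ≤ n →
      asc (wd g l1) (wd g l2) (wd g l3) = 0) :
    ∀ l1 l2 : List Bool, l1.length + l2.length ≤ n → wd g l1 * wd g l2 = wd g (l1 ++ l2)
  | [], l2, _ => by simp [wd]
  | b :: l, l2, hl => by
    have h1 := hA [b] l l2 (by simp at hl ⊢; omega)
    have h2 := wd_app hA l l2 (by simp at hl; omega)
    simp only [wd, asc, mul_one, sub_eq_zero, List.cons_append] at h1 ⊢
    rw [h1, h2]

theorem Alt.artin_aux (h : Alt D) (g : Bool → D) (n : ℕ) : ∀ l1 l2 l3 : List Bool,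
    l1.length + l2.length + l3.length ≤ n → asc (wd g l1) (wd g l2) (wd g l3) = 0 := by
  induction n with
  | zero =>
    intro l1 l2 l3 hl
    obtain rfl : l1 = [] := List.length_eq_zero_iff.1 (by omega)
    simp [wd, asc]
  | succ n ih =>
    have key : ∀ (c b : Bool) (p q r : List Bool), p.length + q.length + r.length + 3 ≤ n + 1 →
        asc (wd g (c :: p)) (wd g (b :: q)) (wd g (b :: r)) = 0 := by
      intro c b p q r hl
      have h1 := h.m2 (g b) (wd g (c :: p)) (wd g (b :: r)) (wd g q)
      have h2 := ih (b :: r) [b] q (by simp; omega)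
      have h3 := ih (b :: r) (c :: p) q (by simp; omega)
      have h4 := wd_app ih (c :: p) q (by simp; omega)
      have h5 := h.m1 (g b) (wd g (c :: p ++ q)) (wd g r)
      have h6 := ih (c :: p ++ q) [b] r (by simp; omega)
      have e : wd g [b] = g b := mul_one _
      rw [e] at h2 h6
      rw [h6, zero_mul, neg_zero] at h5
      rw [h2, h3, h4, h.s12 _ (wd g (c :: p ++ q)), zero_mul, zero_mul] at h1
      change asc _ (wd g (b :: q)) _ + -asc _ (g b * wd g r) _ = _ at h1
      rw [h5] at h1
      rw [h.s12, h.s23, h.s12]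
      simpa using h1
    intro l1 l2 l3 hl
    rcases l1 with _ | ⟨a, p⟩
    · simp [wd, asc]
    rcases l2 with _ | ⟨b, q⟩
    · simp [wd, asc]
    rcases l3 with _ | ⟨c, r⟩
    · simp [wd, asc]
    simp only [List.length_cons] at hl
    by_cases hbc : b = c
    · subst hbc; exact key a b p q r (by omega)
    by_cases hac : a = c
    · subst hac; rw [h.s12, key b a q p r (by omega), neg_zero]
    obtain rfl : a = b := by revert hbc hac; cases a <;> cases b <;> cases c <;> simp
    rw [h.s23, h.s12, key c a r p q (by omega), neg_zero, neg_zero]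

/-- the additive span of the words in two elements -/
def wsp (g : Bool → D) : AddSubgroup D := AddSubgroup.closure (Set.range (wd g))

theorem Alt.wsp_assoc (h : Alt D) (g : Bool → D) {a b c : D} (ha : a ∈ wsp g) (hb : b ∈ wsp g)
    (hc : c ∈ wsp g) : a * b * c = a * (b * c) := by
  induction ha using AddSubgroup.closure_induction with
  | mem a ha =>
    induction hb using AddSubgroup.closure_induction with
    | mem b hb =>
      induction hc using AddSubgroup.closure_induction with
      | mem c hc =>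
        obtain ⟨l1, rfl⟩ := ha
        obtain ⟨l2, rfl⟩ := hb
        obtain ⟨l3, rfl⟩ := hc
        exact sub_eq_zero.1 (h.artin_aux g _ l1 l2 l3 le_rfl)
      | zero => simp
      | add _ _ _ _ h1 h2 => simp [mul_add, h1, h2]
      | neg _ _ h1 => simp [h1]
    | zero => simp
    | add _ _ _ _ h1 h2 => simp [mul_add, add_mul, h1, h2]
    | neg _ _ h1 => simp [h1]
  | zero => simp
  | add _ _ _ _ h1 h2 => simp [add_mul, h1, h2]
  | neg _ _ h1 => simp [h1]

/-- the subring generated by two elements -/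
def Alt.sr (h : Alt D) (g : Bool → D) : Subring D where
  __ := wsp g
  one_mem' := AddSubgroup.subset_closure ⟨[], rfl⟩
  mul_mem' := by
    intro a b ha hb
    change a * b ∈ wsp g
    induction ha using AddSubgroup.closure_induction with
    | mem a ha =>
      induction hb using AddSubgroup.closure_induction with
      | mem b hb =>
        obtain ⟨l1, rfl⟩ := ha
        obtain ⟨l2, rfl⟩ := hb
        exact AddSubgroup.subset_closure
          ⟨l1 ++ l2, (wd_app (h.artin_aux g _) l1 l2 le_rfl).symm⟩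
      | zero => simp
      | add _ _ _ _ h1 h2 => rw [mul_add]; exact add_mem h1 h2
      | neg _ _ h1 => rw [mul_neg]; exact neg_mem h1
    | zero => simp
    | add _ _ _ _ h1 h2 => rw [add_mul]; exact add_mem h1 h2
    | neg _ _ h1 => rw [neg_mul]; exact neg_mem h1

theorem Alt.exists_gen [Finite D] [NoZeroDivisors D] [Nontrivial D] (h : Alt D) (x y : D) :
    x * y = y * x ∧ ∃ g, ∀ z, x ∈ wsp (fun b => cond b g z) ∧ y ∈ wsp (fun b => cond b g z) := by
  let S := h.sr (fun b => cond b x y)
  have hx : x ∈ S := AddSubgroup.subset_closure ⟨[true], mul_one _⟩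
  have hy : y ∈ S := AddSubgroup.subset_closure ⟨[false], mul_one _⟩
  letI : Ring S := { (inferInstance : NonAssocRing S) with
    mul_assoc := fun a b c => Subtype.ext (h.wsp_assoc _ a.2 b.2 c.2) }
  haveI : Nontrivial S := ⟨0, 1, fun e => zero_ne_one (congrArg Subtype.val e)⟩
  haveI : NoZeroDivisors S := ⟨fun {a b} e =>
    (mul_eq_zero.1 (congrArg Subtype.val e)).imp Subtype.ext Subtype.ext⟩
  haveI : IsDomain S := NoZeroDivisors.to_isDomain S
  have hF := Finite.isDomain_to_isField S
  refine ⟨congrArg Subtype.val (hF.mul_comm ⟨x, hx⟩ ⟨y, hy⟩), ?_⟩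
  letI := hF.toField
  obtain ⟨g, hg⟩ := IsCyclic.exists_monoid_generator (α := Sˣ)
  refine ⟨((g : S) : D), fun z => ?_⟩
  have key : ∀ s : S, (s : D) ∈ wsp (fun b => cond b ((g : S) : D) z) := fun s => by
    by_cases hs : s = 0
    · rw [hs]; exact zero_mem _
    obtain ⟨k, hk⟩ := hg (Units.mk0 s hs)
    have hk' : (g : S) ^ k = s := by simpa using congrArg Units.val hk
    rw [← hk']
    refine AddSubgroup.subset_closure ⟨List.replicate k true, ?_⟩
    clear hk hk'
    induction k with
    | zero => rfl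
    | succ k ih => rw [pow_succ', List.replicate_succ, wd, ih]; rfl
  exact ⟨key ⟨x, hx⟩, key ⟨y, hy⟩⟩

/-- **Artin–Zorn**. -/
theorem Alt.assoc [Finite D] [NoZeroDivisors D] [Nontrivial D] (h : Alt D) (x y z : D) :
    x * y * z = x * (y * z) := by
  obtain ⟨-, g, hg⟩ := h.exists_gen x y
  exact h.wsp_assoc _ (hg z).1 (hg z).2 (AddSubgroup.subset_closure ⟨[false], mul_one _⟩)

theorem alt_left (hl : ∀ x : D, x ≠ 0 → ∃ x', ∀ y, x' * (x * y) = y ∧ x * (x' * y) = y)
    (a b : D) : a * (a * b) = a * a * b := by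
  by_cases h0 : a = 0
  · simp [h0]
  by_cases h1 : 1 - a = 0
  · rw [sub_eq_zero] at h1; simp [← h1]
  obtain ⟨a', ha⟩ := hl a h0
  obtain ⟨c, hc⟩ := hl _ h1
  have key : ∀ y, (a' + c) * (a * y - a * (a * y)) = y := fun y => by
    have e1 : a * y - a * (a * y) = (1 - a) * (a * y) := by rw [sub_mul, one_mul]
    rw [add_mul]
    conv_lhs => arg 2; rw [e1, (hc _).1]
    rw [mul_sub, (ha _).1, (ha _).1, sub_add_cancel]
  by_cases h2 : a' + c = 0
  · have := key 1
    rw [h2, zero_mul] at this
    rw [← mul_one (a * (a * b)), ← mul_one (a * a * b), ← this, mul_zero, mul_zero]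
  obtain ⟨d, hd⟩ := hl _ h2
  have k2 : ∀ y, d * y = a * y - a * (a * y) := fun y => by
    conv_lhs => rw [← key y]
    exact (hd _).1
  have k3 := k2 1
  simp only [mul_one] at k3
  have k4 := k2 b
  rw [k3, sub_mul] at k4
  exact (sub_right_injective k4).symm

end AZ

section Pair
variable {P Q R : Type*} [AddCommGroup P] [AddCommGroup Q] [AddCommGroup R]

theorem ip_abs (A : AddSubgroup (Q →+ R)) (B : AddSubgroup (R →+ Q))
    (h1 : ∀ f ∈ A, f ≠ 0 → ∃ g ∈ B, (∀ x, g (f x) = x) ∧ ∀ y, f (g y) = y)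
    (h2 : ∀ g ∈ B, g ≠ 0 → ∃ f ∈ A, (∀ x, g (f x) = x) ∧ ∀ y, f (g y) = y)
    {β M : Q →+ R} (hβ : β ∈ A) (hM : M ∈ A) (h0 : β ≠ 0) (hM0 : M ≠ 0) :
    ∃ K ∈ A, ∀ x y, M y = β x → K x = β y := by
  obtain ⟨β', hβ', b1, b2⟩ := h1 β hβ h0
  obtain ⟨M', -, m1, m2⟩ := h1 M hM hM0
  by_cases hN : M - β = 0
  · rw [sub_eq_zero] at hN
    refine ⟨β, hβ, fun x y e => ?_⟩
    rw [← e, hN]
  obtain ⟨N', hN', n1, n2⟩ := h1 _ (sub_mem hM hβ) hN
  simp only [AddMonoidHom.sub_apply] at n1 n2
  have key : ∀ y, (N' + β') (β y) = N' (M y) := fun y => by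
    rw [AddMonoidHom.add_apply, b1]
    conv_lhs => arg 2; rw [← n1 y]
    rw [map_sub, add_sub_cancel]
  have hne : N' + β' ≠ 0 := fun e => hM0 (AddMonoidHom.ext fun y => by
    have := key y
    rw [e, AddMonoidHom.zero_apply] at this
    have h3 := n2 (M y)
    rw [← this, map_zero, map_zero, sub_zero] at h3
    exact h3.symm)
  obtain ⟨K, hK, k1, k2⟩ := h2 _ (add_mem hN' hβ') hne
  refine ⟨β - K, sub_mem hβ hK, fun x y e => ?_⟩
  have h3 := k2 (β (x - y))
  rw [key, map_sub M, e, n1] at h3
  rw [AddMonoidHom.sub_apply, h3, map_sub, sub_sub_cancel]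

theorem az_pair [Finite R] (b : P →+ Q →+ R) (s1 : ∀ σ ≠ 0, Function.Bijective (b σ))
    (s2 : ∀ v ≠ 0, Function.Bijective (b.flip v))
    (l : ∀ β M, β ≠ 0 → M ≠ 0 → ∃ K, ∀ x y, b M y = b β x → b K x = b β y)
    (r : ∀ β M, β ≠ 0 → M ≠ 0 → ∃ K, ∀ x y, b y M = b x β → b x K = b y β)
    (σ σ' σ'' : P) (hσ : σ ≠ 0) : ∃ τ, ∀ x y, b σ y = b σ' x → b σ'' y = b τ x := by
  by_cases hQ : ∀ v : Q, v = 0
  · exact ⟨0, fun x y _ => by rw [hQ x, hQ y]; simp⟩
  push Not at hQ
  obtain ⟨v, hv⟩ := hQ
  let α := AddEquiv.ofBijective _ (s2 v hv)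
  let β := AddEquiv.ofBijective _ (s1 σ hσ)
  have hα : ∀ x, b (α.symm x) v = x := fun x => α.apply_symm_apply x
  have hβ : ∀ x, b σ (β.symm x) = x := fun x => β.apply_symm_apply x
  have hα' : ∀ x, α.symm (b x v) = x := fun x => α.symm_apply_apply x
  have hβ' : ∀ x, β.symm (b σ x) = x := fun x => β.symm_apply_apply x
  letI : NonAssocRing R := { (inferInstance : AddCommGroup R) with
    mul := fun x y => b (α.symm x) (β.symm y)
    one := b σ v
    left_distrib := fun x y z => by
      change b _ _ = b _ _ + b _ _; rw [map_add, map_add]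
    right_distrib := fun x y z => by
      change b _ _ = b _ _ + b _ _; rw [map_add, map_add, AddMonoidHom.add_apply]
    zero_mul := fun x => by change b _ _ = 0; simp
    mul_zero := fun x => by change b _ _ = 0; simp
    one_mul := fun x => by change b (α.symm (b σ v)) _ = x; rw [hα', hβ]
    mul_one := fun x => by change b _ (β.symm (b σ v)) = x; rw [hβ', hα] }
  have hm : ∀ x y : R, x * y = b (α.symm x) (β.symm y) := fun _ _ => rfl
  haveI : NoZeroDivisors R := ⟨fun {x y} e => by
    by_contra h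
    push Not at h
    exact h.2 (β.symm.map_eq_zero_iff.1 ((s1 _ (mt α.symm.map_eq_zero_iff.1 h.1)).1
      (e.trans (map_zero _).symm)))⟩
  haveI : Nontrivial R := ⟨b σ v, 0, fun e => hv ((s1 σ hσ).1 (e.trans (map_zero _).symm))⟩
  have hA : Alt R := ⟨alt_left fun x hx => by
      have hx' := mt α.symm.map_eq_zero_iff.1 hx
      obtain ⟨K, hK⟩ := l σ (α.symm x) hσ hx'
      have h1 : ∀ y, b K v * (x * y) = y := fun y => by
        rw [hm, hα', hK _ (β.symm y) (by rw [hβ, hm]), hβ]
      refine ⟨b K v, fun y => ⟨h1 y, ?_⟩⟩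
      obtain ⟨z, hz⟩ := (s1 _ hx').2 y
      have : y = x * b σ z := by rw [hm, hβ', hz]
      rw [this, h1], fun a c => by
    have := alt_left (D := Rᵐᵒᵖ) (fun x hx => by
      have hx' := mt β.symm.map_eq_zero_iff.1 (mt (MulOpposite.unop_eq_zero_iff _).1 hx)
      obtain ⟨K, hK⟩ := r v (β.symm x.unop) hv hx'
      have h1 : ∀ y, (y * x.unop) * b σ K = y := fun y => by
        rw [hm, hβ', hK _ (α.symm y) (by rw [hα, hm]), hα]
      refine ⟨MulOpposite.op (b σ K), fun y => ⟨MulOpposite.unop_injective (h1 _),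
        MulOpposite.unop_injective ?_⟩⟩
      obtain ⟨z, hz⟩ := (s2 _ hx').2 y.unop
      have : y.unop = b z v * x.unop := by rw [hm, hα', ← hz]; rfl
      change y.unop * b σ K * x.unop = y.unop
      rw [this, h1]) (MulOpposite.op a) (MulOpposite.op c)
    exact congrArg MulOpposite.unop this⟩
  refine ⟨α.symm (b σ'' v * b σ' v), fun x y e => ?_⟩
  have := hA.assoc (b σ'' v) (b σ' v) (b σ x)
  rw [hm, hβ', hm _ (_ * _), hα', hm _ (b σ x), hα', hβ', ← e, hβ'] at this
  exact this.symm

end Pair

end Cfsg.Agent.H19.ON
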