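import Cfsg.Agent.H19.ONa

/-! A spread with enough shears is the spread of one-dimensional subspaces over a field. -/

set_option autoImplicit false

namespace Cfsg.Agent.H19.ON

variable {V ι : Type*} [AddCommGroup V]

/-- A partition `T` of `V` with shear groups `S`. -/
structure Sp (T : ι → AddSubgroup V) (S : ι → AddSubgroup (AddMonoid.End V)) : Prop where
  cov : ∀ v, ∃ u, v ∈ T u
  dis : ∀ {u c v}, u ≠ c → v ∈ T u → v ∈ T c → v = 0
  nt : ∀ u, ∃ v ∈ T u, v ≠ 0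
  three : ∀ u c : ι, ∃ e, e ≠ u ∧ e ≠ c
  card : ∀ u c, Nat.card (T u) = Nat.card (T c)
  im : ∀ {c f}, f ∈ S c → ∀ v, f v ∈ T c
  kill : ∀ {c f}, f ∈ S c → ∀ {v}, v ∈ T c → f v = 0
  reg : ∀ {u c}, u ≠ c → ∀ {v}, v ∈ T u → v ≠ 0 → ∀ {y}, y ∈ T c → ∃ f ∈ S c, f v = y
  perm : ∀ {c f}, f ∈ S c → ∀ u, ∃ w, ∀ x ∈ T u, x + f x ∈ T w

/-- composition closure for a triple -/
def StarT (T : ι → AddSubgroup V) (S : ι → AddSubgroup (AddMonoid.End V)) (u c d : ι) : Prop :=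
  ∀ f ∈ S c, ∀ g ∈ S d, ∃ k ∈ S d, ∀ x ∈ T u, g (f x) = k x

namespace Sp
variable {T : ι → AddSubgroup V} {S : ι → AddSubgroup (AddMonoid.End V)} (h : Sp T S)
include h

theorem inj {u c : ι} {f : AddMonoid.End V} (hf : f ∈ S c) {v : V} (hv : v ∈ T u) (h0 : v ≠ 0)
    (e : f v = 0) {x : V} (hx : x ∈ T u) : f x = 0 := by
  by_cases huc : u = c
  · subst huc; exact h.kill hf hx
  obtain ⟨w, hw⟩ := h.perm hf u
  have h1 := hw v hv
  rw [e, add_zero] at h1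
  obtain rfl : u = w := by by_contra h2; exact h0 (h.dis h2 hv h1)
  exact h.dis huc (by simpa using sub_mem (hw x hx) hx) (h.im hf x)

theorem exists_ne {u c : ι} (huc : u ≠ c) {v : V} (hv : v ∈ T u) (h0 : v ≠ 0) :
    ∃ f ∈ S c, f v ≠ 0 := by
  obtain ⟨y, hy, h1⟩ := h.nt c
  obtain ⟨f, hf, e⟩ := h.reg huc hv h0 hy
  exact ⟨f, hf, e ▸ h1⟩

theorem factor {u e d : ι} (hue : u ≠ e) (hed : e ≠ d) (hs : StarT T S u e d)
    {g : AddMonoid.End V} (hg : g ∈ S d) :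
    ∃ g₁ ∈ S e, ∃ g₂ ∈ S d, ∀ x ∈ T u, g x = g₂ (g₁ x) := by
  obtain ⟨v, hv, h0⟩ := h.nt u
  obtain ⟨g₁, h1, h2⟩ := h.exists_ne hue hv h0
  obtain ⟨g₂, h3, h4⟩ := h.reg hed (h.im h1 v) h2 (h.im hg v)
  obtain ⟨k, hk, h5⟩ := hs g₁ h1 g₂ h3
  refine ⟨g₁, h1, g₂, h3, fun x hx => ?_⟩
  have := h.inj (sub_mem hg hk) hv h0 (by
    change g v - k v = 0
    rw [← h5 v hv, h4, sub_self]) hx
  rw [h5 x hx]
  exact sub_eq_zero.1 this

theorem star_trans {u c d e : ι} (hce : c ≠ e) (hed : e ≠ d) (h1 : StarT T S c e d)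
    (h2 : StarT T S u c e) (h3 : StarT T S u e d) : StarT T S u c d := fun f hf g hg => by
  obtain ⟨g₁, m1, g₂, m2, e1⟩ := h.factor hce hed h1 hg
  obtain ⟨k₁, m3, e2⟩ := h2 f hf g₁ m1
  obtain ⟨k, m4, e3⟩ := h3 k₁ m3 g₂ m2
  exact ⟨k, m4, fun x hx => by rw [e1 _ (h.im hf x), e2 x hx, e3 x hx]⟩

theorem star_of_D [Finite V] {u c d : ι} (huc : u ≠ c) (hud : u ≠ d) (hcd : c ≠ d)
    (hcol : ∀ w, w ≠ d → ∃ σ ∈ S d, ∀ x ∈ T u, x + σ x ∈ T w)
    (hD : ∀ f ∈ S d, ∀ f' ∈ S d, ∀ f'' ∈ S d, (∃ v ∈ T u, f v ≠ 0) →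
      ∃ k ∈ S d, ∀ x ∈ T u, ∀ y ∈ T u, f y = f' x → f'' y = k x) : StarT T S u c d := by
  intro f hf g hg
  obtain ⟨σ, hσ, h1⟩ := hcol c hcd
  have hs : ∀ y ∈ T c, ∃ x ∈ T u, x + σ x = y := fun y hy => by
    let π : T u → T c := fun x => ⟨x + σ x, h1 x x.2⟩
    have hπ : Function.Injective π := fun a b e => by
      have e1 : (a : V) + σ a = b + σ b := congrArg Subtype.val e
      have e2 : (a : V) - b = σ b - σ a := by linear_combination (norm := abel1) e1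
      exact Subtype.ext (sub_eq_zero.1 (h.dis hud (sub_mem a.2 b.2)
        (e2 ▸ sub_mem (h.im hσ _) (h.im hσ _))))
    obtain ⟨x, hx⟩ := ((Nat.bijective_iff_injective_and_card π).2 ⟨hπ, h.card u c⟩).2 ⟨y, hy⟩
    exact ⟨x, x.2, congrArg Subtype.val hx⟩
  obtain ⟨w, hw⟩ := h.perm hf u
  by_cases hwd : w = d
  · subst hwd
    refine ⟨-g, neg_mem hg, fun v hv => ?_⟩
    have := h.kill hg (hw v hv)
    rw [map_add] at this
    exact eq_neg_of_add_eq_zero_right this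
  obtain ⟨g', hg', h2⟩ := hcol w hwd
  have key : ∀ v ∈ T u, ∀ x ∈ T u, x + σ x = f v → (σ - g') x = g' v := fun v hv x hx e => by
    have h3 := sub_mem (hw v hv) (h2 _ (add_mem hv hx))
    have h4 : v + f v - (v + x + g' (v + x)) = σ x - g' (v + x) := by rw [← e]; abel
    rw [h4] at h3
    have h5 := h.dis hwd h3 (sub_mem (h.im hσ _) (h.im hg' _))
    rw [map_add] at h5
    change σ x - g' x = g' v
    linear_combination (norm := abel1) h5
  obtain ⟨k, hk, h3⟩ := hD _ (sub_mem hσ hg') g' hg' g hg (by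
    by_contra h4
    push Not at h4
    obtain ⟨v, hv, h0⟩ := h.nt u
    obtain ⟨x, hx, e⟩ := hs _ (h.im hf v)
    have h5 := key v hv x hx e
    have h6 := h4 v hv
    rw [h4 x hx] at h5
    have h7 : σ v = 0 := by
      change σ v - g' v = 0 at h6
      rwa [← h5, sub_zero] at h6
    have h8 := h1 v hv
    rw [h7, add_zero] at h8
    exact h0 (h.dis huc hv h8))
  refine ⟨k, hk, fun v hv => ?_⟩
  obtain ⟨x, hx, e⟩ := hs _ (h.im hf v)
  rw [← e, map_add, h.kill hg (h.im hσ x), add_zero]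
  exact h3 v hv x hx (key v hv x hx e)

section Star
variable (hs : ∀ u c d, u ≠ c → c ≠ d → u ≠ d → StarT T S u c d)
include hs

theorem three_step {u e d : ι} (he : e ≠ u) (hd : d ≠ u) {a b g : AddMonoid.End V} (ha : a ∈ S e)
    (hb : b ∈ S u) (hg : g ∈ S d) : ∃ k ∈ S d, ∀ x ∈ T u, g (b (a x)) = k x := by
  have key : ∀ e, e ≠ u → e ≠ d → ∀ a ∈ S e, ∀ b ∈ S u,
      ∃ k ∈ S d, ∀ x ∈ T u, g (b (a x)) = k x := fun e he hed a ha b hb => by
    obtain ⟨k₁, m1, e1⟩ := hs e u d he hd.symm hed b hb g hg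
    obtain ⟨k, m2, e2⟩ := hs u e d he.symm hed hd.symm a ha k₁ m1
    exact ⟨k, m2, fun x hx => by rw [e1 _ (h.im ha x), e2 x hx]⟩
  by_cases hed : e = d
  · subst hed
    obtain ⟨e', h1, h2⟩ := h.three u e
    obtain ⟨a₁, m1, a₂, m2, e1⟩ := h.factor h1.symm h2 (hs u e' e h1.symm h2 he.symm) ha
    obtain ⟨k₂, m3, e2⟩ := hs e' e u h2 he h1 a₂ m2 b hb
    obtain ⟨k, m4, e3⟩ := key e' h1 h2 a₁ m1 k₂ m3
    exact ⟨k, m4, fun x hx => by rw [e1 x hx, e2 _ (h.im m1 x), e3 x hx]⟩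
  · exact key e he hed a ha b hb

theorem word (u : ι) {r : AddMonoid.End V} (hr : r ∈ Submonoid.closure (⋃ c, (S c : Set _))) :
    (∀ d, d ≠ u → ∀ g ∈ S d, ∃ k ∈ S d, ∀ x ∈ T u, g (r x) = k x) ∧
    ∀ g ∈ S u, ∃ e, e ≠ u ∧ ∃ a ∈ S e, ∃ b ∈ S u, ∀ x ∈ T u, g (r x) = b (a x) := by
  obtain ⟨e₀, he₀, -⟩ := h.three u u
  induction hr using Submonoid.closure_induction_left with
  | one => exact ⟨fun d _ g hg => ⟨g, hg, fun _ _ => rfl⟩, fun g hg =>
      ⟨e₀, he₀, 0, zero_mem _, 0, zero_mem _, fun x hx => h.kill hg hx⟩⟩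
  | mul_left f hf r _ ih =>
    obtain ⟨c, hf⟩ := Set.mem_iUnion.1 hf
    refine ⟨fun d hd g hg => ?_, fun g hg => ?_⟩
    · by_cases hcd : c = d
      · subst hcd; exact ⟨0, zero_mem _, fun x _ => h.kill hg (h.im hf _)⟩
      by_cases hcu : c = u
      · subst hcu
        obtain ⟨e, he, a, ha, b, hb, e1⟩ := ih.2 f hf
        obtain ⟨k, hk, e2⟩ := h.three_step hs he hd ha hb hg
        exact ⟨k, hk, fun x hx => by rw [← e2 x hx, ← e1 x hx]; rfl⟩
      obtain ⟨k', m1, e1⟩ := ih.1 c hcu f hf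
      obtain ⟨k, m2, e2⟩ := hs u c d (Ne.symm hcu) hcd hd.symm k' m1 g hg
      exact ⟨k, m2, fun x hx => by rw [← e2 x hx, ← e1 x hx]; rfl⟩
    · by_cases hcu : c = u
      · subst hcu
        exact ⟨e₀, he₀, 0, zero_mem _, 0, zero_mem _, fun x _ => h.kill hg (h.im hf _)⟩
      obtain ⟨k', m1, e1⟩ := ih.1 c hcu f hf
      exact ⟨c, hcu, k', m1, g, hg, fun x hx => by rw [← e1 x hx]; rfl⟩

theorem ann {r : AddMonoid.End V} (hr : r ∈ Subring.closure (⋃ c, (S c : Set _))) {u : ι} {v : V}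
    (hv : v ∈ T u) (h0 : v ≠ 0) (e : r v = 0) {x : V} (hx : x ∈ T u) : r x = 0 := by
  by_contra h1
  obtain ⟨w, hw⟩ := h.cov (r x)
  obtain ⟨d, hd, hdw⟩ := h.three u w
  obtain ⟨g, hg, h2⟩ := h.exists_ne hdw.symm hw h1
  have key : ∃ k ∈ S d, ∀ x ∈ T u, g (r x) = k x := by
    clear e h1 hw h2
    rw [Subring.mem_closure_iff] at hr
    induction hr using AddSubgroup.closure_induction with
    | mem r hr => exact (h.word hs u hr).1 d hd g hg
    | zero => exact ⟨0, zero_mem _, fun x _ => map_zero g⟩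
    | add a b _ _ ha hb =>
      obtain ⟨k, m1, e1⟩ := ha
      obtain ⟨k', m2, e2⟩ := hb
      exact ⟨k + k', add_mem m1 m2, fun x hx => by
        change g (a x + b x) = k x + k' x
        rw [map_add, e1 x hx, e2 x hx]⟩
    | neg a _ ha =>
      obtain ⟨k, m1, e1⟩ := ha
      exact ⟨-k, neg_mem m1, fun x hx => by
        change g (-a x) = -k x
        rw [map_neg, e1 x hx]⟩
  obtain ⟨k, hk, e1⟩ := key
  exact h2 ((e1 x hx).trans (h.inj hk hv h0 (by rw [← e1 v hv, e, map_zero]) hx))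

omit hs in
theorem trans {v : V} (h0 : v ≠ 0) (y : V) :
    ∃ r ∈ Subring.closure (⋃ c, (S c : Set (AddMonoid.End V))), r v = y := by
  have hm : ∀ c, ∀ f ∈ S c, f ∈ Subring.closure (⋃ c, (S c : Set (AddMonoid.End V))) :=
    fun c f hf => Subring.subset_closure (Set.mem_iUnion.2 ⟨c, hf⟩)
  obtain ⟨u, hu⟩ := h.cov v
  obtain ⟨w, hw⟩ := h.cov y
  obtain ⟨e, h1, h2⟩ := h.three u w
  obtain ⟨f, hf, h3⟩ := h.exists_ne h1.symm hu h0
  obtain ⟨g, hg, h4⟩ := h.reg h2 (h.im hf v) h3 hw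
  exact ⟨g * f, mul_mem (hm _ g hg) (hm _ f hf), h4⟩

theorem exists_field [Finite V] : ∃ (F : Type) (_ : Field F) (_ : Fintype F) (_ : Module F V),
    (∀ c, ∀ f ∈ S c, ∀ (a : F) v, f (a • v) = a • f v) ∧
    ∀ u, ∀ v ∈ T u, v ≠ 0 → ∀ y, y ∈ T u ↔ ∃ a : F, y = a • v := by
  set s := ⋃ c, (S c : Set (AddMonoid.End V)) with hsd
  have hm : ∀ c, ∀ f ∈ S c, f ∈ s := fun c f hf => Set.mem_iUnion.2 ⟨c, hf⟩
  let K := Subring.centralizer s
  obtain ⟨u₀, -⟩ := h.cov 0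
  obtain ⟨v₀, -, h₀⟩ := h.nt u₀
  haveI : Finite (AddMonoid.End V) := Finite.of_injective _ DFunLike.coe_injective
  haveI : Nontrivial K := ⟨0, 1, fun e => h₀ (DFunLike.congr_fun (congrArg Subtype.val e) v₀).symm⟩
  haveI : NoZeroDivisors K := ⟨fun {a b} e => by
    by_contra h1
    push Not at h1
    obtain ⟨v, hv⟩ : ∃ v, (b : AddMonoid.End V) v ≠ 0 := by
      by_contra h2
      push Not at h2
      exact h1.2 (Subtype.ext (AddMonoidHom.ext h2))
    refine h1.1 (Subtype.ext (AddMonoidHom.ext fun y => ?_))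
    obtain ⟨r, hr, rfl⟩ := h.trans hv y
    have h3 := Subring.closure_le_centralizer_centralizer s hr a a.2
    have h4 : (a : AddMonoid.End V) ((b : AddMonoid.End V) v) = 0 :=
      DFunLike.congr_fun (congrArg Subtype.val e) v
    have h5 := DFunLike.congr_fun h3 ((b : AddMonoid.End V) v)
    change (a : AddMonoid.End V) (r _) = r ((a : AddMonoid.End V) _) at h5
    rw [h4, map_zero] at h5
    exact h5⟩
  haveI : IsDomain K := NoZeroDivisors.to_isDomain K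
  letI := (Finite.isDomain_to_isField K).toField
  let e : Shrink.{0} K ≃+* K := Shrink.ringEquiv.{0} K
  letI : Module (Shrink.{0} K) V := Module.compHom V (K.subtype.comp e.toRingHom)
  have hsm : ∀ (a : Shrink.{0} K) (v : V), a • v = (e a : AddMonoid.End V) v := fun _ _ => rfl
  have hc : ∀ c, ∀ f ∈ S c, ∀ (a : Shrink.{0} K) v, f (a • v) = a • f v := fun c f hf a v =>
    DFunLike.congr_fun ((e a).2 f (hm c f hf)) v
  refine ⟨Shrink.{0} K, inferInstance, Fintype.ofFinite _, inferInstance, hc,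
    fun u v hv h0 y => ⟨fun hy => ?_, ?_⟩⟩
  · choose r hr hr' using h.trans h0
    have key : ∀ a ∈ Subring.closure s, ∀ b ∈ Subring.closure s, a v = b v → a y = b y :=
      fun a ha b hb e => sub_eq_zero.1 (h.ann hs (sub_mem ha hb) hv h0 (sub_eq_zero.2 e) hy)
    let φ : AddMonoid.End V := AddMonoidHom.mk' (fun z => r z y) fun a b =>
      key _ (hr _) _ (add_mem (hr a) (hr b)) (by
        change _ = r a v + r b v
        rw [hr', hr', hr'])
    have hφ : φ ∈ K := fun f hf => AddMonoidHom.ext fun z =>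
      key _ (mul_mem (Subring.subset_closure hf) (hr z)) _ (hr _) (by
        change f (r z v) = r (f z) v
        rw [hr', hr'])
    refine ⟨e.symm ⟨φ, hφ⟩, ?_⟩
    rw [hsm, e.apply_symm_apply]
    exact key 1 (one_mem _) _ (hr v) (hr' v).symm
  · rintro ⟨a, rfl⟩
    obtain ⟨c, h1, -⟩ := h.three u u
    obtain ⟨x, hx, h2⟩ := h.nt c
    obtain ⟨f, hf, rfl⟩ := h.reg h1 hx h2 hv
    rw [← hc u f hf]
    exact h.im hf _

end Star
end Sp

end Cfsg.Agent.H19.ON
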