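import Cfsg.Agent.H19.ONb

/-! O'Nan's geometry of a 2-transitive group with an abelian non-semiregular normal subgroup in
the point stabiliser: lines and hyperplanes. -/

set_option autoImplicit false

namespace Cfsg.Agent.H19.ON

open Subgroup MulAction

variable {G X : Type*} [Group G] [Finite G] [MulAction G X]

theorem exists_cent {p : ℕ} [Fact p.Prime] {P D : Subgroup G} (hP : IsPGroup p P)
    (hD : p ∣ Nat.card D) (hn : ∀ a ∈ P, ∀ b ∈ D, a * b * a⁻¹ ∈ D) :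
    ∃ b ∈ D, b ≠ 1 ∧ ∀ a ∈ P, a * b = b * a := by
  letI : MulAction P D :=
    { smul := fun a b => ⟨a * b * a⁻¹, hn a a.2 b b.2⟩
      one_smul := fun b => Subtype.ext (by change (1 : G) * b * 1⁻¹ = b; simp)
      mul_smul := fun a c b => Subtype.ext (by
        change (a : G) * c * b * ((a : G) * c)⁻¹ = a * (c * b * (c : G)⁻¹) * (a : G)⁻¹; group) }
  obtain ⟨b, hb, h1⟩ := hP.exists_fixed_point_of_prime_dvd_card_of_fixed_point D hD (a := 1)
    (fun a => Subtype.ext (by change (a : G) * 1 * a⁻¹ = 1; simp))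
  exact ⟨b, b.2, fun e => h1 (Subtype.ext e.symm), fun a ha =>
    mul_inv_eq_iff_eq_mul.1 (congrArg Subtype.val (hb ⟨a, ha⟩))⟩

theorem card_cover {ι : Type*} (I : Finset ι) (K : ι → Subgroup G) (D R : Subgroup G) (k : ℕ)
    (hDR : D ≤ R) (hD : ∀ i ∈ I, D ≤ K i) (hR : ∀ i ∈ I, K i ≤ R)
    (hd : ∀ i ∈ I, ∀ j ∈ I, i ≠ j → K i ⊓ K j ≤ D) (hk : ∀ i ∈ I, Nat.card (K i) = k) :
    Nat.card D + I.card * (k - Nat.card D) ≤ Nat.card R ∧
      (Nat.card R ≤ Nat.card D + I.card * (k - Nat.card D) →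
        ∀ r ∈ R, r ∈ D ∨ ∃ i ∈ I, r ∈ K i) := by
  classical
  haveI := Fintype.ofFinite G
  have hc : ∀ M : Subgroup G, (Finset.univ.filter (· ∈ M)).card = Nat.card M := fun M => by
    rw [Nat.card_eq_fintype_card, Fintype.card_subtype]
  set U := Finset.univ.filter (· ∈ D) ∪
    I.biUnion fun i => Finset.univ.filter (· ∈ K i) \ Finset.univ.filter (· ∈ D) with hU
  have h1 : U.card = Nat.card D + I.card * (k - Nat.card D) := by
    rw [hU, Finset.card_union_of_disjoint, Finset.card_biUnion, hc,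
      Finset.sum_congr rfl (g := fun _ => k - Nat.card D), Finset.sum_const, smul_eq_mul]
    · intro i hi
      rw [Finset.card_sdiff_of_subset (fun x hx => by simp at hx ⊢; exact hD i hi hx), hc, hc,
        hk i hi]
    · intro i hi j hj hij
      rw [Function.onFun, Finset.disjoint_left]
      intro x h2 h3
      simp at h2 h3
      exact h2.2 (hd i hi j hj hij ⟨h2.1, h3.1⟩)
    · rw [Finset.disjoint_left]
      intro x h2 h3
      simp at h2 h3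
      obtain ⟨i, -, -, h3⟩ := h3
      exact h3 h2
  have h2 : U ⊆ Finset.univ.filter (· ∈ R) := fun x hx => by
    simp [hU] at hx ⊢
    rcases hx with hx | ⟨i, hi, hx, -⟩
    exacts [hDR hx, hR i hi hx]
  refine ⟨by rw [← h1, ← hc]; exact Finset.card_le_card h2, fun h3 r hr => ?_⟩
  have h4 := Finset.eq_of_subset_of_card_le h2 (by rw [hc, h1]; exact h3)
  have : r ∈ U := by rw [h4]; simpa using hr
  simp [hU] at this
  exact this.imp id fun ⟨i, hi, h5, _⟩ => ⟨i, hi, h5⟩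

/-- faithful and 2-transitive -/
structure Two (G X : Type*) [Group G] [MulAction G X] : Prop where
  two : ∀ {x y u v : X}, x ≠ y → u ≠ v → ∃ g : G, g • x = u ∧ g • y = v
  faith : ∀ g : G, (∀ x : X, g • x = x) → g = 1

theorem Two.card_eq (h : Two G X) (K : X → X → Subgroup G)
    (hK : ∀ g x y n, n ∈ K x y → g * n * g⁻¹ ∈ K (g • x) (g • y)) {x y u v : X} (hxy : x ≠ y)
    (huv : u ≠ v) : Nat.card (K x y) = Nat.card (K u v) := by
  have key : ∀ {x y u v : X}, x ≠ y → u ≠ v → Nat.card (K x y) ≤ Nat.card (K u v) := by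
    intro x y u v hxy huv
    obtain ⟨g, rfl, rfl⟩ := h.two hxy huv
    exact Nat.card_le_card_of_injective (fun n => ⟨g * n * g⁻¹, hK g x y n n.2⟩)
      fun a b e => Subtype.ext (by simpa using e)
  exact le_antisymm (key hxy huv) (key huv hxy)

theorem Two.eq_of_le (h : Two G X) (K : X → X → Subgroup G)
    (hK : ∀ g x y n, n ∈ K x y → g * n * g⁻¹ ∈ K (g • x) (g • y)) {x y u v : X} (hxy : x ≠ y)
    (huv : u ≠ v) (hle : K x y ≤ K u v) : K x y = K u v :=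
  Subgroup.eq_of_le_of_card_ge hle (h.card_eq K hK huv hxy).le

/-- O'Nan's configuration. -/
structure Fam (N : X → Subgroup G) : Prop extends Two G X where
  conj : ∀ g x n, n ∈ N x → g * n * g⁻¹ ∈ N (g • x)
  fix : ∀ {x n}, n ∈ N x → n • x = x
  comm : ∀ {x m n}, m ∈ N x → n ∈ N x → m * n = n * m
  ns : ∃ x y n, x ≠ y ∧ n ∈ N x ∧ n ≠ 1 ∧ n • y = y
  pg : ∃ p : ℕ, p.Prime ∧ ∀ x, IsPGroup p (N x)

/-- stabiliser of `y` in `N x` -/
def Ax (N : X → Subgroup G) (x y : X) : Subgroup G where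
  carrier := {g | g ∈ N x ∧ g • y = y}
  one_mem' := ⟨one_mem _, one_smul _ _⟩
  mul_mem' := fun ha hb => ⟨mul_mem ha.1 hb.1, by rw [mul_smul, hb.2, ha.2]⟩
  inv_mem' := fun ha => ⟨inv_mem ha.1, inv_smul_eq_iff.2 ha.2.symm⟩

omit [Finite G] in
theorem mem_Ax {N : X → Subgroup G} {x y : X} {g : G} : g ∈ Ax N x y ↔ g ∈ N x ∧ g • y = y :=
  Iff.rfl

omit [Finite G] in
theorem Ax_le {N : X → Subgroup G} {x y : X} : Ax N x y ≤ N x := fun _ h => h.1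

omit [Finite G] in
theorem inv_fix {g : G} {x : X} (h : g • x = x) : g⁻¹ • x = x := inv_smul_eq_iff.2 h.symm

namespace Fam
variable {N : X → Subgroup G} (h : Fam N)
include h

omit [Finite G] in
theorem conj' {g : G} {x : X} (hg : g • x = x) {n : G} (hn : n ∈ N x) : g * n * g⁻¹ ∈ N x := by
  simpa [hg] using h.conj g x n hn

omit [Finite G] in
theorem conjA (g : G) (x y : X) (n : G) (hn : n ∈ Ax N x y) :
    g * n * g⁻¹ ∈ Ax N (g • x) (g • y) :=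
  ⟨h.conj g x n hn.1, by rw [mul_smul, mul_smul, inv_smul_smul, hn.2]⟩

theorem A_eq {x y u v : X} (hxy : x ≠ y) (huv : u ≠ v) (hle : Ax N x y ≤ Ax N u v) :
    Ax N x y = Ax N u v := h.toTwo.eq_of_le _ h.conjA hxy huv hle

theorem A_card {x y u v : X} (hxy : x ≠ y) (huv : u ≠ v) :
    Nat.card (Ax N x y) = Nat.card (Ax N u v) := h.toTwo.card_eq _ h.conjA hxy huv

theorem ti {x y : X} (hxy : x ≠ y) {d : G} (hx : d ∈ N x) (hy : d ∈ N y) : d = 1 := by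
  have hK : ∀ g x y n, n ∈ N x ⊓ N y → g * n * g⁻¹ ∈ N (g • x) ⊓ N (g • y) :=
    fun g x y n hn => ⟨h.conj g x n hn.1, h.conj g y n hn.2⟩
  have hE := fun {x y u v : X} => h.toTwo.eq_of_le (fun x y => N x ⊓ N y) hK (x := x) (y := y)
    (u := u) (v := v)
  refine h.faith d fun w => ?_
  by_contra hw
  have key : ∀ x, d ∈ N x → N x ⊓ N w = N w ⊓ N (d • w) := fun x hx =>
    hE (fun e => hw (e ▸ h.fix hx)) (Ne.symm hw) fun n hn => ⟨hn.2, by
      have := h.conj d w n hn.2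
      rwa [h.comm hx hn.1, mul_inv_cancel_right] at this⟩
  have h1 : N x ⊓ N w = N x ⊓ N y := hE (fun e => hw (e ▸ h.fix hx)) hxy fun n hn =>
    ⟨hn.1, (((key x hx).trans (key y hy).symm) ▸ hn : n ∈ N y ⊓ N w).1⟩
  exact hw (h.fix (h1 ▸ ⟨hx, hy⟩ : d ∈ N x ⊓ N w).2)

theorem cfix {x : X} {n g : G} (hn : n ∈ N x) (h1 : n ≠ 1) (e : g * n = n * g) : g • x = x := by
  by_contra h2
  have := h.conj g x n hn
  rw [e, mul_inv_cancel_right] at this
  exact h1 (h.ti h2 this hn)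

theorem ab_comm {x y : X} (hxy : x ≠ y) {a b : G} (ha : a ∈ N x) (hay : a • y = y) (hb : b ∈ N y)
    (hbx : b • x = x) : a * b = b * a := by
  have h1 : a * b * a⁻¹ * b⁻¹ ∈ N y := mul_mem (h.conj' hay hb) (inv_mem hb)
  have h2 : a * (b * a⁻¹ * b⁻¹) ∈ N x := mul_mem ha (h.conj' hbx (inv_mem ha))
  have := h.ti hxy h2 (by simpa [mul_assoc] using h1)
  calc a * b = a * (b * a⁻¹ * b⁻¹) * (b * a) := by group
    _ = b * a := by rw [this, one_mul]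

omit [Finite G] in
theorem A_nt {x y : X} (hxy : x ≠ y) : ∃ a ∈ Ax N x y, a ≠ 1 := by
  obtain ⟨u, v, n, huv, hn, h1, h2⟩ := h.ns
  obtain ⟨g, rfl, rfl⟩ := h.two huv hxy
  exact ⟨_, h.conjA g u v n ⟨hn, h2⟩, by simpa using h1⟩

omit [Finite G] in
theorem move {x y : X} (hxy : x ≠ y) : ∃ t ∈ N x, t • y ≠ y := by
  by_contra h1
  push Not at h1
  obtain ⟨a, ha, h2⟩ := h.A_nt hxy
  refine h2 (h.faith a fun w => ?_)
  by_cases hw : x = w
  · exact hw ▸ h.fix ha.1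
  obtain ⟨g, h3, h4⟩ := h.two hw hxy
  have := h1 _ (h.conj' h3 ha.1)
  rwa [← h4, mul_smul, mul_smul, inv_smul_smul, smul_left_cancel_iff] at this

theorem fa {x y : X} (hxy : x ≠ y) {b t : G} (hb : b ∈ N y) (hbx : b • x = x) (ht : t ∈ N x) :
    b • t • y = t • y := by
  by_cases hz : y = t • y
  · rw [← hz, h.fix hb]
  obtain ⟨p, hp, hpg⟩ := h.pg
  haveI := Fact.mk hp
  have hA : ∀ a ∈ Ax N x y, a • t • y = t • y := fun a ha => by
    rw [← mul_smul, h.comm ha.1 ht, mul_smul, ha.2]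
  obtain ⟨b₀, hb₀, h1, h2⟩ := exists_cent (p := p) (P := Ax N x y) (D := Ax N y (t • y))
    ((hpg x).to_le Ax_le) (by
      obtain ⟨a, ha, h3⟩ := h.A_nt hz
      rcases ((hpg y).to_le (Ax_le : Ax N y (t • y) ≤ N y)).card_eq_or_dvd with e | e
      · exact (h3 (Subgroup.card_eq_one.1 e ▸ ha : a ∈ (⊥ : Subgroup G))).elim
      · exact e) fun a ha b hb => by
      simpa [ha.2, hA a ha] using h.conjA a y (t • y) b hb
  obtain ⟨a, ha, h3⟩ := h.A_nt hxy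
  have h4 : b₀ • x = x := h.cfix ha.1 h3 (h2 a ha).symm
  have hc : t⁻¹ * (b * t * b⁻¹) ∈ N x := mul_mem (inv_mem ht) (h.conj' hbx ht)
  have hc₀ : t⁻¹ * (b₀ * t * b₀⁻¹) ∈ N x := mul_mem (inv_mem ht) (h.conj' h4 ht)
  have h5 : (t⁻¹ * (b₀ * t * b₀⁻¹)) • y = y := by
    simp only [mul_smul]
    rw [inv_fix (h.fix hb₀.1), hb₀.2, inv_smul_smul]
  have h6 := h.ab_comm hxy hc₀ h5 hb hbx
  have h7 := h.comm hc hc₀
  have h8 := h.comm hb hb₀.1
  have h9 : (t⁻¹ * (b * t * b⁻¹)) • y = y := h.cfix hb₀.1 h1 (by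
    generalize hc' : t⁻¹ * (b₀ * t * b₀⁻¹) = c₀ at *
    have e1 : b₀ * t = t * c₀ * b₀ := by rw [← hc']; group
    have e2 : b₀ * t⁻¹ = c₀⁻¹ * t⁻¹ * b₀ := by rw [← hc']; group
    have e3 : b₀ * b⁻¹ = b⁻¹ * b₀ := by
      rw [mul_inv_eq_iff_eq_mul, mul_assoc, ← h8, inv_mul_cancel_left]
    have e4 : c₀ * b⁻¹ = b⁻¹ * c₀ := by
      rw [mul_inv_eq_iff_eq_mul, mul_assoc, h6, inv_mul_cancel_left]
    symm
    calc b₀ * (t⁻¹ * (b * t * b⁻¹)) = b₀ * t⁻¹ * b * t * b⁻¹ := by group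
      _ = c₀⁻¹ * t⁻¹ * (b₀ * b) * t * b⁻¹ := by rw [e2]; group
      _ = c₀⁻¹ * t⁻¹ * b * (b₀ * t) * b⁻¹ := by rw [← h8]; group
      _ = c₀⁻¹ * t⁻¹ * b * t * c₀ * (b₀ * b⁻¹) := by rw [e1]; group
      _ = c₀⁻¹ * t⁻¹ * b * t * (c₀ * b⁻¹) * b₀ := by rw [e3]; group
      _ = c₀⁻¹ * (t⁻¹ * (b * t * b⁻¹) * c₀) * b₀ := by rw [e4]; group
      _ = _ := by rw [h7]; group)
  simp only [mul_smul] at h9
  rwa [inv_fix (h.fix hb), inv_smul_eq_iff] at h9

theorem cm_mem {x y : X} (hxy : x ≠ y) {b t : G} (hb : b ∈ N y) (hbx : b • x = x) (ht : t ∈ N x) :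
    t * b * t⁻¹ * b⁻¹ ∈ Ax N x y := by
  refine ⟨by simpa [mul_assoc] using mul_mem ht (h.conj' hbx (inv_mem ht)), ?_⟩
  simp only [mul_smul]
  rw [inv_fix (h.fix hb), h.fa hxy hb hbx (inv_mem ht), smul_inv_smul]

theorem cm_inj {y : X} {b b' t : G} (hb : b ∈ N y) (hb' : b' ∈ N y) (ht : t • y ≠ y)
    (e : t * b * t⁻¹ * b⁻¹ = t * b' * t⁻¹ * b'⁻¹) : b = b' := by
  by_contra h1
  refine ht (h.cfix (mul_mem (inv_mem hb') hb) (fun e => h1 (inv_mul_eq_one.1 e).symm) ?_)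
  have h2 := h.comm (inv_mem hb') hb
  calc t * (b'⁻¹ * b) = t * b'⁻¹ * t⁻¹ * (t * b * t⁻¹ * b⁻¹) * b * t := by group
    _ = b'⁻¹ * b * t := by rw [e]; group

theorem cm_surj {x y : X} (hxy : x ≠ y) {t : G} (ht : t ∈ N x) (hty : t • y ≠ y) {a : G}
    (ha : a ∈ Ax N x y) : ∃ b ∈ Ax N y x, t * b * t⁻¹ * b⁻¹ = a := by
  let f : Ax N y x → Ax N x y := fun b => ⟨_, h.cm_mem hxy b.2.1 b.2.2 ht⟩
  have hf : Function.Injective f := fun b b' e =>
    Subtype.ext (h.cm_inj b.2.1 b'.2.1 hty (congrArg Subtype.val e))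
  obtain ⟨b, hb⟩ := ((Nat.bijective_iff_injective_and_card f).2 ⟨hf, h.A_card hxy.symm hxy⟩).2
    ⟨a, ha⟩
  exact ⟨b, b.2, congrArg Subtype.val hb⟩

theorem A_orb {x y : X} (hxy : x ≠ y) {t : G} (ht : t ∈ N x) (hty : t • y ≠ y) :
    Ax N y x = Ax N y (t • y) :=
  h.A_eq hxy.symm hty.symm fun _ hb => ⟨hb.1, h.fa hxy hb.1 hb.2 ht⟩

theorem fc {x y w : X} {s t : G} (hs : s ∈ N y) (hsx : s • x = x) (hsw : s • w = w)
    (ht : t ∈ N x) : s • t • w = t • w := by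
  by_cases hxy : x = y
  · subst hxy; rw [← mul_smul, h.comm hs ht, mul_smul, hsw]
  by_contra h1
  set z := t • w with hz
  have hzy : y ≠ z := fun e => h1 (e ▸ h.fix hs)
  have hzx : x ≠ z := fun e => h1 (e ▸ hsx)
  have h2 : (s * t * s⁻¹ * t⁻¹) • z = s • z := by
    simp only [mul_smul, hz, inv_smul_smul, inv_fix hsw]
  have h3 := h.A_orb hzx (mul_mem (h.conj' hsx ht) (inv_mem ht)) (h2 ▸ h1)
  rw [h2, ← h.A_orb hzy hs h1] at h3
  have h4 : Ax N y z = Ax N y x := h.A_eq hzy (Ne.symm hxy) fun a ha => ⟨ha.1, by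
    obtain ⟨d, hd, rfl⟩ := h.cm_surj hzy hs h1 ha
    have h5 : d • x = x := (h3 ▸ hd : d ∈ Ax N z x).2
    simp only [mul_smul, inv_fix h5, inv_fix hsx, h5, hsx]⟩
  exact h1 (h4 ▸ ⟨hs, hsx⟩ : s ∈ Ax N y z).2

theorem cm_fix {x y u : X} {b t : G} (hb : b ∈ N y) (hbx : b • x = x) (ht : t ∈ N x)
    (hu : b • u = u) : (t * b * t⁻¹ * b⁻¹) • u = u := by
  simp only [mul_smul]
  rw [inv_fix hu, h.fc hb hbx hu (inv_mem ht), smul_inv_smul]

theorem fix_of_cm {x y u : X} (hxy : x ≠ y) {b t : G} (hb : b ∈ N y) (hbx : b • x = x)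
    (ht : t ∈ N x) (hty : t • y ≠ y) (hu : (t * b * t⁻¹ * b⁻¹) • u = u) : b • u = u := by
  have key : ∀ {x y : X}, x ≠ y → ∀ t ∈ N x, t • y ≠ y →
      ∃ f : ↥(Ax N y x ⊓ stabilizer G u) → ↥(Ax N x y ⊓ stabilizer G u), Function.Injective f ∧
        ∀ b, (f b : G) = t * b * t⁻¹ * b⁻¹ := fun hxy t ht hty =>
    ⟨fun b => ⟨_, h.cm_mem hxy b.2.1.1 b.2.1.2 ht, h.cm_fix b.2.1.1 b.2.1.2 ht b.2.2⟩,
      fun b b' e => Subtype.ext (h.cm_inj b.2.1.1 b'.2.1.1 hty (congrArg Subtype.val e)),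
      fun _ => rfl⟩
  obtain ⟨f, hf, h1⟩ := key hxy t ht hty
  obtain ⟨t', ht', h2⟩ := h.move hxy.symm
  obtain ⟨f', hf', -⟩ := key hxy.symm t' ht' h2
  obtain ⟨b', hb'⟩ := ((Nat.bijective_iff_injective_and_card f).2 ⟨hf, le_antisymm
    (Nat.card_le_card_of_injective f hf) (Nat.card_le_card_of_injective f' hf')⟩).2
    ⟨_, h.cm_mem hxy hb hbx ht, hu⟩
  have := h.cm_inj b'.2.1.1 hb hty ((h1 b').symm.trans (congrArg Subtype.val hb'))
  exact this ▸ b'.2.2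

theorem big_symm {x y z : X} (hxy : x ≠ y) (hb : ∀ a ∈ Ax N x y, a • z = z) :
    ∀ b ∈ Ax N y x, b • z = z := fun b hb' => by
  obtain ⟨t, ht, h1⟩ := h.move hxy
  exact h.fix_of_cm hxy hb'.1 hb'.2 ht h1 (hb _ (h.cm_mem hxy hb'.1 hb'.2 ht))

theorem big_swap {x y z : X} (hxy : x ≠ y) (hxz : x ≠ z) (hb : ∀ a ∈ Ax N x y, a • z = z) :
    Ax N x y = Ax N x z := h.A_eq hxy hxz fun a ha => ⟨ha.1, hb a ha⟩

end Fam

end Cfsg.Agent.H19.ON
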