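import Cfsg.Agent.H19.ONc

/-! Lines and hyperplanes in O'Nan's geometry. -/

set_option autoImplicit false

namespace Cfsg.Agent.H19.ON

open Subgroup MulAction

variable {G X : Type*} [Group G] [Finite G] [MulAction G X] [Finite X]

/-- orbit of a point under a subgroup -/
def Ob (K : Subgroup G) (y : X) : Set X := {z | ∃ t ∈ K, t • y = z}

/-- the line through two points -/
def Ln (N : X → Subgroup G) (x y : X) : Set X := insert x (Ob (N x) y)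

omit [Finite G] [Finite X] in
theorem card_Ob (K D : Subgroup G) (y : X) (hD : ∀ g, g ∈ D ↔ g ∈ K ∧ g • y = y) :
    Nat.card K = (Ob K y).ncard * Nat.card D := by
  have h1 : Ob K y = orbit K y := Set.ext fun z =>
    ⟨fun ⟨t, ht, e⟩ => ⟨⟨t, ht⟩, e⟩, fun ⟨t, e⟩ => ⟨t, t.2, e⟩⟩
  have h2 : D = (stabilizer K y).map K.subtype := Subgroup.ext fun g => (hD g).trans
    ⟨fun ⟨h1, h2⟩ => ⟨⟨g, h1⟩, h2, rfl⟩, fun ⟨t, h1, e⟩ => e ▸ ⟨t.2, h1⟩⟩
  rw [h1, h2, card_map_of_injective K.subtype_injective, ← Nat.card_coe_set_eq,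
    Nat.card_congr (orbitEquivQuotientStabilizer K y), ← card_eq_card_quotient_mul_card_subgroup]

/-- an element with maximal fixed point set -/
structure Hy (N : X → Subgroup G) (s : G) (y : X) : Prop where
  mem : s ∈ N y
  ne : s ≠ 1
  max : ∀ y' s', s' ∈ N y' → s' ≠ 1 → (fixedBy X s').ncard ≤ (fixedBy X s).ncard

/-- elations with centre `u` and axis the fixed point set of `s` -/
def Tx (N : X → Subgroup G) (s : G) (u : X) : Subgroup G where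
  carrier := {g | g ∈ N u ∧ ∀ w : X, s • w = w → g • w = w}
  one_mem' := ⟨one_mem _, fun _ _ => one_smul _ _⟩
  mul_mem' := fun ha hb => ⟨mul_mem ha.1 hb.1, fun w hw => by rw [mul_smul, hb.2 w hw, ha.2 w hw]⟩
  inv_mem' := fun ha => ⟨inv_mem ha.1, fun w hw => inv_fix (ha.2 w hw)⟩

namespace Fam
variable {N : X → Subgroup G} (h : Fam N)
include h

omit [Finite G] [Finite X] in
theorem Ob_conj (g : G) {x y z : X} (hz : z ∈ Ob (N x) y) : g • z ∈ Ob (N (g • x)) (g • y) := by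
  obtain ⟨t, ht, rfl⟩ := hz
  exact ⟨_, h.conj g x t ht, by simp [mul_smul]⟩

omit [Finite G] [Finite X] in
theorem Ln_conj (g : G) {x y z : X} (hz : z ∈ Ln N x y) : g • z ∈ Ln N (g • x) (g • y) := by
  rcases hz with rfl | hz
  exacts [Or.inl rfl, Or.inr (h.Ob_conj g hz)]

omit [Finite G] in
theorem q_eq {x y u v : X} (hxy : x ≠ y) (huv : u ≠ v) :
    (Ob (N x) y).ncard = (Ob (N u) v).ncard := by
  have key : ∀ {x y u v : X}, x ≠ y → u ≠ v → (Ob (N x) y).ncard ≤ (Ob (N u) v).ncard := by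
    intro x y u v hxy huv
    obtain ⟨g, rfl, rfl⟩ := h.two hxy huv
    exact Set.ncard_le_ncard_of_injOn (g • ·) (fun z hz => h.Ob_conj g hz)
      (MulAction.injective g).injOn
  exact le_antisymm (key hxy huv) (key huv hxy)

omit [Finite G] in
theorem q_two {x y : X} (hxy : x ≠ y) : 2 ≤ (Ob (N x) y).ncard := by
  obtain ⟨t, ht, h1⟩ := h.move hxy
  exact (Set.one_lt_ncard_iff (Set.toFinite _)).2 ⟨_, _, ⟨t, ht, rfl⟩, ⟨1, one_mem _, one_smul _ _⟩, h1⟩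

omit [Finite G] [Finite X] in
theorem notMem_Ob {x y : X} (hxy : x ≠ y) : x ∉ Ob (N x) y := fun ⟨t, ht, e⟩ =>
  hxy (by rw [← inv_fix (h.fix ht), ← e, inv_smul_smul])

omit [Finite G] in
theorem card_Ln {x y : X} (hxy : x ≠ y) : (Ln N x y).ncard = (Ob (N x) y).ncard + 1 :=
  Set.ncard_insert_of_notMem (h.notMem_Ob hxy)

theorem utrick {x y z : X} (hxy : x ≠ y) {s t : G} (hs : s ∈ N y) (hsx : s • x = x)
    (hz : s • z ≠ z) (ht : t ∈ N x) : ∃ t' ∈ N x, (t' * s * t'⁻¹ * s⁻¹) • z = t • z := by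
  have hxz : x ≠ z := fun e => hz (e ▸ hsx)
  have : ∀ w : Ob (N x) y, ∃ t ∈ N x, t • y = w := fun w => w.2
  choose τ h1 h2 using this
  let φ : Ob (N x) y → Ob (N x) z := fun w => ⟨_, _, (h.cm_mem hxy hs hsx (h1 w)).1, rfl⟩
  have hφ : Function.Injective φ := fun w w' e => by
    have e1 : (τ w * s * (τ w)⁻¹ * s⁻¹) • z = (τ w' * s * (τ w')⁻¹ * s⁻¹) • z :=
      congrArg Subtype.val e
    have hm := mul_mem (inv_mem (h1 w')) (h1 w)
    by_contra h3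
    refine hz (h.fix_of_cm hxy hs hsx hm (fun e => h3 (Subtype.ext ?_)) ?_)
    · rw [mul_smul, inv_smul_eq_iff] at e
      rw [← h2, e, h2]
    · have h4 := h.comm (h.conj' hsx (h1 w')) (mul_mem hm (h.conj' hsx (inv_mem (h1 w))))
      have h5 : (τ w')⁻¹ * τ w * s * ((τ w')⁻¹ * τ w)⁻¹ * s⁻¹ =
          (τ w' * s * (τ w')⁻¹ * s⁻¹)⁻¹ * (τ w * s * (τ w)⁻¹ * s⁻¹) := by
        calc _ = (τ w')⁻¹ * τ w * (s * (τ w)⁻¹ * s⁻¹) * (s * τ w' * s⁻¹) := by group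
          _ = _ := by rw [← h4]; group
      rw [h5, mul_smul, e1, inv_smul_smul]
  obtain ⟨w, hw⟩ := ((Nat.bijective_iff_injective_and_card φ).2 ⟨hφ, by
    rw [Nat.card_coe_set_eq, Nat.card_coe_set_eq, h.q_eq hxy hxz]⟩).2 ⟨_, t, ht, rfl⟩
  exact ⟨τ w, h1 w, congrArg Subtype.val hw⟩

theorem A_trans {x y z : X} (hxy : x ≠ y) (hb : ¬ ∀ a ∈ Ax N x y, a • z = z) {t : G}
    (ht : t ∈ N x) : ∃ a ∈ Ax N x y, a • z = t • z := by
  have := mt (h.big_symm hxy.symm) hb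
  push Not at this
  obtain ⟨s, hs, h1⟩ := this
  obtain ⟨t', h2, h3⟩ := h.utrick hxy hs.1 hs.2 h1 ht
  exact ⟨_, h.cm_mem hxy hs.1 hs.2 h2, h3⟩

omit [Finite G] in
theorem Hy_conj {s : G} {y : X} (hy : Hy N s y) (g : G) : Hy N (g * s * g⁻¹) (g • y) :=
  ⟨h.conj g y s hy.mem, by simpa using hy.ne, fun y' s' h1 h2 => (hy.max y' s' h1 h2).trans
    (Set.ncard_le_ncard_of_injOn (g • ·) (fun z hz => by
      simp only [mem_fixedBy, mul_smul, inv_smul_smul] at hz ⊢; rw [hz])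
      (MulAction.injective g).injOn)⟩

omit [Finite G] in
theorem Hy_two {s : G} {y : X} (hy : Hy N s y) (u : X) : ∃ v, v ≠ u ∧ s • v = v := by
  obtain ⟨x, x', n, h1, h2, h3, h4⟩ := h.ns
  have h5 : 1 < (fixedBy X n).ncard :=
    (Set.one_lt_ncard_iff (Set.toFinite _)).2 ⟨x, x', h.fix h2, h4, h1⟩
  exact (Set.exists_ne_of_one_lt_ncard (h5.trans_le (hy.max x n h2 h3)) u).imp
    fun _ h => ⟨h.2, h.1⟩

theorem exists_Hy {x x' : X} (hx : x ≠ x') : ∃ s y, Hy N s y ∧ s • x = x ∧ s • x' = x' := by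
  obtain ⟨a, ha, h1⟩ := h.A_nt hx
  obtain ⟨⟨s, y⟩, ⟨h2, h3⟩, h4⟩ := Set.exists_max_image {p : G × X | p.1 ∈ N p.2 ∧ p.1 ≠ 1}
    (fun p => (fixedBy X p.1).ncard) (Set.toFinite _) ⟨(a, x), ha.1, h1⟩
  have hy : Hy N s y := ⟨h2, h3, fun y' s' h5 h6 => h4 (s', y') ⟨h5, h6⟩⟩
  obtain ⟨v, hv, h5⟩ := h.Hy_two hy y
  obtain ⟨g, rfl, rfl⟩ := h.two hv hx
  exact ⟨_, _, h.Hy_conj hy g, by simp [mul_smul, h5], by simp [mul_smul, h.fix h2]⟩

omit [Finite X] in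
theorem Ln_fix {x y z c : X} {s : G} (hs : s ∈ N c) (hx : s • x = x) (hy : s • y = y)
    (hz : z ∈ Ln N x y) : s • z = z := by
  rcases hz with rfl | ⟨t, ht, rfl⟩
  exacts [hx, h.fc hs hx hy ht]

section H
variable {s : G} {y : X} (hy : Hy N s y)
include hy

omit [Finite G] h in
theorem T_fix {u z : X} {g : G} (hg : g ∈ Tx N s u) (h1 : g ≠ 1) (hz : g • z = z) : s • z = z := by
  have : fixedBy X s = fixedBy X g :=
    Set.eq_of_subset_of_ncard_le (fun w hw => hg.2 w hw) (hy.max u g hg.1 h1)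
  exact (this ▸ hz : z ∈ fixedBy X s)

omit [Finite G] [Finite X] in
theorem H_out : ∃ z : X, s • z ≠ z := by
  by_contra h1
  push Not at h1
  exact hy.ne (h.faith s h1)

omit [Finite X] hy in
theorem T_cm {x u : X} (hx : s • x = x) {t b : G} (ht : t ∈ N x) (hb : b ∈ Tx N s u) :
    t * b * t⁻¹ * b⁻¹ ∈ Tx N s x :=
  ⟨by simpa [mul_assoc] using mul_mem ht (h.conj' (hb.2 x hx) (inv_mem ht)),
    fun w hw => h.cm_fix hb.1 (hb.2 x hx) ht (hb.2 w hw)⟩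

omit [Finite X] in
theorem T_nt {u : X} (hu : s • u = u) : ∃ b ∈ Tx N s u, b ≠ 1 := by
  by_cases huy : u = y
  · exact ⟨s, ⟨huy ▸ hy.mem, fun _ h => h⟩, hy.ne⟩
  obtain ⟨t, ht, h1⟩ := h.move huy
  exact ⟨_, h.T_cm hu ht (u := y) ⟨hy.mem, fun _ h => h⟩, fun e => hy.ne
    (h.cm_inj hy.mem (one_mem _) h1 (by rw [e]; simp))⟩

theorem T_reg {u z : X} (hu : s • u = u) (hz : s • z ≠ z) {t : G} (ht : t ∈ N u) :
    ∃ a ∈ Tx N s u, a • z = t • z := by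
  obtain ⟨v, hv, h1⟩ := h.Hy_two hy u
  obtain ⟨b, hb, h2⟩ := h.T_nt hy h1
  obtain ⟨t', h3, h4⟩ := h.utrick hv.symm hb.1 (hb.2 u hu) (fun e => hz (T_fix hy hb h2 e)) ht
  exact ⟨_, h.T_cm hu h3 hb, h4⟩

theorem T_card {u x x' : X} (hu : s • u = u) (hx : x ≠ x') :
    Nat.card (Tx N s u) = (Ob (N x) x').ncard := by
  obtain ⟨z, hz⟩ := h.H_out hy
  rw [card_Ob (Tx N s u) ⊥ z fun g => ⟨fun e => by simp [mem_bot.1 e], fun e => by
    by_contra h1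
    exact hz (T_fix hy e.1 h1 e.2)⟩, card_bot, mul_one, h.q_eq hx (v := z) fun e => hz (e ▸ hu)]
  congr 1
  exact Set.ext fun w => ⟨fun ⟨t, ht, e⟩ => ⟨t, ht.1, e⟩, fun ⟨t, ht, e⟩ => e ▸ h.T_reg hy hu hz ht⟩

omit [Finite X] hy in
theorem T_comm {u v : X} (hu : s • u = u) (hv : s • v = v) {a b : G} (ha : a ∈ Tx N s u)
    (hb : b ∈ Tx N s v) : a * b = b * a := by
  by_cases huv : u = v
  · exact h.comm ha.1 (huv ▸ hb.1)
  · exact h.ab_comm huv ha.1 (ha.2 v hv) hb.1 (hb.2 u hu)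

omit [Finite X] in
theorem T_conj {x u : X} (hx : s • x = x) {t b : G} (ht : t ∈ N x) (hb : b ∈ Tx N s u) :
    t * b * t⁻¹ ∈ Tx N s (t • u) :=
  ⟨h.conj t u b hb.1, fun w hw => by
    rw [mul_smul, mul_smul, hb.2 _ (h.fc hy.mem hx hw (inv_mem ht)), smul_inv_smul]⟩

omit [Finite X] in
theorem T_le {x v w : X} (hx : s • x = x) (hw : w ∈ Ln N x v) {e : G} (he : e ∈ Tx N s w) :
    ∃ a ∈ Tx N s x, ∃ b ∈ Tx N s v, e = a * b := by
  rcases hw with rfl | ⟨t, ht, rfl⟩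
  · exact ⟨e, he, 1, one_mem _, (mul_one e).symm⟩
  have h1 := h.T_conj hy hx (inv_mem ht) he
  rw [inv_smul_smul] at h1
  exact ⟨_, h.T_cm hx ht h1, _, h1, by group⟩

theorem cover {x v : X} (hxv : x ≠ v) (hx : s • x = x) (hv : s • v = v) :
    Ln N v x ⊆ Ln N x v ∧
      ∀ a ∈ Tx N s x, ∀ b ∈ Tx N s v, ∃ w ∈ Ln N x v, a * b ∈ Tx N s w := by
  let φ := (Tx N s x).subtype.noncommCoprod (Tx N s v).subtype
    fun a b => h.T_comm hx hv a.2 b.2
  have hR : Nat.card φ.range ≤ (Ob (N x) v).ncard * (Ob (N x) v).ncard := by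
    refine (Nat.card_le_card_of_surjective _ φ.rangeRestrict_surjective).trans ?_
    rw [Nat.card_prod, h.T_card hy hx hxv, h.T_card hy hv hxv]
  have key := fun (I : Set X) (hI : I ⊆ Ln N x v ∪ Ln N v x) =>
    card_cover (Set.toFinite I).toFinset (Tx N s) ⊥ φ.range (Ob (N x) v).ncard bot_le
      (fun _ _ => bot_le) (fun w hw e he => by
        rcases hI ((Set.Finite.mem_toFinset _).1 hw) with hw | hw
        · obtain ⟨a, ha, b, hb, rfl⟩ := h.T_le hy hx hw he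
          exact ⟨(⟨a, ha⟩, ⟨b, hb⟩), rfl⟩
        · obtain ⟨a, ha, b, hb, rfl⟩ := h.T_le hy hv hw he
          exact ⟨(⟨b, hb⟩, ⟨a, ha⟩), h.T_comm hx hv hb ha⟩)
      (fun i _ j _ hij g hg => h.ti hij hg.1.1 hg.2.1) fun w hw => h.T_card hy (by
        rcases hI ((Set.Finite.mem_toFinset _).1 hw) with hw | hw
        exacts [h.Ln_fix hy.mem hx hv hw, h.Ln_fix hy.mem hv hx hw]) hxv
  have h1 := (key _ subset_rfl).1
  have h2 := (key _ Set.subset_union_left).2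
  have h3 := h.card_Ln hxv
  have h4 := h.q_two hxv
  rw [card_bot, ← Set.ncard_eq_toFinset_card] at h1 h2
  rw [h3] at h2
  obtain ⟨q, hq⟩ : ∃ q, (Ob (N x) v).ncard = q + 1 := ⟨_, (Nat.sub_add_cancel (by omega)).symm⟩
  clear key
  rw [hq] at h1 h2 h3 h4 hR
  rw [Nat.add_sub_cancel] at h1 h2
  refine ⟨Set.union_eq_left.1 (Set.eq_of_subset_of_ncard_le Set.subset_union_left ?_).symm,
    fun a ha b hb => ?_⟩
  · rw [h3]
    by_contra h5
    nlinarith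
  · rcases h2 (by nlinarith) (a * b) ⟨(⟨a, ha⟩, ⟨b, hb⟩), rfl⟩ with e | ⟨w, hw, e⟩
    · exact ⟨x, Or.inl rfl, mem_bot.1 e ▸ one_mem _⟩
    · exact ⟨w, (Set.Finite.mem_toFinset _).1 hw, e⟩

end H

theorem Ln_symm {x y : X} (hxy : x ≠ y) : Ln N x y = Ln N y x := by
  obtain ⟨s, c, hy, h1, h2⟩ := h.exists_Hy hxy
  exact (h.cover hy hxy.symm h2 h1).1.antisymm (h.cover hy hxy h1 h2).1

omit [Finite G] [Finite X] h in
theorem Ln_of_mem {x y u : X} (hu : u ∈ Ln N x y) (hux : u ≠ x) : Ln N x u = Ln N x y := by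
  obtain ⟨t, ht, rfl⟩ := hu.resolve_left hux
  unfold Ln
  congr 1
  exact Set.ext fun z => ⟨fun ⟨t', h1, e⟩ => ⟨t' * t, mul_mem h1 ht, by rw [mul_smul, e]⟩,
    fun ⟨t', h1, e⟩ => ⟨t' * t⁻¹, mul_mem h1 (inv_mem ht), by rw [mul_smul, inv_smul_smul, e]⟩⟩

omit [Finite G] [Finite X] h in
theorem right_mem (x y : X) : y ∈ Ln N x y := Or.inr ⟨1, one_mem _, one_smul _ _⟩

theorem Ln_eq {x y u v : X} (hu : u ∈ Ln N x y) (hv : v ∈ Ln N x y) (huv : u ≠ v) :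
    Ln N u v = Ln N x y := by
  by_cases hux : u = x
  · subst hux; exact Ln_of_mem hv huv.symm
  rw [← Ln_of_mem hu hux, h.Ln_symm (Ne.symm hux)] at hv ⊢
  exact Ln_of_mem hv huv.symm

theorem hyper {s : G} {y : X} (hy : Hy N s y) {z w : X} (hzw : z ≠ w) :
    ∃ c ∈ Ln N z w, s • c = c := by
  by_contra h0
  push Not at h0
  have hz := h0 z (Or.inl rfl)
  have hw := h0 w (right_mem z w)
  obtain ⟨u, hu, hb⟩ : ∃ u : X, s • u = u ∧ ¬ ∀ a ∈ Ax N u z, a • w = w := by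
    by_contra h1
    push Not at h1
    obtain ⟨v, hv, h2⟩ := h.Hy_two hy y
    have k : ∀ u : X, s • u = u → Ax N z w = Ax N z u := fun u hu => by
      have huz : u ≠ z := fun e => hz (e ▸ hu)
      exact (h.big_swap huz.symm hzw (h.big_symm huz (h1 u hu))).symm
    have hyz : y ≠ z := fun e => hz (e ▸ h.fix hy.mem)
    have h3 : ∀ a ∈ Ax N z y, a • v = v := fun a ha =>
      (((k y (h.fix hy.mem)).symm.trans (k v h2)) ▸ ha : a ∈ Ax N z v).2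
    have h4 := h.big_swap hyz hv.symm (h.big_symm hyz.symm h3)
    exact hz (h4 ▸ ⟨hy.mem, h2⟩ : s ∈ Ax N y z).2
  have hne : ∀ c ∈ Ln N z w, u ≠ c := fun c hc e => h0 c hc (e ▸ hu)
  have huz := hne z (Or.inl rfl)
  have huw := hne w (right_mem z w)
  have hD : Nat.card (Ax N u z) =
      (Ob (N u) z).ncard * Nat.card ↥(Ax N u z ⊓ stabilizer G w) := by
    rw [card_Ob (Ax N u z) (Ax N u z ⊓ stabilizer G w) w fun g => Iff.rfl, h.q_eq huz huw]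
    congr 2
    exact Set.ext fun x => ⟨fun ⟨t, ht, e⟩ => ⟨t, ht.1, e⟩,
      fun ⟨t, ht, e⟩ => e ▸ h.A_trans huz hb ht⟩
  have hN := card_Ob (N u) (Ax N u z) z fun g => Iff.rfl
  have key := (card_cover (Set.toFinite (Ln N z w)).toFinset (Ax N u) (Ax N u z ⊓ stabilizer G w)
    (N u) _ (fun g hg => hg.1.1) (fun c hc g hg =>
      ⟨hg.1.1, h.Ln_fix hg.1.1 hg.1.2 hg.2 ((Set.Finite.mem_toFinset _).1 hc)⟩)
    (fun _ _ => Ax_le) (fun c hc c' hc' hcc g hg => by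
      have e := h.Ln_eq ((Set.Finite.mem_toFinset _).1 hc) ((Set.Finite.mem_toFinset _).1 hc') hcc
      exact ⟨⟨hg.1.1, h.Ln_fix hg.1.1 hg.1.2 hg.2.2 (e ▸ Or.inl rfl)⟩,
        h.Ln_fix hg.1.1 hg.1.2 hg.2.2 (e ▸ right_mem z w)⟩)
    (fun c hc => h.A_card (hne c ((Set.Finite.mem_toFinset _).1 hc)) huz)).2
  rw [← Set.ncard_eq_toFinset_card, h.card_Ln hzw, h.q_eq hzw huz, hN, hD] at key
  obtain ⟨q, hq⟩ : ∃ q, (Ob (N u) z).ncard = q + 1 :=
    ⟨_, (Nat.sub_add_cancel (by have := h.q_two huz; omega)).symm⟩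
  obtain ⟨b, hb, h1⟩ := h.T_nt hy hu
  rw [hq, add_mul q 1 (Nat.card _), one_mul, Nat.add_sub_cancel] at key
  rcases key (le_of_eq (by ring)) b hb.1 with e | ⟨c, hc, e⟩
  · exact hz (T_fix hy hb h1 e.1.2)
  · exact h0 c ((Set.Finite.mem_toFinset _).1 hc) (T_fix hy hb h1 e.2)

end Fam

end Cfsg.Agent.H19.ON
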