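import Cfsg.Agent.H19.ONd

/-! The translation group of a hyperplane in O'Nan's geometry and its field. -/

set_option autoImplicit false

namespace Cfsg.Agent.H19.ON

open Subgroup MulAction

theorem cm_mul_left {G : Type*} [Group G] {a b x : G} (h : b * (x * a⁻¹ * x⁻¹) = x * a⁻¹ * x⁻¹ * b)
    (h' : x * a⁻¹ * x⁻¹ * (x * b⁻¹ * x⁻¹) = x * b⁻¹ * x⁻¹ * (x * a⁻¹ * x⁻¹)) :
    a * b * x * (a * b)⁻¹ * x⁻¹ = a * x * a⁻¹ * x⁻¹ * (b * x * b⁻¹ * x⁻¹) := by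
  calc _ = a * b * (x * b⁻¹ * x⁻¹ * (x * a⁻¹ * x⁻¹)) := by group
    _ = a * (b * (x * a⁻¹ * x⁻¹)) * (x * b⁻¹ * x⁻¹) := by rw [← h']; group
    _ = _ := by rw [h]; group

theorem cm_mul_right {G : Type*} [Group G] {a x y : G}
    (h : a * y * a⁻¹ * y⁻¹ * x⁻¹ = x⁻¹ * (a * y * a⁻¹ * y⁻¹)) :
    a * (x * y) * a⁻¹ * (x * y)⁻¹ = a * x * a⁻¹ * x⁻¹ * (a * y * a⁻¹ * y⁻¹) := by
  calc _ = a * x * a⁻¹ * (a * y * a⁻¹ * y⁻¹ * x⁻¹) := by group
    _ = _ := by rw [h]; group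

theorem cm_cm {G : Type*} [Group G] {x σ τ a e m κ : G} (ha : a = σ * x * σ⁻¹ * x⁻¹)
    (he : e = τ * x * τ⁻¹ * x⁻¹) (hm : m = τ * a * τ⁻¹ * a⁻¹) (hκ : κ = τ * σ * τ⁻¹ * σ⁻¹)
    (h1 : σ * e = e * σ) (h2 : κ * e = e * κ) (h3 : κ * a = a * κ) (h4 : a * e = e * a)
    (h5 : m * a = a * m) (h6 : m * e = e * m) : m = κ * x * κ⁻¹ * x⁻¹ := by
  have e1 : κ * (σ * τ) * x * (κ * (σ * τ))⁻¹ = e * a * (κ * x * κ⁻¹) := by
    calc _ = κ * (σ * e) * x * σ⁻¹ * κ⁻¹ := by rw [he]; group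
      _ = κ * e * a * x * κ⁻¹ := by rw [h1, ha]; group
      _ = _ := by rw [h2, mul_assoc e, h3]; group
  have e2 : κ * (σ * τ) * x * (κ * (σ * τ))⁻¹ = e * a * (m * x) := by
    calc _ = m * (a * e) * x := by rw [hκ, hm, he]; nth_rewrite 1 [ha]; group
      _ = _ := by rw [h4, ← mul_assoc, h6, mul_assoc e, h5]; group
  rw [mul_left_cancel (e1.symm.trans e2), mul_inv_cancel_right]

variable {G X : Type*} [Group G] [Finite G] [MulAction G X] [Finite X]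

namespace Fam
variable {N : X → Subgroup G} (h : Fam N) {s : G} {y : X} (hy : Hy N s y)

/-- the translation group of the hyperplane -/
def TH : Subgroup G where
  carrier := {g | ∃ u, s • u = u ∧ g ∈ Tx N s u}
  one_mem' := ⟨y, h.fix hy.mem, one_mem _⟩
  mul_mem' := by
    rintro a b ⟨u, hu, ha⟩ ⟨v, hv, hb⟩
    by_cases huv : u = v
    · exact ⟨u, hu, mul_mem ha (huv ▸ hb)⟩
    obtain ⟨w, hw, e⟩ := (h.cover hy huv hu hv).2 a ha b hb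
    exact ⟨w, h.Ln_fix hy.mem hu hv hw, e⟩
  inv_mem' := fun ⟨u, hu, ha⟩ => ⟨u, hu, inv_mem ha⟩

theorem TH_comm {a b : G} (ha : a ∈ h.TH hy) (hb : b ∈ h.TH hy) : a * b = b * a := by
  obtain ⟨u, hu, ha⟩ := ha
  obtain ⟨v, hv, hb⟩ := hb
  exact h.T_comm hu hv ha hb

instance : CommGroup (h.TH hy) :=
  { (inferInstance : Group (h.TH hy)) with
    mul_comm := fun a b => Subtype.ext (h.TH_comm hy a.2 b.2) }

/-- the additive translation group -/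
abbrev VV := Additive (h.TH hy)

variable {h hy}

/-- the group element of a vector -/
def vg (v : h.VV hy) : G := (Additive.toMul v : h.TH hy)

theorem vg_mem (v : h.VV hy) : vg v ∈ h.TH hy := (Additive.toMul v).2
theorem vg_add (v w : h.VV hy) : vg (v + w) = vg v * vg w := rfl
theorem vg_neg (v : h.VV hy) : vg (-v) = (vg v)⁻¹ := rfl
theorem vg_zero : vg (0 : h.VV hy) = 1 := rfl
theorem vg_inj {v w : h.VV hy} (e : vg v = vg w) : v = w := Subtype.ext e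
theorem vg_fix (v : h.VV hy) {w : X} (hw : s • w = w) : vg v • w = w := by
  obtain ⟨u, -, hu⟩ := vg_mem v
  exact hu.2 w hw
theorem vg_semi {v : h.VV hy} {z : X} (hz : s • z ≠ z) (e : vg v • z = z) : v = 0 := by
  obtain ⟨u, -, hu⟩ := vg_mem v
  by_contra h1
  exact hz (T_fix hy hu (fun e => h1 (vg_inj e)) e)

variable (h hy)

/-- vector from a group element -/
def gv {u : X} (hu : s • u = u) {g : G} (hg : g ∈ Tx N s u) : h.VV hy :=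
  Additive.ofMul ⟨g, u, hu, hg⟩

/-- components -/
def TT (u : fixedBy X s) : AddSubgroup (h.VV hy) where
  carrier := {v | vg v ∈ Tx N s u}
  zero_mem' := (Tx N s u).one_mem
  add_mem' := fun ha hb => (Tx N s u).mul_mem ha hb
  neg_mem' := fun ha => (Tx N s u).inv_mem ha

theorem cm_T {c : X} (hc : s • c = c) {σ : G} (hσ : σ ∈ N c) (v : h.VV hy) :
    σ * vg v * σ⁻¹ * (vg v)⁻¹ ∈ Tx N s c := by
  obtain ⟨u, -, hu⟩ := vg_mem v
  exact h.T_cm hc hσ hu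

/-- shears -/
def SS (c : fixedBy X s) : AddSubgroup (AddMonoid.End (h.VV hy)) where
  carrier := {f | ∃ σ ∈ N c, ∀ v, vg (f v) = σ * vg v * σ⁻¹ * (vg v)⁻¹}
  zero_mem' := ⟨1, one_mem _, fun v => by simp [vg_zero]⟩
  add_mem' := by
    rintro f g ⟨σ, hσ, h1⟩ ⟨τ, hτ, h2⟩
    refine ⟨σ * τ, mul_mem hσ hτ, fun v => ?_⟩
    have h3 := vg_fix v c.2
    change vg (f v) * vg (g v) = _
    rw [h1, h2, cm_mul_left (h.comm hτ (h.conj' h3 (inv_mem hσ)))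
      (h.comm (h.conj' h3 (inv_mem hσ)) (h.conj' h3 (inv_mem hτ)))]
  neg_mem' := by
    rintro f ⟨σ, hσ, h1⟩
    refine ⟨σ⁻¹, inv_mem hσ, fun v => ?_⟩
    have h3 := h.comm (inv_mem hσ) (h.conj' (vg_fix v c.2) hσ)
    change (vg (f v))⁻¹ = _
    rw [h1, inv_inv, mul_assoc σ⁻¹, mul_assoc σ⁻¹, h3]
    group

theorem exists_f (c : fixedBy X s) {σ : G} (hσ : σ ∈ N c) :
    ∃ f ∈ h.SS hy c, ∀ v, vg (f v) = σ * vg v * σ⁻¹ * (vg v)⁻¹ := by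
  let f : AddMonoid.End (h.VV hy) := AddMonoidHom.mk' (fun v => h.gv hy c.2 (h.cm_T hy c.2 hσ v))
    fun v w => vg_inj (cm_mul_right (h.TH_comm hy ⟨c, c.2, h.cm_T hy c.2 hσ w⟩
      (inv_mem (vg_mem v))))
  exact ⟨f, ⟨σ, hσ, fun _ => rfl⟩, fun _ => rfl⟩

theorem perm_f {σ : G} {f : AddMonoid.End (h.VV hy)}
    (hf : ∀ v, vg (f v) = σ * vg v * σ⁻¹ * (vg v)⁻¹) (x : h.VV hy) :
    vg (x + f x) = σ * vg x * σ⁻¹ := by
  rw [add_comm, vg_add, hf, inv_mul_cancel_right]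

theorem card_TT (u : fixedBy X s) : Nat.card (h.TT hy u) = Nat.card (Tx N s u) :=
  Nat.card_congr ⟨fun v => ⟨vg v.1, v.2⟩, fun g => ⟨h.gv hy u.2 g.2, g.2⟩, fun _ => rfl, fun _ => rfl⟩

theorem sp : Sp (h.TT hy) (h.SS hy) where
  cov v := by
    obtain ⟨u, hu, h1⟩ := vg_mem v
    exact ⟨⟨u, hu⟩, h1⟩
  dis huc h1 h2 := vg_inj (h.ti (fun e => huc (Subtype.ext e)) h1.1 h2.1)
  nt u := by
    obtain ⟨b, hb, h1⟩ := h.T_nt hy u.2
    exact ⟨h.gv hy u.2 hb, hb, fun e => h1 (congrArg vg e)⟩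
  three u c := by
    obtain ⟨v, hv, h1⟩ := h.Hy_two hy u
    have h2 := h.card_Ln hv
    have h3 := h.q_two hv
    by_contra h4
    push Not at h4
    have := Set.ncard_le_ncard (s := Ln N v u) (t := {(u : X), (c : X)}) fun w hw => by
      by_cases hwu : w = u
      · exact Or.inl hwu
      · exact Or.inr (congrArg Subtype.val (h4 ⟨w, h.Ln_fix hy.mem h1 u.2 hw⟩
          fun e => hwu (congrArg Subtype.val e)))
    have := Set.ncard_insert_le (u : X) {(c : X)}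
    rw [Set.ncard_singleton] at this
    omega
  card u c := by
    obtain ⟨v, hv, -⟩ := h.Hy_two hy u
    rw [card_TT, card_TT, h.T_card hy u.2 hv, h.T_card hy c.2 hv]
  im := by
    rintro c f ⟨σ, hσ, h1⟩ v
    change vg (f v) ∈ Tx N s c
    exact (h1 v).symm ▸ h.cm_T hy c.2 hσ v
  kill := by
    rintro c f ⟨σ, hσ, h1⟩ v hv
    exact vg_inj (by rw [h1, h.comm hσ hv.1, vg_zero]; group)
  reg := by
    intro u c huc v hv h0 w hw
    obtain ⟨z, hz⟩ := h.H_out hy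
    obtain ⟨σ, hσ, h1⟩ := h.utrick (fun e => huc (Subtype.ext e.symm)) hv.1 (vg_fix v c.2)
      (fun e => h0 (vg_semi hz e)) hw.1
    obtain ⟨f, hf, h2⟩ := h.exists_f hy c hσ
    refine ⟨f, hf, (neg_add_eq_zero.1 (vg_semi hz ?_)).symm⟩
    rw [vg_add, vg_neg, h2, mul_smul, h1, inv_smul_smul]
  perm := by
    rintro c f ⟨σ, hσ, h1⟩ u
    refine ⟨⟨σ • u, h.fc hy.mem c.2 u.2 hσ⟩, fun x hx => ?_⟩
    change vg (x + f x) ∈ Tx N s (σ • u)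
    exact (h.perm_f hy h1 x).symm ▸ h.T_conj hy c.2 hσ hx

include h hy in
theorem not_big {u c d : X} (hu : s • u = u) (hc : s • c = c) (hd : s • d = d) (hcu : c ≠ u)
    (hn : d ∉ Ln N c u) : ¬ ∀ a ∈ Ax N c d, a • u = u := fun hb => by
  have hcd : c ≠ d := fun e => hn (e ▸ Or.inl rfl)
  have hdu : d ≠ u := fun e => hn (by rw [e]; exact right_mem c u)
  obtain ⟨σ, hσ, h1⟩ := h.move hcd
  obtain ⟨v, hv, h2⟩ := h.T_nt hy hu
  let f : Tx N s d → Tx N s c := fun b => ⟨_, h.T_cm hc hσ b.2⟩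
  have hf : Function.Injective f := fun b b' e =>
    Subtype.ext (h.cm_inj b.2.1 b'.2.1 h1 (congrArg Subtype.val e))
  obtain ⟨v', h3⟩ := ((Nat.bijective_iff_injective_and_card f).2 ⟨hf, by
    rw [h.T_card hy hd hcd, h.T_card hy hc hcd]⟩).2 ⟨_, h.T_cm hc hσ hv⟩
  have h4 : σ * v' * σ⁻¹ * (v' : G)⁻¹ = σ * v * σ⁻¹ * v⁻¹ := congrArg Subtype.val h3
  obtain ⟨w, hw, h5⟩ := (h.cover hy hdu hd hu).2 _ (inv_mem v'.2) v hv
  have h6 : σ • w = w := h.cfix h5.1 (fun e => h2 (h.ti hdu (inv_mul_eq_one.1 e ▸ v'.2.1) hv.1)) (by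
    have h7 := h.T_comm hd hu (inv_mem v'.2) hv
    calc σ * ((v' : G)⁻¹ * v) = σ * (v' : G)⁻¹ * σ⁻¹ * (σ * v * σ⁻¹ * v⁻¹) * v * σ := by group
      _ = _ := by rw [← h4]; group)
  by_cases hwc : c = w
  · subst hwc
    exact hn (h.Ln_eq hw (right_mem d u) hcu ▸ Or.inl rfl)
  have h7 := h.big_swap hcd hwc fun a ha => h.Ln_fix ha.1 ha.2 (hb a ha) hw
  exact h1 (h7 ▸ ⟨hσ, h6⟩ : σ ∈ Ax N c d).2

theorem star_nc {u c d : fixedBy X s} (hcu : c ≠ u) (hn : (d : X) ∉ Ln N c u) :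
    StarT (h.TT hy) (h.SS hy) u c d := by
  rintro f ⟨σ, hσ, h1⟩ g ⟨τ, hτ, h2⟩
  have hcu' : (c : X) ≠ u := fun e => hcu (Subtype.ext e)
  have hcd : (c : X) ≠ d := fun e => hn (e ▸ Or.inl rfl)
  obtain ⟨σ', h3, h4⟩ := h.A_trans hcd (h.not_big hy u.2 c.2 d.2 hcu' hn) hσ
  have hκ := h.cm_mem hcd.symm h3.1 h3.2 hτ
  obtain ⟨k, hk, h5⟩ := h.exists_f hy d hκ.1
  refine ⟨k, hk, fun x hx => vg_inj ?_⟩
  have h6 : σ * vg x * σ⁻¹ = σ' * vg x * σ'⁻¹ := by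
    have := h.ab_comm hcu' (mul_mem (inv_mem h3.1) hσ) (by rw [mul_smul, ← h4, inv_smul_smul])
      hx.1 (vg_fix x c.2)
    calc _ = σ' * (σ'⁻¹ * σ * vg x) * σ⁻¹ := by group
      _ = _ := by rw [this]; group
  have ha := h.cm_T hy c.2 h3.1 x
  have he := h.cm_T hy d.2 hτ x
  have hm := h.T_cm d.2 hτ ha
  rw [h2, h1, h5, h6]
  exact cm_cm rfl rfl rfl rfl (h.ab_comm hcd h3.1 h3.2 he.1 (he.2 c c.2)) (h.comm hκ.1 he.1)
    (h.ab_comm hcd.symm hκ.1 hκ.2 ha.1 (ha.2 d d.2)) (h.T_comm c.2 d.2 ha he)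
    (h.T_comm d.2 c.2 hm ha) (h.comm hm.1 he.1)

end Fam

end Cfsg.Agent.H19.ON
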