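import Cfsg.Agent.H19.ONe

/-! The field of O'Nan's geometry. -/

set_option autoImplicit false

namespace Cfsg.Agent.H19.ON

open Subgroup MulAction

namespace Sp
variable {V ι : Type*} [AddCommGroup V] {T : ι → AddSubgroup V}
  {S : ι → AddSubgroup (AddMonoid.End V)} (h : Sp T S)

/-- restriction of shears -/
def bb (u d : ι) : S d →+ T u →+ T d :=
  AddMonoidHom.mk' (fun f => AddMonoidHom.mk' (fun v => ⟨f.1 v, h.im f.2 v⟩)
    fun _ _ => Subtype.ext (map_add _ _ _)) fun _ _ => rfl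

theorem bb_bij [Finite V] {u d : ι} {f : S d} (hf : h.bb u d f ≠ 0) :
    Function.Bijective (h.bb u d f) :=
  (Nat.bijective_iff_injective_and_card _).2 ⟨(injective_iff_map_eq_zero _).2 fun v e => by
    by_contra h1
    exact hf (AddMonoidHom.ext fun x => Subtype.ext (h.inj f.2 v.2 (fun e => h1 (Subtype.ext e))
      (congrArg Subtype.val e) x.2)), h.card u d⟩

theorem bb_inv [Finite V] {u d : ι}
    (hcol : ∀ w, w ≠ u → ∃ σ ∈ S u, ∀ x ∈ T d, x + σ x ∈ T w) (hud : u ≠ d) :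
    ∀ f ∈ (h.bb u d).range, f ≠ 0 →
      ∃ g ∈ (h.bb d u).range, (∀ x, g (f x) = x) ∧ ∀ y, f (g y) = y := by
  rintro _ ⟨f, rfl⟩ hf
  obtain ⟨w, hw⟩ := h.perm f.2 u
  have hwu : w ≠ u := by
    rintro rfl
    exact hf (AddMonoidHom.ext fun x => Subtype.ext
      (h.dis (v := f.1 x) hud (by simpa using sub_mem (hw x x.2) x.2) (h.im f.2 x)))
  obtain ⟨g, hg, h1⟩ := hcol w hwu
  have key : ∀ x, h.bb d u ⟨g, hg⟩ (h.bb u d f x) = x := fun x => Subtype.ext (by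
    have h2 := sub_mem (h1 _ (h.im f.2 x)) (hw x x.2)
    have h3 : f.1 x + g (f.1 x) - (x + f.1 x) = g (f.1 x) - x := by abel
    rw [h3] at h2
    exact sub_eq_zero.1 (h.dis hwu h2 (sub_mem (h.im hg _) x.2)))
  refine ⟨_, ⟨⟨g, hg⟩, rfl⟩, key, fun y => ?_⟩
  obtain ⟨x, rfl⟩ := (h.bb_bij hf).2 y
  rw [key]

end Sp

variable {G X : Type*} [Group G] [Finite G] [MulAction G X] [Finite X]

namespace Fam
variable {N : X → Subgroup G} (h : Fam N) {s : G} {y : X} (hy : Hy N s y)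

section Plane
variable (hl : ∀ {u c w : X}, u ≠ c → s • u = u → s • c = c → s • w = w → w ∈ Ln N u c)
include hl

theorem pl_col {u d : fixedBy X s} (hud : u ≠ d) (w : fixedBy X s) (hw : w ≠ d) :
    ∃ σ ∈ h.SS hy d, ∀ x ∈ h.TT hy u, x + σ x ∈ h.TT hy w := by
  obtain ⟨σ, hσ, e⟩ := (hl (fun e => hud (Subtype.ext e.symm)) d.2 u.2 w.2).resolve_left
    fun e => hw (Subtype.ext e)
  obtain ⟨f, hf, h1⟩ := h.exists_f hy d hσ
  refine ⟨f, hf, fun x hx => ?_⟩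
  change vg (x + f x) ∈ Tx N s w
  rw [h.perm_f hy h1, ← e]
  exact h.T_conj hy d.2 hσ hx

theorem pl_ne {u d : fixedBy X s} (hud : u ≠ d) {f : h.SS hy d} (hf : f ≠ 0) :
    (h.sp hy).bb u d f ≠ 0 := fun e => hf (Subtype.ext (AddMonoidHom.ext fun v => by
  obtain ⟨w, hw, h1⟩ := vg_mem v
  obtain ⟨a, ha, b, hb, e1⟩ := h.T_le hy d.2
    (hl (fun e => hud (Subtype.ext e.symm)) d.2 u.2 hw) h1
  have e2 : v = h.gv hy d.2 ha + h.gv hy u.2 hb := vg_inj e1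
  have e3 : f.1 (h.gv hy u.2 hb) = 0 :=
    congrArg Subtype.val (DFunLike.congr_fun e (⟨h.gv hy u.2 hb, hb⟩ : h.TT hy u))
  change f.1 v = 0
  rw [e2, map_add, e3, (h.sp hy).kill f.2 ha, add_zero]))

theorem pl_flip {u d : fixedBy X s} (hud : u ≠ d) {v : h.TT hy u} (hv : v ≠ 0) :
    Function.Bijective (((h.sp hy).bb u d).flip v) :=
  ⟨(injective_iff_map_eq_zero _).2 fun f e => by
    by_contra h1
    exact hv (((h.sp hy).bb_bij (h.pl_ne hy hl hud h1)).1 (e.trans (map_zero _).symm)),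
  fun w => by
    obtain ⟨f, hf, e⟩ := (h.sp hy).reg hud v.2 (fun e => hv (Subtype.ext e)) w.2
    exact ⟨⟨f, hf⟩, Subtype.ext e⟩⟩

include h hy in
theorem pl_one {u d O w : X} (hud : u ≠ d) (hu : s • u = u) (hd : s • d = d) (hO : s • O ≠ O)
    (hw : w ∈ Ln N O u) (hwO : w ≠ O) {g : G} (hg : g ∈ N d) (h1 : g • O = O) (h2 : g • w = w) :
    g = 1 := by
  by_contra h3
  have h4 : g • u = u := h.Ln_fix hg h1 h2 (Ln_of_mem hw hwO ▸ right_mem O u)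
  exact hO (T_fix hy (u := d) ⟨hg, fun x hx => h.Ln_fix hg (h.fix hg) h4 (hl hud.symm hd hu hx)⟩
    h3 h1)

omit hl in
/-- the dual shears -/
def BB (d : fixedBy X s) (O : X) (hO : s • O ≠ O) : AddSubgroup (h.TT hy d →+ h.SS hy d) where
  carrier := {θ | ∃ c ∈ Ax N O d, ∀ a x, vg ((θ a).1 x) =
    vg a.1 * c * (vg a.1)⁻¹ * c⁻¹ * vg x * (vg a.1 * c * (vg a.1)⁻¹ * c⁻¹)⁻¹ * (vg x)⁻¹}
  zero_mem' := ⟨1, one_mem _, fun a x => by simp [vg_zero]⟩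
  add_mem' := by
    rintro f g ⟨c, hc, h1⟩ ⟨c', hc', h2⟩
    have hd : (d : X) ≠ O := fun e => hO (e ▸ d.2)
    refine ⟨c * c', mul_mem hc hc', fun a x => ?_⟩
    have h3 := vg_fix x d.2
    have m1 := h.cm_mem hd hc.1 hc.2 a.2.1
    have m2 := h.cm_mem hd hc'.1 hc'.2 a.2.1
    change vg ((f a).1 x) * vg ((g a).1 x) = _
    rw [h1, h2, cm_mul_right (h.ab_comm hd m2.1 m2.2 (inv_mem hc.1) (inv_fix hc.2)),
      cm_mul_left (h.comm m2.1 (h.conj' h3 (inv_mem m1.1)))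
      (h.comm (h.conj' h3 (inv_mem m1.1)) (h.conj' h3 (inv_mem m2.1)))]
  neg_mem' := by
    rintro f ⟨c, hc, h1⟩
    have hd : (d : X) ≠ O := fun e => hO (e ▸ d.2)
    refine ⟨c⁻¹, inv_mem hc, fun a x => ?_⟩
    have m1 := h.cm_mem hd hc.1 hc.2 a.2.1
    have h2 := h.ab_comm hd m1.1 m1.2 hc.1 hc.2
    have h4 : vg a.1 * c⁻¹ * (vg a.1)⁻¹ * c⁻¹⁻¹ = (vg a.1 * c * (vg a.1)⁻¹ * c⁻¹)⁻¹ := by
      calc _ = (vg a.1 * c * (vg a.1)⁻¹ * c⁻¹ * c)⁻¹ * c := by group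
        _ = _ := by rw [h2]; group
    change (vg ((f a).1 x))⁻¹ = _
    rw [h1, h4]
    generalize vg a.1 * c * (vg a.1)⁻¹ * c⁻¹ = σ at *
    have h3 := h.comm (inv_mem m1.1) (h.conj' (vg_fix x d.2) m1.1)
    rw [inv_inv, mul_assoc σ⁻¹, mul_assoc σ⁻¹, h3]
    group

omit hl in
theorem exists_BB (d : fixedBy X s) {O : X} (hO : s • O ≠ O) {c : G} (hc : c ∈ Ax N O d) :
    ∃ θ ∈ h.BB hy d O hO, ∀ a x, vg ((θ a).1 x) =
      vg a.1 * c * (vg a.1)⁻¹ * c⁻¹ * vg x * (vg a.1 * c * (vg a.1)⁻¹ * c⁻¹)⁻¹ * (vg x)⁻¹ := by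
  have hd : (d : X) ≠ O := fun e => hO (e ▸ d.2)
  have m := fun a : h.TT hy d => h.cm_mem hd hc.1 hc.2 a.2.1
  choose f hf h1 using fun a : h.TT hy d => h.exists_f hy d (m a).1
  let θ : h.TT hy d →+ h.SS hy d := AddMonoidHom.mk' (fun a => ⟨f a, hf a⟩) fun a b =>
    Subtype.ext (AddMonoidHom.ext fun x => vg_inj (by
      have h3 := vg_fix x d.2
      change vg (f (a + b) x) = vg (f a x) * vg (f b x)
      rw [h1, h1, h1, ← cm_mul_left (h.comm (m b).1 (h.conj' h3 (inv_mem (m a).1)))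
        (h.comm (h.conj' h3 (inv_mem (m a).1)) (h.conj' h3 (inv_mem (m b).1))),
        ← cm_mul_left (h.comm b.2.1 (h.conj' hc.2 (inv_mem a.2.1)))
        (h.comm (h.conj' hc.2 (inv_mem a.2.1)) (h.conj' hc.2 (inv_mem b.2.1)))]
      rfl))
  exact ⟨θ, ⟨c, hc, h1⟩, h1⟩

theorem pl_pair {u d : fixedBy X s} (hud : u ≠ d) {O : X} (hO : s • O ≠ O) {v : h.TT hy u}
    (hv : v ≠ 0) {c : G} (hc : c ∈ Ax N O d) (e : c • (u : X) = vg v.1 • O)
    {θ : h.TT hy d →+ h.SS hy d} (hθ : ∀ a x, vg ((θ a).1 x) =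
      vg a.1 * c * (vg a.1)⁻¹ * c⁻¹ * vg x * (vg a.1 * c * (vg a.1)⁻¹ * c⁻¹)⁻¹ * (vg x)⁻¹) :
    (∀ f, θ (((h.sp hy).bb u d).flip v f) = f) ∧ ∀ a, ((h.sp hy).bb u d).flip v (θ a) = a := by
  have key : ∀ f, θ (((h.sp hy).bb u d).flip v f) = f := by
    rintro ⟨f, σ, hσ, h1⟩
    have hd : (d : X) ≠ O := fun e => hO (e ▸ d.2)
    obtain ⟨a, ha, h2⟩ := h.T_reg hy d.2 hO hσ
    have h3 : ∀ x, vg (f x) = a⁻¹ * σ * vg x * (a⁻¹ * σ)⁻¹ * (vg x)⁻¹ := fun x => by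
      have h4 := h.TH_comm hy ⟨d, d.2, ha⟩ (vg_mem x)
      rw [h1, h.comm (inv_mem ha.1) hσ]
      calc _ = σ * a⁻¹ * (a * vg x) * σ⁻¹ * (vg x)⁻¹ := by group
        _ = _ := by rw [h4]; group
    have hτ : a⁻¹ * σ ∈ N d := mul_mem (inv_mem ha.1) hσ
    have hτO : (a⁻¹ * σ) • O = O := by rw [mul_smul, ← h2, inv_smul_smul]
    generalize a⁻¹ * σ = τ at h3 hτ hτO
    refine Subtype.ext (AddMonoidHom.ext fun x => vg_inj ?_)
    refine (hθ _ x).trans ?_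
    change vg (f v) * c * (vg (f v))⁻¹ * c⁻¹ * vg x * (vg (f v) * c * (vg (f v))⁻¹ * c⁻¹)⁻¹ *
      (vg x)⁻¹ = vg (f x)
    have hb : vg (f v) ∈ Tx N s d := (h.sp hy).im ⟨σ, hσ, h1⟩ v
    have m := h.cm_mem hd hc.1 hc.2 hb.1
    have h5 : (vg (f v) * c * (vg (f v))⁻¹ * c⁻¹)⁻¹ * τ = 1 := by
      refine h.pl_one hy hl (fun e => hud (Subtype.ext e)) u.2 d.2 hO (w := c • (u : X))
        (Or.inr ⟨c, hc.1, rfl⟩) (fun e1 => hv (Subtype.ext (vg_semi hO (e ▸ e1))))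
        (mul_mem (inv_mem m.1) hτ) (by rw [mul_smul, hτO, inv_fix m.2]) ?_
      have h6 : ((vg (f v))⁻¹ * τ) • c • (u : X) = c • (u : X) := by
        rw [e, h3]
        simp only [mul_inv_rev, inv_inv, mul_smul, inv_smul_smul, hτO]
      calc _ = (c * vg (f v) * c⁻¹) • ((vg (f v))⁻¹ * τ) • c • (u : X) := by
            rw [← mul_smul (c * _ * _)]; congr 1; group
        _ = _ := by rw [h6, mul_smul, mul_smul, inv_smul_smul, hb.2 u u.2]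
    rw [inv_mul_eq_one.1 h5, h3]
  refine ⟨key, fun a => ?_⟩
  obtain ⟨f, rfl⟩ := (h.pl_flip hy hl hud hv).2 a
  rw [key]

theorem pl_D {u d : fixedBy X s} (hud : u ≠ d) : ∀ f ∈ h.SS hy d, ∀ f' ∈ h.SS hy d,
    ∀ f'' ∈ h.SS hy d, (∃ v ∈ h.TT hy u, f v ≠ 0) → ∃ k ∈ h.SS hy d,
      ∀ x ∈ h.TT hy u, ∀ z ∈ h.TT hy u, f z = f' x → f'' z = k x := by
  rintro f hf f' hf' f'' hf'' ⟨v, -, hv⟩
  obtain ⟨O, hO⟩ := h.H_out hy
  have hud' : (u : X) ≠ d := fun e => hud (Subtype.ext e)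
  have huO : (u : X) ≠ O := fun e => hO (e ▸ u.2)
  have hdO : (d : X) ≠ O := fun e => hO (e ▸ d.2)
  obtain ⟨k, hk⟩ := az_pair ((h.sp hy).bb u d)
    (fun σ hσ => (h.sp hy).bb_bij (h.pl_ne hy hl hud hσ)) (fun v hv => h.pl_flip hy hl hud hv)
    (fun β M hβ hM => by
      obtain ⟨_, ⟨K, rfl⟩, h1⟩ := ip_abs _ _ ((h.sp hy).bb_inv (h.pl_col hy hl hud.symm) hud)
        (fun g hg h0 => by
          obtain ⟨f, h1, h2⟩ := (h.sp hy).bb_inv (h.pl_col hy hl hud) hud.symm g hg h0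
          exact ⟨f, h1, h2.symm⟩) ⟨β, rfl⟩ ⟨M, rfl⟩ (h.pl_ne hy hl hud hβ) (h.pl_ne hy hl hud hM)
      exact ⟨K, h1⟩)
    (fun β M hβ hM => by
      have hne : ∀ v : h.TT hy u, v ≠ 0 → ((h.sp hy).bb u d).flip v ≠ 0 := fun v hv e => by
        obtain ⟨g, hg, h1⟩ := (h.sp hy).exists_ne hud v.2 fun e => hv (Subtype.ext e)
        exact h1 (congrArg Subtype.val (DFunLike.congr_fun e (⟨g, hg⟩ : h.SS hy d)))
      obtain ⟨_, ⟨K, rfl⟩, h1⟩ := ip_abs ((h.sp hy).bb u d).flip.range (h.BB hy d O hO)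
        (by
          rintro _ ⟨v, rfl⟩ h0
          have hv : v ≠ 0 := fun e => h0 (by rw [e, map_zero])
          have h1 : vg v.1 • O ∈ Ln N O u := h.Ln_symm huO ▸ Or.inr ⟨_, v.2.1, rfl⟩
          obtain ⟨t, ht, e⟩ := h1.resolve_left fun e => hv (Subtype.ext (vg_semi hO e))
          obtain ⟨c, hc, e'⟩ := h.A_trans hdO.symm (z := u) (fun hb => by
            obtain ⟨b, hb', h2⟩ := h.T_nt hy d.2
            have h3 := h.big_swap hdO hud'.symm (h.big_symm hdO.symm hb)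
            exact hO (T_fix hy hb' h2 (h3 ▸ ⟨hb'.1, hb'.2 u u.2⟩ : b ∈ Ax N d O).2)) ht
          obtain ⟨θ, hθ, h2⟩ := h.exists_BB hy d hO hc
          exact ⟨θ, hθ, h.pl_pair hy hl hud hO hv hc (e'.trans e) h2⟩)
        (by
          rintro θ ⟨c, hc, h2⟩ h0
          have h1 : c • (u : X) ∈ Ln N u O := h.Ln_symm huO ▸ Or.inr ⟨_, hc.1, rfl⟩
          obtain ⟨t, ht, e⟩ := h1.resolve_left fun e => h0 (AddMonoidHom.ext fun a =>
            Subtype.ext (AddMonoidHom.ext fun x => vg_inj (by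
              have m := h.cm_mem hdO hc.1 hc.2 a.2.1
              have h3 := h.pl_one hy hl hud' u.2 d.2 hO (right_mem O u) huO m.1 m.2 (by
                simp only [mul_smul, inv_fix e, inv_fix (vg_fix a.1 u.2), e, vg_fix a.1 u.2])
              refine (h2 a x).trans ?_
              rw [h3, one_mul, inv_one, mul_one, mul_inv_cancel]
              rfl)))
          obtain ⟨v, hv, e'⟩ := h.T_reg hy u.2 hO ht
          refine ⟨_, ⟨⟨h.gv hy u.2 hv, hv⟩, rfl⟩, h.pl_pair hy hl hud hO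
            (v := ⟨h.gv hy u.2 hv, hv⟩) (fun e1 => ?_) hc
            (e'.trans e).symm h2⟩
          have h3 : v = 1 := congrArg vg (congrArg Subtype.val e1)
          rw [h3, one_smul, e] at e'
          exact h.notMem_Ob huO.symm ⟨c, hc.1, e'.symm⟩)
        ⟨β, rfl⟩ ⟨M, rfl⟩ (hne β hβ) (hne M hM)
      exact ⟨K, h1⟩)
    ⟨f, hf⟩ ⟨f', hf'⟩ ⟨f'', hf''⟩ (fun e => hv (DFunLike.congr_fun (congrArg Subtype.val e) v))
  exact ⟨k, k.2, fun x hx z hz e =>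
    congrArg Subtype.val (hk ⟨x, hx⟩ ⟨z, hz⟩ (Subtype.ext e))⟩

end Plane

theorem star (u c d : fixedBy X s) (huc : u ≠ c) (hcd : c ≠ d) (hud : u ≠ d) :
    StarT (h.TT hy) (h.SS hy) u c d := by
  by_cases hl : ∀ {u c w : X}, u ≠ c → s • u = u → s • c = c → s • w = w → w ∈ Ln N u c
  · exact (h.sp hy).star_of_D huc hud hcd (h.pl_col hy hl hud) (h.pl_D hy hl hud)
  by_cases hd : (d : X) ∈ Ln N c u
  swap
  · exact h.star_nc hy huc.symm hd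
  have ne : ∀ {a b : fixedBy X s}, a ≠ b → (a : X) ≠ b := fun h1 e => h1 (Subtype.ext e)
  obtain ⟨e, he⟩ : ∃ e : fixedBy X s, (e : X) ∉ Ln N c u := by
    by_contra h1
    push Not at h1
    exact hl fun {a b w} hab ha hb hw =>
      (h.Ln_eq (h1 ⟨a, ha⟩) (h1 ⟨b, hb⟩) hab).symm ▸ h1 ⟨w, hw⟩
  have hc : (c : X) ∈ Ln N c u := Or.inl rfl
  have hu : (u : X) ∈ Ln N c u := right_mem _ _
  have key : ∀ a b : fixedBy X s, (a : X) ∈ Ln N c u → (b : X) ∈ Ln N c u → a ≠ b →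
      e ≠ a ∧ (b : X) ∉ Ln N e a := fun a b ha hb hab =>
    ⟨fun e1 => he (e1 ▸ ha), fun h1 => he (h.Ln_eq ha hb (ne hab) ▸
      (h.Ln_eq (right_mem _ _) h1 (ne hab)).symm ▸ Or.inl rfl)⟩
  exact (h.sp hy).star_trans (key c d hc hd hcd).1.symm (key d c hd hc hcd.symm).1
    (h.star_nc hy (key c d hc hd hcd).1 (key c d hc hd hcd).2) (h.star_nc hy huc.symm he)
    (h.star_nc hy (key u d hu hd hud).1 (key u d hu hd hud).2)

end Fam

end Cfsg.Agent.H19.ON
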