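import Cfsg.Agent.H12.Lin

/-! Groups acting on a model of projective space through transvections. -/

set_option autoImplicit false

namespace Cfsg.Agent.H19.ON

open Module Projectivization
open LinearEquiv (transvection)
open scoped LinearAlgebra.Projectivization

variable {G X F W : Type*} [Group G] [MulAction G X] [Field F] [AddCommGroup W] [Module F W]

variable (F) in
/-- `pt` identifies `X` with the projective space of `W` -/
structure Md (pt : W → X) : Prop where
  sm : ∀ {a : F} {w : W}, a ≠ 0 → w ≠ 0 → pt (a • w) = pt w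
  inj : ∀ {w w' : W}, w ≠ 0 → w' ≠ 0 → pt w = pt w' → ∃ a : F, w' = a • w
  surj : ∀ x, ∃ w, w ≠ 0 ∧ pt w = x

/-- `g` is induced by `γ` -/
def Ind (pt : W → X) (g : G) (γ : W ≃ₗ[F] W) : Prop := ∀ w, w ≠ 0 → pt (γ w) = g • pt w

theorem Ind.mul {pt : W → X} {g g' : G} {γ γ' : W ≃ₗ[F] W} (h : Ind pt g γ) (h' : Ind pt g' γ') :
    Ind pt (g * g') (γ * γ') := fun w hw => by
  rw [mul_smul, ← h' w hw, ← h _ (γ'.map_ne_zero_iff.2 hw)]; rfl

theorem Ind.inv {pt : W → X} {g : G} {γ : W ≃ₗ[F] W} (h : Ind pt g γ) : Ind pt g⁻¹ γ⁻¹ :=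
  fun w hw => by
    rw [eq_inv_smul_iff, ← h _ (γ⁻¹.map_ne_zero_iff.2 hw)]
    exact congrArg pt (γ.apply_symm_apply w)

variable (G F) in
/-- elements induced by determinant one maps -/
def IG (pt : W → X) : Subgroup G where
  carrier := {g | ∃ γ : W ≃ₗ[F] W, γ.det = 1 ∧ Ind pt g γ}
  one_mem' := ⟨1, map_one _, fun _ _ => (one_smul _ _).symm⟩
  mul_mem' := fun ⟨γ, h1, h2⟩ ⟨γ', h3, h4⟩ => ⟨γ * γ', by rw [map_mul, h1, h3, one_mul], h2.mul h4⟩
  inv_mem' := fun ⟨γ, h1, h2⟩ => ⟨γ⁻¹, by rw [map_inv, h1, inv_one], h2.inv⟩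

theorem exists_dual (g : W →ₗ[F] W) {w₀ : W} (h0 : w₀ ≠ 0) (hg : ∀ w, ∃ a : F, g w = a • w₀) :
    ∃ φ : Dual F W, ∀ w, g w = φ w • w₀ := by
  choose φ hφ using hg
  refine ⟨⟨⟨φ, fun a b => smul_left_injective F h0 ?_⟩, fun c a => smul_left_injective F h0 ?_⟩, hφ⟩
  · simp only [add_smul, ← hφ, map_add]
  · simp only [RingHom.id_apply, smul_eq_mul, mul_smul, ← hφ, map_smul]

namespace Md
variable {pt : W → X} (h : Md F pt)
include h

theorem all_transv [FiniteDimensional F W] {L : Subgroup G} (hL : L ≤ IG G F pt)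
    (htr : ∀ x y : X, ∃ g ∈ L, g • x = y) {φ₀ : Dual F W} (h0 : φ₀ ≠ 0)
    (h1 : ∀ w (hw : φ₀ w = 0), ∃ g ∈ L, Ind pt g (transvection hw)) (φ : Dual F W) (w : W)
    (hw : φ w = 0) : ∃ g ∈ L, Ind pt g (transvection hw) := by
  have inv : ∀ g ∈ L, ∀ γ : W ≃ₗ[F] W, Ind pt g γ → ∀ φ : Dual F W,
      (∀ w (hw : φ w = 0), ∃ g ∈ L, Ind pt g (transvection hw)) →
      ∀ w (hw : φ.comp γ.toLinearMap w = 0), ∃ g ∈ L, Ind pt g (transvection hw) := by
    intro g hg γ hγ φ hφ w hw
    obtain ⟨k, hk, h2⟩ := hφ (γ w) hw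
    refine ⟨_, mul_mem (mul_mem (inv_mem hg) hk) hg, ?_⟩
    convert (hγ.inv.mul h2).mul hγ using 1
    ext x
    simp [LinearMap.transvection.apply]
  have sm : ∀ (a : F) (φ : Dual F W), (∀ w (hw : φ w = 0), ∃ g ∈ L, Ind pt g (transvection hw)) →
      ∀ w (hw : (a • φ) w = 0), ∃ g ∈ L, Ind pt g (transvection hw) := by
    intro a φ hφ w hw
    obtain ⟨k, hk, h2⟩ := hφ (a • w) (by simpa using hw)
    refine ⟨k, hk, ?_⟩
    convert h2 using 1
    ext x
    simp [LinearMap.transvection.apply, mul_smul, smul_comm a]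
  let Φ : Submodule F (Dual F W) :=
    { carrier := {φ | ∀ w (hw : φ w = 0), ∃ g ∈ L, Ind pt g (transvection hw)}
      zero_mem' := by simpa using sm 0 φ₀ h1
      smul_mem' := sm
      add_mem' := by
        intro φ ψ hφ hψ
        by_cases h2 : ∃ w, φ w = 0 ∧ ψ w ≠ 0
        · obtain ⟨w, h3, h4⟩ := h2
          have h5 : φ ((ψ w)⁻¹ • w) = 0 := by simp [h3]
          obtain ⟨g, hg, h6⟩ := hφ _ h5
          convert inv g hg _ h6 ψ hψ using 1
          have : φ + ψ = ψ.comp (transvection h5).toLinearMap := by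
            ext x; simp [LinearMap.transvection.apply, h4, add_comm]
          rw [this]; rfl
        push Not at h2
        by_cases h3 : φ = 0
        · rw [h3, zero_add]; exact hψ
        obtain ⟨w, hw⟩ : ∃ w, φ w ≠ 0 := by
          by_contra h4; push Not at h4; exact h3 (LinearMap.ext h4)
        have : φ + ψ = (1 + ψ w / φ w) • φ := by
          ext x
          have := h2 (φ w • x - φ x • w) (by simp [mul_comm])
          simp only [map_sub, map_smul, smul_eq_mul] at this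
          simp only [LinearMap.add_apply, LinearMap.smul_apply, smul_eq_mul]
          field_simp
          linear_combination this
        rw [this]; exact sm _ φ hφ }
  have key : Φ = ⊤ := by
    rw [← Subspace.dualCoannihilator_dualAnnihilator_eq (W := Φ), Submodule.dualAnnihilator_eq_top_iff,
      eq_bot_iff]
    intro w hw
    by_contra h2
    obtain ⟨w₀, hw₀⟩ : ∃ w, φ₀ w ≠ 0 := by
      by_contra h4; push Not at h4; exact h0 (LinearMap.ext h4)
    obtain ⟨g, hg, e⟩ := htr (pt w) (pt w₀)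
    obtain ⟨γ, -, hγ⟩ := hL hg
    obtain ⟨a, ha⟩ := h.inj (γ.map_ne_zero_iff.2 h2) (fun e => hw₀ (by simp [e]))
      ((hγ w h2).trans e)
    have := (Submodule.mem_dualCoannihilator w).1 hw _ (inv g hg γ hγ φ₀ h1)
    exact hw₀ (by rw [ha, map_smul]; simp at this; simp [this])
  exact (key ▸ Submodule.mem_top : φ ∈ Φ) w hw

theorem exists_equiv {W' : Type*} [AddCommGroup W'] [Module F W'] (e : W' ≃ₗ[F] W) :
    ∃ ψ : ℙ F W' ≃ X, ∀ v hv, ψ (Projectivization.mk F v hv) = pt (e v) := by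
  have key : ∀ v hv, pt (e (Projectivization.mk F v hv).rep) = pt (e v) := fun v hv => by
    obtain ⟨a, ha⟩ := exists_smul_eq_mk_rep F v hv
    rw [← ha, Units.smul_def, map_smul, h.sm a.ne_zero (e.map_ne_zero_iff.2 hv)]
  refine ⟨Equiv.ofBijective (fun p => pt (e p.rep)) ⟨fun p q hpq => ?_, fun x => ?_⟩, key⟩
  · obtain ⟨a, ha⟩ := h.inj (e.map_ne_zero_iff.2 p.rep_nonzero) (e.map_ne_zero_iff.2 q.rep_nonzero) hpq
    rw [← map_smul] at ha
    replace ha := e.injective ha
    rw [← p.mk_rep, ← q.mk_rep, eq_comm, mk_eq_mk_iff']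
    exact ⟨a, ha.symm⟩
  · obtain ⟨w, hw, rfl⟩ := h.surj x
    exact ⟨Projectivization.mk F (e.symm w) (e.symm.map_ne_zero_iff.2 hw), by simp only [key, e.apply_symm_apply]⟩

theorem psl {n : ℕ} (e : (Fin n → F) ≃ₗ[F] W) (hf : ∀ g : G, (∀ x : X, g • x = x) → g = 1)
    {L : Subgroup G} (hL : L ≤ IG G F pt)
    (hT : ∀ (φ : Dual F W) w (hw : φ w = 0), ∃ g ∈ L, Ind pt g (transvection hw)) :
    Nonempty (L ≃* Matrix.ProjectiveSpecialLinearGroup (Fin n) F) := by
  obtain ⟨ψ, hψ⟩ := h.exists_equiv e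
  let ρ : Matrix.ProjectiveSpecialLinearGroup (Fin n) F →* Equiv.Perm X :=
    (ψ.permCongrHom : Equiv.Perm _ ≃* Equiv.Perm X).toMonoidHom.comp PSLAction.toPermHom
  let π : L →* Equiv.Perm X := (MulAction.toPermHom G X).comp L.subtype
  have hρ : Function.Injective ρ := (ψ.permCongrHom : Equiv.Perm _ ≃* Equiv.Perm X).injective.comp
    Matrix.ProjectiveSpecialLinearGroup.toPermHom_injective
  have hπ : Function.Injective π := (injective_iff_map_eq_one _).2 fun g hg =>
    Subtype.ext (hf g fun x => DFunLike.congr_fun hg x)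
  have key : ∀ (g : L) (γ : W ≃ₗ[F] W) (M : Matrix.SpecialLinearGroup (Fin n) F),
      Ind pt (g : G) γ → (∀ v, e (M • v) = γ (e v)) → π g = ρ M := fun g γ M h1 h2 => by
    ext x
    obtain ⟨p, rfl⟩ := ψ.surjective x
    induction p using Projectivization.ind with | _ v hv => ?_
    change (g : G) • _ = ψ (M • ψ.symm (ψ _))
    rw [ψ.symm_apply_apply, smul_mk, hψ, hψ, h2, h1 _ (e.map_ne_zero_iff.2 hv)]
  have hr : π.range = ρ.range := by
    refine le_antisymm ?_ ?_
    · rintro _ ⟨g, rfl⟩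
      obtain ⟨γ, h1, h2⟩ := hL g.2
      let M : Matrix.SpecialLinearGroup (Fin n) F := ⟨LinearMap.toMatrix'
        ((e.symm : W →ₗ[F] Fin n → F) ∘ₗ (γ : W →ₗ[F] W) ∘ₗ (e.symm.symm : (Fin n → F) →ₗ[F] W)), by
        rw [LinearMap.det_toMatrix', LinearMap.det_conj, ← LinearEquiv.coe_det, h1, Units.val_one]⟩
      exact ⟨M, (key g γ M h2 fun v => by
        change e (Matrix.mulVec (LinearMap.toMatrix' _) v) = _
        rw [LinearMap.toMatrix'_mulVec]
        simp).symm⟩
    · rintro _ ⟨M, rfl⟩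
      obtain ⟨M, rfl⟩ := QuotientGroup.mk_surjective M
      have := H12.SL_eq_top_of_transvection_mem
        (H := π.range.comap (ρ.comp (QuotientGroup.mk' _))) fun i j hij c => by
          obtain ⟨g, hg, h1⟩ := hT ((LinearMap.proj j : (Fin n → F) →ₗ[F] F) ∘ₗ
            (e.symm : W →ₗ[F] _)) (e (Pi.single i c)) (by simp [hij.symm])
          refine ⟨⟨g, hg⟩, key ⟨g, hg⟩ _ _ h1 fun v => ?_⟩
          simp [Matrix.SpecialLinearGroup.smul_def, LinearMap.transvection.apply,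
            Matrix.SpecialLinearGroup.transvection_coe, Matrix.add_mulVec, ← map_smul, ← map_add,
            Matrix.single_mulVec_eq, ← Pi.single_smul', mul_comm]
      exact (this ▸ Subgroup.mem_top M : M ∈ π.range.comap (ρ.comp (QuotientGroup.mk' _)))
  exact ⟨(MonoidHom.ofInjective hπ).trans ((MulEquiv.subgroupCongr hr).trans
    (MonoidHom.ofInjective hρ).symm)⟩

end Md

end Cfsg.Agent.H19.ON
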