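import Cfsg.Agent.H19.ONf
import Cfsg.Agent.H19.ONg

/-! O'Nan's theorem: coordinates. -/

set_option autoImplicit false

namespace Cfsg.Agent.H19.ON

open Subgroup MulAction Module
open LinearEquiv (transvection)

variable {G X : Type*} [Group G] [Finite G] [MulAction G X] [Finite X]
  {N : X → Subgroup G} {h : Fam N} {s : G} {y : X} {hy : Hy N s y}
  {F : Type*} [Field F] [Module F (h.VV hy)]

open Fam

/-- the centre of a translation -/
noncomputable def ctr (v : h.VV hy) : X := (vg_mem v).choose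

theorem ctr_fix (v : h.VV hy) : s • ctr v = ctr v := (vg_mem v).choose_spec.1
theorem ctr_mem (v : h.VV hy) : vg v ∈ Tx N s (ctr v) := (vg_mem v).choose_spec.2
theorem ctr_eq {v : h.VV hy} (h0 : v ≠ 0) {u : X} (hu : vg v ∈ N u) : ctr v = u := by
  by_contra h1
  exact h0 (vg_inj (h.ti h1 (ctr_mem v).1 hu))

open Classical in
/-- the point of a vector -/
noncomputable def pt (O : X) (w : h.VV hy × F) : X :=
  if w.2 = 0 then ctr w.1 else vg (w.2⁻¹ • w.1) • O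

theorem pt_zero (O : X) (v : h.VV hy) : pt O (v, (0 : F)) = ctr v := if_pos rfl
theorem pt_ne (O : X) (v : h.VV hy) {a : F} (ha : a ≠ 0) : pt O (v, a) = vg (a⁻¹ • v) • O :=
  if_neg ha

variable (h hy F) in
/-- coordinate data -/
structure Co (O : X) : Prop where
  lin : ∀ c, ∀ f ∈ h.SS hy c, ∀ (a : F) v, f (a • v) = a • f v
  span : ∀ u, ∀ v ∈ h.TT hy u, v ≠ 0 → ∀ z, z ∈ h.TT hy u ↔ ∃ a : F, z = a • v
  out : s • O ≠ O

namespace Co
variable {O : X} (k : Co h hy F O)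
include k

theorem out_vg (v : h.VV hy) : s • vg v • O ≠ vg v • O := fun e => k.out (by
  rwa [← mul_smul, h.TH_comm hy ⟨y, h.fix hy.mem, hy.mem, fun _ h => h⟩ (vg_mem v), mul_smul,
    smul_left_cancel_iff] at e)

theorem smul_mem (a : F) (v : h.VV hy) {u : X} (hu : s • u = u) (hv : vg v ∈ Tx N s u) :
    vg (a • v) ∈ Tx N s u := by
  by_cases h0 : v = 0
  · rw [h0, smul_zero]; exact one_mem _
  · exact (k.span ⟨u, hu⟩ v hv h0 _).2 ⟨a, rfl⟩

theorem exists_vg {z : X} (hz : s • z ≠ z) : ∃ v : h.VV hy, vg v • O = z := by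
  by_cases e : O = z
  · exact ⟨0, by rw [vg_zero, one_smul, e]⟩
  obtain ⟨c, hc, h1⟩ := h.hyper hy e
  have h2 : z ∈ Ln N c O := (h.Ln_eq hc (Or.inl rfl) fun e => k.out (e ▸ h1)).symm ▸ right_mem O z
  obtain ⟨t, ht, rfl⟩ := h2.resolve_left fun e => hz (e ▸ h1)
  obtain ⟨a, ha, e⟩ := h.T_reg hy h1 k.out ht
  exact ⟨h.gv hy h1 ha, e⟩

theorem md : Md F (pt O : h.VV hy × F → X) where
  sm := by
    rintro a ⟨v, b⟩ ha hw
    by_cases hb : b = 0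
    · subst hb
      have hv : v ≠ 0 := fun e => hw (by rw [e]; rfl)
      rw [Prod.smul_mk, smul_zero, pt_zero, pt_zero]
      exact ctr_eq (smul_ne_zero ha hv) (k.smul_mem a v (ctr_fix v) (ctr_mem v)).1
    · rw [Prod.smul_mk, smul_eq_mul, pt_ne _ _ hb, pt_ne _ _ (mul_ne_zero ha hb), smul_smul,
        mul_inv_rev, inv_mul_cancel_right₀ ha]
  inj := by
    rintro ⟨v, a⟩ ⟨v', a'⟩ hw hw' e
    by_cases ha : a = 0 <;> by_cases ha' : a' = 0
    · subst ha ha'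
      rw [pt_zero, pt_zero] at e
      obtain ⟨b, hb⟩ := (k.span ⟨_, ctr_fix v⟩ v (ctr_mem v) (fun e => hw (by rw [e]; rfl)) v').1
        (e ▸ ctr_mem v' : vg v' ∈ Tx N s (ctr v))
      exact ⟨b, by simp [hb]⟩
    · subst ha
      rw [pt_zero, pt_ne _ _ ha'] at e
      exact (k.out_vg _ (e ▸ ctr_fix v)).elim
    · subst ha'
      rw [pt_zero, pt_ne _ _ ha] at e
      exact (k.out_vg _ (e ▸ ctr_fix v')).elim
    · rw [pt_ne _ _ ha, pt_ne _ _ ha', ← inv_smul_eq_iff, ← mul_smul, ← vg_neg, ← vg_add] at e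
      have := neg_add_eq_zero.1 (vg_semi k.out e)
      refine ⟨a' * a⁻¹, Prod.ext ?_ (inv_mul_cancel_right₀ ha a').symm⟩
      change v' = (a' * a⁻¹) • v
      rw [mul_smul, ← this, smul_inv_smul₀ ha']
  surj x := by
    by_cases hx : s • x = x
    · obtain ⟨b, hb, h1⟩ := h.T_nt hy hx
      have h2 : h.gv hy hx hb ≠ 0 := fun e => h1 (congrArg vg e)
      exact ⟨(h.gv hy hx hb, 0), fun e => h2 (congrArg Prod.fst e),
        (pt_zero _ _).trans (ctr_eq h2 hb.1)⟩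
    · obtain ⟨v, rfl⟩ := k.exists_vg hx
      exact ⟨(v, 1), fun e => one_ne_zero (congrArg Prod.snd e), by
        rw [pt_ne _ _ one_ne_zero, inv_one, one_smul]⟩

theorem at_inf {w : h.VV hy × F} (hw : w ≠ 0) (hc : s • pt O w = pt O w) :
    ∃ v, v ≠ 0 ∧ w = (v, 0) ∧ vg v ∈ Tx N s (pt O w) := by
  obtain ⟨v, a⟩ := w
  by_cases ha : a = 0
  · subst ha
    exact ⟨v, fun e => hw (by rw [e]; rfl), rfl, pt_zero (F := F) O v ▸ ctr_mem v⟩
  · rw [pt_ne _ _ ha] at hc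
    exact (k.out_vg _ hc).elim

theorem conj_ctr {c : X} (hc : s • c = c) {σ : G} (hσ : σ ∈ N c) {f : AddMonoid.End (h.VV hy)}
    (hf : ∀ v, vg (f v) = σ * vg v * σ⁻¹ * (vg v)⁻¹) {v : h.VV hy} (hv : v ≠ 0) :
    ctr (v + f v) = σ • ctr v := by
  have h1 := h.perm_f hy hf v
  refine ctr_eq (fun e => hv (vg_inj ?_)) (h1 ▸ (h.T_conj hy hc hσ (ctr_mem v)).1)
  rw [e, vg_zero] at h1
  simpa [vg_zero] using h1.symm

theorem shear {w₀ : h.VV hy × F} (h0 : w₀ ≠ 0) (hc : s • pt O w₀ = pt O w₀) {σ : G}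
    (hσ : σ ∈ N (pt O w₀)) : ∃ (φ : Dual F (h.VV hy × F)) (hφ : φ w₀ = 0),
      Ind (pt O) σ (transvection hφ) := by
  obtain ⟨v₀, h1, h2, h3⟩ := k.at_inf h0 hc
  obtain ⟨a, ha, e⟩ := h.T_reg hy hc k.out hσ
  obtain ⟨f, hf, h4⟩ := h.exists_f hy ⟨_, hc⟩ hσ
  let g : h.VV hy × F →ₗ[F] h.VV hy × F :=
    { toFun := fun w => (f w.1 + w.2 • h.gv hy hc ha, 0)
      map_add' := fun a b => by simp [add_smul, add_add_add_comm]
      map_smul' := fun a b => by simp [k.lin _ f hf, mul_smul] }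
  obtain ⟨φ, hφ⟩ := exists_dual g h0 fun w => by
    obtain ⟨b, hb⟩ := (k.span ⟨_, hc⟩ v₀ h3 h1 (f w.1 + w.2 • h.gv hy hc ha)).1
      (add_mem ((h.sp hy).im hf _) (k.smul_mem _ _ hc ha))
    exact ⟨b, by rw [h2]; exact Prod.ext hb (smul_zero b).symm⟩
  refine ⟨φ, (smul_eq_zero.1 ?_).resolve_right h0, ?_⟩
  · rw [← hφ]
    nth_rewrite 1 [h2]
    simp [g, (h.sp hy).kill hf h3]
  rintro ⟨v, b⟩ hw
  rw [LinearEquiv.transvection.apply, ← hφ]
  change pt O (v + (f v + b • h.gv hy hc ha), b + 0) = _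
  by_cases hb : b = 0
  · subst hb
    rw [add_zero, zero_smul, add_zero, pt_zero, pt_zero,
      k.conj_ctr hc hσ h4 fun e => hw (by rw [e]; rfl)]
  · rw [add_zero, pt_ne _ _ hb, pt_ne _ _ hb, ← add_assoc, smul_add, smul_add, inv_smul_smul₀ hb,
      ← k.lin _ f hf, vg_add, h.perm_f hy h4, mul_smul]
    change _ • a • O = _
    rw [e, mul_smul, mul_smul, inv_smul_smul]

theorem ln_inf {w₀ w' w : h.VV hy × F} (h0 : w₀ ≠ 0) (hc : s • pt O w₀ = pt O w₀) (h' : w' ≠ 0)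
    (hne : pt O w₀ ≠ pt O w') (hw : w ≠ 0) :
    pt O w ∈ Ln N (pt O w₀) (pt O w') ↔ ∃ a b : F, w = a • w₀ + b • w' := by
  constructor
  · rintro (e | ⟨σ, hσ, e⟩)
    · obtain ⟨a, ha⟩ := k.md.inj h0 hw e.symm
      exact ⟨a, 0, by simp [ha]⟩
    · obtain ⟨φ, hφ, h1⟩ := k.shear h0 hc hσ
      obtain ⟨a, ha⟩ := k.md.inj ((transvection hφ).map_ne_zero_iff.2 h') hw ((h1 w' h').trans e)
      exact ⟨a * φ w', a, by rw [ha, LinearEquiv.transvection.apply]; module⟩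
  rintro ⟨a, b, rfl⟩
  by_cases hb : b = 0
  · rw [hb, zero_smul, add_zero] at hw ⊢
    exact Or.inl (k.md.sm (left_ne_zero_of_smul hw) h0)
  right
  rw [← k.md.sm (inv_ne_zero hb) hw, smul_add, inv_smul_smul₀ hb, smul_smul]
  obtain ⟨v₀, h1, h2, h3⟩ := k.at_inf h0 hc
  have h4 := k.smul_mem (b⁻¹ * a) v₀ hc h3
  obtain ⟨v, l⟩ := w'
  generalize pt O w₀ = c at *
  subst h2
  rw [Prod.smul_mk, smul_zero, Prod.mk_add_mk, zero_add]
  by_cases hl : l = 0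
  · subst hl
    have hv : v ≠ 0 := fun e => h' (by rw [e]; rfl)
    rw [pt_zero] at hne
    obtain ⟨f, ⟨σ, hσ, h5⟩, h6⟩ := (h.sp hy).reg (u := ⟨_, ctr_fix v⟩) (c := ⟨c, hc⟩)
      (fun e => hne (congrArg Subtype.val e).symm) (ctr_mem v) hv h4
    exact ⟨σ, hσ, by rw [pt_zero, pt_zero, ← h6, add_comm, k.conj_ctr hc hσ h5 hv]⟩
  · exact ⟨_, (k.smul_mem l⁻¹ _ hc h4).1, by
      rw [pt_ne _ _ hl, pt_ne _ _ hl, smul_add, vg_add, mul_smul (vg _)]⟩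

theorem ln_iff {w₁ w₂ w : h.VV hy × F} (h1 : w₁ ≠ 0) (h2 : w₂ ≠ 0) (hne : pt O w₁ ≠ pt O w₂)
    (hw : w ≠ 0) : pt O w ∈ Ln N (pt O w₁) (pt O w₂) ↔ ∃ a b : F, w = a • w₁ + b • w₂ := by
  obtain ⟨c, hc, h3⟩ := h.hyper hy hne
  obtain ⟨w₀, h0, rfl⟩ := k.md.surj c
  wlog h4 : pt O w₀ ≠ pt O w₂ generalizing w₁ w₂
  · rw [h.Ln_symm hne] at hc ⊢
    rw [this h2 h1 hne.symm hc (not_not.1 h4 ▸ hne.symm)]
    exact ⟨fun ⟨a, b, e⟩ => ⟨b, a, e.trans (add_comm _ _)⟩,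
      fun ⟨a, b, e⟩ => ⟨b, a, e.trans (add_comm _ _)⟩⟩
  have h5 := h.Ln_eq hc (right_mem _ _) h4
  obtain ⟨a, b, e⟩ := (k.ln_inf h0 h3 h2 h4 h1).1 (h5 ▸ Or.inl rfl)
  have ha : a ≠ 0 := by
    rintro rfl
    rw [zero_smul, zero_add] at e
    exact hne (by rw [e, k.md.sm (left_ne_zero_of_smul (e ▸ h1)) h2])
  rw [← h5, k.ln_inf h0 h3 h2 h4 hw]
  refine ⟨fun ⟨c, d, e'⟩ => ⟨c * a⁻¹, d - c * a⁻¹ * b, ?_⟩,
    fun ⟨c, d, e'⟩ => ⟨c * a, c * b + d, by rw [e', e]; module⟩⟩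
  rw [e', e, smul_add, smul_smul, inv_mul_cancel_right₀ ha]
  module

theorem ind_axis {s' : G} (hy' : Hy N s' O) : s' ∈ IG G F (pt O : h.VV hy × F → X) := by
  have md := k.md
  let Z : Submodule F (h.VV hy × F) :=
    { carrier := {w | w = 0 ∨ s' • pt O w = pt O w}
      zero_mem' := Or.inl rfl
      smul_mem' := fun a w hw => by
        by_cases h1 : a • w = 0
        · exact Or.inl h1
        · have h2 := right_ne_zero_of_smul h1
          exact Or.inr (md.sm (left_ne_zero_of_smul h1) h2 ▸ hw.resolve_left h2)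
      add_mem' := fun {a b} ha hb => by
        by_cases h1 : a = 0
        · rwa [h1, zero_add]
        by_cases h2 : b = 0
        · rwa [h2, add_zero]
        by_cases h3 : a + b = 0
        · exact Or.inl h3
        right
        by_cases h4 : pt O a = pt O b
        · obtain ⟨c, rfl⟩ := md.inj h1 h2 h4
          have e : a + c • a = (1 + c) • a := by module
          rw [e] at h3 ⊢
          rw [md.sm (left_ne_zero_of_smul h3) h1]
          exact ha.resolve_left h1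
        · exact h.Ln_fix hy'.mem (ha.resolve_left h1) (hb.resolve_left h2)
            ((k.ln_iff h1 h2 h4 h3).2 ⟨1, 1, by simp⟩) }
  have hZ : ∀ w, w ∉ Z ↔ w ≠ 0 ∧ s' • pt O w ≠ pt O w := fun w => not_or
  obtain ⟨z, hz⟩ := h.H_out hy'
  obtain ⟨wz, hz0, rfl⟩ := md.surj z
  obtain ⟨wO, hO0, hO⟩ := md.surj O
  have hOZ : wO ∈ Z := Or.inr (by rw [hO]; exact h.fix hy'.mem)
  have hzZ := (hZ wz).2 ⟨hz0, hz⟩
  obtain ⟨φ, h1, h2⟩ := Submodule.exists_dual_map_eq_bot_of_notMem hzZ inferInstance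
  have hφ : ∀ w ∈ Z, φ w = 0 := fun w hw =>
    (Submodule.mem_bot F).1 (h2 ▸ Submodule.mem_map_of_mem hw)
  have dec : ∀ w, ∃ l : F, w - l • wz ∈ Z := fun w => by
    by_cases h3 : w ∈ Z
    · exact ⟨0, by simpa using h3⟩
    obtain ⟨h4, h5⟩ := (hZ w).1 h3
    by_cases h6 : pt O wz = pt O w
    · obtain ⟨c, rfl⟩ := md.inj hz0 h4 h6
      exact ⟨c, by simp⟩
    obtain ⟨c, hc, h7⟩ := h.hyper hy' h6
    obtain ⟨wc, h8, rfl⟩ := md.surj c
    obtain ⟨a, b, e⟩ := (k.ln_iff hz0 h4 h6 h8).1 hc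
    have h9 : wc ∈ Z := Or.inr h7
    have hb : b ≠ 0 := by
      rintro rfl
      rw [zero_smul, add_zero] at e
      exact hzZ ((Z.smul_mem_iff (left_ne_zero_of_smul (e ▸ h8))).1 (e ▸ h9))
    refine ⟨-(b⁻¹ * a), ?_⟩
    convert Z.smul_mem b⁻¹ h9 using 1
    rw [e, smul_add, inv_smul_smul₀ hb]
    module
  have ex : ∀ w, w ∉ Z → ∃ a : F, s' • pt O w = pt O (w + a • wO) := fun w hw => by
    obtain ⟨h4, h5⟩ := (hZ w).1 hw
    obtain ⟨w', h6, h7⟩ := md.surj (s' • pt O w)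
    have h8 : pt O wO ≠ pt O w := fun e => h5 (by rw [← e, hO]; exact h.fix hy'.mem)
    obtain ⟨a, b, e⟩ := (k.ln_iff hO0 h4 h8 h6).1 (Or.inr ⟨s', hO.symm ▸ hy'.mem, h7.symm⟩)
    have hb : b ≠ 0 := by
      rintro rfl
      rw [zero_smul, add_zero] at e
      rw [e, md.sm (left_ne_zero_of_smul (e ▸ h6)) hO0, hO, eq_comm, smul_eq_iff_eq_inv_smul,
        inv_fix (h.fix hy'.mem)] at h7
      exact h8 (hO.trans h7.symm)
    refine ⟨b⁻¹ * a, ?_⟩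
    rw [← h7, ← md.sm (inv_ne_zero hb) h6, e, smul_add, inv_smul_smul₀ hb, smul_smul, add_comm]
  have nz : ∀ w, w ∉ Z → ∀ x ∈ Z, w + x ∉ Z := fun w hw x hx e => hw (by simpa using sub_mem e hx)
  have step : ∀ w, w ∉ Z → ∀ x ∈ Z, (∀ c : F, x ≠ c • wO) → ∀ a : F,
      s' • pt O w = pt O (w + a • wO) → s' • pt O (w + x) = pt O (w + x + a • wO) := by
    intro w hw x hx h3 a h4
    have hx0 : x ≠ 0 := by simpa using h3 0
    have hxf : s' • pt O x = pt O x := hx.resolve_left hx0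
    obtain ⟨a', h5⟩ := ex _ (nz w hw x hx)
    obtain ⟨h6, h7⟩ := (hZ w).1 hw
    have h8 : pt O x ≠ pt O w := fun e => h7 (e ▸ hxf)
    have h9 := h.Ln_conj s' ((k.ln_iff hx0 h6 h8 ((hZ _).1 (nz w hw x hx)).1).2
      ⟨1, 1, by simp [add_comm]⟩)
    have n1 := (hZ _).1 (nz w hw _ (Z.smul_mem a hOZ))
    have n2 := (hZ _).1 (nz _ (nz w hw x hx) _ (Z.smul_mem a' hOZ))
    rw [hxf, h4, h5, k.ln_iff hx0 n1.1 (fun e => n1.2 (e ▸ hxf)) n2.1] at h9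
    obtain ⟨b, c, e⟩ := h9
    have hc : c = 1 := by
      by_contra h10
      refine hw ((Z.smul_mem_iff (sub_ne_zero.2 h10)).1 ?_)
      have : (c - 1) • w = (1 - b) • x + (a' - c * a) • wO := by
        linear_combination (norm := module) -e
      exact this ▸ add_mem (Z.smul_mem _ hx) (Z.smul_mem _ hOZ)
    have hb : b = 1 := by
      by_contra h10
      refine h3 ((b - 1)⁻¹ * (a' - a)) ?_
      rw [mul_smul, eq_inv_smul_iff₀ (sub_ne_zero.2 h10)]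
      rw [hc] at e
      linear_combination (norm := module) -e
    rw [h5, e, hb, hc]
    congr 1
    module
  obtain ⟨a, ha⟩ := ex wz hzZ
  have all : ∀ x ∈ Z, s' • pt O (wz + x) = pt O (wz + x + a • wO) := fun x hx => by
    by_cases h3 : ∀ c : F, x ≠ c • wO
    · exact step wz hzZ x hx h3 a ha
    push Not at h3
    obtain ⟨c, rfl⟩ := h3
    obtain ⟨u, hu, h4⟩ := h.Hy_two hy' O
    obtain ⟨wu, h5, rfl⟩ := md.surj u
    have h6 : ∀ c : F, wu ≠ c • wO := fun c e =>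
      hu (by rw [e, md.sm (left_ne_zero_of_smul (e ▸ h5)) hO0, hO])
    have h7 : wu ∈ Z := Or.inr h4
    have := step _ (nz wz hzZ wu h7) _ (sub_mem hx h7)
      (fun d e => h6 (c - d) (by linear_combination (norm := module) -e)) a
      (step wz hzZ wu h7 h6 a ha)
    rwa [add_add_sub_cancel] at this
  have h3 : φ ((a * (φ wz)⁻¹) • wO) = 0 := hφ _ (Z.smul_mem _ hOZ)
  refine ⟨transvection h3, LinearEquiv.transvection.det_eq_one h3, fun w hw => ?_⟩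
  rw [LinearEquiv.transvection.apply]
  obtain ⟨l, hl⟩ := dec w
  have h4 : φ w = l * φ wz := by
    have := hφ _ hl
    rwa [map_sub, map_smul, sub_eq_zero] at this
  by_cases hl0 : l = 0
  · rw [hl0, zero_smul, sub_zero] at hl
    rw [hφ w hl, zero_smul, add_zero, hl.resolve_left hw]
  have h5 := all _ (Z.smul_mem l⁻¹ hl)
  have e1 : wz + l⁻¹ • (w - l • wz) = l⁻¹ • w := by
    rw [smul_sub, inv_smul_smul₀ hl0, add_sub_cancel]
  have n1 := (hZ _).1 (nz _ (nz wz hzZ _ (Z.smul_mem l⁻¹ hl)) _ (Z.smul_mem a hOZ))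
  rw [e1] at h5 n1
  rw [md.sm (inv_ne_zero hl0) hw] at h5
  rw [h5, ← md.sm hl0 n1.1, smul_add, smul_inv_smul₀ hl0, smul_smul, smul_smul, h4]
  congr 3
  field_simp

theorem le_IG : ⨆ x, N x ≤ IG G F (pt O : h.VV hy × F → X) ∧
    ∀ x x' : X, ∃ g ∈ ⨆ x, N x, g • x = x' := by
  have hH : ∀ c, s • c = c → N c ≤ IG G F (pt O : h.VV hy × F → X) := fun c hc σ hσ => by
    obtain ⟨w, h0, rfl⟩ := k.md.surj c
    obtain ⟨φ, hφ, h1⟩ := k.shear h0 hc hσ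
    exact ⟨_, LinearEquiv.transvection.det_eq_one hφ, h1⟩
  have hyy := h.fix hy.mem
  have h1 : ∀ x, s • x = x → ∃ g ∈ (⨆ x, N x) ⊓ IG G F (pt O : h.VV hy × F → X), g • y = x := by
    intro x hx
    by_cases hxy : x = y
    · exact ⟨1, one_mem _, by rw [one_smul, hxy]⟩
    obtain ⟨t, ht, h2⟩ := h.move hxy
    have h3 : t • y ∈ Ln N x y := Or.inr ⟨t, ht, rfl⟩
    have h4 : x ∈ Ln N (t • y) y := (h.Ln_eq h3 (right_mem x y) h2).symm ▸ Or.inl rfl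
    obtain ⟨σ, hσ, e⟩ := h4.resolve_left fun e => h.notMem_Ob hxy ⟨t, ht, e.symm⟩
    exact ⟨σ, ⟨mem_iSup_of_mem _ hσ, hH _ (h.Ln_fix hy.mem hx hyy h3) hσ⟩, e⟩
  obtain ⟨g, hg, -⟩ := h.two (x := y) (y := O) (u := O) (v := y) (fun e => k.out (e ▸ hyy))
    fun e => k.out (e ▸ hyy)
  have hy' := h.Hy_conj hy g
  rw [hg] at hy'
  generalize g * s * g⁻¹ = s' at hy'
  obtain ⟨u, hu, h2⟩ : ∃ u : X, s • u = u ∧ s' • u ≠ u := by
    by_contra h2
    push Not at h2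
    exact k.out (T_fix hy (u := O) ⟨hy'.mem, h2⟩ hy'.ne (h.fix hy'.mem))
  have h3 : s • s' • u ≠ s' • u := fun e => k.out (h.Ln_fix hy.mem hu e
    ((h.Ln_eq (right_mem O u) (Or.inr ⟨s', hy'.mem, rfl⟩) h2.symm).symm ▸ Or.inl rfl))
  have h4 : ∀ x, ∃ g ∈ (⨆ x, N x) ⊓ IG G F (pt O : h.VV hy × F → X), g • y = x := fun x => by
    by_cases hx : s • x = x
    · exact h1 x hx
    obtain ⟨g, hg, e⟩ := h1 u hu
    obtain ⟨v, hv⟩ := k.exists_vg hx
    obtain ⟨v', hv'⟩ := k.exists_vg h3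
    refine ⟨vg (v - v') * (s' * g), mul_mem ⟨mem_iSup_of_mem _ (ctr_mem _).1,
      hH _ (ctr_fix _) (ctr_mem _).1⟩ (mul_mem ⟨mem_iSup_of_mem _ hy'.mem, k.ind_axis hy'⟩ hg), ?_⟩
    rw [mul_smul, mul_smul, e, ← hv', ← mul_smul, ← vg_add, sub_add_cancel, hv]
  refine ⟨iSup_le fun x n hn => ?_, fun x x' => ?_⟩
  · obtain ⟨g, hg, rfl⟩ := h4 x
    have := h.conj g⁻¹ _ n hn
    rw [inv_smul_smul] at this
    have hg2 := (mem_inf.1 hg).2
    simpa [mul_assoc] using mul_mem (mul_mem hg2 (hH y hyy this)) (inv_mem hg2)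
  · obtain ⟨g, hg, rfl⟩ := h4 x
    obtain ⟨g', hg', rfl⟩ := h4 x'
    exact ⟨g' * g⁻¹, mul_mem hg'.1 (inv_mem hg.1), by rw [mul_smul, inv_smul_smul]⟩

theorem transv [Finite F] (φ : Dual F (h.VV hy × F)) (w : h.VV hy × F) (hw : φ w = 0) :
    ∃ g ∈ ⨆ x, N x, Ind (pt O) g (transvection hw) := by
  refine k.md.all_transv k.le_IG.1 k.le_IG.2 (φ₀ := LinearMap.snd F _ _)
    (fun e => one_ne_zero (DFunLike.congr_fun e ((0 : h.VV hy), (1 : F)))) ?_ φ w hw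
  rintro ⟨v, a⟩ (rfl : a = 0)
  refine ⟨vg v, mem_iSup_of_mem _ (ctr_mem _).1, ?_⟩
  rintro ⟨v', b⟩ -
  change pt O (v' + b • v, b + b • 0) = _
  rw [smul_zero, add_zero]
  by_cases hb : b = 0
  · subst hb
    rw [zero_smul, add_zero, pt_zero, vg_fix v (ctr_fix _)]
  · rw [pt_ne _ _ hb, pt_ne _ _ hb, smul_add, inv_smul_smul₀ hb, add_comm, vg_add, mul_smul]

theorem three_le [Finite F] : 3 ≤ finrank F (h.VV hy × F) := by
  obtain ⟨u, hu, h1⟩ := h.Hy_two hy y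
  obtain ⟨v, hv, h2⟩ := (h.sp hy).nt ⟨u, h1⟩
  obtain ⟨v', hv', h3⟩ := (h.sp hy).nt ⟨y, h.fix hy.mem⟩
  have := (LinearIndependent.pair_iff' (K := F) (y := v') h2).2 fun a e =>
    h3 ((h.sp hy).dis (u := ⟨u, h1⟩) (fun e => hu (congrArg Subtype.val e))
      (e ▸ (k.smul_mem a v h1 hv : a • v ∈ h.TT hy ⟨u, h1⟩)) hv')
  have h4 := this.fintype_card_le_finrank
  rw [finrank_prod, finrank_self]
  simp at h4
  omega

end Co

/-- **O'Nan's theorem**, with coordinates. -/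
theorem Fam.main (h : Fam N) : ∃ (F : Type) (_ : Field F) (_ : Fintype F) (n : ℕ)
    (ψ : Projectivization F (Fin n → F) ≃ X), 3 ≤ n ∧
    Nonempty (↥(⨆ x, N x) ≃* Matrix.ProjectiveSpecialLinearGroup (Fin n) F) ∧
    ∀ w₁ h1 w₂ h2 w hw, ψ (Projectivization.mk F w₁ h1) ≠ ψ (Projectivization.mk F w₂ h2) →
      (ψ (Projectivization.mk F w hw) ∈ Ln N (ψ (Projectivization.mk F w₁ h1))
        (ψ (Projectivization.mk F w₂ h2)) ↔ ∃ a b : F, w = a • w₁ + b • w₂) := by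
  obtain ⟨x, x', -, hx, -⟩ := h.ns
  obtain ⟨s, y, hy, -⟩ := h.exists_Hy hx
  obtain ⟨F, _, _, _, h1, h2⟩ := (h.sp hy).exists_field (h.star hy)
  obtain ⟨O, hO⟩ := h.H_out hy
  have k : Co h hy F O := ⟨h1, h2, hO⟩
  let e := (Module.finBasis F (h.VV hy × F)).equivFun.symm
  obtain ⟨ψ, hψ⟩ := k.md.exists_equiv e
  refine ⟨F, inferInstance, inferInstance, _, ψ, k.three_le, k.md.psl e h.faith k.le_IG.1 k.transv,
    fun w₁ h1 w₂ h2 w hw hne => ?_⟩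
  rw [hψ, hψ] at hne
  rw [hψ, hψ, hψ, k.ln_iff (e.map_ne_zero_iff.2 h1) (e.map_ne_zero_iff.2 h2) hne
    (e.map_ne_zero_iff.2 hw)]
  simp only [← map_smul, ← map_add, EmbeddingLike.apply_eq_iff_eq]

end Cfsg.Agent.H19.ON
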