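import Cfsg.Agent.H19.ONh

/-! O'Nan's theorem on abelian normal subgroups of point stabilisers. -/

set_option autoImplicit false

namespace Cfsg.Agent.H19.ON

open Subgroup MulAction

variable {G X : Type*} [Group G] [MulAction G X]

/-- the conjugates of a normal subgroup of a point stabiliser -/
def fam (x : X) (N : Subgroup G) (y : X) : Subgroup G where
  carrier := {g | ∀ k : G, k • x = y → k⁻¹ * g * k ∈ N}
  one_mem' := fun k _ => by simp
  mul_mem' := fun ha hb k hk => by simpa [mul_assoc] using mul_mem (ha k hk) (hb k hk)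
  inv_mem' := fun ha k hk => by simpa [mul_assoc] using inv_mem (ha k hk)

theorem fam_conj (x : X) (N : Subgroup G) (g : G) (y : X) (n : G) (hn : n ∈ fam x N y) :
    g * n * g⁻¹ ∈ fam x N (g • y) := fun k hk => by
  simpa [mul_assoc] using hn (g⁻¹ * k) (by rw [mul_smul, hk, inv_smul_smul])

theorem mem_fam {x : X} {N : Subgroup G} (hN : ∀ g : G, g • x = x → ∀ n ∈ N, g * n * g⁻¹ ∈ N)
    {k n : G} (hn : n ∈ N) : k * n * k⁻¹ ∈ fam x N (k • x) := fun k' hk => by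
  simpa [mul_assoc] using hN (k'⁻¹ * k) (by rw [mul_smul, ← hk, inv_smul_smul]) n hn

theorem Two.trans (h : Two G X) (x y : X) : ∃ g : G, g • x = y := by
  by_cases e : x = y
  · exact ⟨1, by rw [one_smul, e]⟩
  · obtain ⟨g, hg, -⟩ := h.two e (Ne.symm e)
    exact ⟨g, hg⟩

theorem Two.of [FaithfulSMul G X] (h2 : IsMultiplyPretransitive G X 2) : Two G X :=
  ⟨is_two_pretransitive_iff.1 h2, fun g hg => eq_of_smul_eq_smul (α := X) (by simpa using hg)⟩

variable [Finite G]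

theorem Two.exists_fam (h : Two G X) (x : X) (N : Subgroup G) (h1 : ∀ n ∈ N, n • x = x)
    (hN : ∀ g : G, g • x = x → ∀ n ∈ N, g * n * g⁻¹ ∈ N) (hc : ∀ a ∈ N, ∀ b ∈ N, a * b = b * a)
    (hns : ∃ n ∈ N, n ≠ 1 ∧ ∃ y : X, y ≠ x ∧ n • y = y) :
    ∃ M : X → Subgroup G, Fam M ∧ ∀ y, M y ≤ fam x N y := by
  obtain ⟨n, hn, h2, y, hy, h3⟩ := hns
  obtain ⟨p, hp, hd⟩ := Nat.exists_prime_and_dvd (mt orderOf_eq_one_iff.1 h2)
  let N' : Subgroup G :=
    { carrier := {a | a ∈ N ∧ a ^ p = 1}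
      one_mem' := ⟨one_mem _, one_pow _⟩
      mul_mem' := fun ha hb => ⟨mul_mem ha.1 hb.1, by
        rw [Commute.mul_pow (hc _ ha.1 _ hb.1), ha.2, hb.2, one_mul]⟩
      inv_mem' := fun ha => ⟨inv_mem ha.1, by rw [inv_pow, ha.2, inv_one]⟩ }
  have hN' : ∀ g : G, g • x = x → ∀ n ∈ N', g * n * g⁻¹ ∈ N' := fun g hg n hn =>
    ⟨hN g hg n hn.1, by rw [conj_pow, hn.2, mul_one, mul_inv_cancel]⟩
  refine ⟨fam x N', ⟨h, fam_conj x N', fun {z m} hm => ?_, fun {z a b} ha hb => ?_,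
    ⟨x, y, n ^ (orderOf n / p), hy.symm, ?_, fun e => ?_, ?_⟩, p, hp, fun z g => ⟨1, ?_⟩⟩,
    fun z g hg k hk => (hg k hk).1⟩
  · obtain ⟨k, rfl⟩ := h.trans x z
    have := h1 _ (hm k rfl).1
    rwa [mul_smul, mul_smul, inv_smul_eq_iff] at this
  · obtain ⟨k, rfl⟩ := h.trans x z
    have := hc _ (ha k rfl).1 _ (hb k rfl).1
    simp only [← mul_assoc, mul_inv_cancel_right, mul_left_inj] at this
    simpa [mul_assoc] using this
  · simpa using mem_fam (k := 1) hN' (n := n ^ (orderOf n / p)) ⟨pow_mem hn _, by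
      rw [← pow_mul, Nat.div_mul_cancel hd, pow_orderOf_eq_one]⟩
  · have := orderOf_pow_orderOf_div (orderOf_pos n).ne' hd
    rw [e, orderOf_one] at this
    exact hp.one_lt.ne this
  · exact pow_mem (show n ∈ stabilizer G y from h3) _
  · obtain ⟨k, rfl⟩ := h.trans x z
    have h4 := (g.2 k rfl).2
    have h5 := conj_pow (i := p) (a := k⁻¹) (b := (g : G))
    rw [inv_inv, h4, eq_comm, mul_assoc, inv_mul_eq_one, eq_comm, mul_eq_right] at h5
    exact Subtype.ext (by simpa using h5)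

theorem Fam.normal {N : X → Subgroup G} (h : Fam N) :
    (⨆ x, N x).Normal ∧ centralizer ((⨆ x, N x : Subgroup G) : Set G) = ⊥ := by
  refine ⟨⟨fun n hn g => ?_⟩, eq_bot_iff.2 fun g hg => h.faith g fun x => ?_⟩
  · refine iSup_induction (C := fun n => g * n * g⁻¹ ∈ ⨆ x, N x) _ hn
      (fun x n hn => mem_iSup_of_mem _ (h.conj g x n hn)) (by simp) fun a b ha hb => ?_
    simpa [mul_assoc] using mul_mem ha hb
  · obtain ⟨u, v, -, huv, -⟩ := h.ns
    obtain ⟨k, rfl⟩ := h.toTwo.trans u x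
    obtain ⟨a, ha, h1⟩ := h.A_nt ((MulAction.injective k).ne huv)
    exact h.cfix ha.1 h1 (hg a (mem_iSup_of_mem _ ha.1)).symm

/-- **O'Nan's theorem**. -/
theorem Two.onan [Finite X] (h : Two G X) (x : X) (N : Subgroup G) (h1 : ∀ n ∈ N, n • x = x)
    (hN : ∀ g : G, g • x = x → ∀ n ∈ N, g * n * g⁻¹ ∈ N) (hc : ∀ a ∈ N, ∀ b ∈ N, a * b = b * a)
    (hns : ∃ n ∈ N, n ≠ 1 ∧ ∃ y : X, y ≠ x ∧ n • y = y) :
    ∃ (L : Subgroup G) (F : Type) (_ : Field F) (_ : Fintype F) (n : ℕ), 3 ≤ n ∧ L.Normal ∧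
      centralizer (L : Set G) = ⊥ ∧
      Nonempty (L ≃* Matrix.ProjectiveSpecialLinearGroup (Fin n) F) ∧
      Nat.card X * (Fintype.card F - 1) = Fintype.card F ^ n - 1 := by
  obtain ⟨M, hM, -⟩ := h.exists_fam x N h1 hN hc hns
  obtain ⟨F, _, _, n, ψ, h3, e, -⟩ := hM.main
  refine ⟨_, F, inferInstance, inferInstance, n, h3, hM.normal.1, hM.normal.2, e, ?_⟩
  rw [← Nat.card_congr ψ, ← Nat.card_eq_fintype_card, ← Projectivization.card, Nat.card_fun,
    Nat.card_eq_fintype_card (α := Fin n), Fintype.card_fin]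

end Cfsg.Agent.H19.ON
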