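import Mathlib
import Cfsg.Agent.H3.PGroup1

/-! A stem extension by `Z_p` of a group whose abelian Sylow `p`-subgroup has automizer `±1`. -/

set_option autoImplicit false

namespace Cfsg.Agent.H19.ST

open Subgroup
open scoped commutatorElement

universe u

/-- central extension defined by a cocycle -/
@[ext] structure Ex {G A : Type*} (C : G → G → A) where
  g : G
  a : A

theorem exists_ext {G : Type u} [Group G] [Finite G] {p : ℕ} [hp : Fact p.Prime]
    (C : G → G → ZMod p) (h1 : ∀ g, C 1 g = 0) (h2 : ∀ g, C g 1 = 0)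
    (hc : ∀ g h k, C g h + C (g * h) k = C g (h * k) + C h k) {x y : G} (hxy : x * y = y * x)
    (hD : C x y ≠ C y x) : ∃ (Γ : Type u) (_ : Group Γ) (_ : Finite Γ) (π : Γ →* G) (z : Γ),
      Function.Surjective π ∧ (∀ g, π g = 1 ↔ g ∈ zpowers z) ∧ orderOf z = p ∧ z ∈ center Γ ∧
      z ∈ commutator Γ := by
  letI : Mul (Ex C) := ⟨fun a b => ⟨a.g * b.g, a.a + b.a + C a.g b.g⟩⟩
  letI : One (Ex C) := ⟨⟨1, 0⟩⟩
  letI : Inv (Ex C) := ⟨fun a => ⟨a.g⁻¹, -a.a - C a.g⁻¹ a.g⟩⟩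
  have hm : ∀ a b : Ex C, a * b = ⟨a.g * b.g, a.a + b.a + C a.g b.g⟩ := fun _ _ => rfl
  letI : Group (Ex C) := Group.ofLeftAxioms
    (fun a b c => Ex.ext (mul_assoc _ _ _) (by
      simp only [hm]; linear_combination hc a.g b.g c.g))
    (fun a => Ex.ext (one_mul _) (by change 0 + a.a + C 1 a.g = a.a; simp [h1]))
    fun a => Ex.ext (inv_mul_cancel _) (by
      change -a.a - C a.g⁻¹ a.g + a.a + C a.g⁻¹ a.g = 0; ring)
  have hm : ∀ a b : Ex C, a * b = ⟨a.g * b.g, a.a + b.a + C a.g b.g⟩ := fun _ _ => rfl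
  have hpow : ∀ (a : ZMod p) (n : ℕ), (⟨1, a⟩ : Ex C) ^ n = ⟨1, n * a⟩ := fun a n => by
    induction n with
    | zero => rw [pow_zero, Nat.cast_zero, zero_mul]; rfl
    | succ n ih => rw [pow_succ, ih, hm]; simp [h1, add_mul]
  have h0 := sub_ne_zero.2 hD
  refine ⟨Ex C, inferInstance, Finite.of_injective (fun a : Ex C => (a.g, a.a)) fun a b e =>
    Ex.ext (congrArg Prod.fst e) (congrArg Prod.snd e), ⟨⟨Ex.g, rfl⟩, fun _ _ => rfl⟩,
    ⟨1, C x y - C y x⟩, fun g => ⟨⟨g, 0⟩, rfl⟩, fun g => ⟨fun e => ?_, ?_⟩,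
    orderOf_eq_prime (by rw [hpow]; simp; rfl) fun e => h0 (congrArg Ex.a e),
    mem_center_iff.2 fun g => by simp [hm, h1, h2, add_comm], ?_⟩
  · refine ⟨(g.a / (C x y - C y x)).val, ?_⟩
    change _ ^ ((_ : ℕ) : ℤ) = _
    rw [zpow_natCast, hpow, ZMod.natCast_zmod_val, div_mul_cancel₀ _ h0]
    exact Ex.ext e.symm rfl
  · rintro ⟨n, rfl⟩
    rw [map_zpow]
    exact one_zpow n
  · have : (⟨1, C x y - C y x⟩ : Ex C) = ⁅(⟨x, 0⟩ : Ex C), (⟨y, 0⟩ : Ex C)⁆ := by
      rw [commutatorElement_def, mul_assoc, ← mul_inv_rev, eq_mul_inv_iff_mul_eq]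
      simp [hm, h1, hxy]
    exact this ▸ commutator_mem_commutator (mem_top _) (mem_top _)

variable {G : Type u} [Group G] [Finite G] {p : ℕ} [hp : Fact p.Prime]

omit [Finite G] in
theorem exists_fun {P : Type*} [Group P] [Finite P] (hP : IsPGroup p P) {M : Subgroup P}
    (hM : IsCoatom M) : ∃ f : P → ZMod p, (∀ a b, f (a * b) = f a + f b) ∧ ∀ a, f a = 0 ↔ a ∈ M := by
  haveI := H3.normal_of_isCoatom hP hM
  let e : P ⧸ M ≃* Multiplicative (ZMod p) := mulEquivOfPrimeCardEq (p := p)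
    (H3.index_eq_of_isCoatom hP hM) (by simp)
  exact ⟨fun a => (e a).toAdd, fun a b => by simp, fun a => by simp⟩

/-- abelian non-cyclic Sylow subgroup with automizer contained in `±1` -/
structure St (P : Sylow p G) : Prop where
  comm : ∀ a ∈ (P : Subgroup G), ∀ b ∈ (P : Subgroup G), a * b = b * a
  nc : ¬ IsCyclic (P : Subgroup G)
  inv : ∀ n ∈ normalizer ((P : Subgroup G) : Set G),
    (∀ x ∈ (P : Subgroup G), n * x * n⁻¹ = x) ∨ ∀ x ∈ (P : Subgroup G), n * x * n⁻¹ = x⁻¹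

namespace St
variable {P : Sylow p G} (h : St P)
include h

theorem fus (r : G) : (∀ u ∈ (P : Subgroup G), r⁻¹ * u * r ∈ (P : Subgroup G) → r⁻¹ * u * r = u) ∨
    ∀ u ∈ (P : Subgroup G), r⁻¹ * u * r ∈ (P : Subgroup G) → r⁻¹ * u * r = u⁻¹ := by
  haveI : IsMulCommutative (P : Subgroup G) := ⟨⟨fun a b => Subtype.ext (h.comm a a.2 b b.2)⟩⟩
  have k : ∀ u ∈ (P : Subgroup G), r⁻¹ * u * r ∈ (P : Subgroup G) →
      r⁻¹ * u * r = u ∨ r⁻¹ * u * r = u⁻¹ := fun u h1 h2 => by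
    obtain ⟨n, hn, e⟩ := P.conj_eq_normalizer_conj_of_mem u r h1 h2
    rw [e]
    exact (h.inv n⁻¹ (inv_mem hn)).imp (fun e => by simpa using e u h1) fun e => by simpa using e u h1
  by_contra h0
  push Not at h0
  obtain ⟨⟨u, h1, h2, h3⟩, v, h4, h5, h6⟩ := h0
  have e1 := (k u h1 h2).resolve_left h3
  have e2 := (k v h4 h5).resolve_right h6
  have e3 : r⁻¹ * (u * v) * r = u⁻¹ * v := by
    rw [← e1]; nth_rewrite 2 [← e2]; simp [mul_assoc]
  rcases k _ (mul_mem h1 h4) (e3 ▸ mul_mem (inv_mem h1) h4) with e | e <;> rw [e3] at e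
  · exact h3 (e1.trans (mul_right_cancel e))
  · rw [h.comm u h1 v h4, mul_inv_rev] at e
    exact h6 (e2.trans (mul_left_cancel e))

theorem exists_cover : ∃ (Γ : Type u) (_ : Group Γ) (_ : Finite Γ) (π : Γ →* G) (z : Γ),
    Function.Surjective π ∧ (∀ g, π g = 1 ↔ g ∈ zpowers z) ∧ orderOf z = p ∧ z ∈ center Γ ∧
    z ∈ commutator Γ := by
  classical
  haveI : Nontrivial (P : Subgroup G) := not_subsingleton_iff_nontrivial.1 fun _ =>
    h.nc inferInstance
  obtain ⟨M₁, hM₁, -⟩ := (eq_top_or_exists_le_coatom (⊥ : Subgroup (P : Subgroup G))).resolve_left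
    bot_ne_top
  obtain ⟨x, -, hx⟩ := SetLike.exists_of_lt hM₁.1.lt_top
  obtain ⟨M₂, hM₂, h2⟩ := (eq_top_or_exists_le_coatom (zpowers x)).resolve_left fun e =>
    h.nc (isCyclic_iff_exists_zpowers_eq_top.2 ⟨x, e⟩)
  have hx2 := h2 (mem_zpowers x)
  obtain ⟨y, hy1, hy2⟩ := SetLike.not_le_iff_exists.1 fun e : M₁ ≤ M₂ =>
    hx ((hM₁.le_iff.1 e).resolve_left hM₂.1 ▸ hx2)
  obtain ⟨f₁, m₁, k₁⟩ := exists_fun P.2 hM₁
  obtain ⟨f₂, m₂, k₂⟩ := exists_fun P.2 hM₂
  haveI := Fintype.ofFinite (G ⧸ (P : Subgroup G))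
  let τ : G → G ⧸ (P : Subgroup G) → (P : Subgroup G) := fun g q =>
    ⟨(g • q).out⁻¹ * (g * q.out), QuotientGroup.eq.1 (by
      rw [QuotientGroup.out_eq', ← smul_eq_mul, ← MulAction.Quotient.smul_coe,
        QuotientGroup.out_eq'])⟩
  have hτ : ∀ g k q, τ (g * k) q = τ g (k • q) * τ k q := fun g k q =>
    Subtype.ext (by simp [τ, mul_smul, mul_assoc])
  have hτ1 : ∀ q, τ 1 q = 1 := fun q => Subtype.ext (by simp [τ])
  have f0 : ∀ {f : ↥(P : Subgroup G) → ZMod p}, (∀ a b, f (a * b) = f a + f b) → f 1 = 0 :=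
    fun {f} m => by simpa using m 1 1
  have fi : ∀ {f : ↥(P : Subgroup G) → ZMod p}, (∀ a b, f (a * b) = f a + f b) → ∀ a, f a⁻¹ = -f a :=
    fun {f} m a => by have := m a⁻¹ a; rw [inv_mul_cancel, f0 m] at this; linear_combination -this
  obtain ⟨ε, hε, hεP, hφ⟩ : ∃ ε : G ⧸ (P : Subgroup G) → ZMod p, (∀ q, ε q * ε q = 1) ∧
      (∀ (u : (P : Subgroup G)) q, ε ((u : G) • q) = ε q) ∧ ∀ f : ↥(P : Subgroup G) → ZMod p,
      (∀ a b, f (a * b) = f a + f b) → ∃ φ : G ⧸ (P : Subgroup G) → ZMod p,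
        ∀ (u : (P : Subgroup G)) q, f (τ u q) = ε q * f u + φ ((u : G) • q) - φ q := by
    let o : G ⧸ (P : Subgroup G) → G ⧸ (P : Subgroup G) := fun q =>
      (Quotient.mk (MulAction.orbitRel (P : Subgroup G) _) q).out
    have ho : ∀ (u : (P : Subgroup G)) q, o ((u : G) • q) = o q := fun u q =>
      congrArg Quotient.out (Quotient.sound ⟨u, rfl⟩)
    choose g hg using fun q => (show ∃ g : (P : Subgroup G), (g : G) • o q = q from
      (MulAction.orbitRel (P : Subgroup G) _).symm (Quotient.mk_out q))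
    have k : ∀ q : G ⧸ (P : Subgroup G), ∃ e : ZMod p, e * e = 1 ∧ ∀ f : ↥(P : Subgroup G) → ZMod p,
        (∀ a b, f (a * b) = f a + f b) → ∀ u : (P : Subgroup G), (u : G) • q = q →
          f (τ u q) = e * f u := fun q => by
      have k1 : ∀ u : (P : Subgroup G), (u : G) • q = q → (τ u q : G) = q.out⁻¹ * u * q.out :=
        fun u hu => by simp only [τ, hu, mul_assoc]
      rcases h.fus q.out with e | e
      · exact ⟨1, by simp, fun f _ u hu => by
          rw [one_mul, Subtype.ext ((k1 u hu).trans (e u u.2 (k1 u hu ▸ (τ u q).2)))]⟩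
      · exact ⟨-1, by simp, fun f m u hu => by
          rw [neg_one_mul, ← fi m]
          exact congrArg f (Subtype.ext ((k1 u hu).trans (e u u.2 (k1 u hu ▸ (τ u q).2))))⟩
    choose e he1 he2 using k
    refine ⟨fun q => e (o q), fun q => he1 _, fun u q => by simp only [ho], fun f m =>
      ⟨fun q => f (τ (g q) (o q)) - e (o q) * f (g q), fun u q => ?_⟩⟩
    have k1 := he2 (o q) f m ((g ((u : G) • q))⁻¹ * u * g q) (by
      simp only [coe_mul, coe_inv, mul_smul, hg, inv_smul_eq_iff]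
      rw [← ho u q, hg])
    have k2 := hτ (g ((u : G) • q)) ((g ((u : G) • q))⁻¹ * u * g q : (P : Subgroup G)) (o q)
    have k3 := hτ u (g q) (o q)
    rw [coe_mul, coe_mul, coe_inv, mul_smul, mul_smul, hg, ← mul_assoc, mul_inv_cancel_left, k3, hg,
      show (g ((u : G) • q) : G)⁻¹ • (u : G) • q = o q by rw [inv_smul_eq_iff, ← ho u q, hg]] at k2
    have k4 := congrArg f k2
    rw [m, m] at k4
    rw [m, m, fi m] at k1
    simp only [ho, coe_mul, coe_inv] at k1 k4 ⊢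
    linear_combination k4 + k1
  have hxy := h.comm x x.2 y y.2
  refine exists_ext (fun g k => ∑ q, f₁ (τ g (k • q)) * f₂ (τ k q)) (fun g => by simp [hτ1, f0 m₁])
    (fun g => by simp [hτ1, f0 m₂]) (fun g k l => ?_) hxy fun e => ?_
  · rw [← Equiv.sum_comp (MulAction.toPerm l) fun q => f₁ (τ g (k • q)) * f₂ (τ k q)]
    simp only [hτ, m₁, m₂, ← Finset.sum_add_distrib, MulAction.toPerm_apply, mul_smul]
    exact Finset.sum_congr rfl fun q _ => by ring
  obtain ⟨φ, h3⟩ := hφ f₁ m₁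
  obtain ⟨ψ, h4⟩ := hφ f₂ m₂
  have s : ∀ (u : G) (F : G ⧸ (P : Subgroup G) → ZMod p), ∑ q, F (u • q) = ∑ q, F q :=
    fun u F => Equiv.sum_comp (MulAction.toPerm u) F
  have c : ∀ q : G ⧸ (P : Subgroup G), (y : G) • (x : G) • q = (x : G) • (y : G) • q := fun q => by
    rw [← mul_smul, ← hxy, mul_smul]
  have s1 := s y fun q => ε q * ψ q
  have s2 := s x fun q => ε q * φ ((y : G) • q)
  have s3 := s y fun q => φ ((x : G) • q) * ψ q
  have s4 := s x fun q => φ ((y : G) • q) * ψ q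
  have s5 := s y fun q => φ q * ψ q
  have s6 := s x fun q => φ q * ψ q
  simp only [h3, h4, hεP, c, (k₁ y).2 hy1, (k₂ x).2 hx2] at e s1 s2 s3 s4
  have s7 : ∑ q, ε q * ε q * (f₁ x * f₂ y) = 0 := by
    linear_combination (norm := skip) e - f₁ x * s1 - f₂ y * s2 - s3 + s4 + s5 - s6
    simp only [Finset.mul_sum, ← Finset.sum_add_distrib, ← Finset.sum_sub_distrib, zero_add]
    exact Finset.sum_eq_zero fun q _ => by ring
  simp only [hε, one_mul, Finset.sum_const, Finset.card_univ, nsmul_eq_mul, mul_eq_zero, k₁, k₂, hx,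
    hy2, or_false, ZMod.natCast_eq_zero_iff] at s7
  exact P.not_dvd_index (by rwa [← Nat.card_eq_fintype_card] at s7)

end St

end Cfsg.Agent.H19.ST
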