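import Cfsg.Agent.H19.ST1
import Cfsg.Agent.H6.AbFrob3

/-! Characters of a central `p`-extension lying over a principal block with `l = 2`. -/

set_option autoImplicit false
set_option linter.unusedSectionVars false

namespace Cfsg.Agent.H19.ST

open Subgroup Cfsg Cfsg.Agent.H4 Cfsg.Agent.H6
open scoped ComplexConjugate

theorem inner_supp {S : Type*} [Group S] [Fintype S] (H : Subgroup S) [Fintype H] {f : S → ℂ}
    (hf : ∀ s, s ∉ H → f s = 0) (g : S → ℂ) : classInner f g =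
      (Nat.card S : ℂ)⁻¹ * Nat.card H * classInner (fun x : H => f x) fun x : H => g x := by
  classical
  rw [mul_assoc, card_mul_classInner, classInner_def, ← Finset.sum_subtype
    (Finset.univ.filter (· ∈ H)) (by simp) (fun s => f s * conj (g s)), Finset.sum_filter]
  congr 1
  exact Finset.sum_congr rfl fun s _ => by
    split_ifs with h
    exacts [rfl, by rw [hf s h, zero_mul]]

theorem alg {X₁ X₂ Y₁ Y₂ A S b : ℂ} (h1 : X₁ ≠ 0) (h2 : X₂ ≠ 0) (h3 : A ≠ 0)
    (e1 : X₁ = 1 + b + b * A) (e2 : Y₁ = 1 + b + b * S) (e3 : 1 - A = X₁ + X₂)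
    (e4 : 1 - S = Y₁ + Y₂) (e : Y₁ ^ 2 / X₁ + Y₂ ^ 2 / X₂ = 1 - S ^ 2 / A) :
    S = A ∨ X₁ = 1 ∨ X₂ = 1 ∨ A = 1 := by
  field_simp at e
  obtain rfl : X₂ = 1 - A - X₁ := by linear_combination -e3
  obtain rfl : Y₂ = 1 - S - Y₁ := by linear_combination -e4
  subst e1 e2
  have : (S - A) ^ 2 * (b * ((1 + b) * (A - 1))) = 0 := by linear_combination e
  simp only [mul_eq_zero, pow_eq_zero_iff two_ne_zero, sub_eq_zero] at this
  rcases this with h | h | h | h
  exacts [Or.inl h, Or.inr (Or.inl (by simp [h])),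
    Or.inr (Or.inr (Or.inl (by linear_combination (-1 - A) * h))), Or.inr (Or.inr (Or.inr h))]

variable {Γ G : Type*} [Group Γ] [Group G] [Fintype Γ] [Fintype G] {p : ℕ} [hp : Fact p.Prime]
  {π : Γ →* G} {M : Ideal AlgInt} [M.IsMaximal]

open Classical in
/-- extension by zero -/
noncomputable def ex (lam : π.ker →* ℂˣ) (x : Γ) : ℂ := if h : x ∈ π.ker then lam ⟨x, h⟩ else 0

/-- `lam` at the `p`-part -/
noncomputable def mu (p : ℕ) [hp : Fact p.Prime] (lam : π.ker →* ℂˣ) (g : Γ) : ℂ :=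
  ex lam (exists_isPPart hp.1 g).choose

variable (lam : π.ker →* ℂˣ)

theorem mu_eq {g x : Γ} (h : IsPPart p g x) : mu p lam g = ex lam x :=
  congrArg _ (IsPPart.unique hp.1 (exists_isPPart hp.1 g).choose_spec h)

theorem ex_of_mem {x : Γ} (h : x ∈ π.ker) : ex lam x = lam ⟨x, h⟩ := dif_pos h

theorem ex_of_not {x : Γ} (h : x ∉ π.ker) : ex lam x = 0 := dif_neg h

theorem reg_iff {g x : Γ} (h : IsPPart p g x) : x ∈ π.ker ↔ ¬ p ∣ orderOf (π g) :=
  IsPPart.eq_one_iff hp.1 (IsPPart.map hp.1 h π)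

theorem mu_reg {g : Γ} (h : ¬ p ∣ orderOf g) : mu p lam g = 1 := by
  rw [mu_eq lam (isPPart_one hp.1 h), ex_of_mem lam (one_mem _)]
  exact congrArg Units.val lam.map_one

theorem lam_conj (w : π.ker) : (lam w : ℂ) * conj (lam w : ℂ) = 1 := by
  rw [conj_linear, ← Units.val_mul, ← map_mul, mul_inv_cancel, map_one, Units.val_one]

theorem mu_cases (g : Γ) : (p ∣ orderOf (π g) ∧ mu p lam g = 0) ∨
    (¬ p ∣ orderOf (π g) ∧ mu p lam g * conj (mu p lam g) = 1) := by
  obtain ⟨x, hx⟩ := exists_isPPart hp.1 g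
  rw [mu_eq lam hx]
  by_cases h : x ∈ π.ker
  · exact Or.inr ⟨(reg_iff hx).1 h, by rw [ex_of_mem lam h, lam_conj]⟩
  · exact Or.inl ⟨not_not.1 (mt (reg_iff hx).2 h), ex_of_not lam h⟩

/-- central extension by a `p`-group -/
structure Cov (p : ℕ) (π : Γ →* G) : Prop where
  surj : Function.Surjective π
  pg : IsPGroup p π.ker
  cen : π.ker ≤ center Γ

/-- the shape of the principal block -/
structure Dat (p : ℕ) (M : Ideal AlgInt) (χ : IrrCharacter G) (a : ℂ) : Prop where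
  sq : a = 1 ∨ a = -1
  ne : χ ≠ irrOne G
  mem : χ ∈ principalBlock M G
  sing : ∀ g, p ∣ orderOf g → a * (χ : G → ℂ) g = 1
  span : ∀ η ∈ principalBlock M G, ∃ α β : ℂ, ∀ g, ¬ p ∣ orderOf g →
    (η : G → ℂ) g = α + β * (a * (χ : G → ℂ) g)

namespace Cov
variable (h : Cov p π)
include h

theorem mulP {w g x : Γ} (hw : w ∈ π.ker) (hx : IsPPart p g x) : IsPPart p (w * g) (w * x) := by
  obtain ⟨y, e, c, ⟨k, hk⟩, hy⟩ := hx
  obtain ⟨j, hj⟩ := exists_orderOf_eq_of_mem hp.1 h.pg hw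
  have c1 : ∀ g, Commute w g := fun g => (mem_center_iff.1 (h.cen hw) g).symm
  refine ⟨y, by rw [mul_assoc, e], (c1 y).mul_left c, ?_, hy⟩
  obtain ⟨i, -, hi⟩ := (Nat.dvd_prime_pow hp.1).1 (show orderOf (w * x) ∣ p ^ (j + k) by
    rw [pow_add, ← hj, ← hk]; exact (c1 x).orderOf_mul_dvd_mul_orderOf)
  exact ⟨i, hi⟩

theorem mu_mul (w : π.ker) (g : Γ) : mu p lam (w * g) = lam w * mu p lam g := by
  obtain ⟨x, hx⟩ := exists_isPPart hp.1 g
  rw [mu_eq lam hx, mu_eq lam (h.mulP w.2 hx)]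
  by_cases h1 : x ∈ π.ker
  · rw [ex_of_mem lam h1, ex_of_mem lam (mul_mem w.2 h1), ← Units.val_mul, ← map_mul]; rfl
  · rw [ex_of_not lam h1, ex_of_not lam (mt (mul_mem_cancel_left w.2).1 h1), mul_zero]

theorem ex_conj (x c : Γ) : ex lam (c * x * c⁻¹) = ex lam x := by
  by_cases h1 : x ∈ π.ker
  · rw [mem_center_iff.1 (h.cen h1) c, mul_inv_cancel_right]
  · rw [ex_of_not lam h1, ex_of_not lam fun h2 => h1 (by
      simpa [mul_assoc] using π.normal_ker.conj_mem _ h2 c⁻¹)]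

theorem mu_class : IsClassFunction Γ (mu p lam) := isClassFunction_iff_isConj.2 fun a b hab => by
  obtain ⟨c, rfl⟩ := isConj_iff.1 hab
  obtain ⟨x, hx⟩ := exists_isPPart hp.1 a
  rw [mu_eq lam hx, mu_eq lam (IsPPart.conj hx c), h.ex_conj]

theorem isGen {Φ : G → ℂ} (hΦ : IsGeneralizedCharacter G Φ) (h0 : ∀ g, p ∣ orderOf g → Φ g = 0) :
    IsGeneralizedCharacter Γ (mu p lam * fun g => Φ (π g)) := by
  classical
  have hc := (h.mu_class lam).mul (hΦ.isClassFunction.comp π)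
  refine isGen_of_prod hp.1 hc fun S F hS hF hSF => ?_
  let ι := S.subtype.noncommCoprod F.subtype fun s f => hSF s s.2 f f.2
  have k : ∀ x : S × F, IsPPart p (x.1 * x.2 : Γ) x.1 := fun x =>
    isPPart_mul (hSF _ x.1.2 _ x.2.2) (exists_orderOf_eq_of_mem hp.1 hS x.1.2) fun h1 =>
      hF (h1.trans (F.orderOf_dvd_natCard x.2.2))
  have k1 : ∀ l : π.ker →* ℂˣ, (fun x : S × F => (mu p l * fun g => Φ (π g)) (x.1 * x.2 : Γ)) =
      fun x : S × F => (fun s : S => ex l s) x.1 * (fun f : F => Φ (π f)) x.2 := fun l => by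
    funext x
    simp only [Pi.mul_apply, mu_eq l (k x)]
    by_cases h1 : (x.1 : Γ) ∈ π.ker
    · rw [map_mul, show π x.1 = 1 from h1, one_mul]
    · rw [ex_of_not l h1, zero_mul, zero_mul]
  refine (hc.comp ι).isGen_of_int fun θ hθ => ?_
  obtain ⟨ψ, φ, hψ, hφ, rfl⟩ := hθ.exists_prod
  obtain ⟨n, hn⟩ := ((hΦ.comp π).comp ι).classInner_int (isGen_one.mul (hφ.isGen.comp
    (MonoidHom.snd S F)))
  have k2 : (fun x => Φ (π (ι x))) = fun x : S × F => (mu p (1 : π.ker →* ℂˣ) * fun g => Φ (π g))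
      (x.1 * x.2 : Γ) := funext fun x => by
    change Φ (π (x.1 * x.2)) = _ * Φ (π (x.1 * x.2))
    by_cases h1 : (x.1 : Γ) ∈ π.ker
    · rw [mu_eq _ (k x), ex_of_mem _ h1]; simp
    · rw [h0 _ (not_not.1 (mt (reg_iff (k x)).2 h1)), mul_zero]
  have k3 : ∀ l : π.ker →* ℂˣ, (fun x : π.ker.subgroupOf S => ex l (x : S)) = fun x =>
      (l.comp ((S.subtype.comp (π.ker.subgroupOf S).subtype).codRestrict _ fun x => x.2) x : ℂ) :=
    fun l => funext fun x => ex_of_mem l x.2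
  obtain ⟨m, hm⟩ := (isCharacter_linear (lam.comp ((S.subtype.comp (π.ker.subgroupOf S).subtype
    ).codRestrict _ fun x => x.2))).classInner_nat (hψ.isCharacter.restrict (π.ker.subgroupOf S))
  refine ⟨m * n, ?_⟩
  rw [k2, k1] at hn
  have := classInner_prod (fun s : S => ex (1 : π.ker →* ℂˣ) s) (fun _ => 1)
    (fun f : F => Φ (π f)) φ
  rw [inner_supp (π.ker.subgroupOf S) (f := fun s : S => ex (1 : π.ker →* ℂˣ) s)
    fun s hs => ex_of_not _ hs, k3] at this
  change classInner (fun x : S × F => (mu p lam * fun g => Φ (π g)) (x.1 * x.2 : Γ)) _ = _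
  rw [k1, classInner_prod (fun s : S => ex lam s) ψ (fun f : F => Φ (π f)) φ,
    inner_supp (π.ker.subgroupOf S) (f := fun s : S => ex lam s) fun s hs => ex_of_not _ hs, k3, hm]
  simp only [MonoidHom.one_comp, MonoidHom.one_apply, Units.val_one, classInner_one_one] at this
  rw [Int.cast_mul, Int.cast_natCast, ← hn.symm.trans this |>.symm]
  ring

theorem avg {f η : Γ → ℂ} (hf : ∀ (w : π.ker) g, f (w * g) = f g)
    (hη : ∀ (w : π.ker) g, η (w * g) = η g) (h0 : ∀ g, p ∣ orderOf (π g) → f g = 0)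
    (h1 : classInner (pRegularPart p f) η = 0) : classInner f η = 0 := by
  classical
  have k : ∀ g, f g = ∑ w : π.ker, pRegularPart p f (w * g) := fun g => by
    obtain ⟨x, hx⟩ := exists_isPPart hp.1 g
    have k1 := fun w : π.ker => IsPPart.eq_one_iff hp.1 (h.mulP w.2 hx)
    by_cases h2 : x ∈ π.ker
    · rw [Finset.sum_eq_single (⟨x, h2⟩⁻¹ : π.ker) (fun w _ hw => pRegularPart_of_dvd _
        (not_not.1 (mt (k1 w).2 fun e => hw (Subtype.ext (eq_inv_of_mul_eq_one_left e)))))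
        (by simp), pRegularPart_of_not_dvd _ ((k1 _).1 (inv_mul_cancel x)), hf]
    · rw [h0 g (not_not.1 (mt (reg_iff hx).2 h2)), eq_comm]
      exact Finset.sum_eq_zero fun w _ => pRegularPart_of_dvd _ (not_not.1 (mt (k1 w).2 fun e =>
        h2 (eq_inv_of_mul_eq_one_right e ▸ inv_mem w.2)))
  rw [classInner_def, mul_eq_zero] at h1 ⊢
  refine h1.imp id fun h1 => ?_
  rw [Finset.sum_congr rfl fun g _ => by rw [k g, Finset.sum_mul], Finset.sum_comm]
  refine Finset.sum_eq_zero fun w _ => ?_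
  rw [← h1, ← Equiv.sum_comp (Equiv.mulLeft (w : Γ)) fun g => pRegularPart p f g * conj (η g)]
  exact Finset.sum_congr rfl fun g _ => by simp [hη]

theorem key (hM : IsPModular p M) {χ : IrrCharacter G} {a : ℂ} (D : Dat p M χ a)
    (ψ : IrrCharacter Γ) {ε : ℂ} (hε : ε = 1 ∨ ε = -1)
    (e : classInner (mu p lam * fun g => 1 - a * (χ : G → ℂ) (π g)) ψ = ε) :
    (∀ (w : π.ker) g, (ψ : Γ → ℂ) (w * g) = lam w * (ψ : Γ → ℂ) g) ∧ ∃ b : ℂ, ∀ g,
      ¬ p ∣ orderOf g → ε * (ψ : Γ → ℂ) g = 1 + b + b * (a * (χ : G → ℂ) (π g)) := by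
  classical
  have hε0 : ε ≠ 0 := by rcases hε with rfl | rfl <;> simp
  have hw : ∀ (w : π.ker) g, π (w * g) = π g := fun w g => by
    rw [map_mul, show π w = 1 from w.2, one_mul]
  have k1 : ∀ (w : π.ker) g, (ψ : Γ → ℂ) (w * g) = lam w * (ψ : Γ → ℂ) g := fun w => by
    have h1 := apply_mul_of_mem_charCenter (ψ.2.center_le_charCenter (h.cen w.2))
      ψ.2.apply_one_ne_zero
    generalize (ψ : Γ → ℂ) w / (ψ : Γ → ℂ) 1 = ζ at h1
    have h2 : lam w * conj ζ * ε = ε := by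
      rw [← e, classInner_def, mul_left_comm, Finset.mul_sum,
        ← Equiv.sum_comp (Equiv.mulLeft (w : Γ)) fun g => _ * conj ((ψ : Γ → ℂ) g)]
      congr 1
      exact Finset.sum_congr rfl fun g _ => by simp [h1, h.mu_mul, hw]; ring
    have h3 := congrArg conj ((mul_left_eq_self₀.1 h2).resolve_right hε0)
    rw [map_mul, Complex.conj_conj, map_one] at h3
    intro g
    rw [h1, show ζ = lam w by linear_combination lam w * h3 - ζ * lam_conj lam w]
  refine ⟨k1, ?_⟩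
  let F : Γ → ℂ := fun g => conj (mu p lam g) * (ψ : Γ → ℂ) g
  have hF : ∀ (w : π.ker) g, F (w * g) = F g := fun w g => by
    simp only [F, k1, h.mu_mul, map_mul]
    linear_combination conj (mu p lam g) * (ψ : Γ → ℂ) g * lam_conj lam w
  obtain ⟨B, hB⟩ : ∃ B : G → ℂ, F = fun g => B (π g) := ⟨fun x => F (Function.surjInv h.surj x),
    funext fun g => by
      rw [← hF ⟨Function.surjInv h.surj (π g) * g⁻¹, by simp [Function.surjInv_eq]⟩ g,
        inv_mul_cancel_right]⟩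
  have hFc : IsClassFunction Γ F := (h.mu_class lam).conj.mul ψ.2.isClassFunction
  have hBc : IsClassFunction G B := isClassFunction_iff_isConj.2 fun x y hxy => by
    obtain ⟨c, rfl⟩ := isConj_iff.1 hxy
    obtain ⟨c, rfl⟩ := h.surj c
    obtain ⟨x, rfl⟩ := h.surj x
    have := hFc.of_isConj (isConj_iff.2 ⟨c, rfl⟩ : IsConj x _)
    simpa [hB] using this
  have hR : ∀ η : IrrCharacter G, classInner B η ≠ 0 →
      SameBlock M (ψ : Γ → ℂ) fun g => (η : G → ℂ) (π g) := fun η h1 => by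
    by_contra h2
    have h3 := classInner_pRegularPart_eq_zero hM (χ := ψ)
      (ψ := ⟨_, η.2.comp_of_surjective π h.surj⟩) h2
    rw [← H5.inner_comp_of_surjective π h.surj, ← hB] at h1
    refine h1 (h.avg hF (fun w g => by simp only [hw]) (fun g hg => ?_) ?_)
    · simp only [F, ((mu_cases lam g).resolve_right fun h => h.1 hg).2, map_zero, zero_mul]
    · rw [← h3]
      congr 1
      funext g
      simp only [pRegularPart_apply]
      split_ifs with h4
      exacts [rfl, by simp only [F, mu_reg lam h4, map_one, one_mul]]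
  have hac : conj a = a := by rcases D.sq with rfl | rfl <;> simp
  have haa : a * a = 1 := by rcases D.sq with rfl | rfl <;> simp
  have hΦ : (fun g => 1 - a * (χ : G → ℂ) g) = (irrOne G : G → ℂ) - a • (χ : G → ℂ) := rfl
  have e1 : classInner B (fun g => 1 - a * (χ : G → ℂ) g) = ε := by
    rw [← H5.inner_comp_of_surjective π h.surj, ← hB, ← classInner_conj_symm,
      show ε = conj ε by rcases hε with rfl | rfl <;> simp, ← e, classInner_def, classInner_def]
    congr 2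
    exact Finset.sum_congr rfl fun g _ => by simp [F]; ring
  obtain ⟨η₀, h1, h2⟩ : ∃ η₀ ∈ principalBlock M G, classInner B η₀ ≠ 0 := by
    by_contra h1
    push Not at h1
    rw [hΦ, classInner_sub_right, classInner_smul_right, h1 _ D.mem,
      h1 (irrOne G) (sameBlock_refl _), mul_zero, sub_zero] at e1
    exact hε0 e1.symm
  have hS : ∀ η : IrrCharacter G, classInner B η ≠ 0 → η ∈ principalBlock M G := fun η h3 =>
    sameBlock_trans h1 (sameBlock_of_comp_pGroup hM π h.surj h.pg (fun g _ w hw =>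
      (mem_center_iff.1 (h.cen hw) g).symm) η₀.2 η.2
      (sameBlock_trans (sameBlock_symm (hR _ h2)) (hR _ h3)))
  choose! α β hαβ using D.span
  have e2 : ∀ g, ¬ p ∣ orderOf g → B g = ∑ η : IrrCharacter G, classInner B η * α η +
      (∑ η : IrrCharacter G, classInner B η * β η) * (a * (χ : G → ℂ) g) := fun g hg => by
    rw [hBc.apply_eq_sum g, Finset.sum_mul, ← Finset.sum_add_distrib]
    refine Finset.sum_congr rfl fun η _ => ?_
    by_cases h3 : classInner B η = 0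
    · simp [h3]
    · rw [hαβ η (hS η h3) g hg]; ring
  generalize ∑ η : IrrCharacter G, classInner B η * α η = A at e2
  generalize ∑ η : IrrCharacter G, classInner B η * β η = C at e2
  have e3 : classInner B (fun g => 1 - a * (χ : G → ℂ) g) = classInner
      (A • (irrOne G : G → ℂ) + (C * a) • (χ : G → ℂ)) fun g => 1 - a * (χ : G → ℂ) g := by
    rw [classInner_def, classInner_def]
    congr 1
    refine Finset.sum_congr rfl fun g _ => ?_
    by_cases hg : p ∣ orderOf g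
    · simp [D.sing g hg]
    · simp [e2 g hg, mul_assoc]
  rw [e1, hΦ] at e3
  simp only [classInner_add_left, classInner_smul_left, classInner_sub_right,
    classInner_smul_right, irr_classInner, D.ne, D.ne.symm, if_true, if_false, hac] at e3
  refine ⟨ε * C, fun g hg => ?_⟩
  have e4 := e2 (π g) fun h3 => hg (h3.trans (orderOf_map_dvd π g))
  have e5 := congrFun hB g
  simp only [F, mu_reg lam hg, map_one, one_mul] at e5
  have hεε : ε * ε = 1 := by rcases hε with rfl | rfl <;> simp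
  rw [e5, e4]
  linear_combination hεε - ε * e3 + ε * C * haa

theorem main (hM : IsPModular p M) (hp2 : p ≠ 2) {χ : IrrCharacter G} {a : ℂ} (D : Dat p M χ a)
    {z : Γ} (hz : z ∈ π.ker) (hz1 : z ≠ 1) (hz2 : z ∈ commutator Γ) {u : Γ} (hu : u ^ 2 = 1) :
    (χ : G → ℂ) (π u) = (χ : G → ℂ) 1 ∨ a * (χ : G → ℂ) 1 = 1 := by
  classical
  obtain ⟨lam, hl⟩ : ∃ lam : π.ker →* ℂˣ, (lam ⟨z, hz⟩ : ℂ) ≠ 1 := by
    obtain ⟨θ, h1, h2⟩ := exists_irr_apply_ne (show (⟨z, hz⟩ : π.ker) ≠ 1 from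
      fun e => hz1 (congrArg Subtype.val e))
    obtain ⟨lam, rfl⟩ := h1.exists_linear_of_comm fun x y =>
      Subtype.ext (mem_center_iff.1 (h.cen y.2) x)
    exact ⟨lam, by simpa using h2⟩
  have hac : conj a = a := by rcases D.sq with rfl | rfl <;> simp
  have haa : a * a = 1 := by rcases D.sq with rfl | rfl <;> simp
  have hΦ : (fun g => 1 - a * (χ : G → ℂ) g) = (irrOne G : G → ℂ) - a • (χ : G → ℂ) := rfl
  have h0 : ∀ g, p ∣ orderOf g → 1 - a * (χ : G → ℂ) g = 0 := fun g hg => by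
    rw [D.sing g hg, sub_self]
  have hE := h.isGen lam (Φ := fun g => 1 - a * (χ : G → ℂ) g) (by
    rw [hΦ]
    refine (irrOne G).2.isGen.sub ?_
    rcases D.sq with rfl | rfl
    · rw [one_smul]; exact χ.2.isGen
    · rw [neg_one_smul]; exact χ.2.isGen.neg) h0
  have key := h.key lam hM D
  set E := mu p lam * fun g => 1 - a * (χ : G → ℂ) (π g) with hE'
  have h2 : classInner E E = 2 := by
    have : classInner E E = classInner (fun g => 1 - a * (χ : G → ℂ) g)
        fun g => 1 - a * (χ : G → ℂ) g := by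
      rw [← H5.inner_comp_of_surjective π h.surj, classInner_def, classInner_def]
      congr 1
      refine Finset.sum_congr rfl fun g _ => ?_
      rcases mu_cases (p := p) lam g with ⟨h1, -⟩ | ⟨-, h1⟩
      · simp only [E, Pi.mul_apply, h0 _ h1, mul_zero, zero_mul]
      · simp only [E, Pi.mul_apply, map_mul (starRingEnd ℂ) (mu p lam g)]
        linear_combination (1 - a * (χ : G → ℂ) (π g)) * conj (1 - a * (χ : G → ℂ) (π g)) * h1
    rw [this, hΦ]
    simp only [classInner_sub_left, classInner_smul_left, classInner_sub_right,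
      classInner_smul_right, irr_classInner, D.ne, D.ne.symm, if_true, if_false, hac]
    linear_combination haa
  obtain ⟨ψ₁, ψ₂, ε₁, ε₂, hne, hε₁, hε₂, e⟩ : ∃ (ψ₁ ψ₂ : IrrCharacter Γ) (ε₁ ε₂ : ℂ), ψ₁ ≠ ψ₂ ∧
      (ε₁ = 1 ∨ ε₁ = -1) ∧ (ε₂ = 1 ∨ ε₂ = -1) ∧ E = ε₁ • (ψ₁ : Γ → ℂ) + ε₂ • (ψ₂ : Γ → ℂ) := by
    obtain ⟨α, β, hα, hβ, hne, e | e | e⟩ := H5.exists_of_norm_two hE h2
    · exact ⟨⟨α, hα⟩, ⟨β, hβ⟩, 1, 1, by simpa, by simp, by simp, by simp [e]⟩
    · exact ⟨⟨α, hα⟩, ⟨β, hβ⟩, 1, -1, by simpa, by simp, by simp, by simp [e, sub_eq_add_neg]⟩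
    · exact ⟨⟨α, hα⟩, ⟨β, hβ⟩, -1, -1, by simpa, by simp, by simp, by simp [e, sub_eq_add_neg]⟩
  have nl : ∀ (ψ : IrrCharacter Γ) (ε : ℂ), (ε = 1 ∨ ε = -1) → classInner E ψ = ε →
      ε * (ψ : Γ → ℂ) 1 ≠ 1 := fun ψ ε hε h1 h3 => by
    obtain ⟨n, -, hn⟩ := ψ.2.exists_degree
    have h4 : (ψ : Γ → ℂ) 1 = 1 := by
      rcases hε with rfl | rfl
      · rwa [one_mul] at h3
      · rw [hn] at h3
        exact absurd (show ((n + 1 : ℕ) : ℂ) = 0 by push_cast; linear_combination -h3)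
          (Nat.cast_ne_zero.2 n.succ_ne_zero)
    have h5 := (key ψ hε h1).1 ⟨z, hz⟩ 1
    rw [mul_one, apply_of_mem_charKer (ψ.2.commutator_le_charKer_iff.2 h4 hz2), h4, mul_one] at h5
    exact hl h5.symm
  have i1 : classInner E ψ₁ = ε₁ := by
    simp [e, classInner_add_left, classInner_smul_left, irr_classInner, hne.symm]
  have i2 : classInner E ψ₂ = ε₂ := by
    simp [e, classInner_add_left, classInner_smul_left, irr_classInner, hne]
  obtain ⟨b, hb⟩ := (key ψ₁ hε₁ i1).2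
  have n1 := nl _ _ hε₁ i1
  have n2 := nl _ _ hε₂ i2
  have r1 : ¬ p ∣ orderOf (1 : Γ) := by rw [orderOf_one, Nat.dvd_one]; exact hp.1.ne_one
  have r2 : ∀ y : Γ, y ^ 2 = 1 → ¬ p ∣ orderOf y := fun y hy h1 => hp2 ((Nat.prime_dvd_prime_iff_eq
    hp.1 Nat.prime_two).1 (h1.trans (orderOf_dvd_of_pow_eq_one hy)))
  have v : ∀ g, E g = ε₁ * (ψ₁ : Γ → ℂ) g + ε₂ * (ψ₂ : Γ → ℂ) g := fun g => congrFun e g
  have s : ∑ t, E (t * u * t⁻¹ * u) =
      ∑ t, (1 - a * (χ : G → ℂ) (π (t * u * t⁻¹ * u))) := Finset.sum_congr rfl fun t _ => by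
    obtain ⟨y, hy⟩ := exists_isPPart hp.1 (t * u * t⁻¹ * u)
    by_cases h1 : y ∈ π.ker
    · have h3 := exists_conj_inv_of_isPPart hp.1 (by rw [conj_pow, hu]; simp) hu hy
      rw [mem_center_iff.1 (h.cen h1), mul_inv_cancel_right, eq_inv_iff_mul_eq_one, ← sq] at h3
      have h4 := IsPPart.unique hp.1 (isPPart_self hp.1 (IsPPart.pow_order hy))
        (isPPart_one hp.1 (r2 y h3))
      simp only [E, Pi.mul_apply, mu_reg lam ((IsPPart.eq_one_iff hp.1 hy).1 h4), one_mul]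
    · simp only [E, Pi.mul_apply, h0 _ (not_not.1 (mt (reg_iff hy).2 h1)), mul_zero]
  simp only [v, Finset.sum_add_distrib, Finset.sum_sub_distrib, ← Finset.mul_sum,
    ψ₁.2.sum_conj_mul, ψ₂.2.sum_conj_mul, (χ.2.comp_of_surjective π h.surj).sum_conj_mul u u,
    Finset.sum_const, Finset.card_univ, ← Nat.card_eq_fintype_card, nsmul_eq_mul, map_one] at s
  have v1 := v 1
  have v2 := v u
  simp only [E, Pi.mul_apply, mu_reg lam r1, mu_reg lam (r2 u hu), hb _ r1, hb _ (r2 u hu),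
    map_one] at v1 v2
  have w1 := hb _ r1
  have w2 := hb _ (r2 u hu)
  rw [map_one] at w1
  have z1 := ψ₁.2.apply_one_ne_zero
  have z2 := ψ₂.2.apply_one_ne_zero
  have z3 := χ.2.apply_one_ne_zero
  have z4 := natCard_ne_zero' (G := Γ)
  have q1 : ε₁ * ε₁ = 1 := by rcases hε₁ with rfl | rfl <;> simp
  have q2 : ε₂ * ε₂ = 1 := by rcases hε₂ with rfl | rfl <;> simp
  rcases alg (X₁ := ε₁ * (ψ₁ : Γ → ℂ) 1) (X₂ := ε₂ * (ψ₂ : Γ → ℂ) 1) (Y₁ := ε₁ * (ψ₁ : Γ → ℂ) u)
    (Y₂ := ε₂ * (ψ₂ : Γ → ℂ) u) (A := a * (χ : G → ℂ) 1) (S := a * (χ : G → ℂ) (π u)) (b := b)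
    (mul_ne_zero (left_ne_zero_of_mul_eq_one q1) z1) (mul_ne_zero (left_ne_zero_of_mul_eq_one q2) z2)
    (mul_ne_zero (left_ne_zero_of_mul_eq_one haa) z3) w1 w2 (by linear_combination v1 - w1)
    (by linear_combination v2 - w2) (by
      have := left_ne_zero_of_mul_eq_one q1
      have := left_ne_zero_of_mul_eq_one q2
      have := left_ne_zero_of_mul_eq_one haa
      apply mul_left_cancel₀ z4
      linear_combination (norm := (field_simp; ring)) s) with e | e | e | e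
  exacts [Or.inl (mul_left_cancel₀ (left_ne_zero_of_mul_eq_one haa) e), absurd e n1, absurd e n2,
    Or.inr e]

end Cov

end Cfsg.Agent.H19.ST
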