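import Cfsg.Agent.H19.ST2
import Cfsg.Agent.H9.UpperP
import Cfsg.Agent.H9.PCons

/-! The Smith–Tyrer theorem. -/

set_option autoImplicit false
set_option linter.unusedSectionVars false

namespace Cfsg.Agent.H19.ST

open Subgroup Cfsg Cfsg.Agent.H4 Cfsg.Agent.H6

universe u

variable {G : Type u} [Group G] {p : ℕ} [hp : Fact p.Prime]

theorem eq_one_of_inv [Finite G] (hp2 : p ≠ 2) {P : Subgroup G} (hP : IsPGroup p P) {y : G}
    (hy : y ∈ P) (e : y = y⁻¹) : y = 1 := by
  obtain ⟨k, hk⟩ := exists_orderOf_eq_of_mem hp.1 hP hy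
  rw [eq_inv_iff_mul_eq_one, ← sq, ← orderOf_dvd_iff_pow_eq_one, hk] at e
  rw [← orderOf_eq_one_iff, hk]
  exact Nat.Coprime.eq_one_of_dvd (((Nat.coprime_primes hp.1 Nat.prime_two).2 hp2).pow_left k) e

namespace St
variable {P : Sylow p G} (h : St P) (hp2 : p ≠ 2)
include h hp2

theorem dat [Fintype G] {M : Ideal AlgInt} [M.IsMaximal] (hM : IsPModular p M)
    (hR : ∀ K : Subgroup G, (∀ g, ¬ p ∣ orderOf g → g ∈ K) → K = ⊤) :
    ∃ χ a, Dat (G := G) p M χ a := by
  classical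
  haveI := Fintype.ofFinite (P : Subgroup G)
  have af : AF P := ⟨fun a b => Subtype.ext (h.comm a a.2 b b.2), fun y hy h1 n hn => by
    rcases h.inv n hn.2 with e | e
    · exact fun x hx => (mul_inv_eq_iff_eq_mul.1 (e x hx)).symm
    · refine absurd (eq_one_of_inv hp2 P.2 hy ?_) h1
      rw [← e y hy, ← (mem_centralizer_singleton.1 hn.1).eq, mul_inv_cancel_right]⟩
  have h2 : Nat.card (autz (P : Subgroup G)) ≤ 2 := by
    have k : ∀ α : autz (P : Subgroup G), α ≠ 1 → ∀ y, (α.1 y : G) = (y : G)⁻¹ := fun α hα y => by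
      obtain ⟨n, hn, e⟩ := mem_autz.1 α.2
      rw [e]
      exact (h.inv n hn).resolve_left (fun e' => hα (Subtype.ext (MulEquiv.ext fun y =>
        Subtype.ext ((e y).trans (e' y y.2))))) y y.2
    refine (Nat.card_le_card_of_injective (fun α => α = 1) fun α β e => ?_).trans (by simp)
    by_cases h1 : α = 1
    · exact h1.trans (e.mp h1 : β = 1).symm
    · exact Subtype.ext (MulEquiv.ext fun y => Subtype.ext ((k α h1 y).trans
        (k β (fun h3 => h1 (e.mpr h3 : α = 1)) y).symm))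
  have h3 : 3 < Nat.card P := by
    obtain ⟨k, hk⟩ := P.2.exists_card_eq
    have := hp.1.two_le
    match k, hk with
    | 0, hk => exact absurd (isCyclic_of_card_dvd_prime (p := p) (by rw [hk]; simp)) h.nc
    | 1, hk => exact absurd (isCyclic_of_card_dvd_prime (p := p) (by rw [hk]; simp)) h.nc
    | k + 2, hk =>
      rw [hk]
      calc 3 < 2 ^ 2 := by norm_num
        _ ≤ p ^ 2 := Nat.pow_le_pow_left this 2
        _ ≤ _ := Nat.pow_le_pow_right (by omega) (by omega)
  obtain ⟨D⟩ := af.nonempty_data hM (by omega)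
  obtain ⟨ψ, hψ, -⟩ := af.exists_ne (by omega) 1
  have hY : (2 : ℤ) ≤ D.Y.card := by exact_mod_cast D.two_le_card_Y hψ
  have hc : (D.Y.card * D.d - D.δ : ℂ) ≠ 0 := fun e => by
    have e' : D.Y.card * D.d - D.δ = 0 := by exact_mod_cast e
    rcases D.sign with e | e <;> rw [e] at e' <;>
      rcases lt_trichotomy D.d 0 with h | h | h <;> nlinarith
  have hX : ∑ χ ∈ D.X, D.a χ ^ 2 ≤ 2 := by
    have h4 := D.norm_eq af hM hψ
    have h5 : (Nat.card (autz (P : Subgroup G)) : ℤ) ≤ 2 := by exact_mod_cast h2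
    have h6 : 1 ≤ (D.d - D.δ) ^ 2 + (D.Y.card - 1) * D.d ^ 2 := by
      by_cases h6 : D.d = 0
      · rcases D.sign with e | e <;> simp [h6, e]
      · have := sq_pos_of_ne_zero h6
        nlinarith [sq_nonneg (D.d - D.δ)]
    omega
  have h4 := D.card_X_le af hM hψ
  have h5 := Finset.card_erase_of_mem D.one_mem_X
  have hs : ∀ {β : Type} [AddCommMonoid β] (f : IrrCharacter G → β), ∑ χ ∈ D.X, f χ =
      f (irrOne G) + ∑ χ ∈ D.X.erase (irrOne G), f χ := fun f =>
    (Finset.add_sum_erase _ _ D.one_mem_X).symm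
  have hr := fun η (hη : η ∈ D.Y) g (hg : ¬ p ∣ orderOf g) => D.rel af hM hη hg
  simp only [hs, D.a_one af hM hψ, irrOne_apply] at hr hX
  rcases Nat.le_one_iff_eq_zero_or_eq_one.1 (show (D.X.erase (irrOne G)).card ≤ 1 by omega)
    with e | e
  · rw [Finset.card_eq_zero] at e
    refine absurd (Subtype.ext ((D.ζ ψ).2.charKer_eq_top_iff.1 (hR _ fun g hg => ?_)))
      (D.ne_one ψ hψ)
    rw [(D.ζ ψ).2.isCharacter.mem_charKer]
    have h6 := hr _ (D.ζ_mem_Y hψ) g hg
    have h7 := hr _ (D.ζ_mem_Y hψ) 1 (by rw [orderOf_one, Nat.dvd_one]; exact hp.1.ne_one)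
    rw [e, Finset.sum_empty] at h6 h7
    exact mul_left_cancel₀ hc (by linear_combination h6 - h7)
  obtain ⟨χ, e⟩ := Finset.card_eq_one.1 e
  obtain ⟨h6, h7⟩ := Finset.mem_erase.1 (e ▸ Finset.mem_singleton_self χ)
  simp only [e, Finset.sum_singleton] at hr hX
  have h8 : (D.a χ : ℂ) = 1 ∨ (D.a χ : ℂ) = -1 := by
    have := D.a_ne_zero af hM hψ h7
    have : D.a χ = 1 ∨ D.a χ = -1 := by
      rcases lt_trichotomy (D.a χ) 0 with h | h | h
      exacts [Or.inr (by nlinarith), absurd h this, Or.inl (by nlinarith)]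
    exact_mod_cast this
  have h9 : (D.a χ : ℂ) * D.a χ = 1 := by rcases h8 with e | e <;> simp [e]
  refine ⟨χ, D.a χ, h8, h6, (D.mem_X.1 h7).1, fun g hg => by rw [D.apply_X' af hM h7 hg, h9],
    fun η hη => ?_⟩
  rw [D.principal_eq] at hη
  rcases hη with hη | hη
  · by_cases h1 : η = irrOne G
    · exact ⟨1, 0, fun g _ => by simp [h1]⟩
    · obtain rfl : η = χ := Finset.mem_singleton.1 (e ▸ Finset.mem_erase.2 ⟨h1, hη⟩)
      exact ⟨0, D.a η, fun g _ => by rw [← mul_assoc, h9]; ring⟩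
  · refine ⟨-(D.Y.card * D.d - D.δ : ℂ)⁻¹, -(D.Y.card * D.d - D.δ : ℂ)⁻¹, fun g hg => ?_⟩
    have := hr η hη g hg
    field_simp
    linear_combination this

theorem psolv_core [Finite G] (hO : pPrimeCore p G = ⊥)
    (hR : ∀ K : Subgroup G, (∀ g, ¬ p ∣ orderOf g → g ∈ K) → K = ⊤) : IsPSolvable p G := by
  classical
  by_cases h0 : normalizer ((P : Subgroup G) : Set G) ≤ centralizer ((P : Subgroup G) : Set G)
  · exact H9.isPSolvable_of_hasNormalPComplement
      (H3.hasNormalPComplement_of_normalizer_le_centralizer P h0)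
  have hC : ∀ n : G, (∀ x ∈ (P : Subgroup G), n * x * n⁻¹ = x) →
      n ∈ centralizer ((P : Subgroup G) : Set G) := fun n e x hx =>
    (mul_inv_eq_iff_eq_mul.1 (e x hx)).symm
  obtain ⟨t, ht, ht'⟩ := SetLike.not_le_iff_exists.1 h0
  have hi := (h.inv t ht).resolve_left (mt (hC t) ht')
  obtain ⟨x, hx, hx1⟩ : ∃ x ∈ (P : Subgroup G), x ≠ 1 := by
    by_contra h1
    push Not at h1
    exact ht' fun x hx => by rw [h1 x hx]; simp
  have h2 : 2 ∣ orderOf t := by
    by_contra h1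
    obtain ⟨k, hk⟩ : Odd (orderOf t) := Nat.odd_iff.2 (by omega)
    have : ∀ k : ℕ, t ^ (2 * k + 1) * x * (t ^ (2 * k + 1))⁻¹ = x⁻¹ := fun k => by
      induction k with
      | zero => simpa using hi x hx
      | succ k ih =>
        rw [show t ^ (2 * (k + 1) + 1) = t * (t * t ^ (2 * k + 1)) by group]
        calc _ = t * (t * (t ^ (2 * k + 1) * x * (t ^ (2 * k + 1))⁻¹) * t⁻¹) * t⁻¹ := by group
          _ = _ := by rw [ih, hi _ (inv_mem hx), inv_inv, hi x hx]
    have := this k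
    rw [← hk, pow_orderOf_eq_one] at this
    exact hx1 (eq_one_of_inv hp2 P.2 hx (by simpa using this))
  obtain ⟨M, hM⟩ := exists_isPModular hp.1
  haveI := hM.2.1
  haveI := Fintype.ofFinite G
  obtain ⟨χ, a, D⟩ := h.dat hp2 hM hR
  obtain ⟨Γ, _, _, π, z, h3, h4, h5, h6, h7⟩ := h.exists_cover
  haveI := Fintype.ofFinite Γ
  have h8 : π.ker = zpowers z := Subgroup.ext h4
  have cov : Cov p π := ⟨h3, h8 ▸ isPGroup_zpowers hp.1 ⟨1, by rw [h5, pow_one]⟩,
    h8 ▸ zpowers_le.2 h6⟩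
  obtain ⟨u, hu⟩ := exists_prime_orderOf_dvd_card' (G := Γ) 2
    ((h2.trans (orderOf_dvd_natCard t)).trans (card_dvd_of_surjective π h3))
  haveI := χ.2.isCharacter.charKer_normal
  have ha : a * (χ : G → ℂ) 1 = 1 := by
    by_contra ha
    have h9 := (cov.main hM hp2 D (h8 ▸ mem_zpowers z) (fun e => hp.1.ne_one (by
      rw [← h5, e, orderOf_one])) h7 (hu ▸ pow_orderOf_eq_one u)).resolve_right ha
    rw [← χ.2.isCharacter.mem_charKer] at h9
    have h10 : charKer (χ : G → ℂ) ≤ ⊥ := hO ▸ H1.le_pPrimeCore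
      ((hp.1.coprime_iff_not_dvd.2 fun hd => by
        obtain ⟨g, hg⟩ := exists_prime_orderOf_dvd_card' p hd
        exact ha (apply_of_mem_charKer g.2 ▸ D.sing g (by rw [orderOf_coe, hg]))).symm)
    have h11 := orderOf_dvd_of_mem_zpowers ((h4 u).1 (h10 h9))
    rw [hu, h5] at h11
    exact hp2 ((Nat.prime_dvd_prime_iff_eq Nat.prime_two hp.1).1 h11).symm
  have ha0 : a ≠ 0 := left_ne_zero_of_mul_eq_one ha
  have hK : ∀ g, p ∣ orderOf g → g ∈ charKer (χ : G → ℂ) := fun g hg =>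
    χ.2.isCharacter.mem_charKer.2 (mul_left_cancel₀ ha0 ((D.sing g hg).trans ha.symm))
  have hp1 : ∀ y ∈ (P : Subgroup G), ∀ c : G, Commute y c → y ≠ 1 → ¬ p ∣ orderOf c →
      y * c ∈ charKer (χ : G → ℂ) := fun y hy c hc h1 h9 => hK _ (not_not.1 (mt
    (IsPPart.eq_one_iff hp.1 (isPPart_mul hc (exists_orderOf_eq_of_mem hp.1 P.2 hy) h9)).2 h1))
  have hP : (P : Subgroup G) ≤ charKer (χ : G → ℂ) := fun y hy => by
    by_cases h1 : y = 1
    · exact h1 ▸ one_mem _
    · simpa using hp1 y hy 1 (Commute.one_right y) h1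
        (by rw [orderOf_one, Nat.dvd_one]; exact hp.1.ne_one)
  have hCK : centralizer ((P : Subgroup G) : Set G) ≤ charKer (χ : G → ℂ) := fun c hc => by
    by_cases h1 : p ∣ orderOf c
    · exact hK c h1
    · exact (mul_mem_cancel_left (hP hx)).1 (hp1 x hx c (hc x hx) hx1 h1)
  have hlin : (χ : G → ℂ) 1 = 1 := by
    obtain ⟨n, -, hn⟩ := χ.2.exists_degree
    rcases D.sq with rfl | rfl
    · rwa [one_mul] at ha
    · rw [hn] at ha
      exact absurd (show ((n + 1 : ℕ) : ℂ) = 0 by push_cast; linear_combination -ha)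
        (Nat.cast_ne_zero.2 n.succ_ne_zero)
  refine H9.isPSolvable_of_normal_of_quotient (charKer (χ : G → ℂ))
    (H9.isPSolvable_of_hasNormalPComplement (H3.hasNormalPComplement_of_normalizer_le_centralizer
      (P.subtype hP) fun n hn y hy => Subtype.ext ?_)) (H9.isPSolvable_of_isSolvable ?_)
  · have hn' : (n : G) ∈ normalizer ((P : Subgroup G) : Set G) := fun w => ⟨fun hw =>
      (hn ⟨w, hP hw⟩).1 hw, fun hw => (hn ⟨w, by
        simpa [mul_assoc] using mul_mem (mul_mem (inv_mem n.2) (hP hw)) n.2⟩).2 hw⟩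
    refine hC n ((h.inv n hn').resolve_right fun e => D.ne (Subtype.ext
      (χ.2.charKer_eq_top_iff.1 ?_))) y hy
    rw [← P.normalizer_sup_eq_top' hP, eq_comm, sup_eq_right]
    intro m hm
    rcases h.inv m hm with e' | e'
    · exact hCK (hC m e')
    · refine (mul_mem_cancel_left n.2).1 (hCK (hC _ fun w hw => ?_))
      calc _ = n * (m * w * m⁻¹) * (n : G)⁻¹ := by group
        _ = w := by rw [e' w hw, e _ (inv_mem hw), inv_inv]
  · exact isSolvable_of_comm fun a b => (Normal.quotient_commutative_iff_commutator_le.2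
      (χ.2.commutator_le_charKer_iff.2 hlin)).1.1 a b

theorem psolv [Finite G]
    (hR : ∀ K : Subgroup G, (∀ g, ¬ p ∣ orderOf g → g ∈ K) → K = ⊤) : IsPSolvable p G := by
  have hc := H1.coprime_card_pPrimeCore p G
  have hs := QuotientGroup.mk'_surjective (pPrimeCore p G)
  refine H9.isPSolvable_of_normal_of_quotient (pPrimeCore p G) (H9.isPSolvable_of_coprime hc)
    (psolv_core (P := P.mapSurjective hs) ⟨?_, fun hcy => h.nc ?_, fun n hn => ?_⟩ hp2
      (H1.pPrimeCore_quotient_pPrimeCore p) fun K hK => ?_)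
  · rintro _ ⟨a, ha, rfl⟩ _ ⟨b, hb, rfl⟩
    rw [← map_mul, h.comm a ha b hb, map_mul]
  · haveI : IsCyclic ((P : Subgroup G).map (QuotientGroup.mk' (pPrimeCore p G))) := hcy
    refine isCyclic_of_injective ((QuotientGroup.mk' (pPrimeCore p G)).subgroupMap (P : Subgroup G))
      ((injective_iff_map_eq_one _).2 fun a ha => ?_)
    have h1 : (a : G) ∈ pPrimeCore p G := (QuotientGroup.eq_one_iff _).1 (congrArg Subtype.val ha)
    obtain ⟨k, hk⟩ := exists_orderOf_eq_of_mem hp.1 P.2 a.2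
    have h2 := (pPrimeCore p G).orderOf_dvd_natCard h1
    rw [hk] at h2
    rw [← orderOf_eq_one_iff, ← orderOf_coe, hk]
    exact Nat.Coprime.eq_one_of_dvd (hc.symm.pow_left k) h2
  · rw [Sylow.coe_mapSurjective, H9.normalizer_map_mk'_of_coprime P.2 hc] at hn
    obtain ⟨n, hn, rfl⟩ := hn
    refine (h.inv n hn).imp (fun e => ?_) fun e => ?_ <;> rintro _ ⟨x, hx, rfl⟩ <;>
      simp only [← map_inv, ← map_mul, e x hx]
  · rw [← map_comap_eq_self_of_surjective hs K, hR (K.comap _) fun g hg => hK _ fun h1 =>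
      hg (h1.trans (orderOf_map_dvd _ g)), map_top_of_surjective _ hs]

end St

theorem smith_tyrer [Finite G] (hp2 : p ≠ 2) (P : Sylow p G)
    (hab : IsMulCommutative (P : Subgroup G)) (hnc : ¬ IsCyclic (P : Subgroup G))
    (hidx : ((centralizer ((P : Subgroup G) : Set G)).subgroupOf
      (normalizer ((P : Subgroup G) : Set G))).index = 2) (hR : pResidual p G = ⊤) :
    PLengthLE p 1 G := by
  have hc : ∀ a ∈ (P : Subgroup G), ∀ b ∈ (P : Subgroup G), a * b = b * a := fun a ha b hb =>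
    congrArg Subtype.val (hab.1.1 ⟨a, ha⟩ ⟨b, hb⟩)
  have hR' : ∀ K : Subgroup G, (∀ g, ¬ p ∣ orderOf g → g ∈ K) → K = ⊤ := fun K hK =>
    top_le_iff.1 (hR ▸ (closure_le _).2 fun g hg =>
      hK g (hp.1.coprime_iff_not_dvd.1 (Nat.Coprime.symm hg)))
  have hz : ∀ y ∈ (P : Subgroup G), (∀ n ∈ normalizer ((P : Subgroup G) : Set G), Commute n y) →
      y = 1 := fun y hy hn => by
    letI : CommGroup (P : Subgroup G) := { (inferInstance : Group _) with mul_comm := hab.1.1 }
    have h1 := (MonoidHom.id (P : Subgroup G)).transfer_eq_pow y fun k g hg => by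
      obtain ⟨n, h1, e⟩ := P.conj_eq_normalizer_conj_of_mem (y ^ k) g (pow_mem hy k) hg
      rw [e, mul_assoc, ← ((hn n h1).pow_right k).eq, inv_mul_cancel_left]
    have h2 : y ∈ (MonoidHom.id (P : Subgroup G)).transfer.ker := by
      rw [hR' (MonoidHom.id (P : Subgroup G)).transfer.ker fun g hg => ?_]
      · trivial
      obtain ⟨k, hk⟩ := IsPGroup.iff_orderOf.1 P.2 ((MonoidHom.id (P : Subgroup G)).transfer g)
      have h2 := orderOf_map_dvd (MonoidHom.id (P : Subgroup G)).transfer g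
      rw [hk] at h2
      rw [MonoidHom.mem_ker, ← orderOf_eq_one_iff, hk]
      exact Nat.Coprime.eq_one_of_dvd ((hp.1.coprime_iff_not_dvd.2 hg).pow_left k) h2
    have h3 := orderOf_dvd_of_pow_eq_one (congrArg Subtype.val (h1.symm.trans h2))
    obtain ⟨k, hk⟩ := exists_orderOf_eq_of_mem hp.1 P.2 hy
    rw [hk] at h3
    rw [← orderOf_eq_one_iff, hk]
    exact Nat.Coprime.eq_one_of_dvd ((hp.1.coprime_iff_not_dvd.2 P.not_dvd_index).pow_left k) h3
  refine H9.pLengthLE_of_lowerCentralSeries (St.psolv (P := P) ⟨hc, hnc, fun n hn => ?_⟩ hp2 hR')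
    P (eq_bot_iff.2 (commutator_le.2 fun a ha b hb =>
      commutatorElement_eq_one_iff_mul_comm.2 (hc a ha b hb)))
  by_cases h0 : n ∈ centralizer ((P : Subgroup G) : Set G)
  · exact Or.inl fun x hx => by rw [← h0 x hx, mul_inv_cancel_right]
  refine Or.inr fun x hx => eq_inv_of_mul_eq_one_right (hz _ (mul_mem hx ((hn x).1 hx))
    fun m hm => ?_)
  have h1 : Commute n (x * (n * x * n⁻¹)) := by
    have h1 : x * (n * n) = n * n * x := mul_self_mem_of_index_two hidx ⟨n, hn⟩ x hx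
    calc n * (x * (n * x * n⁻¹)) = n * n * x * n⁻¹ * x := by
          rw [hc x hx _ ((hn x).1 hx)]; simp only [mul_assoc]
      _ = x * (n * x * n⁻¹) * n := by rw [← h1]; group
  by_cases h2 : m ∈ centralizer ((P : Subgroup G) : Set G)
  · exact (h2 _ (mul_mem hx ((hn x).1 hx))).symm
  have h3 : Commute (n * m) (x * (n * x * n⁻¹)) := ((mul_mem_iff_of_index_two hidx
    (a := ⟨n, hn⟩) (b := ⟨m, hm⟩)).2 (iff_of_false h0 h2) _ (mul_mem hx ((hn x).1 hx))).symm
  simpa using h1.inv_left.mul_left h3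

end Cfsg.Agent.H19.ST
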