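import Cfsg.Agent.H19.T3
import Cfsg.Agent.H8.Ord1

/-! The group `3³ : 2²` as a strongly 3-embedded subgroup -/

set_option autoImplicit false

namespace Cfsg.Agent.H19

open Cfsg Cfsg.Agent.H4 Cfsg.Agent.H5 Cfsg.Agent.H6 Subgroup Equiv
open scoped ComplexConjugate

theorem sum_inner_irr {G : Type*} [Group G] [Fintype G] (α : IrrCharacter G)
    (F : IrrCharacter G → ℂ) : ∑ χ : IrrCharacter G, classInner (α : G → ℂ) χ * F χ = F α := by
  classical
  simp [irr_classInner]

theorem exists_sylow_of_normalizer {G : Type*} [Group G] [Finite G] {p n : ℕ} [Fact p.Prime]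
    {T : Subgroup G} (hT : Nat.card T = p ^ n)
    (hN : ¬ p ^ (n + 1) ∣ Nat.card (normalizer (T : Set G))) : ∃ P : Sylow p G, (P : Subgroup G) = T :=
  ⟨(IsPGroup.of_card hT).toSylow fun hd => hN (Sylow.prime_pow_dvd_card_normalizer (by
    rw [← T.card_mul_index, hT, pow_succ]; exact Nat.mul_dvd_mul_left _ hd) hT), rfl⟩

abbrev W3 := Perm (Fin 3) × Perm (Fin 3) × Perm (Fin 3)

def fx3 (g : Perm (Fin 3)) : ℤ := (Finset.univ.filter fun i => g i = i).card - 1

def th3 (w : W3) : ℤ := fx3 w.1 * (fx3 w.2.1 - fx3 w.2.2)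

def sg3 : W3 →* ℤˣ := Perm.sign.coprod (Perm.sign.coprod Perm.sign)

def c3 : Perm (Fin 3) := swap 0 1 * swap 1 2

def ph3 : W3 →* Perm (Fin 9) :=
  (((Equiv.refl (Fin 3)).sumCongr finSumFinEquiv).trans finSumFinEquiv).permCongrHom.toMonoidHom.comp
    ((Perm.sumCongrHom _ _).comp ((MonoidHom.id _).prodMap (Perm.sumCongrHom _ _)))

theorem ph3_injective : Function.Injective ph3 := fun _ _ h =>
  Function.injective_id.prodMap Perm.sumCongrHom_injective
    (Perm.sumCongrHom_injective ((((Equiv.refl (Fin 3)).sumCongr finSumFinEquiv).trans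
      finSumFinEquiv).permCongrHom.injective h))

theorem isGen_fx3 : IsGeneralizedCharacter (Perm (Fin 3)) fun g => (fx3 g : ℂ) := by
  convert (isCharacter_perm (G := Perm (Fin 3)) (Fin 3)).isGen.sub isGen_one using 2 with g
  simp [fx3, Fintype.card_subtype, MulAction.mem_fixedBy]

theorem isGen_th3 : IsGeneralizedCharacter W3 fun g => (th3 g : ℂ) := by
  convert (isGen_fx3.comp (MonoidHom.fst _ (Perm (Fin 3) × Perm (Fin 3)))).mul
    ((isGen_fx3.comp ((MonoidHom.fst _ _).comp (MonoidHom.snd _ _))).sub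
      (isGen_fx3.comp ((MonoidHom.snd _ _).comp (MonoidHom.snd _ _)))) using 2 with g
  simp [th3]

set_option synthInstance.maxSize 1000 in
theorem th3_supp : ∀ w : W3, sg3 w = 1 → th3 w ≠ 0 → w ^ 3 = 1 ∧ w ≠ 1 := by decide +kernel

theorem closure_eq_ker_sg3 : Subgroup.closure ({(c3, 1, 1), (1, c3, 1), (1, 1, c3), (swap 0 1, swap 0 1, 1),
    (swap 0 1, 1, swap 0 1)} : Set W3) = sg3.ker := by
  refine le_antisymm ((Subgroup.closure_le _).mpr ?_) fun w hw => ?_
  · simp only [Set.insert_subset_iff, Set.singleton_subset_iff, SetLike.mem_coe, MonoidHom.mem_ker]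
    decide +kernel
  have h1 : ∀ g : Perm (Fin 3), ∃ i : Fin 3, g = c3 ^ i.1 ∨ g = c3 ^ i.1 * swap 0 1 := by
    decide +kernel
  have h2 : Perm.sign c3 = 1 := by decide +kernel
  obtain ⟨a, b, c⟩ := w
  obtain ⟨i, hi⟩ := h1 a
  obtain ⟨j, hj⟩ := h1 b
  obtain ⟨k, hk⟩ := h1 c
  set S : Set W3 := {(c3, 1, 1), (1, c3, 1), (1, 1, c3), (swap 0 1, swap 0 1, 1),
    (swap 0 1, 1, swap 0 1)}
  have h0 : ∀ x ∈ S, x ∈ Subgroup.closure S := fun x hx => Subgroup.subset_closure hx
  have h3 := mul_mem (mul_mem (pow_mem (h0 (c3, 1, 1) (by simp [S])) i.1)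
    (pow_mem (h0 (1, c3, 1) (by simp [S])) j.1)) (pow_mem (h0 (1, 1, c3) (by simp [S])) k.1)
  have h4 := h0 (swap 0 1, swap 0 1, 1) (by simp [S])
  have h5 := h0 (swap 0 1, 1, swap 0 1) (by simp [S])
  rcases hi with rfl | rfl <;> rcases hj with rfl | rfl <;> rcases hk with rfl | rfl <;>
    first
    | simpa using h3
    | simpa using mul_mem h3 h4
    | simpa using mul_mem h3 h5
    | simpa using mul_mem h3 (mul_mem h4 h5)
    | simp [sg3, h2] at hw

theorem eq_top_of_ker_sg3 {G : Type*} [Group G] [Finite G] {H : Subgroup G} (e : H ≃* sg3.ker)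
    {T : Subgroup G} (hT : Nat.card T = 27) (hN : normalizer (T : Set G) = H)
    (hC : ∀ t ∈ T, t ≠ 1 → centralizer ({t} : Set G) ≤ H) : H = ⊤ := by
  classical
  haveI := Fintype.ofFinite G
  have hs : ∀ F : W3 → ℤ, ∑ t : H, (F (e t) : ℂ) = (∑ w, if sg3 w = 1 then F w else 0 : ℤ) := by
    intro F
    rw [← Finset.sum_filter, Finset.sum_subtype (p := (· ∈ sg3.ker)) _ (by simp), Int.cast_sum]
    exact e.toEquiv.sum_comp fun k => (F k : ℂ)
  have hH : Nat.card H = 108 := by
    have := hs fun _ => 1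
    rw [show (∑ w : W3, if sg3 w = 1 then 1 else 0 : ℤ) = 108 by decide +kernel] at this
    simp only [Int.cast_one, Finset.sum_const, Finset.card_univ, nsmul_eq_mul, mul_one] at this
    rw [Nat.card_eq_fintype_card]
    exact_mod_cast this
  obtain ⟨P, rfl⟩ := exists_sylow_of_normalizer (p := 3) (n := 3) hT (by rw [hN, hH]; decide)
  have hTH : (P : Subgroup G) ≤ H := hN ▸ le_normalizer
  have h : SE P H := ⟨fun a ha b hb => by
    have h1 : ∀ x (hx : x ∈ (P : Subgroup G)), (e ⟨x, hTH hx⟩ : W3) ^ 27 = 1 := fun x hx => by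
      have := congrArg Subtype.val (pow_card_eq_one' (x := (⟨x, hx⟩ : (P : Subgroup G))))
      rw [hT] at this
      rw [← coe_pow, ← map_pow, show (⟨x, hTH hx⟩ : H) ^ 27 = 1 from Subtype.ext this]
      simp
    have h2 : ∀ g k : Perm (Fin 3), g ^ 27 = 1 → k ^ 27 = 1 → g * k = k * g := by decide +kernel
    have h3 := h1 a ha
    have h4 := h1 b hb
    simp only [Prod.ext_iff, Prod.pow_fst, Prod.pow_snd, Prod.fst_one, Prod.snd_one] at h3 h4
    refine congrArg Subtype.val (e.injective (a₁ := ⟨a, hTH ha⟩ * ⟨b, hTH hb⟩)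
      (a₂ := ⟨b, hTH hb⟩ * ⟨a, hTH ha⟩) (Subtype.ext ?_))
    rw [map_mul, map_mul]
    exact Prod.ext (h2 _ _ h3.1 h4.1) (Prod.ext (h2 _ _ h3.2.1 h4.2.1) (h2 _ _ h3.2.2 h4.2.2)),
    hN, hC⟩
  have hθ : IsGeneralizedCharacter H fun t => (th3 (e t) : ℂ) :=
    isGen_th3.comp (sg3.ker.subtype.comp e.toMonoidHom)
  have hv : ∀ t : H, (th3 (e t) : ℂ) ≠ 0 → orderOf (t : G) = 3 := fun t ht => by
    obtain ⟨h2, h3⟩ := th3_supp _ (e t).2 (by exact_mod_cast ht)
    rw [orderOf_coe, ← e.orderOf_eq, ← orderOf_coe]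
    exact orderOf_eq_prime h2 h3
  have hi := fun t ht => h.ind_apply hθ.isClassFunction hv t ht
  obtain ⟨α, β, hα, hβ, hne, hαβ⟩ := exists_sub_of_norm_two (isGeneralizedCharacter_indFun H hθ) (by
    rw [h.inner_ind hθ.isClassFunction hv _ hv, classInner_def, hH]
    simp only [map_intCast, ← Int.cast_mul]
    rw [hs fun w => th3 w * th3 w,
      show (∑ w : W3, if sg3 w = 1 then th3 w * th3 w else 0 : ℤ) = 216 by decide +kernel]
    norm_num) (by
      rw [indFun_one, map_one, OneMemClass.coe_one, show th3 1 = 0 by decide +kernel]; simp)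
  have h1 : α 1 = β 1 := by
    have := indFun_one H fun t => (th3 (e t) : ℂ)
    rw [hαβ, map_one, OneMemClass.coe_one, show th3 1 = 0 by decide +kernel] at this
    simpa [sub_eq_zero] using this
  have key : ∀ v w : sg3.ker, th3 v ≠ 0 → th3 w ≠ 0 → th3 v ≠ th3 w →
      (α (e.symm v) - β (e.symm v) = th3 v ∧ α (e.symm w) - β (e.symm w) = th3 w) ∧
      Nat.card G * (α (e.symm v) * α (e.symm w) - β (e.symm v) * β (e.symm w)) = α 1 *
      (∑ t, if sg3 t = 1 then th3 (t * v * t⁻¹ * w) else 0 : ℤ) := fun v w h2 h3 h4 => by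
    have h5 := hv (e.symm v) (by simpa using h2)
    have h6 := hv (e.symm w) (by simpa using h3)
    have h7 := hi _ (h.mem_of_order h5 (e.symm v).2)
    have h8 := hi _ (h.mem_of_order h6 (e.symm w).2)
    have h9 := h.sum_eq (indFun_isClassFunction H _) (fun x => orderOf_eq_of_ind_ne_zero hv) h5 h6
      fun hc => h4 (by
        have := (indFun_isClassFunction H fun t => (th3 (e t) : ℂ)).of_isConj hc
        rw [h7, h8] at this
        simpa using this)
    rw [Finset.sum_congr rfl fun t _ => hi _ (mul_mem (h.conj_mem t.2 (h.mem_of_order h5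
      (e.symm v).2)) (h.mem_of_order h6 (e.symm w).2))] at h9
    simp only [map_mul, map_inv, MulEquiv.apply_symm_apply, coe_mul, coe_inv] at h9
    rw [hs fun t => th3 (t * v * t⁻¹ * w)] at h9
    simp only [hαβ, classInner_sub_left, sub_mul, Finset.sum_sub_distrib] at h9
    rw [sum_inner_irr ⟨α, hα⟩, sum_inner_irr ⟨β, hβ⟩] at h9
    rw [hαβ, MulEquiv.apply_symm_apply] at h7 h8
    refine ⟨⟨h7, h8⟩, ?_⟩
    rw [← h9]
    have := hα.apply_one_ne_zero
    simp only [← h1]
    field_simp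
  obtain ⟨⟨a1, a2⟩, k1⟩ := key ⟨(c3, c3, 1), by decide +kernel⟩ ⟨(1, c3, 1), by decide +kernel⟩
    (by decide +kernel) (by decide +kernel) (by decide +kernel)
  obtain ⟨⟨-, a3⟩, k2⟩ := key ⟨(c3, c3, 1), by decide +kernel⟩ ⟨(1, 1, c3), by decide +kernel⟩
    (by decide +kernel) (by decide +kernel) (by decide +kernel)
  obtain ⟨-, k3⟩ := key ⟨(1, c3, 1), by decide +kernel⟩ ⟨(1, 1, c3), by decide +kernel⟩
    (by decide +kernel) (by decide +kernel) (by decide +kernel)
  simp only at a1 a2 a3 k1 k2 k3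
  rw [show th3 (c3, c3, 1) = 3 by decide +kernel] at a1
  rw [show th3 (1, c3, 1) = -6 by decide +kernel] at a2
  rw [show th3 (1, 1, c3) = 6 by decide +kernel] at a3
  rw [show (∑ t, if sg3 t = 1 then th3 (t * (c3, c3, 1) * t⁻¹ * (1, c3, 1)) else 0) = 162 by
    decide +kernel] at k1
  rw [show (∑ t, if sg3 t = 1 then th3 (t * (c3, c3, 1) * t⁻¹ * (1, 1, c3)) else 0) = 0 by
    decide +kernel] at k2
  rw [show (∑ t, if sg3 t = 1 then th3 (t * (1, c3, 1) * t⁻¹ * (1, 1, c3)) else 0) = 0 by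
    decide +kernel] at k3
  have hG : Nat.card G = 108 * H.index := by rw [← H.card_mul_index, hH]
  have hm : (H.index : ℂ) ≠ 0 := index_ne_zero_C H
  rw [hG] at k1 k2 k3
  have h2 := (hα.isCharacter.add hβ.isCharacter).isIntegral (e.symm ⟨(c3, c3, 1), by decide +kernel⟩)
  rw [Pi.add_apply] at h2
  generalize α (e.symm ⟨(c3, c3, 1), _⟩) = x1 at *
  generalize β (e.symm ⟨(c3, c3, 1), _⟩) = y1 at *
  generalize α (e.symm ⟨(1, c3, 1), _⟩) = x2 at *
  generalize β (e.symm ⟨(1, c3, 1), _⟩) = y2 at *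
  generalize α (e.symm ⟨(1, 1, c3), _⟩) = x3 at *
  generalize β (e.symm ⟨(1, 1, c3), _⟩) = y3 at *
  obtain rfl : x1 = y1 + 3 := by push_cast at a1; linear_combination a1
  obtain rfl : x2 = y2 - 6 := by push_cast at a2; linear_combination a2
  obtain rfl : x3 = y3 + 6 := by push_cast at a3; linear_combination a3
  have h3 : -(y1 + 3 + y1) = (charDegree α : ℂ) / (4 * H.index : ℕ) := by
    rw [hα.isCharacter.charDegree_cast]
    push_cast at k1 k2 k3 ⊢
    field_simp
    linear_combination (1 / 162) * k1 - (1 / 162) * k2 - (1 / 324) * k3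
  have h4 : 4 * H.index ∣ charDegree α := nat_dvd_of_isIntegral_div
    (mul_ne_zero (by norm_num) H.index_ne_zero_of_finite) (h3 ▸ h2.neg)
  have h5 := Nat.le_of_dvd hα.charDegree_pos h4
  have h6 := Finset.sum_le_sum_of_subset (f := fun χ : IrrCharacter G => charDegree (χ : G → ℂ) ^ 2)
    (Finset.subset_univ {⟨α, hα⟩, ⟨β, hβ⟩})
  rw [Finset.sum_pair (by simpa using hne), H8.sum_charDegree_sq] at h6
  have h7 := h.index_mod
  rw [← index_eq_one]
  have h8 : charDegree β = charDegree α := charDegree_eq_of (by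
    rw [← h1, hα.isCharacter.charDegree_cast])
  have h9 : H.index ≤ 3 := by
    have := Nat.pos_of_ne_zero H.index_ne_zero_of_finite
    by_contra hc
    nlinarith [Nat.mul_le_mul h5 h5]
  omega

end Cfsg.Agent.H19
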